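import Cfsg.Agent.Lib.WB.B0

/-!
# S3694: the (anti-)automorphisms `Tau`
-/

set_option linter.unusedSectionVars false

namespace Cfsg.Lib.WB

open Module Cfsg.Lib.Unitary Cfsg.Lib.Transfer
open scoped commutatorElement

variable {F V : Type*} [Field F] [AddCommGroup V] [Module F V] [Finite F] [Finite V]
  {U : Subgroup (End F V)ˣ}

variable {τ : End F V ≃+ End F V} {T : Set (End F V ≃+ End F V)}

theorem Tau.symm (h : Tau U τ) : Tau U τ.symm := by
  obtain ⟨φ, hφ⟩ := h.smul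
  refine ⟨h.mul.imp (fun k X Y => τ.injective ?_) (fun k X Y => τ.injective ?_), τ.symm_apply_eq.2 h.one.symm,
    ⟨φ.symm, fun c X => τ.injective ?_⟩, fun X => ?_, fun X => ?_⟩
  · simp [k]
  · simp [k]
  · simp [hφ]
  · rw [← h.un, τ.apply_symm_apply]
  · rw [← h.rank, τ.apply_symm_apply]

theorem Tau.trans {τ' : End F V ≃+ End F V} (h : Tau U τ) (h' : Tau U τ') : Tau U (τ.trans τ') := by
  obtain ⟨φ, hφ⟩ := h.smul
  obtain ⟨ψ, hψ⟩ := h'.smul
  refine ⟨?_, by simp [h.one, h'.one], ⟨φ.trans ψ, fun c X => by simp [hφ, hψ]⟩, fun X => (h'.un _).trans (h.un _),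
    fun X => (h'.rank _).trans (h.rank _)⟩
  rcases h.mul with k | k <;> rcases h'.mul with k' | k'
  exacts [.inl fun X Y => by simp [k, k'], .inr fun X Y => by simp [k, k'], .inr fun X Y => by simp [k, k'],
    .inl fun X Y => by simp [k, k']]

/-- conjugation by an element of `U` -/
theorem exists_tau_conj {u : (End F V)ˣ} (hu : u ∈ U) : ∃ τ : End F V ≃+ End F V, Tau U τ ∧
    ∀ X, τ X = (u : End F V) * X * ((u⁻¹ : (End F V)ˣ) : End F V) := by
  refine ⟨⟨⟨fun X => (u : End F V) * X * ((u⁻¹ : (End F V)ˣ) : End F V),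
    fun X => ((u⁻¹ : (End F V)ˣ) : End F V) * X * (u : End F V), fun X => by simp [mul_assoc],
    fun X => by simp [mul_assoc]⟩, fun X Y => by simp [mul_add, add_mul]⟩,
    ⟨.inl fun X Y => by simp [mul_assoc], by simp, ⟨.refl F, fun c X => by simp⟩, fun X => ⟨fun k => ?_, Un.conj hu⟩,
      rk_conj u⟩, fun _ => rfl⟩
  simpa [mul_assoc] using Un.conj (U.inv_mem hu) k

theorem Tau.map_mul_of_commute (h : Tau U τ) {X Y : End F V} (hc : Commute X Y) :
    τ (X * Y) = τ X * τ Y := by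
  exact h.mul.elim (fun k => k X Y) fun k => hc.eq ▸ k Y X

theorem Tau.commute_iff (h : Tau U τ) {X Y : End F V} : Commute (τ X) (τ Y) ↔ Commute X Y := by
  rw [Commute, Commute, SemiconjBy, SemiconjBy]
  rcases h.mul with k | k <;> rw [← k, ← k, τ.injective.eq_iff]
  exact eq_comm

theorem Tau.map_pow (h : Tau U τ) (X : End F V) (j : ℕ) : τ (X ^ j) = τ X ^ j := by
  induction j with
  | zero => rw [pow_zero, pow_zero, h.one]
  | succ j ih => rw [pow_succ, pow_succ, h.map_mul_of_commute (Commute.pow_self X j), ih]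

theorem Tau.idem (h : Tau U τ) {e : End F V} (he : IsIdempotentElem e) : IsIdempotentElem (τ e) := by
  rw [IsIdempotentElem, ← h.map_mul_of_commute (.refl e), he.eq]

theorem Tau.sc (h : Tau U τ) {X : End F V} : Sc X → Sc (τ X) := by
  obtain ⟨φ, hφ⟩ := h.smul
  rintro ⟨c, rfl⟩
  exact ⟨φ c, by rw [hφ, h.one]⟩

theorem Tau.sc_iff (h : Tau U τ) {X : End F V} : Sc (τ X) ↔ Sc X := by
  exact ⟨fun k => τ.symm_apply_apply X ▸ h.symm.sc k, h.sc⟩

theorem Tau.scOn (h : Tau U τ) {e X : End F V} (hc : Commute e X) (hs : ScOn e X) : ScOn (τ e) (τ X) := by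
  obtain ⟨φ, hφ⟩ := h.smul
  obtain ⟨c, e⟩ := hs
  exact ⟨φ c, by rw [← h.map_mul_of_commute hc, e, hφ]⟩

theorem Tau.le (h : Tau U τ) {e f : End F V} (hl : Le f e) : Le (τ f) (τ e) := by
  have c : Commute f e := hl.1.trans hl.2.symm
  exact ⟨by rw [← h.map_mul_of_commute c, hl.1], by rw [← h.map_mul_of_commute c.symm, hl.2]⟩

/-- `X = τ X'` with `X'` in `U` commuting with `e`; apply `τ` to `e X' + (1 - e)`. -/
theorem Tau.ad (h : Tau U τ) {e : End F V} (he : Ad U e) : Ad U (τ e) := by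
  refine ⟨h.idem he.1, fun X hX hc => ?_⟩
  obtain ⟨X, rfl⟩ := τ.surjective X
  have c := h.commute_iff.1 hc
  rw [← h.map_mul_of_commute c, ← h.one, ← map_sub, ← map_add, h.un]
  exact he.2 X ((h.un X).1 hX) c

/-- the action on units -/
def Tau.u (h : Tau U τ) (a : (End F V)ˣ) : (End F V)ˣ where
  val := τ a
  inv := τ (a⁻¹ : (End F V)ˣ)
  val_inv := by
    rw [← h.map_mul_of_commute (by rw [Commute, SemiconjBy, a.mul_inv, a.inv_mul]), a.mul_inv, h.one]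
  inv_val := by
    rw [← h.map_mul_of_commute (by rw [Commute, SemiconjBy, a.mul_inv, a.inv_mul]), a.inv_mul, h.one]

@[simp] theorem Tau.coe_u (h : Tau U τ) (a : (End F V)ˣ) : (h.u a : End F V) = τ a := rfl

theorem Tau.u_inv (h : Tau U τ) (a : (End F V)ˣ) : h.u a⁻¹ = (h.u a)⁻¹ := Units.ext rfl

theorem Tau.u_mul (h : Tau U τ) :
    (∀ a b, h.u (a * b) = h.u a * h.u b) ∨ (∀ a b, h.u (a * b) = h.u b * h.u a) :=
  h.mul.imp (fun k a b => Units.ext (k a b)) (fun k a b => Units.ext (k a b))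

theorem Tau.u_pow (h : Tau U τ) (a : (End F V)ˣ) (j : ℕ) : h.u (a ^ j) = h.u a ^ j := by
  exact Units.ext (by simp [h.map_pow])

theorem Tau.u_symm (h : Tau U τ) (a : (End F V)ˣ) : h.u (h.symm.u a) = a := by
  exact Units.ext (by simp)

theorem Tau.u_mem (h : Tau U τ) {a : (End F V)ˣ} : h.u a ∈ U ↔ a ∈ U := by
  exact ⟨fun k => ((h.un _).1 (Un.coe k)).mem, fun k => Un.mem ((h.un _).2 (Un.coe k))⟩

theorem Tau.u_mem_ZZ (h : Tau U τ) {a : (End F V)ˣ} : h.u a ∈ ZZ U ↔ a ∈ ZZ U := by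
  exact and_congr h.u_mem h.sc_iff

theorem Tau.u_commute (h : Tau U τ) {a b : (End F V)ˣ} : Commute (h.u a) (h.u b) ↔ Commute a b := by
  rw [← Commute.units_val_iff, ← Commute.units_val_iff]
  exact h.commute_iff

/-- multiplicative: `u ⁅a, b⁆ = ⁅u a, u b⁆`; anti: `u ⁅a,b⁆ = ⁅(u b)⁻¹, (u a)⁻¹⁆`, a conjugate of `⁅u a, u b⁆⁻¹`
(use `conj_mem_ZZ`). -/
theorem Tau.u_commutator (h : Tau U τ) {a b : (End F V)ˣ} : ⁅h.u a, h.u b⁆ ∈ ZZ U ↔ ⁅a, b⁆ ∈ ZZ U := by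
  rw [← h.u_mem_ZZ (a := ⁅a, b⁆), commutatorElement_def a]
  rcases h.u_mul with k | k <;> rw [k, k, k, h.u_inv, h.u_inv]
  · rfl
  · rw [← inv_mem_iff, ← conj_mem_ZZ (k := (h.u a * h.u b)⁻¹), commutatorElement_def]
    exact iff_of_eq (congrArg _ (by group))

theorem TI.u_mem {A : Subgroup (End F V)ˣ} (hA : TI T A) (hτ : τ ∈ T) (h : Tau U τ) {a : (End F V)ˣ}
    (ha : a ∈ A) : h.u a ∈ A := by
  obtain ⟨a', ha', e⟩ := hA τ hτ a ha
  rwa [show h.u a = a' from Units.ext e]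

theorem TI.of_u {A : Subgroup (End F V)ˣ} (hT : ∀ τ ∈ T, Tau U τ)
    (k : ∀ τ (hτ : τ ∈ T), ∀ a ∈ A, (hT τ hτ).u a ∈ A) : TI T A :=
  fun τ hτ a ha => ⟨_, k τ hτ a ha, rfl⟩

theorem TI.inf {A C : Subgroup (End F V)ˣ} (hA : TI T A) (hC : TI T C) : TI T (A ⊓ C) := by
  intro τ hτ a ha
  obtain ⟨b, hb, e⟩ := hA τ hτ a ha.1
  obtain ⟨c, hc, e'⟩ := hC τ hτ a ha.2
  obtain rfl : b = c := Units.ext (e.symm.trans e')
  exact ⟨b, ⟨hb, hc⟩, e⟩

theorem TI.zz (hT : ∀ τ ∈ T, Tau U τ) : TI T (ZZ U) := by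
  exact .of_u hT fun τ hτ a ha => (hT τ hτ).u_mem_ZZ.2 ha

theorem TI.un (hT : ∀ τ ∈ T, Tau U τ) {A : Subalgebra F (End F V)} (hA : TS T A) : TI T (un A) := by
  exact .of_u hT fun τ hτ a ha => hA τ hτ _ ha

theorem TI.sp (hT : ∀ τ ∈ T, Tau U τ) {A : Subgroup (End F V)ˣ} (hA : TI T A) : TS T (sp A) := by
  intro τ hτ X hX
  obtain ⟨φ, hφ⟩ := (hT τ hτ).smul
  refine sp_induction (P := fun X => τ X ∈ WB.sp A) (fun a ha => mem_sp (hA.u_mem hτ (hT τ hτ) ha)) ?_ (fun X Y a b => ?_)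
    (fun c X a => ?_) hX
  · rw [map_zero]; exact zero_mem _
  · rw [map_add]; exact add_mem a b
  · rw [hφ]; exact Subalgebra.smul_mem _ a _

theorem TI.ts {A : Subgroup (End F V)ˣ} (hA : TI T A) :
    TS T ((fun u : (End F V)ˣ => (u : End F V)) '' (A : Set (End F V)ˣ)) := by
  rintro τ hτ _ ⟨a, ha, rfl⟩
  obtain ⟨b, hb, e⟩ := hA τ hτ a ha
  exact ⟨b, hb, e.symm⟩

theorem TS.adjoin (hT : ∀ τ ∈ T, Tau U τ) {A : Set (End F V)} (hA : TS T A) :
    TS T (Algebra.adjoin F A) := by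
  intro τ hτ X hX
  obtain ⟨φ, hφ⟩ := (hT τ hτ).smul
  induction hX using Algebra.adjoin_induction with
  | mem x hx => exact Algebra.subset_adjoin (hA τ hτ x hx)
  | algebraMap c =>
    rw [Algebra.algebraMap_eq_smul_one, hφ, (hT τ hτ).one]
    exact Subalgebra.smul_mem _ (one_mem _) _
  | add x y _ _ a b => rw [map_add]; exact add_mem a b
  | mul x y _ _ a b =>
    rcases (hT τ hτ).mul with k | k <;> rw [k]
    exacts [mul_mem a b, mul_mem b a]

/-- uses closure of `T` under inverses: `a = τ (τ.symm a)`. -/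
theorem TS.centralizer (hT : ∀ τ ∈ T, Tau U τ) (hs : ∀ τ ∈ T, τ.symm ∈ T) {A : Set (End F V)}
    (hA : TS T A) : TS T (Subalgebra.centralizer F A) := by
  intro τ hτ X hX a ha
  rw [← τ.apply_symm_apply a]
  exact (hT τ hτ).commute_iff.2 (hX _ (hA _ (hs τ hτ) a ha))

theorem TI.centralizer (hT : ∀ τ ∈ T, Tau U τ) (hs : ∀ τ ∈ T, τ.symm ∈ T) {A : Subgroup (End F V)ˣ}
    (hA : TI T A) : TI T (Subgroup.centralizer (A : Set (End F V)ˣ)) := by
  refine .of_u hT fun τ hτ x hx => Subgroup.mem_centralizer_iff.2 fun a ha => ?_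
  rw [← (hT τ hτ).u_symm a]
  exact (hT τ hτ).u_commute.2 (Subgroup.mem_centralizer_iff.1 hx _ (hA.u_mem (hs τ hτ) _ ha))

end Cfsg.Lib.WB
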