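import Cfsg.Agent.Lib.WB.Adm
import Cfsg.Agent.Lib.WB.Tau

/-!
# S3694: atoms of a commutative algebra
-/

set_option linter.unusedSectionVars false

namespace Cfsg.Lib.WB

open Module Cfsg.Lib.Unitary Cfsg.Lib.Transfer
open scoped commutatorElement

variable {F V : Type*} [Field F] [AddCommGroup V] [Module F V] [Finite F] [Finite V]
  {U : Subgroup (End F V)ˣ}

variable {Z : Subalgebra F (End F V)}

/-- the finite set of atoms -/
noncomputable def ats (U : Subgroup (End F V)ˣ) (Z : Subalgebra F (End F V)) : Finset (End F V) :=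
  (Set.toFinite {e | At U Z e}).toFinset

theorem mem_ats {e : End F V} : e ∈ ats U Z ↔ At U Z e := Set.Finite.mem_toFinset _

/-- the sum of the atoms of rank `m` -/
noncomputable def eta (U : Subgroup (End F V)ˣ) (Z : Subalgebra F (End F V)) (m : ℕ) : End F V :=
  ∑ e ∈ (ats U Z).filter (fun e => rk e = m), e

theorem At.conj {e : End F V} (he : At U Z e) {k : (End F V)ˣ} (hk : k ∈ U)
    (hZ : ∀ a ∈ Z, (k : End F V) * a * ((k⁻¹ : (End F V)ˣ) : End F V) ∈ Z) :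
    At U Z ((k : End F V) * e * ((k⁻¹ : (End F V)ˣ) : End F V)) := by
  refine ⟨hZ e he.1, he.2.1.conj hk, fun e0 => he.2.2.1 (by simpa using e0), fun f hf ha e1 => ?_⟩
  obtain ⟨⟨g, hg⟩, e2⟩ := Finite.surjective_of_injective (f := fun a : Z => (⟨_, hZ a.1 a.2⟩ : Z))
    (fun a b e => Subtype.ext (by simpa using e)) ⟨f, hf⟩
  obtain rfl : (k : End F V) * g * ((k⁻¹ : (End F V)ˣ) : End F V) = f := congrArg Subtype.val e2
  have := ha.conj (U.inv_mem hk)
  simp only [inv_inv, mul_assoc, Units.inv_mul_cancel_left, Units.inv_mul, mul_one] at this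
  simp only [mul_assoc, Units.inv_mul_cancel_left, Units.mul_right_inj] at e1
  rw [← mul_assoc, Units.mul_left_inj] at e1
  exact (he.2.2.2 g hg this e1).imp (fun k => by simp [k]) fun k => by rw [k]

theorem At.tau {T : Set (End F V ≃+ End F V)} (hT : ∀ τ ∈ T, Tau U τ) (hs : ∀ τ ∈ T, τ.symm ∈ T) (hZ : TS T Z)
    (hc : ∀ a ∈ Z, ∀ b ∈ Z, Commute a b) {τ : End F V ≃+ End F V} (hτ : τ ∈ T) {e : End F V} (he : At U Z e) :
    At U Z (τ e) := by
  refine ⟨hZ τ hτ e he.1, (hT τ hτ).ad he.2.1, fun e0 => he.2.2.1 (by simpa using e0), fun f hf ha e1 => ?_⟩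
  have k := hZ _ (hs τ hτ) f hf
  obtain ⟨g, rfl⟩ := τ.surjective f
  have := (hT τ hτ).symm.ad ha
  rw [τ.symm_apply_apply] at k this
  rw [← (hT τ hτ).map_mul_of_commute (hc _ k _ he.1), τ.apply_eq_iff_eq] at e1
  exact (he.2.2.2 g k this e1).imp (fun k => by simp [k]) fun k => by rw [k]

variable (h : Kd U) (hc : ∀ a ∈ Z, ∀ b ∈ Z, Commute a b)
include h hc

/-- `f e` is admissible and below `e` -/
theorem At.mul_cases {e f : End F V} (he : At U Z e) (hf : f ∈ Z) (ha : Ad U f) : f * e = 0 ∨ f * e = e := by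
  exact he.2.2.2 _ (mul_mem hf he.1) (ha.mul h he.2.1 (hc _ hf _ he.1)) (by rw [mul_assoc, he.2.1.1.eq])

theorem At.mul_eq_zero {e f : End F V} (he : At U Z e) (hf : At U Z f) (hne : e ≠ f) : e * f = 0 := by
  refine (hf.mul_cases h hc he.1 he.2.1).resolve_right fun k => ?_
  have := he.mul_cases h hc hf.1 hf.2.1
  rw [(hc _ hf.1 _ he.1).eq, k] at this
  exact this.elim hf.2.2.1 hne.symm

/-- a non-zero admissible `g ∈ Z` below `f` of least rank -/
theorem exists_at {f : End F V} (hf : f ∈ Z) (ha : Ad U f) (h0 : f ≠ 0) : ∃ e, At U Z e ∧ e * f = e := by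
  obtain ⟨g, ⟨g1, g2, g3, g4⟩, hg⟩ := exists_minimalFor_of_wellFoundedLT
    (fun g => g ∈ Z ∧ Ad U g ∧ g ≠ 0 ∧ g * f = g) rk ⟨f, hf, ha, h0, ha.1.eq⟩
  refine ⟨g, ⟨g1, g2, g3, fun x x1 x2 x4 => or_iff_not_imp_left.2 fun x3 => ?_⟩, g4⟩
  have l : Le x g := ⟨x4, by rw [(hc _ g1 _ x1).eq, x4]⟩
  exact l.eq_of_rk g2.1 x2.1 (hg ⟨x1, x2, x3, by rw [← x4, mul_assoc, g4]⟩ l.rk_le)

theorem At.mul_sum {e : End F V} (he : At U Z e) {t : Finset (End F V)} (ht : t ⊆ ats U Z) :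
    (e ∈ t → e * ∑ f ∈ t, f = e) ∧ (e ∉ t → e * ∑ f ∈ t, f = 0) := by
  rw [Finset.mul_sum]
  exact ⟨fun k => (Finset.sum_eq_single_of_mem e k fun f hf n => he.mul_eq_zero h hc (mem_ats.1 (ht hf)) n.symm).trans he.2.1.1.eq,
    fun k => Finset.sum_eq_zero fun f hf => he.mul_eq_zero h hc (mem_ats.1 (ht hf)) fun n => k (n ▸ hf)⟩

theorem ad_sum_ats {t : Finset (End F V)} (ht : t ⊆ ats U Z) : ∑ f ∈ t, f ∈ Z ∧ Ad U (∑ f ∈ t, f) :=
  ⟨sum_mem fun _ hf => (mem_ats.1 (ht hf)).1, Ad.sum h t id (fun _ hf => (mem_ats.1 (ht hf)).2.1) fun _ hi _ hj n =>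
    (mem_ats.1 (ht hi)).mul_eq_zero h hc (mem_ats.1 (ht hj)) n⟩

/-- `1 - ∑ atoms` is admissible and kills every atom, so is `0` by `exists_at`. -/
theorem sum_ats : ∑ e ∈ ats U Z, e = 1 := by
  obtain ⟨a, b⟩ := ad_sum_ats h hc (t := ats U Z) le_rfl
  by_contra k
  obtain ⟨e, he, e1⟩ := exists_at h hc (sub_mem (one_mem Z) a) (b.compl h) (sub_ne_zero.2 (Ne.symm k))
  rw [mul_sub, mul_one, (he.mul_sum h hc le_rfl).1 (mem_ats.2 he), sub_self] at e1
  exact he.2.2.1 e1.symm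

theorem sum_rk_ats : ∑ e ∈ ats U Z, rk e = finrank F V := by
  rw [← rk_one, ← sum_ats h hc]
  exact (rk_sum _ id (fun _ hf => (mem_ats.1 hf).2.1.1) fun _ hi _ hj n => (mem_ats.1 hi).mul_eq_zero h hc (mem_ats.1 hj) n).symm

theorem mem_of_ats {x : End F V} (hx : ∀ e, At U Z e → e * x ∈ Z) : x ∈ Z := by
  rw [← one_mul x, ← sum_ats h hc, Finset.sum_mul]
  exact sum_mem fun e he => hx e (mem_ats.1 he)

theorem eq_of_ats {x y : End F V} (hx : ∀ e, At U Z e → e * x = e * y) : x = y := by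
  rw [← one_mul x, ← one_mul y, ← sum_ats h hc, Finset.sum_mul, Finset.sum_mul]
  exact Finset.sum_congr rfl fun e he => hx e (mem_ats.1 he)

theorem At.ne_one (hN : ¬ NoAd U Z) {e : End F V} (he : At U Z e) : e ≠ 1 := by
  rintro rfl
  exact hN fun f hf ha => he.2.2.2 f hf ha (mul_one f)

theorem exists_at_ne (hN : ¬ NoAd U Z) {e : End F V} (he : At U Z e) : ∃ e', At U Z e' ∧ e' ≠ e := by
  by_contra! k
  refine he.ne_one h hc hN ?_
  rw [← sum_ats h hc, Finset.eq_singleton_iff_unique_mem.2 ⟨mem_ats.2 he, fun x hx => k x (mem_ats.1 hx)⟩, Finset.sum_singleton]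

/-- `f = f e + f (1 - e)` with `f e ∈ {0, e}` -/
theorem At.commute_of_sup {e s f : End F V} (he : At U Z e) (hs : Sup e s) (hf : f ∈ Z) (ha : Ad U f) :
    Commute f s := by
  have e1 : s = e * s + (1 - e) := by rw [← hs.2, ← add_mul, add_sub_cancel, one_mul]
  have c := hc _ hf _ he.1
  rw [e1]
  refine .add_right ?_ ((Commute.one_right f).sub_right c)
  change f * (e * s) = e * s * f
  rw [← mul_assoc, hs.1.eq, mul_assoc s, ← c.eq]
  rcases he.mul_cases h hc hf ha with k | k <;> rw [k]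
  exacts [by rw [zero_mul, mul_zero], hs.1.eq]

theorem eta_spec (m : ℕ) : eta U Z m ∈ Z ∧ Ad U (eta U Z m) ∧
    ∀ e, At U Z e → (rk e = m → e * eta U Z m = e) ∧ (rk e ≠ m → e * eta U Z m = 0) := by
  obtain ⟨a, b⟩ := ad_sum_ats h hc (Finset.filter_subset (fun e => rk e = m) (ats U Z))
  refine ⟨a, b, fun e he => ?_⟩
  have := he.mul_sum h hc (Finset.filter_subset (fun e => rk e = m) (ats U Z))
  exact ⟨fun k => this.1 (Finset.mem_filter.2 ⟨mem_ats.2 he, k⟩), fun k => this.2 fun l => k (Finset.mem_filter.1 l).2⟩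

theorem eta_tau {T : Set (End F V ≃+ End F V)} (hT : ∀ τ ∈ T, Tau U τ) (hs : ∀ τ ∈ T, τ.symm ∈ T) (hZ : TS T Z)
    {τ : End F V ≃+ End F V} (hτ : τ ∈ T) (m : ℕ) : τ (eta U Z m) = eta U Z m := by
  have k : ∀ τ ∈ T, ∀ e ∈ (ats U Z).filter (fun e => rk e = m), τ e ∈ (ats U Z).filter (fun e => rk e = m) := fun τ hτ e he => by
    rw [Finset.mem_filter, mem_ats] at he ⊢
    exact ⟨he.1.tau hT hs hZ hc hτ, ((hT τ hτ).rank e).trans he.2⟩
  rw [eta, map_sum]
  exact Finset.sum_nbij' τ τ.symm (k τ hτ) (k _ (hs τ hτ)) (fun _ _ => τ.symm_apply_apply _) (fun _ _ => τ.apply_symm_apply _)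
    fun _ _ => rfl

omit hc in
/-- if `A` is scalar on `η` then so is `sp A`: `e = η e = c η`, `c = 1` or `e = 0`. -/
theorem eq_of_scOn {A : Subgroup (End F V)ˣ} {η e : End F V} (hη : IsIdempotentElem η)
    (hs : ∀ a ∈ A, ScOn η (a : End F V)) (he : e ∈ sp A) (hi : IsIdempotentElem e) (h0 : e ≠ 0) (hle : η * e = e) :
    e = η := by
  obtain ⟨c, hc⟩ : ScOn η e := sp_induction (P := ScOn η) hs ⟨0, by simp⟩
    (fun _ _ ⟨c, a⟩ ⟨d, b⟩ => ⟨c + d, by rw [mul_add, a, b, add_smul]⟩)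
    (fun c _ ⟨d, b⟩ => ⟨c * d, by rw [mul_smul_comm, b, smul_smul]⟩) he
  obtain rfl := hle.symm.trans hc
  have := hi.eq
  rw [smul_mul_smul_comm, hη.eq, mul_smul] at this
  exact smul_right_injective _ (left_ne_zero_of_smul h0) this

end Cfsg.Lib.WB
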