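import Mathlib
import Cfsg.Agent.Lib.Unitary.Field
import Cfsg.Agent.Lib.Linear.FieldAut

/-!
# S3694: finite fields and number theory
-/

namespace Cfsg.Lib.WB

theorem fk_sum (x : ℤ) (p : ℕ) : x - 1 ∣ (∑ i ∈ Finset.range p, x ^ i) - p := by
  rw [show (p : ℤ) = ∑ i ∈ Finset.range p, (1 : ℤ) ^ i by simp, ← Finset.sum_sub_distrib]
  exact Finset.dvd_sum fun i _ => sub_dvd_pow_sub_pow x 1 i

theorem fk_nt {a N p : ℕ} [hp : Fact p.Prime] (ha : a ≠ 0) (h : a * N ∣ a ^ 4) (hc : (a : ℤ) ∣ N - p) (hN : 1 < N) :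
    p ∣ a ∧ (padicValNat p (a * N) = padicValNat p a + padicValNat p p → N = p) := by
  rw [pow_succ'] at h
  have h1 := Nat.dvd_of_mul_dvd_mul_left (Nat.pos_of_ne_zero ha) h
  have k : ∀ {d}, d.Prime → d ∣ N → d = p ∧ d ∣ a := fun {d} hd e => by
    have h2 := hd.dvd_of_dvd_pow (e.trans h1)
    have h3 := (dvd_sub_right (Int.natCast_dvd_natCast.2 e)).1 ((Int.natCast_dvd_natCast.2 h2).trans hc)
    exact ⟨(Nat.prime_dvd_prime_iff_eq hd hp.out).1 (Int.natCast_dvd_natCast.1 h3), h2⟩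
  obtain ⟨a1, a2⟩ := k (Nat.minFac_prime hN.ne') N.minFac_dvd
  refine ⟨a1 ▸ a2, fun e => ?_⟩
  have h2 := Nat.eq_prime_pow_of_unique_prime_dvd (by omega) fun hd e => (k hd e).1
  rw [padicValNat.mul ha (by omega), padicValNat_self, add_right_inj, h2, padicValNat.prime_pow] at e
  rw [h2, e, pow_one]

/-- `N = (r^p - 1)/(r - 1) = ∑_{i<p} r^i ≡ p (mod r - 1)` divides `(r - 1)^3`, so every prime divisor of `N` is `p`, `N = p^a`, `p ∣ r - 1`.
For odd `p`, `v_p(N) = 1` (`Nat.emultiplicity_pow_sub_pow` / `padicValNat.pow_sub_pow`) but `N > p`.  For `p = 2`, `r + 1 ∣ (r - 1)^3`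
gives `r + 1 ∣ 8`. -/
theorem nt1 {r p : ℕ} (hp : p.Prime) (hr : 2 ≤ r) (h : r ^ p - 1 ∣ (r - 1) ^ 4) : p = 2 ∧ (r = 3 ∨ r = 7) := by
  have := Fact.mk hp
  obtain ⟨a, rfl⟩ : ∃ a, r = a + 1 := ⟨r - 1, by omega⟩
  obtain ⟨N, hN⟩ := Nat.sub_dvd_pow_sub_pow (a + 1) 1 p
  rw [one_pow, Nat.add_sub_cancel] at hN
  rw [hN, Nat.add_sub_cancel] at h
  have h1 : (a + 1) ^ 2 ≤ (a + 1) ^ p := Nat.pow_le_pow_right (by omega) hp.two_le
  have h2 : (a + 1) ^ p = a * N + 1 := by have := Nat.one_le_pow p (a + 1) (by omega); omega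
  rcases hp.eq_two_or_odd' with rfl | ho
  · have h3 : N = a + 2 := Nat.eq_of_mul_eq_mul_left (show 0 < a by omega) (by nlinarith)
    rw [pow_succ', h3] at h
    have h4 : (a + 2 : ℤ) ∣ a ^ 3 := by exact_mod_cast Nat.dvd_of_mul_dvd_mul_left (by omega) h
    have h5 : a + 2 ∣ 8 := by
      have : (a + 2 : ℤ) ∣ 8 := (dvd_add_right h4).1 ⟨a ^ 2 - 2 * a + 4, by ring⟩
      exact_mod_cast this
    have := Nat.le_of_dvd (by norm_num) h5
    have : a ≤ 6 := by omega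
    interval_cases a <;> simp_all
  have h3 : (N : ℤ) = ∑ i ∈ Finset.range p, (a + 1 : ℤ) ^ i := mul_left_cancel₀ (a := (a : ℤ)) (by omega) (by
    have := mul_geom_sum (a + 1 : ℤ) p
    rw [add_sub_cancel_right] at this
    rw [this, eq_sub_iff_add_eq]
    exact_mod_cast h2.symm)
  obtain ⟨b1, b2⟩ := fk_nt (p := p) (by omega) h (by simpa [h3] using fk_sum (a + 1) p) (by nlinarith)
  have := b2 (by
    simpa [hN] using padicValNat.pow_sub_pow ho (x := a + 1) (y := 1) (by omega) (by simpa using b1)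
      (fun e => hp.one_lt.ne' (Nat.dvd_one.1 ((Nat.dvd_add_right b1).1 e))) hp.ne_zero)
  have := Nat.le_of_dvd (by omega) b1
  nlinarith

/-- `N = (r^p + 1)/(r + 1) ≡ p (mod r + 1)` divides `(r + 1)^3`, so `N = p^a`; `N > 1` as `r ≥ 2, p ≥ 3`, so `p ∣ r + 1` and `v_p(N) = 1`
(`Nat.emultiplicity_pow_add_pow` / `padicValNat.pow_add_pow`); `r^p + 1 = p (r + 1)` forces `p = 3`, `r = 2`. -/
theorem nt2 {r p : ℕ} (hp : p.Prime) (h2 : p ≠ 2) (hr : 2 ≤ r) (h : r ^ p + 1 ∣ (r + 1) ^ 4) : p = 3 ∧ r = 2 := by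
  have := Fact.mk hp
  have ho := hp.odd_of_ne_two h2
  have p3 : 3 ≤ p := by have := hp.two_le; omega
  obtain ⟨N, hN⟩ := ho.nat_add_dvd_pow_add_pow r 1
  rw [one_pow] at hN
  rw [hN] at h
  have h1 : r ^ 3 ≤ r ^ p := Nat.pow_le_pow_right (by omega) p3
  have h3 : (N : ℤ) = ∑ i ∈ Finset.range p, (-r : ℤ) ^ i := mul_left_cancel₀ (a := (-r - 1 : ℤ)) (by omega) (by
    rw [mul_geom_sum, ho.neg_pow]
    have : (r : ℤ) ^ p + 1 = (r + 1) * N := by exact_mod_cast hN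
    linear_combination this)
  obtain ⟨b1, b2⟩ := fk_nt (p := p) (by omega) h (by
    have := fk_sum (-r) p
    rw [← neg_add', neg_dvd] at this
    simpa [h3] using this) (not_le.1 fun h => by nlinarith [Nat.mul_le_mul_left (r + 1) h, Nat.mul_le_mul hr hr])
  have := b2 (by
    simpa [hN] using padicValNat.pow_add_pow ho (x := r) (y := 1) b1
      (fun e => hp.one_lt.ne' (Nat.dvd_one.1 ((Nat.dvd_add_right e).1 b1))) ho)
  have h4 := Nat.le_of_dvd (by omega) b1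
  have : r = 2 := le_antisymm (not_lt.1 fun h => by
    nlinarith [Nat.mul_le_mul_left (r + 1) h4, Nat.mul_le_mul_right (r * r) h]) hr
  omega

variable {K : Type*} [Field K] [Finite K]

/-- `δ φ u = φ u / u` -/
def dl (φ : K ≃+* K) (u : K) : K := φ u * u⁻¹

/-- Let `K₁` be the fixed field of `φ`, `r = |K₁|`; `|K| = r ^ p` (`FixedPoints.finrank_eq_card` for `zpowers φ`), and
`u ↦ u ^ r` is an automorphism fixing `K₁`, so a power of `φ` (the Galois group of `K / K₁` has order `p`). -/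
theorem exists_frob {φ : K ≃+* K} {p : ℕ} (hp : p.Prime) (hφ : orderOf φ = p) :
    ∃ r j : ℕ, 2 ≤ r ∧ Nat.card K = r ^ p ∧ ∀ u, (φ ^ j) u = u ^ r := by
  classical
  have := Fintype.ofFinite K
  obtain ⟨l, hl, n, hn, e⟩ := FiniteField.card' K
  have := Fact.mk hn
  have c := Linear.card_ringAut e
  obtain ⟨m, hm⟩ : p ∣ (n : ℕ) := by rw [← hφ, ← c]; exact orderOf_dvd_natCard φ
  have m0 : m ≠ 0 := by rintro rfl; exact n.ne_zero hm
  let ψ : K ≃+* K := iterateFrobeniusEquiv K l m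
  have k : ∀ (i : ℕ) u, (ψ ^ i) u = u ^ (l ^ m) ^ i := fun i => by
    induction i with
    | zero => simp
    | succ i ih => intro u; rw [pow_succ', RingAut.mul_apply, ih, pow_succ, pow_mul]; rfl
  have e' : Fintype.card K = (l ^ m) ^ p := by rw [e, hm, ← pow_mul, mul_comm]
  have := Fintype.ofFinite (K ≃+* K)
  have h1 : (Subgroup.zpowers φ : Set (K ≃+* K)) = {a | a ^ p = 1} := Set.eq_of_subset_of_ncard_le
    (fun a ha => orderOf_dvd_iff_pow_eq_one.1 (hφ ▸ orderOf_dvd_of_mem_zpowers ha)) (by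
      rw [← Nat.card_coe_set_eq (Subgroup.zpowers φ : Set (K ≃+* K)), SetLike.coe_sort_coe, Nat.card_zpowers, hφ,
        Set.ncard_eq_toFinset_card', Set.toFinset_ofPred]
      exact IsCyclic.card_pow_eq_one_le hp.pos)
  obtain ⟨j, hj⟩ := mem_powers_iff_mem_zpowers.2 (h1.ge (show ψ ^ p = 1 from RingEquiv.ext fun u => by
    rw [k, ← e', FiniteField.pow_card]; rfl))
  exact ⟨l ^ m, j, hn.two_le.trans (Nat.le_self_pow m0 l), Nat.card_eq_fintype_card.trans e', fun u => by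
    rw [show φ ^ j = ψ from hj]; rfl⟩

/-- for a generator `u` of `Kˣ`, `u ^ (r - 1) ^ 4 = 1`; `nt1`. -/
theorem ffk1 {φ : K ≃+* K} {p : ℕ} (hp : p.Prime) (hφ : orderOf φ = p)
    (h : ∀ (j : ℕ) (u : K), u ≠ 0 → dl (φ ^ j) (dl (φ ^ j) (dl (φ ^ j) (dl (φ ^ j) u))) = 1) :
    Nat.card K = 9 ∨ Nat.card K = 49 := by
  obtain ⟨r, j, hr, e, k⟩ := exists_frob hp hφ
  have := Fintype.ofFinite K
  have d : ∀ u : K, u ≠ 0 → dl (φ ^ j) u = u ^ (r - 1) := fun u hu => by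
    rw [dl, k, pow_sub₀ _ hu (by omega), pow_one]
  have := (FiniteField.forall_pow_eq_one_iff K ((r - 1) ^ 4)).1 fun u => Units.ext (by
    have := h j u u.ne_zero
    rw [d u u.ne_zero, d (u ^ (r - 1)) (by simp), d ((u ^ (r - 1)) ^ (r - 1)) (by simp), d _ (by simp)] at this
    rw [Units.val_pow_eq_pow_val, Units.val_one, ← this]
    ring)
  rw [← Nat.card_eq_fintype_card, e] at this
  obtain ⟨rfl, rfl | rfl⟩ := nt1 hp hr this
  exacts [.inl e, .inr e]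

/-- `s` is `u ↦ u ^ Q` with `|K| = Q²` (`exists_isBar_of_invol`).  `p ≠ 2`: otherwise `φ` is also an involution, so `φ = s`.  `r ^ p = Q²`
with `p` odd, so `r = r₁²`, `Q = r₁ ^ p` (`r`, `Q` are powers of the characteristic).  On the cyclic group `{u | u s u = 1}` of order
`Q + 1` (`exists_primitive_norm_one`) the power `(φ ^ j) ^ ((p+1)/2)` is `u ↦ u ^ r₁ ^ (p + 1) = (u ^ r₁)⁻¹`, so
`r₁ ^ p + 1 ∣ (r₁ + 1) ^ 4`; `nt2`. -/
theorem ffk2 {φ s : K ≃+* K} {p : ℕ} (hp : p.Prime) (hφ : orderOf φ = p) (hs1 : s ≠ 1) (hs2 : ∀ a, s (s a) = a)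
    (hne : φ ≠ s)
    (h : ∀ (j : ℕ) (u : K), u * s u = 1 → dl (φ ^ j) (dl (φ ^ j) (dl (φ ^ j) (dl (φ ^ j) u))) = 1) :
    Nat.card K = 64 := by
  obtain ⟨r, j, hr, e, k⟩ := exists_frob hp hφ
  have bar : ∀ {s : K ≃+* K}, s ≠ 1 → (∀ a, s (s a) = a) → ∃ q, Unitary.IsBar q (s : K →+* K) := fun h1 h2 =>
    Unitary.exists_isBar_of_invol (fun e => h1 (RingEquiv.ext (RingHom.congr_fun e))) h2
  obtain ⟨Q, hQ⟩ := bar hs1 hs2
  have p2 : p ≠ 2 := by
    rintro rfl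
    obtain ⟨Q', hQ'⟩ := bar (s := φ) (by rintro rfl; simp at hφ) fun a => by
      rw [← RingAut.mul_apply, ← sq, ← hφ, pow_orderOf_eq_one]; rfl
    obtain rfl : Q = Q' := Nat.pow_left_injective two_ne_zero (hQ.card.symm.trans hQ'.card)
    exact hne (RingEquiv.ext fun a => (hQ'.eq a).trans (hQ.eq a).symm)
  obtain ⟨i, rfl⟩ := hp.odd_of_ne_two p2
  obtain ⟨c, rfl, rfl⟩ := Nat.exists_eq_pow_of_exponent_coprime_of_pow_eq_pow (by simp) (e.symm.trans hQ.card)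
  obtain ⟨ζ, hζ⟩ := hQ.exists_primitive_norm_one
  have z0 := hζ.ne_zero (Nat.succ_ne_zero _)
  have k' : ∀ (n : ℕ) u, (φ ^ (j * n)) u = u ^ (c ^ 2) ^ n := fun n => by
    induction n with
    | zero => simp
    | succ n ih => intro u; rw [mul_add, mul_one, add_comm, pow_add, RingAut.mul_apply, ih, k, pow_succ _ n, pow_mul]
  have d : ∀ a : ℤ, dl (φ ^ (j * (i + 1))) (ζ ^ a) = ζ ^ (-(c + 1 : ℤ) * a) := fun a => by
    rw [dl, k', ← zpow_natCast, ← zpow_mul, ← zpow_neg, ← zpow_add₀ z0, ← mul_inv_eq_one₀ (zpow_ne_zero _ z0), ← zpow_neg,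
      ← zpow_add₀ z0, hζ.zpow_eq_one_iff_dvd]
    exact ⟨a * c, by push_cast; ring⟩
  have := h (j * (i + 1)) (ζ ^ (1 : ℤ)) (by rw [zpow_one]; exact (hQ.norm_eq ζ).trans hζ.pow_eq_one)
  rw [d, d, d, d, hζ.zpow_eq_one_iff_dvd] at this
  obtain ⟨h3, rfl⟩ := nt2 hp p2 (r := c) (by by_contra! hc; interval_cases c <;> omega) (by
    rw [← Int.natCast_dvd_natCast]
    convert this using 1
    push_cast; ring)
  rw [e, h3]; rfl

/-- an automorphism is determined by the image of a generator of `Kˣ` -/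
theorem card_ringAut_le : Nat.card (K ≃+* K) ≤ Nat.card K - 1 := by
  have := Fintype.ofFinite K
  obtain ⟨l, hl, n, hn, e⟩ := FiniteField.card' K
  have := Fact.mk hn
  rw [Linear.card_ringAut e, Nat.card_eq_fintype_card, e]
  exact Nat.le_sub_one_of_lt (Nat.lt_pow_self hn.one_lt)

theorem fk_bot {ι : Type*} [Finite ι] {p : ℕ} (hp : p.Prime) {P : Subgroup (Equiv.Perm ι)} [P.Normal]
    (hP : IsPGroup p P) (h5 : 5 ≤ Nat.card ι) : P = ⊥ := by
  classical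
  have := Fintype.ofFinite ι
  have := Fact.mk hp
  have : Nontrivial ι := Finite.one_lt_card_iff_nontrivial.1 (by omega)
  by_contra h
  obtain ⟨n, hn⟩ := (hP.to_le (Equiv.Perm.alternatingGroup_le_of_normal h5 ((P.nontrivial_iff_ne_bot).2 h))).exists_card_eq
  have h1 : 2 * 6 ∣ 2 * p ^ n := by
    rw [← hn, two_mul_nat_card_alternatingGroup, Nat.card_perm]
    exact (by decide : 2 * 6 ∣ (5 : ℕ).factorial).trans (Nat.factorial_dvd_factorial h5)
  have h2 := Nat.dvd_of_mul_dvd_mul_left two_pos h1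
  have a := (Nat.prime_dvd_prime_iff_eq Nat.prime_two hp).1 (Nat.prime_two.dvd_of_dvd_pow (Dvd.dvd.trans (by decide) h2))
  have b := (Nat.prime_dvd_prime_iff_eq Nat.prime_three hp).1
    (Nat.prime_three.dvd_of_dvd_pow (Dvd.dvd.trans (by decide) h2))
  omega

/-- For `|ι| ≥ 5` a non-trivial normal subgroup contains `alternatingGroup` (order divisible by `2` and `3`).  For `|ι| ≤ 4`:
`orderOf σ = p ≤ 4`; fixed-point-free of prime order gives `p ∣ |ι|`; `|ι| = 4`, `p = 2` or `|ι| ∈ {2, 3}`. -/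
theorem perm_small {ι : Type*} [Fintype ι] [DecidableEq ι] {p : ℕ} (hp : p.Prime) {P : Subgroup (Equiv.Perm ι)} [P.Normal]
    (hP : IsPGroup p P) {s : Equiv.Perm ι} (hs : s ∈ P) (hsp : s ^ p = 1) (hf : ∀ i, s i ≠ i) [Nonempty ι] :
    (p = 2 ∧ (Fintype.card ι = 2 ∨ Fintype.card ι = 4)) ∨ (p = 3 ∧ Fintype.card ι = 3) := by
  have := Fact.mk hp
  obtain ⟨i⟩ := ‹Nonempty ι›
  have h1 : Fintype.card ι < 5 := not_le.1 fun h => hf i (by
    rw [Subgroup.mem_bot.1 ((fk_bot hp hP (by rwa [Nat.card_eq_fintype_card])).le hs)]; rfl)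
  have h2 : p ∣ Fintype.card ι := by_contra fun h =>
    let ⟨a, ha⟩ := Equiv.Perm.exists_fixed_point_of_prime (n := 1) h (by rwa [pow_one])
    hf a ha
  have h3 : 0 < Fintype.card ι := Fintype.card_pos_iff.2 ⟨i⟩
  have h4 := Nat.le_of_dvd h3 h2
  have h5 := hp.two_le
  generalize Fintype.card ι = n at *
  interval_cases n <;> interval_cases p <;> simp_all (config := {decide := true})

/-- normal `p`-subgroups of `Sym(n)`, `n ≥ 5` -/
theorem perm_pgroup_bot {ι : Type*} [Finite ι] {p : ℕ} (hp : p.Prime) {P : Subgroup (Equiv.Perm ι)} [P.Normal]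
    (hP : IsPGroup p P) (h5 : 5 ≤ Nat.card ι) : P = ⊥ := by
  exact fk_bot hp hP h5

end Cfsg.Lib.WB
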