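import Cfsg.Agent.Lib.WB.U1

/-!
# S3694: unitary geometry IV (a field of endomorphisms closed under the adjoint)
-/

set_option linter.unusedSectionVars false

namespace Cfsg.Lib.WB

open Module Cfsg.Lib.Unitary Cfsg.Lib.Transfer
open scoped commutatorElement

variable {F V : Type*} [Field F] [AddCommGroup V] [Module F V] [Finite F] [Finite V]
  {U : Subgroup (End F V)ˣ}

variable {σ : F →+* F} {B : V →ₛₗ[σ] V →ₗ[F] F}

theorem u4_gen {R : Type*} [Ring R] [Finite R] (hR : IsField R) (s : R →+* R) (h1 : s ≠ RingHom.id R)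
    (h2 : ∀ a, s (s a) = a) :
    (∀ m, s m = m → ∃ x, x * s x = m) ∧ Nat.card R = Nat.card {x : R // s x = x} ^ 2 := by
  letI := hR.toField
  obtain ⟨q, hq⟩ := exists_isBar_of_invol (F := R) (σ := s) h1 h2
  exact ⟨fun m hm => hq.exists_norm_eq hm, by rw [hq.card_fixed, hq.card]⟩

theorem Fld.u4_isField {Z : Subalgebra F (End F V)} (hZ : Fld Z) [Nontrivial V] : IsField Z where
  exists_pair_ne := ⟨0, 1, zero_ne_one⟩
  mul_comm a b := Subtype.ext (hZ.1 _ a.2 _ b.2).eq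
  mul_inv_cancel {a} h0 := by
    obtain ⟨b, hb, e⟩ := hZ.2 _ a.2 fun e => h0 (Subtype.ext e)
    exact ⟨⟨b, hb⟩, Subtype.ext e⟩

namespace IsU

variable (h : IsU U σ B)
include h

/-- the adjoint as a ring endomorphism of a commutative adjoint-closed algebra -/
noncomputable def u4_s {Z : Subalgebra F (End F V)} (hZ : Fld Z) (ha : ∀ a ∈ Z, h.adj a ∈ Z) : Z →+* Z where
  toFun a := ⟨h.adj a, ha _ a.2⟩
  map_one' := Subtype.ext h.adj_one
  map_mul' a b := Subtype.ext (by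
    change h.adj (a.1 * b.1) = h.adj a * h.adj b
    rw [h.adj_mul]
    exact (hZ.1 _ (ha _ b.2) _ (ha _ a.2)).eq)
  map_zero' := Subtype.ext h.adj_zero
  map_add' a b := Subtype.ext (h.adj_add _ _)

theorem u4_main {Z : Subalgebra F (End F V)} (hZ : Fld Z) (ha : ∀ a ∈ Z, h.adj a ∈ Z) [Nontrivial V] :
    (∀ m : Z, h.u4_s hZ ha m = m → ∃ x, x * h.u4_s hZ ha x = m) ∧
      Nat.card Z = Nat.card {x : Z // h.u4_s hZ ha x = x} ^ 2 := by
  refine u4_gen hZ.u4_isField _ (fun e => h.1.ne_id (RingHom.ext fun c => ?_))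
    fun a => Subtype.ext (h.adj_adj _)
  have e1 := congrArg Subtype.val (RingHom.congr_fun e ⟨c • 1, Z.smul_mem Z.one_mem c⟩)
  change h.adj (c • 1) = c • 1 at e1
  rw [h.adj_smul, h.adj_one] at e1
  exact smul_left_injective F (one_ne_zero (α := End F V)) e1

theorem u4_bar (x : V) (a : End F V) : σ (B x (a x)) = B x (h.adj a x) := by
  rw [h.1.symm, h.adj_left]

/-- On the finite field `Z` (`IsField.toField`), `adj` is a ring involution `s ≠ id` (it is `σ` on scalars), so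
`exists_isBar_of_invol`: norms are onto the fixed field (`IsBar.exists_norm_eq`). -/
theorem fld_norm {Z : Subalgebra F (End F V)} (hZ : Fld Z) (ha : ∀ a ∈ Z, h.adj a ∈ Z) [Nontrivial V] {m : End F V}
    (hm : m ∈ Z) (hs : h.adj m = m) : ∃ a ∈ Z, h.adj a * a = m := by
  obtain ⟨x, hx⟩ := (h.u4_main hZ ha).1 ⟨m, hm⟩ (Subtype.ext hs)
  refine ⟨x.1, x.2, ?_⟩
  rw [(hZ.1 _ (ha _ x.2) _ x.2).eq]
  exact congrArg Subtype.val hx

/-- `|Z| = r²` with `r` the number of self-adjoint elements (`IsBar.card_fixed`); a non-scalar element gives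
`|Z| ≥ |F|²` (dimension `≥ 2`), so `r ≥ |F| = q² > ringChar F`. -/
theorem fld_card {Z : Subalgebra F (End F V)} (hZ : Fld Z) (ha : ∀ a ∈ Z, h.adj a ∈ Z) (hn : ∃ a ∈ Z, ¬ Sc a) :
    ringChar F < Nat.card {a : End F V // a ∈ Z ∧ h.adj a = a} := by
  obtain ⟨a, haZ, hn⟩ := hn
  haveI : Nontrivial V := by
    by_contra hc
    rw [not_nontrivial_iff_subsingleton] at hc
    exact hn ⟨0, LinearMap.ext fun v => Subsingleton.elim _ _⟩
  have h1 := (h.u4_main hZ ha).2
  have h2 : Nat.card {x : Z // h.u4_s hZ ha x = x} = Nat.card {a : End F V // a ∈ Z ∧ h.adj a = a} :=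
    Nat.card_congr ⟨fun x => ⟨x.1.1, x.1.2, congrArg Subtype.val x.2⟩,
      fun x => ⟨⟨x.1, x.2.1⟩, Subtype.ext x.2.2⟩, fun _ => rfl, fun _ => rfl⟩
  have h3 : Nat.card (F × F) ≤ Nat.card Z := by
    refine Nat.card_le_card_of_injective
      (fun c : F × F => (⟨c.1 • 1 + c.2 • a, Z.add_mem (Z.smul_mem Z.one_mem _) (Z.smul_mem haZ _)⟩ : Z)) ?_
    rintro ⟨c, d⟩ ⟨c', d'⟩ e
    have e1 : c • (1 : End F V) + d • a = c' • 1 + d' • a := congrArg Subtype.val e
    have hd : d = d' := by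
      by_contra hd
      have hd' : d - d' ≠ 0 := sub_ne_zero.2 hd
      refine hn ⟨(d - d')⁻¹ * (c' - c), ?_⟩
      have e2 : (d - d') • a = (c' - c) • (1 : End F V) := by
        rw [sub_smul, sub_smul, sub_eq_sub_iff_add_eq_add, add_comm (d • a), e1]
      rw [mul_smul, ← e2, smul_smul, inv_mul_cancel₀ hd', one_smul]
    subst hd
    have hc : c = c' := smul_left_injective F (one_ne_zero (α := End F V)) (add_right_cancel e1)
    rw [hc]
  obtain ⟨q, hq⟩ := exists_isBar_of_invol h.1.ne_id h.1.invol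
  rw [Nat.card_prod, h1, h2, ← sq] at h3
  have h4 := (Nat.pow_le_pow_iff_left two_ne_zero).1 h3
  have h5 : ringChar F ≤ q := Nat.le_of_dvd (by have := hq.two_le; omega) ((ringChar.spec F q).1 hq.cast_q)
  have h6 := hq.card
  have h7 := hq.two_le
  nlinarith

/-- If `β(a) = B x (a x)` is not identically zero on `Z` then every `F`-linear functional on `Z` is `a ↦ β (a b)` for a unique
`b ∈ Z` (`b ↦ β(· b)` is injective and linear from `Z` to its dual). -/
theorem fld_dual {Z : Subalgebra F (End F V)} (hZ : Fld Z) {x : V} (hx : ∃ a ∈ Z, B x (a x) ≠ 0)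
    (φ : Z →ₗ[F] F) : ∃! b : Z, ∀ a : Z, φ a = B x ((a * b : Z).1 x) := by
  haveI : Module.Finite F Z := Module.Finite.of_finite
  let Φ : Z →ₗ[F] Module.Dual F Z :=
    LinearMap.mk₂ F (fun b a : Z => B x ((a * b : Z).1 x))
      (fun b b' a => by simp [mul_add]) (fun c b a => by simp)
      (fun b a a' => by simp [add_mul]) (fun c b a => by simp)
  have hΦ : ∀ b a : Z, Φ b a = B x ((a * b : Z).1 x) := fun _ _ => rfl
  have inj : Function.Injective Φ := by
    rw [injective_iff_map_eq_zero]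
    intro b hb
    by_contra h0
    obtain ⟨b', hb', e⟩ := hZ.2 _ b.2 fun e => h0 (Subtype.ext e)
    obtain ⟨a, haZ, hx⟩ := hx
    apply hx
    have e1 := hΦ b (⟨a, haZ⟩ * ⟨b', hb'⟩)
    rw [hb] at e1
    have e2 : ((⟨a, haZ⟩ * ⟨b', hb'⟩ * b : Z) : End F V) = a := by
      change a * b' * b.1 = a
      rw [mul_assoc, (hZ.1 _ hb' _ b.2).eq, e, mul_one]
    rw [e2] at e1
    exact e1.symm
  have surj : Function.Surjective Φ :=
    (LinearMap.injective_iff_surjective_of_finrank_eq_finrank Subspace.dual_finrank_eq.symm).1 inj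
  obtain ⟨b, hb⟩ := surj φ
  refine ⟨b, fun a => by rw [← hb, hΦ], fun b' hb' => inj ?_⟩
  rw [hb]
  exact LinearMap.ext fun a => by rw [hΦ, hb']

/-- A totally isotropic `Z`-line.  `W = Z v` is a proper subspace; take `0 ≠ y ∈ perp W` (`perp W` is `Z`-stable).  If
`β_v = 0` or `β_y = 0` we are done.  Else `-β_y = β_v(· b)` (`fld_dual`), `b` is self-adjoint by uniqueness
(`σ (β (a)) = β (adj a)`), `b = adj m * m` (`fld_norm`), and `u = m v + y` has `β_u = β_v(· b) + β_y = 0`; `u ≠ 0` since `y ∈ W ⊓ perp W`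
would give `β_y = 0`. -/
theorem fld_iso {Z : Subalgebra F (End F V)} (hZ : Fld Z) (ha : ∀ a ∈ Z, h.adj a ∈ Z) {v w : V} (hv : v ≠ 0)
    (hw : ∀ a ∈ Z, a v ≠ w) : ∃ u : V, u ≠ 0 ∧ ∀ a ∈ Z, B u (a u) = 0 := by
  haveI : Nontrivial V := ⟨⟨v, 0, hv⟩⟩
  haveI : Module.Finite F V := Module.Finite.of_finite
  let W : Submodule F V :=
    { carrier := {y | ∃ a ∈ Z, a v = y}
      add_mem' := by
        rintro _ _ ⟨a, ha, rfl⟩ ⟨b, hb, rfl⟩
        exact ⟨a + b, Z.add_mem ha hb, rfl⟩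
      zero_mem' := ⟨0, Z.zero_mem, rfl⟩
      smul_mem' := by
        rintro c _ ⟨a, ha, rfl⟩
        exact ⟨c • a, Z.smul_mem ha c, rfl⟩ }
  have hW : perp B W ≠ ⊥ := by
    intro e
    have e1 : w ∈ perp B (perp B W) := by
      rw [e, mem_perp]
      intro z hz
      rw [(Submodule.mem_bot F).1 hz]
      simp
    rw [h.1.perp_perp] at e1
    obtain ⟨a, haZ, e2⟩ := e1
    exact hw a haZ e2
  obtain ⟨y, hy, hy0⟩ := (Submodule.ne_bot_iff _).1 hW
  have p1 : ∀ a ∈ Z, ∀ a' ∈ Z, B (a v) (a' y) = 0 := by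
    intro a haZ a' haZ'
    rw [h.adj_right]
    exact mem_perp.1 hy _ ⟨h.adj a' * a, Z.mul_mem (ha _ haZ') haZ, rfl⟩
  by_cases c1 : ∃ a ∈ Z, B v (a v) ≠ 0
  swap
  · push Not at c1
    exact ⟨v, hv, c1⟩
  by_cases c2 : ∃ a ∈ Z, B y (a y) ≠ 0
  swap
  · push Not at c2
    exact ⟨y, hy0, c2⟩
  let φ : Z →ₗ[F] F :=
    { toFun := fun a => -B y (a.1 y)
      map_add' := fun a b => by simp [add_comm]
      map_smul' := fun c a => by simp }
  have hφ : ∀ a : Z, φ a = -B y (a.1 y) := fun _ => rfl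
  obtain ⟨b, hb, hu⟩ := h.fld_dual hZ c1 φ
  have hs : h.adj b.1 = b.1 := by
    have := hu ⟨h.adj b.1, ha _ b.2⟩ fun a => by
      have e1 := congrArg σ (hb ⟨h.adj a.1, ha _ a.2⟩)
      rw [hφ, map_neg, h.u4_bar, h.u4_bar, h.adj_adj] at e1
      rw [hφ, e1]
      change B v (h.adj (h.adj a.1 * b.1) v) = B v ((a.1 * h.adj b.1) v)
      rw [h.adj_mul, h.adj_adj, (hZ.1 _ (ha _ b.2) _ a.2).eq]
    exact congrArg Subtype.val this
  obtain ⟨m, hm, em⟩ := h.fld_norm hZ ha b.2 hs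
  refine ⟨m v + y, fun e => ?_, fun a haZ => ?_⟩
  · obtain ⟨a, haZ, c2⟩ := c2
    apply c2
    have e1 : y = -m v := eq_neg_of_add_eq_zero_right e
    have e2 := p1 m hm a haZ
    calc B y (a y) = B (-m v) (a y) := by rw [← e1]
      _ = 0 := by rw [map_neg, LinearMap.neg_apply, e2, neg_zero]
  · have e1 := hb ⟨a, haZ⟩
    rw [hφ] at e1
    have e2 : B (m v) (a (m v)) = B v (((⟨a, haZ⟩ : Z) * b : Z).1 v) := by
      rw [h.adj_left]
      change B v ((h.adj m * (a * m)) v) = B v ((a * b.1) v)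
      rw [← em, ← mul_assoc, (hZ.1 _ (ha _ hm) _ haZ).eq, mul_assoc]
    have e3 : B y (a (m v)) = 0 := by
      rw [h.1.eq_zero_comm]
      exact p1 (a * m) (Z.mul_mem haZ hm) 1 Z.one_mem
    have e4 := p1 m hm a haZ
    simp only [map_add, LinearMap.add_apply]
    rw [e2, e3, e4, ← e1]
    simp

/-- Take `x₀` with `B x₀ x₀ ≠ 0`, `β a = B x₀ (a x₀)`, `u` from `fld_iso`.  For `x`, `a ↦ B u (a x)` is a functional on `Z`, equal to
`β (a * k x)` for a unique `k x ∈ Z`; `k` is additive, `k (a x) = a * k x`, `k u = 0`, `k ≠ 0`.  `X x = δ • (k x) u` (`δ` skew).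
`B ((k x) u) y = B u (adj (k x) y) = β (adj (k x) * k y)` is hermitian in `x, y`, so `X` is skew; `X` commutes with `Z`, `X u = 0`;
for self-adjoint `a ∈ Z`, `a X` is skew with square zero (`rt_of_skew`). -/
theorem g3 {Z : Subalgebra F (End F V)} (hZ : Fld Z) (ha : ∀ a ∈ Z, h.adj a ∈ Z) {v w : V} (hv : v ≠ 0)
    (hw : ∀ a ∈ Z, a v ≠ w) :
    ∃ X : End F V, X ≠ 0 ∧ (∀ a ∈ Z, Commute a X) ∧ ∀ a ∈ Z, h.adj a = a → Rt U (a * X) := by
  obtain ⟨v', hv'⟩ := h.1.exists_ne_zero hv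
  obtain ⟨x₀, -, hx₀⟩ := h.1.exists_nonisotropic (W := ⊤) Submodule.mem_top Submodule.mem_top hv'
  have hx : ∃ a ∈ Z, B x₀ (a x₀) ≠ 0 := ⟨1, Z.one_mem, hx₀⟩
  obtain ⟨u, hu0, hu⟩ := h.fld_iso hZ ha hv hw
  have ex : ∀ x : V, ∃! b : Z, ∀ a : Z, B u (a.1 x) = B x₀ ((a * b : Z).1 x₀) := fun x =>
    h.fld_dual hZ hx
      { toFun := fun a => B u (a.1 x)
        map_add' := fun a b => by simp
        map_smul' := fun c a => by simp }
  choose k hk hku using ex
  have kadd : ∀ x y, k (x + y) = k x + k y := fun x y =>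
    (hku _ _ fun a => by rw [map_add, map_add, hk, hk, mul_add]; simp).symm
  have kmul : ∀ (b : Z) x, k (b.1 x) = b * k x := fun b x =>
    (hku _ _ fun a => by rw [← mul_assoc, ← hk]; rfl).symm
  have ksmul : ∀ (c : F) x, k (c • x) = c • k x := fun c x =>
    (hku _ _ fun a => by rw [map_smul, map_smul, hk, mul_smul_comm]; simp).symm
  have ku : k u = 0 := (hku _ _ fun a => by rw [hu _ a.2]; simp).symm
  obtain ⟨δ, hδ0, hδ⟩ := h.1.exists_skew
  let X : End F V :=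
    { toFun := fun x => δ • (k x).1 u
      map_add' := fun x y => by rw [kadd]; simp
      map_smul' := fun c x => by rw [ksmul]; simp [smul_comm δ c] }
  have hX : ∀ x, X x = δ • (k x).1 u := fun _ => rfl
  have hc : ∀ a ∈ Z, Commute a X := fun a haZ => LinearMap.ext fun x => by
    change a (X x) = X (a x)
    rw [hX, hX, kmul ⟨a, haZ⟩, map_smul]
    rfl
  have hb : ∀ x y, B ((k x).1 u) y = B x₀ ((h.adj (k x).1 * (k y).1) x₀) := fun x y => by
    rw [h.adj_left]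
    exact hk y ⟨h.adj (k x).1, ha _ (k x).2⟩
  have hsk : h.adj X = -X := h.adj_eq fun x y => by
    have e1 : B x ((k y).1 u) = B ((k x).1 u) y := by
      rw [← h.1.symm, hb, h.u4_bar, hb, h.adj_mul, h.adj_adj]
    rw [LinearMap.neg_apply, hX, hX, map_neg, LinearMap.map_smulₛₗ B, hδ, (B x).map_smul, e1]
    simp
  have hXX : X * X = 0 := LinearMap.ext fun x => by
    change X (X x) = 0
    rw [hX x, map_smul, hX, kmul, ku]
    simp
  refine ⟨X, fun e => ?_, hc, fun a haZ hs => h.rt_of_skew ?_ ?_⟩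
  · obtain ⟨x, hx⟩ := h.1.exists_ne_zero hu0
    have k0 : (k x).1 ≠ 0 := fun e0 => hx (by
      have := hk x 1
      rw [one_mul, e0] at this
      simpa using this)
    obtain ⟨b, hbZ, eb⟩ := hZ.2 _ (k x).2 k0
    have e1 : (k x).1 u = 0 := by
      have := hX x
      rw [e] at this
      exact (smul_eq_zero.1 this.symm).resolve_left hδ0
    apply hu0
    have e2 : (b * (k x).1) u = u := by rw [(hZ.1 _ hbZ _ (k x).2).eq, eb]; rfl
    rw [← e2, Module.End.mul_apply, e1, map_zero]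
  · rw [mul_assoc, ← mul_assoc X, ← (hc a haZ).eq, mul_assoc, hXX, mul_zero, mul_zero]
  · rw [h.adj_mul, hs, hsk, (hc a haZ).eq, neg_mul]

end IsU

end Cfsg.Lib.WB
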