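import Cfsg.Agent.Lib.WB.Adm
import Cfsg.Agent.Lib.WB.U4
import Cfsg.Agent.Lib.WB.FK

/-!
# S3694: field case arithmetic (`ff`, split off `GS`)
-/

set_option linter.unusedSectionVars false

namespace Cfsg.Lib.WB

open Module Cfsg.Lib.Unitary Cfsg.Lib.Transfer
open scoped commutatorElement

variable {F V : Type*} [Field F] [AddCommGroup V] [Module F V] [Finite F] [Finite V]
  {U : Subgroup (End F V)ˣ}

/-- inverse-free form of `δ⁴ u = 1` -/
def D4 {R : Type*} [Ring R] (ψ : R ≃+* R) (u : R) : Prop :=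
  ∃ a b c, a * u = ψ u ∧ b * a = ψ a ∧ c * b = ψ b ∧ ψ c = c

theorem D4.dl {K : Type*} [Field K] {ψ : K ≃+* K} {u : K} (h : D4 ψ u) (h0 : u ≠ 0) :
    dl ψ (dl ψ (dl ψ (dl ψ u))) = 1 := by
  have st : ∀ {a w : K}, a * w = ψ w → w ≠ 0 → WB.dl ψ w = a ∧ a ≠ 0 := fun {a w} e hw => by
    refine ⟨by rw [WB.dl, ← e, mul_inv_cancel_right₀ hw], fun ha => hw ?_⟩
    rw [ha, zero_mul] at e
    exact (map_eq_zero_iff ψ ψ.injective).1 e.symm
  obtain ⟨a, b, c, h1, h2, h3, h4⟩ := h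
  obtain ⟨e1, ha⟩ := st h1 h0
  obtain ⟨e2, hb⟩ := st h2 ha
  obtain ⟨e3, hc⟩ := st h3 hb
  rw [e1, e2, e3, WB.dl, h4, mul_inv_cancel₀ hc]

theorem ffk1' {R : Type*} [Ring R] [Finite R] (hR : IsField R) {φ : R ≃+* R} {p : ℕ} (hp : p.Prime)
    (hφ : orderOf φ = p) (h : ∀ (j : ℕ) (u : R), u ≠ 0 → D4 (φ ^ j) u) : Nat.card R = 9 ∨ Nat.card R = 49 := by
  let _ := hR.toField
  exact ffk1 (K := R) (φ := φ) hp hφ fun j u hu => D4.dl (K := R) (h j u hu) hu

theorem ffk2' {R : Type*} [Ring R] [Finite R] (hR : IsField R) {φ s : R ≃+* R} {p : ℕ} (hp : p.Prime)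
    (hφ : orderOf φ = p) (hs1 : s ≠ 1) (hs2 : ∀ a, s (s a) = a) (hne : φ ≠ s)
    (h : ∀ (j : ℕ) (u : R), u * s u = 1 → D4 (φ ^ j) u) : Nat.card R = 64 := by
  let _ := hR.toField
  exact ffk2 (K := R) (φ := φ) (s := s) hp hφ hs1 hs2 hne fun j u hu =>
    D4.dl (K := R) (h j u hu) (left_ne_zero_of_mul_eq_one hu)

/-- conjugation as an automorphism of `sp A` -/
theorem exists_cj {A : Subgroup (End F V)ˣ} {x : (End F V)ˣ} (hN : ∀ a ∈ A, x * a * x⁻¹ ∈ A) :
    ∃ φ : sp A ≃+* sp A, ∀ (j : ℕ) (a : sp A), (((φ ^ j) a : sp A) : End F V) =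
      ((x ^ j : (End F V)ˣ) : End F V) * a * (((x ^ j)⁻¹ : (End F V)ˣ) : End F V) := by
  let f : sp A →+* sp A :=
    { toFun a := ⟨(x : End F V) * a * ((x⁻¹ : (End F V)ˣ) : End F V), sp_conj hN a.2⟩
      map_one' := Subtype.ext (by simp)
      map_mul' a b := Subtype.ext (by simp [mul_assoc])
      map_zero' := Subtype.ext (by simp)
      map_add' a b := Subtype.ext (by simp [mul_add, add_mul]) }
  have hf : Function.Injective f := fun a b e => Subtype.ext (by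
    simpa [f] using congrArg Subtype.val e)
  refine ⟨RingEquiv.ofBijective f (Finite.injective_iff_bijective.1 hf), fun j => ?_⟩
  induction j with
  | zero => simp
  | succ j ih =>
    intro a
    rw [pow_succ, pow_succ, mul_inv_rev, Units.val_mul, Units.val_mul]
    refine (ih (f a)).trans ?_
    simp only [f, RingHom.coe_mk, MonoidHom.coe_mk, OneHom.coe_mk, mul_assoc]

/-- `K = sp A` is a finite field of order `|F| ^ n` (`IsField.toField`), conjugation by `x` is a ring automorphism `φ ≠ 1` of `K` with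
`φ ^ p = 1`, fixing the scalars; `⁅x ^ j, u⁆ = dl (φ ^ j) u`.  `Lin`: `ffk1`, `|F| ^ n ∈ {9, 49}`, `n ≥ 2`, `n = 2 → |F| ≥ 4`.
`Uni`: `s = adj` on `K` (`adj_mem_sp`), `s ≠ 1`, `s ≠ φ` (look at scalars), `u s u = 1 ↔ u ∈ U`; `ffk2`: `|F| ^ n = 64`, `n ≥ 3`,
`|F| = q² ≥ 4` force `n = 3`, `|F| = 4`, excluded. -/
theorem ff (h : Kd U) {A : Subgroup (End F V)ˣ} (hA : A ≤ U) (hZ : Fld (sp A)) (hn : finrank F (sp A) = finrank F V)
    {p : ℕ} (hp : p.Prime) {x : (End F V)ˣ} (hx : x ∈ U) (hN : ∀ a ∈ A, x * a * x⁻¹ ∈ A) (hC : ∃ a ∈ A, ¬ Commute x a)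
    (hxp : x ^ p ∈ ZZ U)
    (hd : ∀ (j : ℕ), ∀ u ∈ U, (u : End F V) ∈ sp A → ⁅x ^ j, ⁅x ^ j, ⁅x ^ j, ⁅x ^ j, u⁆⁆⁆⁆ = 1) :
    finrank F V = 2 ∧ Nat.card F = 7 := by
  have := h.nontrivial
  have hK := hZ.u4_isField
  obtain ⟨φ, hφ⟩ := exists_cj hN
  have := Fact.mk hp
  have hφ1 : ∀ a : sp A, ((φ a : sp A) : End F V) = (x : End F V) * a * ((x⁻¹ : (End F V)ˣ) : End F V) :=
    fun a => by simpa using hφ 1 a
  have ho : orderOf φ = p := by
    refine orderOf_eq_prime (RingEquiv.ext fun a => Subtype.ext ?_) fun e => ?_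
    · rw [hφ, (ZZ_comm' hxp _).eq, Units.mul_inv_cancel_right]
      rfl
    · obtain ⟨a, ha, hna⟩ := hC
      have := hφ1 ⟨a, mem_sp ha⟩
      rw [e] at this
      refine hna (Units.ext ?_)
      change (a : End F V) = _ at this
      rw [Units.val_mul, Units.val_mul]
      exact Units.mul_inv_eq_iff_eq_mul _ |>.1 this.symm
  have h4 : ∀ (j : ℕ) (u : sp A), Un U (u : End F V) → D4 (φ ^ j) u := by
    rintro j ⟨_, hu⟩ ⟨u, huU, rfl⟩
    have e : ∀ w : (End F V)ˣ, ((⁅x ^ j, w⁆ : (End F V)ˣ) : End F V) =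
        ((x ^ j : (End F V)ˣ) : End F V) * w * (((x ^ j)⁻¹ : (End F V)ˣ) : End F V) *
          ((w⁻¹ : (End F V)ˣ) : End F V) := fun w => by
      rw [commutatorElement_def]
      simp only [Units.val_mul]
    have st : ∀ w : (End F V)ˣ, (hw : (w : End F V) ∈ sp A) →
        ∃ hc : ((⁅x ^ j, w⁆ : (End F V)ˣ) : End F V) ∈ sp A,
          (⟨_, hc⟩ : sp A) * ⟨_, hw⟩ = (φ ^ j) ⟨_, hw⟩ := fun w hw => by
      refine ⟨?_, Subtype.ext ?_⟩
      · rw [e, ← hφ j ⟨_, hw⟩]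
        exact mul_mem (Subtype.prop _) (inv_mem_alg hw)
      · change ((⁅x ^ j, w⁆ : (End F V)ˣ) : End F V) * w = _
        rw [hφ, e, Units.inv_mul_cancel_right]
    obtain ⟨h1, e1⟩ := st u hu
    obtain ⟨h2, e2⟩ := st _ h1
    obtain ⟨h3, e3⟩ := st _ h2
    obtain ⟨h4, e4⟩ := st _ h3
    refine ⟨_, _, _, e1, e2, e3, ?_⟩
    rw [← e4]
    refine Subtype.ext ?_
    change ((⁅x ^ j, ⁅x ^ j, ⁅x ^ j, ⁅x ^ j, u⁆⁆⁆⁆ : (End F V)ˣ) : End F V) * _ = _
    rw [hd j u huU hu, Units.val_one, one_mul]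
  have hc : Nat.card (sp A) = Nat.card F ^ finrank F V := by
    rw [← hn]
    exact Module.natCard_eq_pow_finrank
  have hq : 2 ≤ Nat.card F := Finite.one_lt_card
  rcases h with ⟨hU, n2, n4⟩ | ⟨⟨σ, B, hB⟩, n3, n4⟩
  · have k := ffk1' hK hp ho fun j u hu => h4 j u (by
      obtain ⟨b, hb, e⟩ := hZ.2 _ u.2 fun e => hu (Subtype.ext e)
      exact ⟨⟨u, b, e, (hZ.1 _ hb _ u.2).eq.trans e⟩, by simp [hU], rfl⟩)
    rw [hc] at k
    generalize Nat.card F = q at *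
    generalize finrank F V = n at *
    have k1 : q ^ 2 ≤ q ^ n := Nat.pow_le_pow_right (by omega) n2
    have k2 : 2 ^ n ≤ q ^ n := Nat.pow_le_pow_left hq n
    have k3 : q ≤ 7 := by
      by_contra hq'
      have : 8 ^ 2 ≤ q ^ 2 := Nat.pow_le_pow_left (by omega) 2
      omega
    have k4 : n ≤ 5 := by
      by_contra hn'
      have : 2 ^ 6 ≤ 2 ^ n := Nat.pow_le_pow_right (by omega) (by omega)
      omega
    clear k1 k2 hc hn
    interval_cases q <;> interval_cases n <;> simp at k n4 ⊢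
  · exfalso
    have ha : ∀ a ∈ sp A, hB.adj a ∈ sp A := fun a ha => hB.adj_mem_sp hA ha
    have hs2 : ∀ a, hB.u4_s hZ ha (hB.u4_s hZ ha a) = a := fun a => Subtype.ext (hB.adj_adj _)
    let s : sp A ≃+* sp A := RingEquiv.ofBijective (hB.u4_s hZ ha) (Function.Involutive.bijective hs2)
    have hs : ∀ a : sp A, ((s a : sp A) : End F V) = hB.adj a := fun _ => rfl
    have hne : ∀ ψ : sp A ≃+* sp A, (∀ c : F, ψ (c • 1) = c • 1) → ψ ≠ s := fun ψ hψ e =>
      hB.1.ne_id (RingHom.ext fun c => by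
        have e1 := hs (c • 1)
        rw [← e, hψ] at e1
        change c • (1 : End F V) = hB.adj (c • 1) at e1
        rw [hB.adj_smul, hB.adj_one] at e1
        exact (smul_left_injective F (one_ne_zero (α := End F V)) e1).symm)
    have k := ffk2' hK (s := s) hp ho (hne 1 fun _ => rfl).symm hs2
      (hne φ fun c => Subtype.ext (by rw [hφ1]; simp)) fun j u hu => h4 j u (by
        rw [hB.un_iff, (hZ.1 _ (ha _ u.2) _ u.2).eq]
        exact congrArg Subtype.val hu)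
    obtain ⟨r, hr⟩ := exists_isBar_of_invol hB.1.ne_id hB.1.invol
    have k0 : 4 ≤ Nat.card F := by
      rw [hr.card]
      exact Nat.pow_le_pow_left hr.two_le 2
    rw [hc] at k
    generalize Nat.card F = q at *
    generalize finrank F V = n at *
    have k2 : 4 ^ n ≤ q ^ n := Nat.pow_le_pow_left k0 n
    have k4 : n ≤ 3 := by
      by_contra hn'
      have : 4 ^ 4 ≤ 4 ^ n := Nat.pow_le_pow_right (by omega) (by omega)
      omega
    obtain rfl : n = 3 := by omega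
    exact n4 ⟨rfl, Nat.pow_left_injective three_ne_zero (k.trans (by norm_num))⟩

end Cfsg.Lib.WB
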