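import Cfsg.Agent.Lib.WB.Adm
import Cfsg.Agent.Lib.WB.GSa

/-!
# S3694: field case arithmetic, Gauss elements, class-two groups
-/

set_option linter.unusedSectionVars false

namespace Cfsg.Lib.WB

open Module Cfsg.Lib.Unitary Cfsg.Lib.Transfer
open scoped commutatorElement

variable {F V : Type*} [Field F] [AddCommGroup V] [Module F V] [Finite F] [Finite V]
  {U : Subgroup (End F V)ˣ}

/-- the Gauss sum -/
noncomputable def gsG (p : ℕ) (w : F) (X : End F V) : End F V :=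
  ∑ k ∈ Finset.range p, w ^ (k + 1).choose 2 • X ^ k

theorem gs_choose (k : ℕ) : (k + 1).choose 2 = k.choose 2 + k := by
  rw [Nat.choose_succ_succ' k 1, Nat.choose_one_right, add_comm]

theorem gs_shift {p : ℕ} {w : F} (hw : w ^ p = 1) {X : End F V} (hX : w ^ p.choose 2 • X ^ p = 1) :
    gsG p w X = (w • X) * gsG p w (w • X) := by
  have e1 := Finset.sum_range_succ (fun k => w ^ (k + 1).choose 2 • X ^ k) p
  have e2 := Finset.sum_range_succ' (fun k => w ^ (k + 1).choose 2 • X ^ k) p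
  rw [gs_choose p, pow_add, hw, mul_one, hX] at e1
  rw [e1] at e2
  have e3 : w ^ (0 + 1).choose 2 • X ^ 0 = 1 := by simp
  rw [e3] at e2
  unfold gsG
  rw [add_right_cancel e2, Finset.mul_sum]
  refine Finset.sum_congr rfl fun k _ => ?_
  rw [gs_choose (k + 1), mul_smul_comm, ← pow_succ', smul_pow, smul_smul, pow_add]

theorem gs_shift_pow {p : ℕ} {w : F} (hw : w ^ p = 1) {X : End F V} (hX : w ^ p.choose 2 • X ^ p = 1) (k : ℕ) :
    gsG p w X = (w ^ (k + 1).choose 2 • X ^ k) * gsG p w (w ^ k • X) := by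
  induction k with
  | zero => simp
  | succ k ih =>
    have h1 : w ^ p.choose 2 • (w ^ k • X) ^ p = 1 := by
      rw [smul_pow, ← pow_mul, mul_comm k p, pow_mul, hw, one_pow, one_smul, hX]
    rw [ih, gs_shift hw h1, smul_smul, ← pow_succ', ← mul_assoc, smul_mul_smul_comm, ← pow_succ,
      gs_choose (k + 1), ← pow_add]

theorem gs_norm {p : ℕ} (hp : p.Prime) {w : F} (hw : IsPrimitiveRoot w p) {X Y : End F V}
    (hX : w ^ p.choose 2 • X ^ p = 1) (hY : Y * X = 1) :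
    gsG p w⁻¹ Y * gsG p w X = (p : F) • 1 := by
  have w0 : w ≠ 0 := hw.ne_zero hp.ne_zero
  have hYX : ∀ k : ℕ, Y ^ k * X ^ k = 1 := fun k => by
    induction k with
    | zero => simp
    | succ k ih => rw [pow_succ, pow_succ', mul_assoc, ← mul_assoc Y, hY, one_mul, ih]
  have e1 : gsG p w⁻¹ Y * gsG p w X = ∑ k ∈ Finset.range p, gsG p w (w ^ k • X) := by
    conv_lhs => rw [gsG, Finset.sum_mul]
    refine Finset.sum_congr rfl fun k _ => ?_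
    rw [gs_shift_pow hw.pow_eq_one hX k, ← mul_assoc, smul_mul_smul_comm, hYX, ← mul_pow, inv_mul_cancel₀ w0,
      one_pow, one_smul, one_mul]
  rw [e1]
  unfold gsG
  rw [Finset.sum_comm, Finset.sum_eq_single 0]
  · simp [Finset.sum_const, Nat.cast_smul_eq_nsmul]
  · intro l hl hl0
    have h1 : IsPrimitiveRoot (w ^ l) p :=
      hw.pow_of_coprime l ((Nat.coprime_comm.1 ((Nat.Prime.coprime_iff_not_dvd hp).2
        (Nat.not_dvd_of_pos_of_lt (Nat.pos_of_ne_zero hl0) (Finset.mem_range.1 hl)))))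
    have h2 := h1.geom_sum_eq_zero hp.one_lt
    rw [← Finset.smul_sum]
    have h3 : ∑ k ∈ Finset.range p, (w ^ k • X) ^ l = (∑ k ∈ Finset.range p, (w ^ l) ^ k) • X ^ l := by
      rw [Finset.sum_smul]
      refine Finset.sum_congr rfl fun k _ => ?_
      rw [smul_pow, ← pow_mul, ← pow_mul, mul_comm]
    rw [h3, h2, zero_smul, smul_zero]
  · intro h0
    exact absurd (Finset.mem_range.2 hp.pos) h0

theorem gs_semi {p : ℕ} {w : F} {y X X' : End F V} (h : SemiconjBy y X' X) : y * gsG p w X' = gsG p w X * y := by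
  unfold gsG
  rw [Finset.mul_sum, Finset.sum_mul]
  refine Finset.sum_congr rfl fun k _ => ?_
  rw [mul_smul_comm, smul_mul_assoc, (h.pow_right k).eq]

theorem gs_pow_left {G : Type*} [Group G] {a b d : G} (h : b * a = d * (a * b)) (hb : Commute d b) (n : ℕ) :
    b ^ n * a = d ^ n * (a * b ^ n) := by
  induction n with
  | zero => simp
  | succ n ih =>
    rw [pow_succ' b, mul_assoc, ih, ← mul_assoc, ← (hb.pow_left n).eq, mul_assoc, ← mul_assoc b, h, pow_succ d]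
    simp only [mul_assoc]

theorem gs_mul_pow {G : Type*} [Group G] {a b d : G} (h : b * a = d * (a * b)) (ha : Commute d a) (hb : Commute d b)
    (n : ℕ) : (a * b) ^ n = d ^ n.choose 2 * (a ^ n * b ^ n) := by
  induction n with
  | zero => simp
  | succ n ih =>
    have e := gs_pow_left h hb n
    have e2 : a ^ n * d ^ n = d ^ n * a ^ n := (ha.pow_pow n n).eq.symm
    rw [pow_succ, ih, gs_choose, pow_add, pow_succ a, pow_succ b]
    calc d ^ n.choose 2 * (a ^ n * b ^ n) * (a * b) = d ^ n.choose 2 * (a ^ n * (b ^ n * a) * b) := by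
          simp only [mul_assoc]
      _ = d ^ n.choose 2 * ((a ^ n * d ^ n) * (a * b ^ n) * b) := by rw [e]; simp only [mul_assoc]
      _ = _ := by rw [e2]; simp only [mul_assoc]

theorem gs_comm_eq {G : Type*} [Group G] (a b : G) : a * b = ⁅a, b⁆ * (b * a) := by
  rw [commutatorElement_def]; group

theorem gs_comm_pow {p : ℕ} {a b : (End F V)ˣ} (hc : ⁅a, b⁆ ∈ ZZ U) (ha : a ^ p ∈ ZZ U) : ⁅a, b⁆ ^ p = 1 := by
  have e := gs_pow_left (gs_comm_eq a b) (ZZ_comm hc a) p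
  rw [(ZZ_comm ha b).eq] at e
  exact (mul_eq_right.1 e.symm)

theorem gs_comm_symm {a b : (End F V)ˣ} (hc : ⁅a, b⁆ ∈ ZZ U) : ⁅b, a⁆ ∈ ZZ U := by
  rw [← commutatorElement_inv]
  exact (ZZ U).inv_mem hc

theorem gs_comm_pow' {p : ℕ} {a b : (End F V)ˣ} (hc : ⁅a, b⁆ ∈ ZZ U) (hb : b ^ p ∈ ZZ U) : ⁅a, b⁆ ^ p = 1 := by
  rw [← commutatorElement_inv, inv_pow, gs_comm_pow (gs_comm_symm hc) hb, inv_one]

theorem gs_scalar_pow (h : Kd U) {z : (End F V)ˣ} {c : F} (hz : (z : End F V) = c • 1) {n : ℕ} (hn : z ^ n = 1) :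
    c ^ n = 1 := by
  have e := congrArg Units.val hn
  rw [Units.val_pow_eq_pow_val, hz, smul_pow, one_pow, Units.val_one] at e
  exact smul_one_inj h (by rw [e, one_smul])

theorem gs_neg_one_mem (h : Kd U) : (-1 : (End F V)ˣ) ∈ ZZ U := by
  refine ⟨?_, -1, by simp⟩
  rcases h with h | ⟨⟨σ, B, h⟩, -⟩
  · rw [h.1]; trivial
  · refine Un.mem ?_
    have := h.un_smul_one' (c := -1) (by simp)
    simpa using this

theorem gs_pm (h : Kd U) {z : (End F V)ˣ} (hz : z ∈ ZZ U) (h2 : z ^ 2 = 1) : z = 1 ∨ z = -1 := by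
  obtain ⟨-, c, hc⟩ := hz
  rcases sq_eq_one_iff.1 (gs_scalar_pow h hc h2) with e | e
  · left; ext1; simp [hc, e]
  · right; ext1; simp [hc, e]

/-- `t` is a square in `ZZ U` -/
def gsSq (U : Subgroup (End F V)ˣ) (t : (End F V)ˣ) : Prop := ∃ z ∈ ZZ U, z ^ 2 * t = 1

theorem gsSq.mul {s t : (End F V)ˣ} (hs : gsSq U s) (ht : gsSq U t) : gsSq U (s * t) := by
  obtain ⟨z, hz, e⟩ := hs
  obtain ⟨w, hw, e'⟩ := ht
  refine ⟨z * w, (ZZ U).mul_mem hz hw, ?_⟩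
  rw [(ZZ_comm hz w).mul_pow, mul_assoc, ← mul_assoc (w ^ 2), (ZZ_comm ((ZZ U).pow_mem hw 2) s).eq, mul_assoc, e',
    mul_one, e]

theorem gsSq.of_mul {s t : (End F V)ˣ} (hs : gsSq U s) (ht : gsSq U (s * t)) : gsSq U t := by
  obtain ⟨z, hz, e⟩ := hs
  obtain ⟨w, hw, e'⟩ := ht
  refine ⟨w * z⁻¹, (ZZ U).mul_mem hw ((ZZ U).inv_mem hz), ?_⟩
  rw [(ZZ_comm hw z⁻¹).mul_pow, inv_pow, ← eq_inv_of_mul_eq_one_right e, mul_assoc, e']

theorem gs_gen (h : Kd U) : ∃ ζ ∈ ZZ U, ∀ z ∈ ZZ U, ∃ m : ℕ, ζ ^ m = z := by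
  haveI := isCyclic_ZZ h
  obtain ⟨ζ, hζ⟩ := IsCyclic.exists_monoid_generator (α := ZZ U)
  refine ⟨ζ.1, ζ.2, fun z hz => ?_⟩
  obtain ⟨m, hm⟩ := hζ ⟨z, hz⟩
  exact ⟨m, congrArg Subtype.val hm⟩

theorem gs_root {ζ : (End F V)ˣ} (hζ : ζ ∈ ZZ U) {p m : ℕ} (hm : p ∣ m) : ∃ z ∈ ZZ U, z ^ p * ζ ^ m = 1 := by
  obtain ⟨k, rfl⟩ := hm
  exact ⟨(ζ ^ k)⁻¹, (ZZ U).inv_mem ((ZZ U).pow_mem hζ k), by rw [inv_pow, ← pow_mul, mul_comm k p, inv_mul_cancel]⟩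

theorem gsSq.of_not (h : Kd U) {s t : (End F V)ˣ} (hs : s ∈ ZZ U) (ht : t ∈ ZZ U) (h1 : ¬ gsSq U s)
    (h2 : ¬ gsSq U t) : gsSq U (s * t) := by
  obtain ⟨ζ, hζ, hg⟩ := gs_gen h
  obtain ⟨m, rfl⟩ := hg s hs
  obtain ⟨n, rfl⟩ := hg t ht
  have h3 : ¬ 2 ∣ m := fun k => h1 (gs_root hζ k)
  have h4 : ¬ 2 ∣ n := fun k => h2 (gs_root hζ k)
  rw [← pow_add]
  exact gs_root hζ (by omega)

theorem gsSq_mul (h : Kd U) {s t : (End F V)ˣ} (hs : s ∈ ZZ U) (ht : t ∈ ZZ U) :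
    gsSq U (s * t) ↔ (gsSq U s ↔ gsSq U t) := by
  refine ⟨fun k => ⟨fun k1 => k1.of_mul k, fun k2 => k2.of_mul (by rwa [← (ZZ_comm hs t).eq])⟩, fun k => ?_⟩
  by_cases k1 : gsSq U s
  · exact k1.mul (k.1 k1)
  · exact gsSq.of_not h hs ht k1 fun k2 => k1 (k.2 k2)

theorem gs_sg_iff {p : ℕ} {x : (End F V)ˣ} : Sg U p x ↔ ∃ z ∈ ZZ U, z ^ p * x ^ p = 1 :=
  exists_congr fun _ => and_congr_right fun hz => by rw [(ZZ_comm hz x).mul_pow]

theorem gs_scl_odd {p : ℕ} (hp : p.Prime) (h2 : p ≠ 2) {x : (End F V)ˣ} : Scl U p x ↔ Sg U p x :=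
  exists_congr fun _ => and_congr_right fun _ => by
    rw [(hp.odd_of_ne_two h2).neg_one_pow, neg_neg, one_smul, Units.val_eq_one]

theorem gs_scl_two {x : (End F V)ˣ} : Scl U 2 x ↔ gsSq U (-1 * x ^ 2) :=
  exists_congr fun z => and_congr_right fun hz => by
    rw [(ZZ_comm hz x).mul_pow, neg_one_mul, mul_neg, neg_eq_iff_eq_neg, Units.ext_iff]
    simp

theorem gs_gd_two : Gd U 2 ↔ gsSq U (-1) := by
  unfold Gd gsSq
  rw [or_iff_right (by simp)]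
  refine exists_congr fun z => and_congr_right fun _ => ?_
  rw [mul_neg, mul_one, neg_eq_iff_eq_neg, Units.ext_iff]
  simp

theorem gs_sq_mul (h : Kd U) {a b : (End F V)ˣ} (hc : ⁅a, b⁆ ∈ ZZ U) (hn : ¬ Commute a b) (ha : a ^ 2 ∈ ZZ U) :
    (a * b) ^ 2 = -1 * (a ^ 2 * b ^ 2) := by
  have hc' := gs_comm_symm hc
  rw [gs_mul_pow (gs_comm_eq b a) (ZZ_comm hc' a) (ZZ_comm hc' b)]
  rcases gs_pm h hc' (gs_comm_pow' hc' ha) with e | e
  · exact absurd (commutatorElement_eq_one_iff_commute.1 e).symm hn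
  · rw [e]; rfl

theorem gs_odd_mul {p : ℕ} (hp : p.Prime) (h2 : p ≠ 2) {a b : (End F V)ˣ} (hc : ⁅a, b⁆ ∈ ZZ U)
    (ha : a ^ p ∈ ZZ U) : (a * b) ^ p = a ^ p * b ^ p := by
  have hc' := gs_comm_symm hc
  obtain ⟨k, hk⟩ : p ∣ p.choose 2 := hp.dvd_choose_self two_ne_zero (lt_of_le_of_ne hp.two_le h2.symm)
  rw [gs_mul_pow (gs_comm_eq b a) (ZZ_comm hc' a) (ZZ_comm hc' b), hk, pow_mul, gs_comm_pow' hc' ha, one_pow,
    one_mul]

theorem Sg.gs_mem {p : ℕ} {a : (End F V)ˣ} (ha : Sg U p a) : a ^ p ∈ ZZ U := by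
  obtain ⟨z, hz, e⟩ := gs_sg_iff.1 ha
  rw [eq_inv_of_mul_eq_one_right e]
  exact (ZZ U).inv_mem ((ZZ U).pow_mem hz p)

/-- Gauss element.  `g₀ = ∑_{k<p} ω ^ (k (k+1) / 2) • x ^ k` satisfies `g₀(ω⁻¹ x) = x g₀(x)`, hence
`g₀ y = y g₀(ω^{-j} x) = ω^{-j(j-1)/2} • y x^j g₀`.  With `g₀' = ∑ ω^{-k(k+1)/2} • x^{-k}` one has `g₀' g₀ = p`, and `adj g₀ = g₀'` in the
unitary case, so `g = λ • g₀` with `λ σ λ = p⁻¹` (`exists_norm_eq`).  Alternative for odd `p`: spectral idempotents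
`e_i = p⁻¹ ∑_k ω^{-ik} x^k` (`i : ZMod p`, admissible, `x e_i = ω^i e_i`, `y e_i = e_{i-j} y`), `g = ∑ ω^{-i²/2} e_i`; for `p = 2`,
`g = λ (1 - x)`, `(1 + x)(1 - x) = 2`. -/
theorem gauss (h : Kd U) {p : ℕ} (hp : p.Prime) {ω : F} (hω : IsPrimitiveRoot ω p) (hu : Un U (ω • (1 : End F V)))
    {x : (End F V)ˣ} (hx : x ∈ U) (hxp : ((x ^ p : (End F V)ˣ) : End F V) = (-(-1) ^ p : F) • (1 : End F V)) :
    ∃ g ∈ U, (∀ a : End F V, Commute a (x : End F V) → Commute a (g : End F V)) ∧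
      ∀ (j : ℕ) (y : End F V), y * x = ω ^ j • ((x : End F V) * y) →
        ∃ c : F, (g : End F V) * y = c • (y * (x : End F V) ^ j * g) := by
  have w0 : ω ≠ 0 := hω.ne_zero hp.ne_zero
  have p0 : (p : F) ≠ 0 := by
    haveI : NeZero p := ⟨hp.ne_zero⟩
    exact hω.neZero'.out
  have hX : ω ^ p.choose 2 • (x : End F V) ^ p = 1 := by
    rw [← Units.val_pow_eq_pow_val, hxp, smul_smul]
    by_cases h2 : p = 2
    · subst h2
      rw [hω.eq_neg_one_of_two_right]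
      simp
    · obtain ⟨k, hk⟩ : p ∣ p.choose 2 := hp.dvd_choose_self two_ne_zero (lt_of_le_of_ne hp.two_le (Ne.symm h2))
      rw [hk, pow_mul, hω.pow_eq_one, (hp.odd_of_ne_two h2).neg_one_pow]
      simp
  have hN := gs_norm hp hω hX x.inv_mul
  have ex : ∃ l : F, Un U (l • gsG p ω (x : End F V)) := by
    rcases h with h | ⟨⟨σ, B, h'⟩, h3, h4⟩
    · refine ⟨1, h.un_iff.2 ?_⟩
      rw [one_smul]
      refine IsUnit.of_mul_eq_one_right ((p : F)⁻¹ • gsG p ω⁻¹ ((x⁻¹ : (End F V)ˣ) : End F V)) ?_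
      rw [smul_mul_assoc, hN, smul_smul, inv_mul_cancel₀ p0, one_smul]
    · haveI : Nontrivial V := Kd.nontrivial (Or.inr ⟨⟨σ, B, h'⟩, h3, h4⟩)
      obtain ⟨q, hq⟩ := exists_isBar_of_invol h'.1.ne_id h'.1.invol
      obtain ⟨l, hl⟩ := hq.exists_norm_eq (μ := (p : F)⁻¹) (by simp)
      have hσ : σ ω = ω⁻¹ := eq_inv_of_mul_eq_one_right (h'.un_smul_one.1 hu)
      have hadj : h'.adj (gsG p ω (x : End F V)) = gsG p ω⁻¹ ((x⁻¹ : (End F V)ˣ) : End F V) := by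
        unfold gsG
        rw [h'.adj_sum]
        refine Finset.sum_congr rfl fun k _ => ?_
        rw [h'.adj_smul, h'.adj_pow, h'.adj_unit hx, map_pow, hσ]
      refine ⟨l, h'.un_iff.2 ?_⟩
      rw [h'.adj_smul, hadj, smul_mul_smul_comm, hN, smul_smul, mul_comm (σ l), hl, inv_mul_cancel₀ p0, one_smul]
  obtain ⟨l, g, hg, eg⟩ := ex
  refine ⟨g, hg, fun a ha => ?_, fun j y hy => ?_⟩
  · rw [eg]
    exact Commute.smul_right (gs_semi ha) l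
  · have h1 : SemiconjBy y ((ω⁻¹) ^ j • (x : End F V)) x := by
      unfold SemiconjBy
      rw [mul_smul_comm, hy, smul_smul, ← mul_pow, inv_mul_cancel₀ w0, one_pow, one_smul]
    have h2 : ω ^ p.choose 2 • ((ω⁻¹) ^ j • (x : End F V)) ^ p = 1 := by
      rw [smul_pow, ← pow_mul, mul_comm j p, pow_mul, inv_pow, hω.pow_eq_one, inv_one, one_pow, one_smul, hX]
    have h3 := gs_shift_pow hω.pow_eq_one h2 j
    rw [smul_smul (ω ^ j), ← mul_pow, mul_inv_cancel₀ w0, one_pow, one_smul, smul_pow, smul_smul] at h3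
    refine ⟨ω ^ (j + 1).choose 2 * (ω⁻¹ ^ j) ^ j, ?_⟩
    rw [eg, smul_mul_assoc, ← gs_semi h1, h3]
    simp only [mul_smul_comm, smul_mul_assoc, mul_assoc]
    rw [smul_comm]

/-- the same in group form -/
theorem gauss' (h : Kd U) {p : ℕ} (hp : p.Prime) {ω : F} (hω : IsPrimitiveRoot ω p) (hu : Un U (ω • (1 : End F V)))
    {x : (End F V)ˣ} (hx : x ∈ U) (hs : Scl U p x) :
    ∃ g ∈ U, (∀ a : End F V, Commute a (x : End F V) → Commute a (g : End F V)) ∧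
      ∀ (j : ℕ), ∀ y ∈ U, (y : End F V) * x = ω ^ j • ((x : End F V) * y) → ∃ z ∈ ZZ U, g * y * g⁻¹ = z * y * x ^ j := by
  obtain ⟨z, hz, e⟩ := hs
  have hzx : z * x ∈ U := U.mul_mem (ZZ_le hz) hx
  obtain ⟨g, hg, h1, h2⟩ := gauss h hp hω hu hzx e
  refine ⟨g, hg, fun a ha => h1 a ?_, fun j y hy hj => ?_⟩
  · rw [Units.val_mul]
    exact (ZZ_comm' hz a).symm.mul_right ha
  · obtain ⟨c, hc⟩ := h2 j y (by
      rw [Units.val_mul, ← mul_assoc, ← (ZZ_comm' hz (y : End F V)).eq, mul_assoc, hj, mul_smul_comm, mul_assoc])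
    have k : g * y * (y * (z * x) ^ j * g)⁻¹ ∈ ZZ U := by
      refine ⟨U.mul_mem (U.mul_mem hg hy) (U.inv_mem (U.mul_mem (U.mul_mem hy (U.pow_mem hzx j)) hg)), c, ?_⟩
      rw [Units.val_mul, Units.val_mul, hc, smul_mul_assoc, ← Units.val_pow_eq_pow_val, ← Units.val_mul,
        ← Units.val_mul, Units.mul_inv]
    refine ⟨g * y * (y * (z * x) ^ j * g)⁻¹ * z ^ j, (ZZ U).mul_mem k ((ZZ U).pow_mem hz j), ?_⟩
    rw [mul_assoc _ (z ^ j), (ZZ_comm ((ZZ U).pow_mem hz j) y).eq, (ZZ_comm hz x).mul_pow]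
    group

/-- `⁅a, b⁆ = ω • 1` with `ω ≠ 1`, and `ω ^ p = 1` since `⁅a ^ p, b⁆ = ⁅a, b⁆ ^ p`. -/
theorem exists_omega (h : Kd U) {p : ℕ} (hp : p.Prime) {a b : (End F V)ˣ} (hc : ⁅a, b⁆ ∈ ZZ U) (ha : a ^ p ∈ ZZ U)
    (hn : ¬ Commute a b) : ∃ ω : F, IsPrimitiveRoot ω p ∧ Un U (ω • (1 : End F V)) := by
  have h1 := gs_comm_pow hc ha
  obtain ⟨hU, c, e⟩ := hc
  haveI := Fact.mk hp
  have h2 : c ≠ 1 := by
    rintro rfl
    exact hn (commutatorElement_eq_one_iff_commute.1 (Units.ext (by rw [e, one_smul, Units.val_one])))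
  refine ⟨c, ?_, ⟨_, hU, e⟩⟩
  rw [← orderOf_eq_prime (gs_scalar_pow h e h1) h2]
  exact IsPrimitiveRoot.orderOf c

/-- `⁅y, x⁆ = c • 1`, `c ^ p = 1`, so `c = ω ^ j` (`IsPrimitiveRoot.eq_pow_of_pow_eq_one`). -/
theorem exists_omega_pow (h : Kd U) {p : ℕ} (hp : p.Prime) {ω : F} (hω : IsPrimitiveRoot ω p) {x y : (End F V)ˣ}
    (hc : ⁅y, x⁆ ∈ ZZ U) (hx : x ^ p ∈ ZZ U) :
    ∃ j : ℕ, (y : End F V) * x = ω ^ j • ((x : End F V) * y) ∧ (¬ Commute y x → ¬ p ∣ j) := by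
  have h1 := gs_comm_pow' hc hx
  obtain ⟨-, c, e⟩ := hc
  haveI : NeZero p := ⟨hp.ne_zero⟩
  obtain ⟨j, -, hj⟩ := hω.eq_pow_of_pow_eq_one (gs_scalar_pow h e h1)
  have h2 : (y : End F V) * x = ω ^ j • ((x : End F V) * y) := by
    have := congrArg Units.val (gs_comm_eq y x)
    rw [Units.val_mul, Units.val_mul, Units.val_mul, e, smul_mul_assoc, one_mul, ← hj] at this
    exact this
  refine ⟨j, h2, fun hn hd => hn ?_⟩
  rw [(hω.pow_eq_one_iff_dvd j).2 hd, one_smul] at h2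
  exact Units.ext h2

/-- `w ↦ ⁅w, ·⁆` embeds the finite abelian group `W / ZZ` into `Hom (W / ZZ, ZZ U)`, which has at most `|W / ZZ|` elements as `ZZ U` is
cyclic (`isCyclic_ZZ`; homs to `Fˣ` are linearly independent functions, `linearIndependent_monoidHom`); so it is onto. -/
theorem cnt (h : Kd U) {W : Subgroup (End F V)ˣ} (hZ : ZZ U ≤ W) (hc : ∀ a ∈ W, ∀ b ∈ W, ⁅a, b⁆ ∈ ZZ U)
    (hz : ∀ a ∈ W, (∀ b ∈ W, Commute a b) → a ∈ ZZ U) {g : (End F V)ˣ} (hg : ∀ a ∈ W, ⁅g, a⁆ ∈ ZZ U) :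
    ∃ w ∈ W, ∀ a ∈ W, Commute (w⁻¹ * g) a := by
  classical
  obtain ⟨φ, hφ, -⟩ := exists_scHom h
  haveI hN : ((ZZ U).subgroupOf W).Normal := ⟨fun a ha b => by
    rw [Subgroup.mem_subgroupOf] at ha ⊢
    exact conj_mem_ZZ.2 ha⟩
  let Q := W ⧸ (ZZ U).subgroupOf W
  let χ₀ : ∀ t : (End F V)ˣ, (∀ a ∈ W, ⁅t, a⁆ ∈ ZZ U) → (W →* ZZ U) := fun t ht =>
    MonoidHom.mk' (fun a => ⟨⁅t, a.1⁆, ht _ a.2⟩) fun a b => Subtype.ext (by
      change ⁅t, a.1 * b.1⁆ = ⁅t, a.1⁆ * ⁅t, b.1⁆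
      have e := (ZZ_comm (ht _ b.2) a.1⁻¹).eq
      calc ⁅t, a.1 * b.1⁆ = ⁅t, a.1⁆ * (a.1 * (⁅t, b.1⁆ * a.1⁻¹)) := by
            simp only [commutatorElement_def]; group
        _ = _ := by rw [e, mul_inv_cancel_left])
  let χ : ∀ t : (End F V)ˣ, (∀ a ∈ W, ⁅t, a⁆ ∈ ZZ U) → (Q →* F) := fun t ht =>
    QuotientGroup.lift _ (φ.comp (χ₀ t ht)) fun a ha => by
      rw [Subgroup.mem_subgroupOf] at ha
      have : χ₀ t ht a = 1 := Subtype.ext (commutatorElement_eq_one_iff_commute.2 (ZZ_comm ha t).symm)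
      rw [MonoidHom.mem_ker, MonoidHom.comp_apply, this, map_one]
  have key : ∀ t ht t' ht', χ t ht = χ t' ht' → ∀ a ∈ W, Commute (t⁻¹ * t') a := by
    intro t ht t' ht' e a ha
    have e1 : φ (χ₀ t ht ⟨a, ha⟩) = φ (χ₀ t' ht' ⟨a, ha⟩) :=
      DFunLike.congr_fun e (QuotientGroup.mk (⟨a, ha⟩ : W))
    have e2 : ⁅t, a⁆ = ⁅t', a⁆ := congrArg Subtype.val (hφ e1)
    rw [commutatorElement_def, commutatorElement_def, mul_left_inj] at e2
    calc t⁻¹ * t' * a = t⁻¹ * (t' * a * t'⁻¹) * t' := by group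
      _ = a * (t⁻¹ * t') := by rw [← e2]; group
  let f : Q → (Q →* F) := fun q => χ (q.out : W).1 (hc _ (q.out : W).2)
  have inj : Function.Injective f := fun q q' e => by
    rw [← QuotientGroup.out_eq' q, ← QuotientGroup.out_eq' q', QuotientGroup.eq, Subgroup.mem_subgroupOf]
    exact hz _ (W.mul_mem (W.inv_mem (q.out : W).2) (q'.out : W).2) (key _ _ _ _ e)
  haveI : Finite (Q →* F) := DFunLike.finite _
  have hle : Nat.card (Q →* F) ≤ Nat.card Q := by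
    haveI := Fintype.ofFinite Q
    haveI := Fintype.ofFinite (Q →* F)
    have := (linearIndependent_monoidHom Q F).fintype_card_le_finrank
    rwa [Module.finrank_fintype_fun_eq_card, ← Nat.card_eq_fintype_card, ← Nat.card_eq_fintype_card] at this
  obtain ⟨q, hq⟩ := (inj.bijective_of_nat_card_le hle).2 (χ g hg)
  exact ⟨_, (q.out : W).2, key _ _ _ _ hq⟩

section scale

variable (h : Kd U) {p : ℕ} (hp : p.Prime) (h0 : (p : F) ≠ 0)
include h hp h0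

/-- odd `p`: `-(-1)^p = 1`.  `p = 2`, `i² = -1`: multiply `z` by `i`. -/
theorem scl_iff_sg (hg : Gd U p) {x : (End F V)ˣ} : Scl U p x ↔ Sg U p x := by
  by_cases h2 : p = 2
  · subst h2
    have h1 := gs_gd_two.1 hg
    rw [gs_scl_two, gs_sg_iff]
    exact ⟨fun k => h1.of_mul k, fun k => h1.mul k⟩
  · exact gs_scl_odd hp h2

/-- `(a b) ^ p = a ^ p b ^ p c ^ (p (p-1) / 2)` with `c = ⁅b, a⁆` central, `c ^ p = 1`. -/
theorem Sg.mul (hg : Gd U p) {a b : (End F V)ˣ} (hc : ⁅a, b⁆ ∈ ZZ U) (ha : Sg U p a) (hb : Sg U p b) : Sg U p (a * b) := by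
  have e : gsSq U (-1) → gsSq U (a ^ 2 * b ^ 2) → gsSq U (-1 * (a ^ 2 * b ^ 2)) := gsSq.mul
  have ha' := ha.gs_mem
  rw [gs_sg_iff] at ha hb ⊢
  by_cases h2 : p = 2
  · subst h2
    have k := gsSq.mul ha hb
    by_cases hn : Commute a b
    · rw [hn.mul_pow]; exact k
    · rw [gs_sq_mul h hc hn ha']
      exact e (gs_gd_two.1 hg) k
  · obtain ⟨z, hz, e1⟩ := ha
    obtain ⟨w, hw, e2⟩ := hb
    refine ⟨z * w, (ZZ U).mul_mem hz hw, ?_⟩
    rw [gs_odd_mul hp h2 hc ha', (ZZ_comm hz w).mul_pow, mul_assoc, ← mul_assoc (w ^ p),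
      (ZZ_comm ((ZZ U).pow_mem hw p) _).eq, mul_assoc, e2, mul_one, e1]

/-- `p = 2`, `-1` not a square in the cyclic group `ZZ U` (which contains `-1 ≠ 1`): squares have index `2` and `-1` is a non-square. -/
theorem scl_iff_not_sg (hg : ¬ Gd U p) {x : (End F V)ˣ} (hx : x ^ p ∈ ZZ U) : Scl U p x ↔ ¬ Sg U p x := by
  obtain rfl : p = 2 := by
    by_contra h2
    exact hg (Or.inl h2)
  have h1 : ¬ gsSq U (-1) := fun k => hg (gs_gd_two.2 k)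
  rw [gs_scl_two, gsSq_mul h (gs_neg_one_mem h) hx, gs_sg_iff]
  exact ⟨fun k k' => h1 (k.2 k'), fun k => ⟨fun k' => absurd k' h1, fun k' => absurd k' k⟩⟩

theorem sg_mul_of_commute (hg : ¬ Gd U p) {a b : (End F V)ˣ} (hc : Commute a b) (ha : a ^ p ∈ ZZ U) (hb : b ^ p ∈ ZZ U) :
    Sg U p (a * b) ↔ (Sg U p a ↔ Sg U p b) := by
  obtain rfl : p = 2 := by
    by_contra h2
    exact hg (Or.inl h2)
  have h1 : ¬ gsSq U (-1) := fun k => hg (gs_gd_two.2 k)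
  rw [gs_sg_iff, gs_sg_iff, gs_sg_iff, hc.mul_pow]
  exact gsSq_mul h ha hb

/-- `(a b)² = - a² b²` -/
theorem sg_mul_of_not_commute (hg : ¬ Gd U p) {a b : (End F V)ˣ} (hc : ⁅a, b⁆ ∈ ZZ U) (hn : ¬ Commute a b)
    (ha : a ^ p ∈ ZZ U) (hb : b ^ p ∈ ZZ U) : Sg U p (a * b) ↔ ¬ (Sg U p a ↔ Sg U p b) := by
  obtain rfl : p = 2 := by
    by_contra h2
    exact hg (Or.inl h2)
  have h1 : ¬ gsSq U (-1) := fun k => hg (gs_gd_two.2 k)
  rw [gs_sg_iff, gs_sg_iff, gs_sg_iff, gs_sq_mul h hc hn ha]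
  have k1 := gsSq_mul h (gs_neg_one_mem h) ((ZZ U).mul_mem ha hb)
  have k2 := gsSq_mul h ha hb
  change gsSq U _ ↔ ¬ (gsSq U _ ↔ gsSq U _)
  rw [k1, k2]
  tauto

/-- Good case: in the cyclic group `ZZ U` modulo `p`-th powers (order `∣ p`), either `a ^ p` is trivial (`x = a`) or
`b ^ p = (a ^ p) ^ (-i)` and `x = a ^ i b` (it does not commute with `a`).  Bad case: one of `a, b, a b`. -/
theorem exists_scl {W : Subgroup (End F V)ˣ} {a b : (End F V)ˣ} (haW : a ∈ W) (hbW : b ∈ W) (hc : ⁅a, b⁆ ∈ ZZ U)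
    (hn : ¬ Commute a b) (ha : a ^ p ∈ ZZ U) (hb : b ^ p ∈ ZZ U) :
    ∃ x ∈ W, ∃ y ∈ W, ¬ Commute y x ∧ Scl U p x := by
  have hn' : ¬ Commute b a := fun k => hn k.symm
  have hi : ∀ i : ℕ, ¬ Commute a (a ^ i * b) := fun i k => hn (by
    have := ((Commute.refl a).pow_right i).inv_right.mul_right k
    rwa [inv_mul_cancel_left] at this)
  by_cases h2 : p = 2
  · subst h2
    by_cases k1 : Scl U 2 a
    · exact ⟨a, haW, b, hbW, hn', k1⟩
    by_cases k2 : Scl U 2 b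
    · exact ⟨b, hbW, a, haW, hn, k2⟩
    refine ⟨a * b, W.mul_mem haW hbW, a, haW, by simpa using hi 1, ?_⟩
    rw [gs_scl_two] at k1 k2 ⊢
    have k := gsSq.of_not h ((ZZ U).mul_mem (gs_neg_one_mem h) ha) ((ZZ U).mul_mem (gs_neg_one_mem h) hb) k1 k2
    rw [gs_sq_mul h hc hn ha]
    simpa using k
  · obtain ⟨ζ, hζ, hg⟩ := gs_gen h
    obtain ⟨m, hm⟩ := hg _ ha
    obtain ⟨n, hn0⟩ := hg _ hb
    by_cases k1 : p ∣ m
    · refine ⟨a, haW, b, hbW, hn', (gs_scl_odd hp h2).2 (gs_sg_iff.2 ?_)⟩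
      rw [← hm]
      exact gs_root hζ k1
    haveI := Fact.mk hp
    obtain ⟨i, hi'⟩ : ∃ i : ℕ, p ∣ m * i + n := by
      refine ⟨((m : ZMod p)⁻¹ * (-n)).val, (ZMod.natCast_eq_zero_iff _ _).1 ?_⟩
      have : (m : ZMod p) ≠ 0 := fun e => k1 ((ZMod.natCast_eq_zero_iff _ _).1 e)
      push_cast
      rw [ZMod.natCast_zmod_val, mul_inv_cancel_left₀ this, neg_add_cancel]
    refine ⟨a ^ i * b, W.mul_mem (W.pow_mem haW i) hbW, a, haW, hi i, (gs_scl_odd hp h2).2 (gs_sg_iff.2 ?_)⟩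
    have c1 : ⁅a ^ i, b⁆ ∈ ZZ U := by
      have e := gs_pow_left (gs_comm_eq a b) (ZZ_comm hc a) i
      rw [gs_comm_eq (a ^ i) b, mul_left_inj] at e
      rw [e]
      exact (ZZ U).pow_mem hc i
    have c2 : (a ^ i) ^ p = ζ ^ (m * i) := by rw [← pow_mul, mul_comm i p, pow_mul, ← hm, ← pow_mul]
    rw [gs_odd_mul hp h2 c1 (by rw [c2]; exact (ZZ U).pow_mem hζ _), c2, ← hn0, ← pow_add]
    exact gs_root hζ hi'

end scale

end Cfsg.Lib.WB
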