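import Cfsg.Agent.Lib.WB.W
import Cfsg.Agent.Lib.WB.At
import Cfsg.Agent.Lib.WB.GS

/-!
# S3694: the case `p ≠ char F`, `E` abelian: basics and the field case
-/

set_option linter.unusedSectionVars false

namespace Cfsg.Lib.WB

open Module Cfsg.Lib.Unitary Cfsg.Lib.Transfer
open scoped commutatorElement

variable {F V : Type*} [Field F] [AddCommGroup V] [Module F V] [Finite F] [Finite V]
  {U : Subgroup (End F V)ˣ}

theorem idem_nsc (h : Kd U) {e : End F V} (hi : IsIdempotentElem e) (h0 : e ≠ 0) (h1 : e ≠ 1) : ¬ Sc e := by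
  rintro ⟨t, rfl⟩
  have : t * t = t := smul_one_inj h (by simpa [smul_smul] using hi.eq)
  rcases IsIdempotentElem.iff_eq_zero_or_one.1 this with rfl | rfl
  exacts [h0 (zero_smul _ _), h1 (one_smul _ _)]

namespace LC

variable {p : ℕ} (L : LC U p)

theorem ab_nsc : ∃ a ∈ L.E, ¬ Sc (a : End F V) :=
  let ⟨a, ha, n⟩ := SetLike.not_le_iff_exists.1 L.ne
  ⟨a, ha, fun e => n ⟨L.EU ha, e⟩⟩

theorem tZ : TS L.T (sp L.E) := TI.sp L.tau L.tE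

/-- `w2` for `sp E`, `conj_mem_sp_of_Ek_le`, `KH` -/
theorem exists_not_mem_sp (hab : Ab L.E) {k : (End F V)ˣ} (hk : k ∈ L.K) :
    ∃ x ∈ Ek L.E k, (x : End F V) ∉ sp L.E := by
  by_contra! h
  obtain ⟨a, ha, n⟩ := L.ab_nsc
  exact L.KH k hk (L.w2 L.tZ n (fun _ => hab.sp_comm (mem_sp ha)) ⟨a, L.HG (L.EH ha), mem_sp ha, n⟩ (L.KG k hk)
    fun _ => conj_mem_sp_of_Ek_le h)

/-- `d = ⁅x, s⁆`; `s x s⁻¹ = d⁻¹ x` and `⁅x, d⁻¹ x⁆ = (x d x⁻¹)⁻¹ d = ⁅x, d⁆⁻¹` because `d` and `x d x⁻¹` lie in the commutative `sp E`.  This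
commutator lies in the abelian group `k⁻¹ E k` (`commutator_mem_Ek`, `conj_mem_Ek`, `Kc`), so commutes with `x`. -/
theorem d3 (hab : Ab L.E) {k x s : (End F V)ˣ} (hk : k ∈ L.K) (hx : x ∈ Ek L.E k) (hs : s ∈ L.H)
    (hZ : (s : End F V) ∈ sp L.E) : ⁅x, ⁅x, ⁅x, s⁆⁆⁆ = 1 := by
  have xH := L.YH (L.KY k hk hx)
  have c : ∀ a ∈ un (sp L.E), x * a * x⁻¹ ∈ un (sp L.E) := fun a ha => L.conj_mem' L.tZ xH ha
  have d : ⁅x, s⁆ ∈ un (sp L.E) := mul_mem (c s hZ) (inv_mem (show s ∈ un _ from hZ))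
  have e : Commute ⁅x, s⁆ (x * ⁅x, s⁆ * x⁻¹)⁻¹ := Units.ext (hab.sp_comm d (inv_mem (c _ d)))
  have m := (L.commutator_mem_Ek hk (L.Kc k hk s hs) hx (L.conj_mem_Ek hs hx)).1
  rw [show ⁅x, s * x * s⁻¹⁆ = (x * ⁅x, s⁆ * x⁻¹)⁻¹ * ⁅x, s⁆ by simp only [commutatorElement_def]; group, ← e.eq,
    show ⁅x, s⁆ * (x * ⁅x, s⁆ * x⁻¹)⁻¹ = ⁅x, ⁅x, s⁆⁆⁻¹ by simp only [commutatorElement_def]; group,
    inv_mem_iff] at m
  exact (hab.ek k x hx _ m).commutator_eq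

/-- `w1` for `sp E` -/
theorem mem_H_of_sp (hab : Ab L.E) {s : (End F V)ˣ} (hs : s ∈ L.G) (hZ : (s : End F V) ∈ sp L.E) : s ∈ L.H := by
  obtain ⟨a, ha, n⟩ := L.ab_nsc
  exact L.w1 L.tZ n (fun _ => hab.sp_comm (mem_sp ha)) hs hZ

/-- `⁅x, u⁆ ∈ SS U ⊓ sp E` -/
theorem d4 (hab : Ab L.E) {k x u : (End F V)ˣ} (hk : k ∈ L.K) (hx : x ∈ Ek L.E k) (hu : u ∈ U)
    (hZ : (u : End F V) ∈ sp L.E) : ⁅x, ⁅x, ⁅x, ⁅x, u⁆⁆⁆⁆ = 1 := by
  have xH := L.YH (L.KY k hk hx)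
  have d : ⁅x, u⁆ ∈ un (sp L.E) :=
    mul_mem (show x * u * x⁻¹ ∈ un _ from L.conj_mem' L.tZ xH hZ) (inv_mem (show u ∈ un _ from hZ))
  exact L.d3 hab hk hx (L.mem_H_of_sp hab (L.SG (commutator_mem_SS (L.HU xH) hu)) d) d

/-- `fld`; `x ∈ k⁻¹ E k` outside `sp E` does not centralise `E`; `ff` with `d4`: `n = 2`, `|F| = 7`, and
`relIndex ≤ |H| ≤ |End F V| = 7 ^ 4` (`card_End`), `6 * 2401 ≤ 15552`. -/
theorem bd_of_noAd (h0 : (p : F) ≠ 0) (hab : Ab L.E) (hN : NoAd U (sp L.E)) : L.Bd := by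
  obtain ⟨hZ, hn, hC⟩ := L.fld h0 L.EY L.tE hab L.ne hN
  obtain ⟨k, hk⟩ := L.Kne
  obtain ⟨x, hx, n⟩ := L.exists_not_mem_sp hab hk
  have xH := L.YH (L.KY k hk hx)
  obtain ⟨h2, h7⟩ := ff L.kd L.EU hZ hn L.pp (L.HU xH) (fun a => L.conj_mem L.tE xH) (by
      by_contra! c
      exact n (hC _ fun a => commute_sp fun b hb => (c b hb).units_val)) (L.pow_mem_of_Ek hx)
    fun j u hu m => L.d4 hab hk (pow_mem hx j) hu m
  have h1 : Nat.card L.H ≤ Nat.card (End F V) :=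
    Nat.card_le_card_of_injective (fun h => h.1.1) fun _ _ e => Subtype.ext (Units.ext e)
  have h3 : (ZZ U).relIndex L.H ≤ Nat.card L.H := Nat.le_of_dvd Nat.card_pos (Subgroup.index_dvd_card _)
  rw [card_End, h2, h7] at h1
  rw [Bd, h7]
  omega

/-- `w1` for the centraliser of `η` -/
theorem mem_H_of_fix {η : End F V} (hi : IsIdempotentElem η) (h0 : η ≠ 0) (h1 : η ≠ 1) (hT : ∀ τ ∈ L.T, τ η = η)
    {g : (End F V)ˣ} (hg : g ∈ L.G) (hc : Commute η (g : End F V)) : g ∈ L.H := by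
  refine L.w1 (TS.centralizer L.tau L.symm (A := {η}) ?_) (idem_nsc L.kd hi h0 h1) (fun a ha => ha η rfl) hg ?_
  · rintro τ hτ _ rfl
    exact hT τ hτ
  · rintro _ rfl
    exact hc

/-- `w1` for the centraliser of the invariant set `{f ∈ sp E | Ad U f}`; `At.commute_of_sup`. -/
theorem mem_H_of_sup (hab : Ab L.E) (hN : ¬ NoAd U (sp L.E)) {e : End F V} (he : At U (sp L.E) e)
    {s : (End F V)ˣ} (hs : s ∈ L.G) (h : Sup e (s : End F V)) : s ∈ L.H := by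
  have hc : ∀ a ∈ sp L.E, ∀ b ∈ sp L.E, Commute a b := fun _ ha _ => hab.sp_comm ha
  exact L.w1 (TS.centralizer L.tau L.symm (A := {f | f ∈ sp L.E ∧ Ad U f})
    fun τ hτ f hf => ⟨L.tZ τ hτ f hf.1, (L.tau τ hτ).ad hf.2⟩)
    (idem_nsc L.kd he.2.1.1 he.2.2.1 (he.ne_one L.kd hc hN)) (fun a ha => ha e ⟨he.1, he.2.1⟩) hs
    fun f hf => he.commute_of_sup L.kd hc h hf.1 hf.2

/-- `Kd.conj_sc` for each `y ∈ E` -/
theorem eta_sc (h0 : (p : F) ≠ 0) (hab : Ab L.E) {η : End F V} (hZ : η ∈ sp L.E) (ha : Ad U η) (h1 : η ≠ 0) (h2 : η ≠ 1)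
    (hT : ∀ τ ∈ L.T, τ η = η) : (∀ y ∈ L.E, ScOn η (y : End F V)) ∨ (Q2 U ∧ rk η = 2) := by
  exact or_iff_not_imp_right.2 fun n y hy => (L.kd.conj_sc ha (L.EU hy) (L.ssm h0 (L.EY hy))
    (hab.sp_comm hZ (mem_sp hy)) fun s hs h => hab y hy _
      (L.conj_mem L.tE (L.mem_H_of_fix ha.1 h1 h2 hT (L.SG hs) h.1) hy)).resolve_right n

/-- `Kd.conj_sc`; in the unitary case with `|F| = 4`, `IsU.fr2b` contradicts minimality of `e`. -/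
theorem at_sc (h0 : (p : F) ≠ 0) (hab : Ab L.E) (hN : ¬ NoAd U (sp L.E)) {e : End F V} (he : At U (sp L.E) e) :
    (∀ y ∈ L.E, ScOn e (y : End F V)) ∨ (Nat.card F = 2 ∧ rk e = 2) := by
  refine or_iff_not_imp_right.2 fun n y hy => by_contra fun k => ?_
  have c := hab.sp_comm he.1 (mem_sp hy)
  obtain ⟨q | ⟨q, ⟨σ, B, h⟩, -⟩, r⟩ := (L.kd.conj_sc he.2.1 (L.EU hy) (L.ssm h0 (L.EY hy)) c fun s hs h =>
    hab y hy _ (L.conj_mem L.tE (L.mem_H_of_sup hab hN he (L.SG hs) h) hy)).resolve_left k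
  · exact n ⟨q, r⟩
  obtain ⟨f, f1, f2, f3, f4, f5⟩ := h.fr2b q he.2.1 r (L.EU hy) (L.ssm h0 (L.EY hy)) c k
  refine (he.2.2.2 f (Algebra.adjoin_le ?_ f1) f2 f3).elim f4 f5
  rintro _ (rfl | rfl)
  exacts [he.1, mem_sp hy]

/-- `η = eta (rk e)` is fixed by `T` (`eta_tau`), `e η = e`, `a η = 0`, so `η ≠ 0, 1`.  By `eta_sc` either `E` is scalar on `η` and `e = η`
(`eq_of_scOn`), or `rk η = 2 ≤ rk e` and `e = η` (`Le.eq_of_rk`). -/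
theorem fix_or (h0 : (p : F) ≠ 0) (hab : Ab L.E) {e a : End F V} (he : At U (sp L.E) e) (ha : At U (sp L.E) a)
    (hr : rk a ≠ rk e) (h2 : 2 ≤ rk e) : (∀ τ ∈ L.T, τ e = e) := by
  have hc : ∀ a ∈ sp L.E, ∀ b ∈ sp L.E, Commute a b := fun _ ha _ => hab.sp_comm ha
  obtain ⟨m, ad, s⟩ := eta_spec L.kd hc (rk e)
  have hT := fun τ hτ => eta_tau L.kd hc L.tau L.symm L.tZ (τ := τ) hτ (rk e)
  have e1 := (s e he).1 rfl
  have e2 := (hc _ m _ he.1).eq.trans e1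
  suffices e = eta U (sp L.E) (rk e) from fun τ hτ => by rw [this, hT τ hτ]
  rcases L.eta_sc h0 hab m ad (fun z => he.2.2.1 (by rw [← e1, z, mul_zero]))
    (fun z => ha.2.2.1 (by rw [← (s a ha).2 hr, z, mul_one])) hT with h | h
  · exact eq_of_scOn L.kd ad.1 h he.1 he.2.1.1 he.2.2.1 e2
  · exact Le.eq_of_rk ad.1 he.2.1.1 ⟨e1, e2⟩ (h.2 ▸ h2)

end LC

end Cfsg.Lib.WB
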