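import Cfsg.Agent.Lib.WB.U0

/-!
# S3694: admissible idempotents, scalars
-/

set_option linter.unusedSectionVars false

namespace Cfsg.Lib.WB

open Module Cfsg.Lib.Unitary Cfsg.Lib.Transfer
open scoped commutatorElement

variable {F V : Type*} [Field F] [AddCommGroup V] [Module F V] [Finite F] [Finite V]
  {U : Subgroup (End F V)ˣ}

theorem Lin.un_iff (h : Lin U) {X : End F V} : Un U X ↔ IsUnit X :=
  ⟨fun ⟨u, _, e⟩ => ⟨u, e⟩, fun ⟨u, e⟩ => ⟨u, h.1 ▸ Subgroup.mem_top u, e⟩⟩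

theorem glue_mul {e X : End F V} (he : IsIdempotentElem e) (hc : Commute e X) (Y : End F V) :
    (e * X + (1 - e)) * (e * Y + (1 - e)) = e * (X * Y) + (1 - e) := by
  have h1 : e * X * (e * Y) = e * (X * Y) := by
    rw [mul_assoc, ← mul_assoc X, ← hc.eq, mul_assoc, ← mul_assoc, he.eq]
  have h2 : e * X * (1 - e) = 0 := by
    rw [hc.eq, mul_assoc, he.mul_one_sub_self, mul_zero]
  have h3 : (1 - e) * (e * Y) = 0 := by rw [← mul_assoc, he.one_sub_mul_self, zero_mul]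
  rw [add_mul, mul_add, mul_add, h1, h2, h3, he.one_sub.eq, add_zero, zero_add]

/-- `e X + 1 - e` has inverse `e X⁻¹ + 1 - e` -/
theorem Lin.ad_iff (h : Lin U) {e : End F V} : Ad U e ↔ IsIdempotentElem e := by
  refine ⟨fun k => k.1, fun he => ⟨he, fun X hX hc => h.un_iff.2 ?_⟩⟩
  obtain ⟨u, -, rfl⟩ := hX
  exact ⟨⟨_, e * ((u⁻¹ : (End F V)ˣ) : End F V) + (1 - e), by simp [glue_mul he hc],
    by simp [glue_mul he hc.units_inv_right]⟩, rfl⟩

theorem Lin.rt_iff (h : Lin U) {X : End F V} : Rt U X ↔ X * X = 0 :=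
  ⟨fun k => k.1, fun k => ⟨k, h.un_iff.2 ⟨⟨1 + X, 1 - X, by simp [add_mul, mul_sub, k],
    by simp [mul_add, sub_mul, k]⟩, rfl⟩⟩⟩

theorem Kd.two_le (h : Kd U) : 2 ≤ finrank F V :=
  h.elim (fun k => k.2.1) fun k => le_trans (by norm_num) k.2.1

theorem Kd.nontrivial (h : Kd U) : Nontrivial V :=
  Module.nontrivial_of_finrank_pos (R := F) (two_pos.trans_le h.two_le)

/-- `F₂` has no non-trivial involution -/
theorem Kd.lin_of_card (h : Kd U) (h2 : Nat.card F = 2) : Lin U := by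
  rcases h with h | ⟨⟨σ, B, h⟩, -⟩
  · exact h
  obtain ⟨q, hq⟩ := h.1.exists_isBar
  have h1 := hq.two_le
  have h3 := hq.card
  nlinarith

theorem Ad.zero : Ad U (0 : End F V) :=
  ⟨IsIdempotentElem.zero, fun X _ _ => by simpa using Un.one⟩

theorem Ad.one : Ad U (1 : End F V) :=
  ⟨IsIdempotentElem.one, fun X hX _ => by simpa using hX⟩

theorem Ad.conj {e : End F V} (he : Ad U e) {k : (End F V)ˣ} (hk : k ∈ U) :
    Ad U ((k : End F V) * e * ((k⁻¹ : (End F V)ˣ) : End F V)) := by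
  refine ⟨by simp [IsIdempotentElem, mul_assoc, ← mul_assoc e e, he.1.eq], fun X hX hc => ?_⟩
  have h1 := he.2 _ (hX.conj (U.inv_mem hk)) (by
    have := congrArg (fun Y => ((k⁻¹ : (End F V)ˣ) : End F V) * Y * k) hc.eq
    simpa [Commute, SemiconjBy, mul_assoc] using this)
  simpa [mul_add, add_mul, mul_sub, sub_mul, mul_assoc] using h1.conj hk

theorem Ad.compl (h : Kd U) {e : End F V} (he : Ad U e) : Ad U (1 - e) := by
  rcases h with h | ⟨⟨σ, B, h⟩, -⟩
  · exact h.ad_iff.2 he.1.one_sub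
  · exact h.ad_iff.2 ⟨he.1.one_sub, by rw [h.adj_sub, h.adj_one, (h.ad_iff.1 he).2]⟩

theorem Ad.mul (h : Kd U) {e f : End F V} (he : Ad U e) (hf : Ad U f) (hc : Commute e f) : Ad U (e * f) := by
  rcases h with h | ⟨⟨σ, B, h⟩, -⟩
  · exact h.ad_iff.2 (he.1.mul_of_commute hc hf.1)
  · exact h.ad_iff.2 ⟨he.1.mul_of_commute hc hf.1, by
      rw [h.adj_mul, (h.ad_iff.1 he).2, (h.ad_iff.1 hf).2, hc.eq]⟩

theorem Ad.add (h : Kd U) {e f : End F V} (he : Ad U e) (hf : Ad U f) (h1 : e * f = 0) (h2 : f * e = 0) :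
    Ad U (e + f) := by
  have hi : IsIdempotentElem (e + f) := he.1.add hf.1 (by rw [h1, h2, add_zero])
  rcases h with h | ⟨⟨σ, B, h⟩, -⟩
  · exact h.ad_iff.2 hi
  · exact h.ad_iff.2 ⟨hi, by rw [h.adj_add, (h.ad_iff.1 he).2, (h.ad_iff.1 hf).2]⟩

theorem Ad.sub (h : Kd U) {e f : End F V} (he : Ad U e) (hf : Ad U f) (h1 : Le f e) : Ad U (e - f) := by
  have hi : IsIdempotentElem (e - f) := hf.1.sub he.1 h1.1 h1.2
  rcases h with h | ⟨⟨σ, B, h⟩, -⟩
  · exact h.ad_iff.2 hi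
  · exact h.ad_iff.2 ⟨hi, by rw [h.adj_sub, (h.ad_iff.1 he).2, (h.ad_iff.1 hf).2]⟩

theorem Ad.sum (h : Kd U) {ι : Type*} (s : Finset ι) (e : ι → End F V) (he : ∀ i ∈ s, Ad U (e i))
    (ho : ∀ i ∈ s, ∀ j ∈ s, i ≠ j → e i * e j = 0) : Ad U (∑ i ∈ s, e i) := by
  classical
  induction s using Finset.induction_on with
  | empty => simpa using Ad.zero
  | insert a s ha ih =>
    have hn : ∀ i ∈ s, a ≠ i := fun i hi k => ha (k ▸ hi)
    rw [Finset.sum_insert ha]
    refine Ad.add h (he a (by simp)) (ih (fun i hi => he i (by simp [hi]))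
      fun i hi j hj => ho i (by simp [hi]) j (by simp [hj])) ?_ ?_
    · rw [Finset.mul_sum]
      exact Finset.sum_eq_zero fun i hi => ho a (by simp) i (by simp [hi]) (hn i hi)
    · rw [Finset.sum_mul]
      exact Finset.sum_eq_zero fun i hi => ho i (by simp [hi]) a (by simp) (hn i hi).symm

theorem Ad.smul_un {e : End F V} (he : Ad U e) {c : F} (hc : Un U (c • (1 : End F V))) :
    Un U (c • e + (1 - e)) := by
  simpa using he.2 _ hc ((Commute.one_right e).smul_right c)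

theorem Lin.un_smul (h : Lin U) {c : F} (hc : c ≠ 0) : Un U (c • (1 : End F V)) :=
  h.un_iff.2 ⟨⟨c • 1, c⁻¹ • 1, by simp [smul_smul, hc], by simp [smul_smul, hc]⟩, rfl⟩

theorem Un.smul_ne (h : Kd U) {c : F} (hc : Un U (c • (1 : End F V))) : c ≠ 0 := by
  rintro rfl
  have := h.nontrivial
  obtain ⟨u, -, hu⟩ := hc
  exact u.ne_zero (by rw [hu, zero_smul])

/-- `Lin`: `c ≠ 0` as `X` is a unit.  `Uni`: evaluate on a non-isotropic vector of the range of `e`. -/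
theorem Ad.scalar (h : Kd U) {e X : End F V} (he : Ad U e) (h0 : e ≠ 0) (hX : Un U X) (hc : Commute e X)
    {c : F} (hs : e * X = c • e) : Un U (c • (1 : End F V)) := by
  rcases h with h | ⟨⟨σ, B, h⟩, -⟩
  · refine h.un_smul ?_
    rintro rfl
    obtain ⟨u, -, rfl⟩ := hX
    exact h0 ((Units.mul_left_eq_zero u).1 (by rw [hs, zero_smul]))
  · obtain ⟨w, h1, h2⟩ := h.exists_range_noniso he h0
    have h3 : X w = c • w := by
      have := LinearMap.congr_fun (hc.eq.symm.trans hs) w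
      simpa [h1] using this
    have h4 := h.un_iff'.1 hX w w
    simp only [h3, LinearMap.map_smulₛₗ, LinearMap.smul_apply, smul_eq_mul, RingHom.id_apply] at h4
    exact h.un_smul_one' (mul_right_cancel₀ h2 (by linear_combination h4))

/-- the projection `f = m⁻¹ ∑_{i<m} u ^ i` (`m = orderOf u`) onto the fixed space; self-adjoint in the unitary case as
`adj u = u⁻¹` permutes the summands and `σ` fixes `(m : F)⁻¹`. -/
theorem exists_fix (h : Kd U) {u : (End F V)ˣ} (hu : u ∈ U) (hs : Ssm u) :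
    ∃ f ∈ Algebra.adjoin F {(u : End F V)}, Ad U f ∧ f * u = f ∧ ∀ X : End F V, X * u = X → X * f = X := by
  obtain ⟨f, hf⟩ : ∃ f : End F V,
    f = ((orderOf u : ℕ) : F)⁻¹ • ∑ i ∈ Finset.range (orderOf u), (u : End F V) ^ i := ⟨_, rfl⟩
  have h0 : (u : End F V) ^ orderOf u = 1 := by rw [← Units.val_pow_eq_pow_val, pow_orderOf_eq_one, Units.val_one]
  have h1 : f * u = f := by
    have := geom_sum_mul (u : End F V) (orderOf u)
    rw [h0, sub_self, mul_sub, mul_one, sub_eq_zero] at this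
    rw [hf, smul_mul_assoc, this]
  have h2 : u * f = f := by
    have := mul_geom_sum (u : End F V) (orderOf u)
    rw [h0, sub_self, sub_mul, one_mul, sub_eq_zero] at this
    rw [hf, mul_smul_comm, this]
  have h3 : ∀ X : End F V, X * u = X → X * f = X := fun X hX => by
    have : ∀ i, X * (u : End F V) ^ i = X := fun i => by
      induction i with
      | zero => simp
      | succ i ih => rw [pow_succ, ← mul_assoc, ih, hX]
    rw [hf, mul_smul_comm, Finset.mul_sum, Finset.sum_congr rfl fun i _ => this i, Finset.sum_const,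
      Finset.card_range, ← Nat.cast_smul_eq_nsmul F, smul_smul, inv_mul_cancel₀ hs, one_smul]
  refine ⟨f, hf ▸ Subalgebra.smul_mem _ (Subalgebra.sum_mem _ fun i _ =>
    Subalgebra.pow_mem _ (Algebra.subset_adjoin (Set.mem_singleton _)) i) _, ?_, h1, h3⟩
  rcases h with h | ⟨⟨σ, B, h⟩, -⟩
  · exact h.ad_iff.2 (h3 f h1)
  refine h.ad_iff.2 ⟨h3 f h1, ?_⟩
  have h4 : h.adj f * f = h.adj f := h3 _ (by
    have := congrArg h.adj h2
    rw [h.adj_mul, h.adj_unit hu] at this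
    rw [← this, mul_assoc, Units.inv_mul, mul_one, this])
  have h5 := congrArg h.adj h4
  rw [h.adj_mul, h.adj_adj] at h5
  exact h4.symm.trans h5

theorem smul_one_inj (h : Kd U) {c d : F} (k : c • (1 : End F V) = d • 1) : c = d := by
  have := h.nontrivial
  exact smul_left_injective F (one_ne_zero (α := End F V)) k

theorem exists_scHom (h : Kd U) :
    ∃ φ : ZZ U →* F, Function.Injective φ ∧ ∀ z : ZZ U, (z.1 : End F V) = φ z • (1 : End F V) := by
  choose φ hφ using fun z : ZZ U => z.2.2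
  refine ⟨⟨⟨φ, smul_one_inj h (by rw [← hφ]; simp)⟩, fun a b => smul_one_inj h ?_⟩, fun a b k => ?_, hφ⟩
  · rw [← hφ, Subgroup.coe_mul, Units.val_mul, hφ, hφ]
    simp [smul_smul, mul_comm]
  · exact Subtype.ext (Units.ext (by rw [hφ, hφ]; exact congrArg (· • (1 : End F V)) k))

theorem card_ZZ_eq (h : Kd U) : Nat.card (ZZ U) = Nat.card {c : F // Un U (c • (1 : End F V))} := by
  obtain ⟨φ, h1, h2⟩ := exists_scHom h
  refine Nat.card_eq_of_bijective (fun z => ⟨φ z, h2 z ▸ Un.coe z.2.1⟩)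
    ⟨fun a b k => h1 (congrArg Subtype.val k), fun c => ?_⟩
  obtain ⟨z, hz, e⟩ := exists_ZZ c.2
  exact ⟨⟨z, hz⟩, Subtype.ext (smul_one_inj h ((h2 ⟨z, hz⟩).symm.trans e))⟩

theorem card_ZZ_of (h : Kd U) (k : ∀ c : F, c ≠ 0 → Un U (c • (1 : End F V))) :
    Nat.card (ZZ U) = Nat.card F - 1 := by
  rw [card_ZZ_eq h, ← Nat.card_units, Nat.card_congr (unitsEquivNeZero (G₀ := F))]
  exact Nat.card_congr (Equiv.subtypeEquivRight fun c => ⟨Un.smul_ne h, k c⟩)

/-- `ZZ U` is isomorphic to a subgroup of the cyclic group `Fˣ`. -/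
theorem exists_gen (h : Kd U) :
    ∃ ζ : F, Un U (ζ • (1 : End F V)) ∧ ∀ m : ℕ, ζ ^ m = 1 → Nat.card (ZZ U) ∣ m := by
  obtain ⟨φ, h1, h2⟩ := exists_scHom h
  have := isCyclic_of_injective_ringHom φ h1
  obtain ⟨z, hz⟩ := IsCyclic.exists_ofOrder_eq_natCard (α := ZZ U)
  exact ⟨φ z, h2 z ▸ Un.coe z.2.1, fun m hm => hz ▸ orderOf_dvd_of_pow_eq_one (h1 (by rw [map_pow, hm, map_one]))⟩

theorem isCyclic_ZZ (h : Kd U) : IsCyclic (ZZ U) :=
  let ⟨φ, h1, _⟩ := exists_scHom h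
  isCyclic_of_injective_ringHom φ h1

/-- `Lin`: `|ZZ| = |F| - 1`; `Uni`: `|ZZ| = q + 1`, `|F| = q²` (`IsBar.card_norm_one`). -/
theorem card_F (h : Kd U) :
    Nat.card F = Nat.card (ZZ U) + 1 ∨ Nat.card F = (Nat.card (ZZ U) - 1) ^ 2 := by
  have hn := h.nontrivial
  rcases h with k | ⟨⟨σ, B, k⟩, k'⟩
  · left
    have := Nat.card_pos (α := F)
    rw [card_ZZ_of (Or.inl k) fun c hc => k.un_smul hc]
    omega
  · obtain ⟨q, hq⟩ := k.1.exists_isBar
    right
    rw [card_ZZ_eq (Or.inr ⟨⟨σ, B, k⟩, k'⟩), Nat.card_congr (Equiv.subtypeEquivRight fun c => k.un_smul_one),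
      hq.card_norm_one, hq.card, Nat.add_sub_cancel]

/-- `F₂`; or `F₄` where `c σ c = c ^ 3 = 1` for `c ≠ 0`. -/
theorem Q2.un (h : Kd U) (h2 : Q2 U) {c : F} (hc : c ≠ 0) : Un U (c • (1 : End F V)) := by
  rcases h2 with h2 | ⟨h2, ⟨σ, B, k⟩, -⟩
  · exact (h.lin_of_card h2).un_smul hc
  obtain ⟨q, hq⟩ := k.1.exists_isBar
  have h3 := hq.card
  obtain rfl : q = 2 := by have := hq.two_le; nlinarith
  have := Fintype.ofFinite F
  have h4 := FiniteField.pow_card_sub_one_eq_one c hc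
  rw [← Nat.card_eq_fintype_card, h2] at h4
  exact k.un_smul_one' (by rw [hq.norm_eq]; exact h4)

theorem Q2.card_ZZ (h : Kd U) (h2 : Q2 U) : Nat.card (ZZ U) = Nat.card F - 1 :=
  card_ZZ_of h fun _ hc => h2.un h hc

theorem Q2.two (h2 : Q2 U) : (2 : F) = 0 := by
  have := Fintype.ofFinite F
  have h := FiniteField.cast_card_eq_zero F
  rw [← Nat.card_eq_fintype_card] at h
  rcases h2 with k | ⟨k, -⟩ <;> rw [k] at h
  · exact_mod_cast h
  · exact mul_self_eq_zero.1 (by rw [← h]; norm_num)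

/-- transport of flags -/
theorem Pr.map {V₁ V₂ : Submodule F V} (hP : Pr U V₁ V₂) {k : (End F V)ˣ} (hk : k ∈ U) :
    Pr U (V₁.map (k : End F V)) (V₂.map (k : End F V)) := by
  set g := LinearMap.GeneralLinearGroup.toLinearEquiv k
  have hg : (k : End F V) = (g : V →ₗ[F] V) := rfl
  rw [hg]
  refine ⟨fun e => hP.1 (by simpa using e), Submodule.map_mono hP.2.1, fun e => hP.2.2.1 (by simpa using e),
    fun σ B h => ?_⟩
  rw [perp_map (fun u v => (h.2 k).1 hk u v), hP.2.2.2 σ B h]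

/-- `C = ⨅ ker (q - 1) = perp D` for `D = ⨆ range (q - 1)` (`ker_adj`, `adj (q - 1) = q⁻¹ - 1`), then `perp_inf`,
`perp_perp`. -/
theorem perp_fix {σ : F →+* F} {B : V →ₛₗ[σ] V →ₗ[F] F} (h : IsU U σ B) {Q : Subgroup (End F V)ˣ} (hQ : Q ≤ U) :
    (⨅ q ∈ Q, LinearMap.ker ((q : End F V) - 1)) ⊔ (⨆ q ∈ Q, LinearMap.range ((q : End F V) - 1)) =
      perp B ((⨅ q ∈ Q, LinearMap.ker ((q : End F V) - 1)) ⊓ ⨆ q ∈ Q, LinearMap.range ((q : End F V) - 1)) := by
  have h1 : perp B (⨆ q ∈ Q, LinearMap.range ((q : End F V) - 1)) =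
      ⨅ q ∈ Q, LinearMap.ker ((q : End F V) - 1) := by
    have h2 : ∀ q ∈ Q, LinearMap.ker (((q⁻¹ : (End F V)ˣ) : End F V) - 1) =
        perp B (LinearMap.range ((q : End F V) - 1)) := fun q hq => by
      rw [← h.ker_adj, h.adj_sub, h.adj_unit (hQ hq), h.adj_one]
    refine le_antisymm (le_iInf₂ fun q hq => ?_) (h.1.le_perp_comm (iSup₂_le fun q hq => h.1.le_perp_comm ?_))
    · rw [← inv_inv q, h2 _ (Q.inv_mem hq)]
      refine h.1.le_perp_comm (le_trans ?_ (h.1.le_perp_perp _))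
      exact le_iSup₂_of_le q⁻¹ (Q.inv_mem hq) le_rfl
    · rw [← h2 q hq]
      exact iInf₂_le q⁻¹ (Q.inv_mem hq)
  rw [h.1.perp_inf, ← h1, h.1.perp_perp, sup_comm]

end Cfsg.Lib.WB
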