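import Cfsg.Agent.Lib.WB.Def

/-!
# S3694: basic facts (no kind needed)
-/

set_option linter.unusedSectionVars false

namespace Cfsg.Lib.WB

open Module Cfsg.Lib.Unitary Cfsg.Lib.Transfer
open scoped commutatorElement

variable {F V : Type*} [Field F] [AddCommGroup V] [Module F V] [Finite F] [Finite V]
  {U : Subgroup (End F V)ˣ}

theorem Un.coe {u : (End F V)ˣ} (h : u ∈ U) : Un U (u : End F V) := ⟨u, h, rfl⟩

theorem Un.one : Un U (1 : End F V) := ⟨1, U.one_mem, rfl⟩

theorem Un.mul {X Y : End F V} (hX : Un U X) (hY : Un U Y) : Un U (X * Y) := by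
  obtain ⟨a, ha, rfl⟩ := hX
  obtain ⟨b, hb, rfl⟩ := hY
  exact ⟨a * b, U.mul_mem ha hb, rfl⟩

theorem Un.mem {u : (End F V)ˣ} (h : Un U (u : End F V)) : u ∈ U := by
  obtain ⟨a, ha, e⟩ := h
  rwa [← Units.ext e]

theorem Un.conj {u : (End F V)ˣ} (hu : u ∈ U) {X : End F V} (h : Un U X) :
    Un U ((u : End F V) * X * ((u⁻¹ : (End F V)ˣ) : End F V)) :=
  ((Un.coe hu).mul h).mul (Un.coe (U.inv_mem hu))

theorem ZZ_le : ZZ U ≤ U := fun _ h => h.1

theorem SS_le : SS U ≤ U := fun _ h => h.1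

theorem ZZ_comm' {z : (End F V)ˣ} (hz : z ∈ ZZ U) (X : End F V) : Commute (z : End F V) X := by
  obtain ⟨c, hc⟩ := hz.2
  rw [hc]
  exact (Commute.one_left X).smul_left c

theorem ZZ_comm {z : (End F V)ˣ} (hz : z ∈ ZZ U) (x : (End F V)ˣ) : Commute z x :=
  Units.ext (ZZ_comm' hz x)

theorem exists_ZZ {c : F} (h : Un U (c • (1 : End F V))) :
    ∃ z ∈ ZZ U, (z : End F V) = c • (1 : End F V) := by
  obtain ⟨z, hz, e⟩ := h
  exact ⟨z, ⟨hz, c, e⟩, e⟩

/-- `k z k⁻¹ = z` for a scalar; conversely conjugate back. -/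
theorem conj_mem_ZZ {k z : (End F V)ˣ} : k * z * k⁻¹ ∈ ZZ U ↔ z ∈ ZZ U := by
  refine ⟨fun h => ?_, fun h => by rwa [← (ZZ_comm h k).eq, mul_inv_cancel_right]⟩
  have e := (ZZ_comm h k).eq
  rw [inv_mul_cancel_right, mul_right_inj] at e
  rwa [e]

/-- `z = c • 1`; if `V` is trivial everything is `1`, else `c ≠ 0` and `FiniteField.pow_card_sub_one_eq_one`. -/
theorem ZZ_pow_card {z : (End F V)ˣ} (hz : z ∈ ZZ U) : z ^ (Nat.card F - 1) = 1 := by
  obtain ⟨c, hc⟩ := hz.2
  rcases subsingleton_or_nontrivial V with e | e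
  · exact Units.ext (Subsingleton.elim _ _)
  have := Fintype.ofFinite F
  have h0 : c ≠ 0 := fun e => z.ne_zero (by rw [hc, e, zero_smul])
  refine Units.ext ?_
  rw [Units.val_pow_eq_pow_val, hc, smul_pow, one_pow, Nat.card_eq_fintype_card,
    FiniteField.pow_card_sub_one_eq_one c h0, one_smul, Units.val_one]

theorem Ssm.of_dvd {u : (End F V)ˣ} {n : ℕ} (hn : (n : F) ≠ 0) (h : orderOf u ∣ n) : Ssm u := fun e => by
  obtain ⟨c, rfl⟩ := h
  exact hn (by rw [Nat.cast_mul, e, zero_mul])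

theorem Ssm.of_pow {u : (End F V)ˣ} {n : ℕ} (hn : (n : F) ≠ 0) (h : u ^ n = 1) : Ssm u :=
  Ssm.of_dvd hn (orderOf_dvd_of_pow_eq_one h)

/-- `orderOf y ∣ p ^ j * (|F| - 1)` and this number is non-zero in `F` (`|F| = 0` in `F`). -/
theorem Ssm.of_pow_mem {p j : ℕ} (hp : (p : F) ≠ 0) {y : (End F V)ˣ} (h : y ^ p ^ j ∈ ZZ U) : Ssm y := by
  refine Ssm.of_pow (n := p ^ j * (Nat.card F - 1)) ?_ (by rw [pow_mul, ZZ_pow_card h])
  have := Fintype.ofFinite F
  rw [Nat.cast_mul, Nat.cast_pow, Nat.cast_sub Nat.card_pos, Nat.card_eq_fintype_card, FiniteField.cast_card_eq_zero]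
  exact mul_ne_zero (pow_ne_zero _ hp) (by simp)

theorem Ssm.of_mem_ZZ {z : (End F V)ˣ} (hz : z ∈ ZZ U) : Ssm z := by
  exact Ssm.of_pow_mem (p := 1) (j := 0) (by simp) (by simpa using hz)

theorem Ssm.conj {u : (End F V)ˣ} (h : Ssm u) (k : (End F V)ˣ) : Ssm (k * u * k⁻¹) := by
  exact Ssm.of_pow h (by rw [conj_pow, pow_orderOf_eq_one, mul_one, mul_inv_cancel])

theorem Ssm.inv {u : (End F V)ˣ} (h : Ssm u) : Ssm u⁻¹ := by
  exact Ssm.of_dvd h (orderOf_inv u).dvd

theorem Ssm.pow {u : (End F V)ˣ} (h : Ssm u) (j : ℕ) : Ssm (u ^ j) := by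
  exact Ssm.of_dvd h (orderOf_pow_dvd j)

theorem Ssm.mul {u w : (End F V)ˣ} (h : Ssm u) (h' : Ssm w) (hc : Commute u w) : Ssm (u * w) := by
  exact Ssm.of_dvd (n := orderOf u * orderOf w) (by rw [Nat.cast_mul]; exact mul_ne_zero h h')
    hc.orderOf_mul_dvd_mul_orderOf

theorem exists_pow_char {u : (End F V)ˣ} (hn : IsNilpotent ((u : End F V) - 1)) : ∃ k, u ^ ringChar F ^ k = 1 := by
  rcases subsingleton_or_nontrivial V with e | e
  · exact ⟨0, Units.ext (Subsingleton.elim _ _)⟩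
  obtain ⟨k, hk⟩ := hn
  have := Fact.mk (CharP.char_is_prime F (ringChar F))
  have : CharP (End F V) (ringChar F) := charP_of_injective_algebraMap (algebraMap F (End F V)).injective _
  refine ⟨k, Units.ext (sub_eq_zero.1 ?_)⟩
  have e := sub_pow_char_pow_of_commute (ringChar F) k (Commute.one_right (u : End F V))
  rw [one_pow] at e
  rw [Units.val_pow_eq_pow_val, Units.val_one, ← e]
  exact pow_eq_zero_of_le (Nat.lt_pow_self (Fact.out : (ringChar F).Prime).one_lt).le hk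

/-- With `ℓ = ringChar F`, `(u - 1) ^ ℓ ^ k = u ^ ℓ ^ k - 1 = 0` (`sub_pow_char_pow_of_commute`; if `V` is trivial
use `Subsingleton`), so `orderOf u` is a power of `ℓ`, non-zero in `F`, hence `1`. -/
theorem Ssm.eq_one {u : (End F V)ˣ} (h : Ssm u) (hn : IsNilpotent ((u : End F V) - 1)) : u = 1 := by
  obtain ⟨k, hk⟩ := exists_pow_char hn
  obtain ⟨j, -, e⟩ := (Nat.dvd_prime_pow (CharP.char_is_prime F (ringChar F))).1 (orderOf_dvd_of_pow_eq_one hk)
  rcases j with _ | j
  · exact orderOf_eq_one_iff.1 e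
  · exact (h (by rw [e, pow_succ, Nat.cast_mul, ringChar.Nat.cast_ringChar, mul_zero])).elim

/-- Induction: `e * u ^ m = e + m • N`; take `m = orderOf u`. -/
theorem Ssm.nil_loc {u : (End F V)ˣ} (h : Ssm u) {e N : End F V} (he : IsIdempotentElem e)
    (hc : Commute e (u : End F V)) (h1 : e * u = e + N) (h2 : N * N = 0) (h3 : e * N = N) (h4 : N * e = N) :
    N = 0 := by
  have k : ∀ m : ℕ, e * (u : End F V) ^ m = e + (m : F) • N := fun m => by
    induction m with
    | zero => simp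
    | succ m ih =>
      have h5 : N * u = N := by rw [← h4, mul_assoc, h1, mul_add, h2, add_zero, h4]
      rw [pow_succ, ← mul_assoc, ih, add_mul, h1, smul_mul_assoc, h5, Nat.cast_succ, add_smul, one_smul]
      abel
  have := k (orderOf u)
  rw [← Units.val_pow_eq_pow_val, pow_orderOf_eq_one, Units.val_one, mul_one, left_eq_add] at this
  exact (smul_eq_zero.1 this).resolve_left h

theorem det_of_nil {u : (End F V)ˣ} (hn : IsNilpotent ((u : End F V) - 1)) : LinearMap.det (u : End F V) = 1 := by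
  obtain ⟨k, hk⟩ := exists_pow_char hn
  have := Fact.mk (CharP.char_is_prime F (ringChar F))
  have e : LinearMap.det (u : End F V) ^ ringChar F ^ k = 1 := by
    rw [← map_pow, ← Units.val_pow_eq_pow_val, hk, Units.val_one, map_one]
  refine sub_eq_zero.1 (pow_eq_zero_iff (pow_ne_zero k (Fact.out : (ringChar F).Prime).ne_zero) |>.1 ?_)
  rw [sub_pow_char_pow, e, one_pow, sub_self]

/-- `det (1 + X) = 1` for nilpotent `X` (`IsNilpotent.charpoly_eq_X_pow_finrank` / `LinearMap.det` of unipotent, or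
`det (1+X)` has order a power of the characteristic since `(1 + X) ^ ℓ = 1`). -/
theorem Rt.exists_SS {X : End F V} (h : Rt U X) :
    ∃ s ∈ SS U, (s : End F V) = 1 + X ∧ ((s⁻¹ : (End F V)ˣ) : End F V) = 1 - X := by
  obtain ⟨s, hs, e⟩ := h.2
  refine ⟨s, ⟨hs, det_of_nil ⟨2, by rw [e, add_sub_cancel_left, pow_two, h.1]⟩⟩, e, Units.inv_eq_of_mul_eq_one_right ?_⟩
  rw [e, add_mul, mul_sub, mul_sub, h.1]
  simp

/-- same for any unipotent element of `U` -/
theorem mem_SS_of_nil {u : (End F V)ˣ} (hu : u ∈ U) (hn : IsNilpotent ((u : End F V) - 1)) : u ∈ SS U := by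
  exact ⟨hu, det_of_nil hn⟩

theorem commutator_mem_SS {a b : (End F V)ˣ} (ha : a ∈ U) (hb : b ∈ U) : ⁅a, b⁆ ∈ SS U := by
  have e : ∀ a : (End F V)ˣ, LinearMap.det (a : End F V) * LinearMap.det ((a⁻¹ : (End F V)ˣ) : End F V) = 1 :=
    fun a => by rw [← map_mul, Units.mul_inv, map_one]
  refine mem_SS.2 ⟨U.mul_mem (U.mul_mem (U.mul_mem ha hb) (U.inv_mem ha)) (U.inv_mem hb), ?_⟩
  rw [commutatorElement_def, Units.val_mul, Units.val_mul, Units.val_mul, map_mul, map_mul, map_mul,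
    mul_right_comm _ _ (LinearMap.det ((a⁻¹ : (End F V)ˣ) : End F V)), e, one_mul, e]

theorem conj_mem_SS {k s : (End F V)ˣ} (hk : k ∈ U) (hs : s ∈ SS U) : k * s * k⁻¹ ∈ SS U := by
  exact Subgroup.mem_inf.2 ⟨U.mul_mem (U.mul_mem hk hs.1) (U.inv_mem hk), (MonoidHom.normal_ker _).conj_mem s hs.2 k⟩

theorem Rt.conj {k : (End F V)ˣ} (hk : k ∈ U) {X : End F V} (h : Rt U X) :
    Rt U ((k : End F V) * X * ((k⁻¹ : (End F V)ˣ) : End F V)) := by
  refine ⟨?_, ?_⟩
  · simp only [mul_assoc]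
    rw [Units.inv_mul_cancel_left, ← mul_assoc X, h.1, zero_mul, mul_zero]
  · have := h.2.conj hk
    rwa [mul_add, add_mul, mul_one, Units.mul_inv] at this

/-- `u⁻¹ = u ^ (orderOf u - 1)` in the finite group of units. -/
theorem inv_mem_alg {A : Subalgebra F (End F V)} {u : (End F V)ˣ} (h : (u : End F V) ∈ A) :
    ((u⁻¹ : (End F V)ˣ) : End F V) ∈ A := by
  obtain ⟨n, e⟩ := (isOfFinOrder_of_finite u).mem_powers_iff_mem_zpowers.2 (inv_mem (Subgroup.mem_zpowers u))
  rw [← e, Units.val_pow_eq_pow_val]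
  exact pow_mem h n

/-- the units lying in a subalgebra -/
def un (A : Subalgebra F (End F V)) : Subgroup (End F V)ˣ where
  carrier := {u | (u : End F V) ∈ A}
  mul_mem' ha hb := A.mul_mem ha hb
  one_mem' := A.one_mem
  inv_mem' ha := inv_mem_alg ha

theorem mem_un {A : Subalgebra F (End F V)} {u : (End F V)ˣ} : u ∈ un A ↔ (u : End F V) ∈ A := Iff.rfl

theorem ZZ_le_un (A : Subalgebra F (End F V)) : ZZ U ≤ un A := by
  rintro z ⟨-, c, hc⟩
  rw [mem_un, hc]
  exact A.smul_mem A.one_mem c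

/-- `sp A` is the linear span of `A` (`Algebra.adjoin_eq_span`, closure of a subgroup image). -/
theorem sp_induction {A : Subgroup (End F V)ˣ} {P : End F V → Prop} (h1 : ∀ a ∈ A, P (a : End F V))
    (h0 : P 0) (ha : ∀ X Y, P X → P Y → P (X + Y)) (hs : ∀ (c : F) X, P X → P (c • X))
    {X : End F V} (hX : X ∈ sp A) : P X := by
  have k : X ∈ Submodule.span F ((fun u : (End F V)ˣ => (u : End F V)) '' (A : Set (End F V)ˣ)) := by
    have := (Subalgebra.mem_toSubmodule _).2 hX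
    rw [sp, Algebra.adjoin_eq_span] at this
    refine Submodule.span_mono (fun Y hY => ?_) this
    induction hY using Submonoid.closure_induction with
    | mem x hx => exact hx
    | one => exact ⟨1, A.one_mem, rfl⟩
    | mul x y _ _ hx hy =>
      obtain ⟨a, h1, rfl⟩ := hx
      obtain ⟨b, h2, rfl⟩ := hy
      exact ⟨a * b, A.mul_mem h1 h2, rfl⟩
  clear hX
  induction k using Submodule.span_induction with
  | mem x hx =>
    obtain ⟨a, h2, rfl⟩ := hx
    exact h1 a h2
  | zero => exact h0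
  | add x y _ _ hx hy => exact ha x y hx hy
  | smul c x _ hx => exact hs c x hx

theorem sp_le {A : Subgroup (End F V)ˣ} {C : Subalgebra F (End F V)} (h : ∀ a ∈ A, (a : End F V) ∈ C) :
    sp A ≤ C := by
  exact Algebra.adjoin_le fun _ ⟨a, h1, e⟩ => e ▸ h a h1

theorem commute_sp {A : Subgroup (End F V)ˣ} {x : End F V} (h : ∀ a ∈ A, Commute x (a : End F V))
    {X : End F V} (hX : X ∈ sp A) : Commute x X := by
  exact sp_induction h (Commute.zero_right x) (fun _ _ => Commute.add_right) (fun c _ k => k.smul_right c) hX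

theorem Ab.sp_comm {A : Subgroup (End F V)ˣ} (h : Ab A) {X Y : End F V} (hX : X ∈ sp A) (hY : Y ∈ sp A) :
    Commute X Y := by
  exact commute_sp (fun b hb => (commute_sp (fun a ha => (h b hb a ha).units_val) hX).symm) hY

theorem sp_conj' {A B : Subgroup (End F V)ˣ} {g : (End F V)ˣ} (h : ∀ a ∈ A, g * a * g⁻¹ ∈ B)
    {X : End F V} (hX : X ∈ sp A) : (g : End F V) * X * ((g⁻¹ : (End F V)ˣ) : End F V) ∈ sp B :=
  sp_induction (P := fun X => (g : End F V) * X * ((g⁻¹ : (End F V)ˣ) : End F V) ∈ sp B) (fun a ha => mem_sp (h a ha))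
    (by rw [mul_zero, zero_mul]; exact zero_mem _) (fun X Y a b => by rw [mul_add, add_mul]; exact add_mem a b)
    (fun c X a => by rw [mul_smul_comm, smul_mul_assoc]; exact Subalgebra.smul_mem _ a c) hX

theorem sp_conj {A : Subgroup (End F V)ˣ} {g : (End F V)ˣ} (h : ∀ a ∈ A, g * a * g⁻¹ ∈ A)
    {X : End F V} (hX : X ∈ sp A) : (g : End F V) * X * ((g⁻¹ : (End F V)ˣ) : End F V) ∈ sp A := by
  exact sp_conj' h hX

theorem mem_sp_Ek {E : Subgroup (End F V)ˣ} {k : (End F V)ˣ} {X : End F V} :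
    X ∈ sp (Ek E k) ↔ (k : End F V) * X * ((k⁻¹ : (End F V)ˣ) : End F V) ∈ sp E := by
  refine ⟨sp_conj' fun _ => mem_Ek.1, fun h => ?_⟩
  have := sp_conj' (g := k⁻¹) (B := Ek E k) (fun a ha => mem_Ek.2 (by simpa [mul_assoc] using ha)) h
  rwa [inv_inv, mul_assoc, Units.inv_mul_cancel_right, Units.inv_mul_cancel_left] at this

/-- If `k⁻¹ E k ≤ sp E` then `X ↦ k⁻¹ X k` maps the finite set `sp E` injectively into itself, so onto. -/
theorem conj_mem_sp_of_Ek_le {E : Subgroup (End F V)ˣ} {k : (End F V)ˣ}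
    (h : ∀ x ∈ Ek E k, (x : End F V) ∈ sp E) {X : End F V} (hX : X ∈ sp E) :
    (k : End F V) * X * ((k⁻¹ : (End F V)ˣ) : End F V) ∈ sp E := by
  have h1 : (sp (Ek E k) : Set (End F V)) ⊆ sp E := sp_le h
  refine mem_sp_Ek.1 ((Set.eq_of_subset_of_ncard_le h1 (Set.ncard_le_ncard_of_injOn
    (fun X => ((k⁻¹ : (End F V)ˣ) : End F V) * X * k) (fun Y hY => mem_sp_Ek.2 ?_) fun Y _ Z _ e => ?_)).ge hX)
  · rwa [mul_assoc, Units.mul_inv_cancel_right, Units.mul_inv_cancel_left]
  · simpa using e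

/-- finite group: `k⁻¹ E k ≤ E` gives equality -/
theorem conj_mem_of_Ek_le {E : Subgroup (End F V)ˣ} {k : (End F V)ˣ} (h : Ek E k ≤ E) :
    ∀ a ∈ E, k * a * k⁻¹ ∈ E := by
  refine fun a ha => mem_Ek.1 ((Subgroup.eq_of_le_of_card_ge h ?_).ge ha)
  exact Nat.card_le_card_of_injective (fun x : E => (⟨k⁻¹ * x * k, mem_Ek.2 (by simpa [mul_assoc] using x.2)⟩ : Ek E k))
    fun x y e => Subtype.ext (by simpa using e)

theorem Ab.ek {E : Subgroup (End F V)ˣ} (h : Ab E) (k : (End F V)ˣ) : Ab (Ek E k) := by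
  exact fun a ha b hb => (Commute.conj_iff k).1 (h _ ha _ hb)

theorem ZZ_le_Ek {E : Subgroup (End F V)ˣ} (h : ZZ U ≤ E) (k : (End F V)ˣ) : ZZ U ≤ Ek E k := by
  exact fun _ hz => h (conj_mem_ZZ.2 hz)

/-! ranks of idempotents -/

theorem rk_one : rk (1 : End F V) = finrank F V := by
  rw [rk, End.one_eq_id, LinearMap.range_id, finrank_top]

theorem rk_eq_zero {X : End F V} : rk X = 0 ↔ X = 0 := by
  rw [rk, Submodule.finrank_eq_zero, LinearMap.range_eq_bot]

theorem rk_mul_le (X Y : End F V) : rk (X * Y) ≤ rk X := Submodule.finrank_mono (LinearMap.range_comp_le_range Y X)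

theorem rk_conj (k : (End F V)ˣ) (X : End F V) :
    rk ((k : End F V) * X * ((k⁻¹ : (End F V)ˣ) : End F V)) = rk X := by
  have k' : ∀ (k : (End F V)ˣ) (X : End F V), rk ((k : End F V) * X * ((k⁻¹ : (End F V)ˣ) : End F V)) ≤ rk X := fun k X =>
    (rk_mul_le _ _).trans (by
      rw [rk, End.mul_eq_comp, LinearMap.range_comp]
      exact Submodule.finrank_map_le _ _)
  refine (k' k X).antisymm (le_trans (le_of_eq ?_) (k' k⁻¹ _))
  rw [inv_inv, mul_assoc, Units.inv_mul_cancel_right, Units.inv_mul_cancel_left]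

theorem Le.rk_le {e f : End F V} (h : Le f e) : rk f ≤ rk e := by
  exact h.2 ▸ rk_mul_le e f

/-- equal ranges: `e = f * e = f`. -/
theorem Le.eq_of_rk {e f : End F V} (he : IsIdempotentElem e) (hf : IsIdempotentElem f) (h : Le f e)
    (hr : rk e ≤ rk f) : f = e := by
  have e1 : LinearMap.range f = LinearMap.range e :=
    Submodule.eq_of_le_of_finrank_le (h.2 ▸ LinearMap.range_comp_le_range f e) hr
  rw [← h.1]
  ext v
  obtain ⟨w, hw⟩ := e1.ge (LinearMap.mem_range_self e v)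
  rw [End.mul_apply, ← hw, ← End.mul_apply, hf.eq]

theorem rk_add {e f : End F V} (he : IsIdempotentElem e) (hf : IsIdempotentElem f) (h1 : e * f = 0)
    (h2 : f * e = 0) : rk (e + f) = rk e + rk f := by
  have e1 : LinearMap.range (e + f) = LinearMap.range e ⊔ LinearMap.range f := by
    refine le_antisymm (LinearMap.range_add_le _ _) (sup_le ?_ ?_)
    · exact (congrArg LinearMap.range (show (e + f) * e = e by rw [add_mul, he.eq, h2, add_zero])).ge.trans
        (LinearMap.range_comp_le_range e (e + f))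
    · exact (congrArg LinearMap.range (show (e + f) * f = f by rw [add_mul, hf.eq, h1, zero_add])).ge.trans
        (LinearMap.range_comp_le_range f (e + f))
  have e2 : LinearMap.range e ⊓ LinearMap.range f = ⊥ := eq_bot_iff.2 fun v ⟨⟨a, ha⟩, ⟨b, hb⟩⟩ => by
    rw [Submodule.mem_bot, ← ha, ← he.eq, End.mul_apply, ha, ← hb, ← End.mul_apply, h1, LinearMap.zero_apply]
  have := Submodule.finrank_sup_add_finrank_inf_eq (LinearMap.range e) (LinearMap.range f)
  rwa [e2, finrank_bot, add_zero, ← e1] at this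

theorem rk_sum {ι : Type*} (s : Finset ι) (e : ι → End F V) (he : ∀ i ∈ s, IsIdempotentElem (e i))
    (ho : ∀ i ∈ s, ∀ j ∈ s, i ≠ j → e i * e j = 0) : rk (∑ i ∈ s, e i) = ∑ i ∈ s, rk (e i) := by
  classical
  induction s using Finset.induction_on with
  | empty => simpa using rk_eq_zero.2 rfl
  | insert a s ha ih =>
    have h1 := fun i hi => he i (Finset.mem_insert_of_mem hi)
    have h2 := fun i hi j hj => ho i (Finset.mem_insert_of_mem hi) j (Finset.mem_insert_of_mem hj)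
    have h3 : ∀ i ∈ s, a ≠ i := fun i hi e => ha (e ▸ hi)
    rw [Finset.sum_insert ha, Finset.sum_insert ha, rk_add (he a (Finset.mem_insert_self _ _)), ih h1 h2]
    · rw [IsIdempotentElem, Finset.sum_mul_sum]
      exact Finset.sum_congr rfl fun i hi =>
        (Finset.sum_eq_single_of_mem i hi fun j hj e => h2 i hi j hj e.symm).trans (h1 i hi)
    · rw [Finset.mul_sum]
      exact Finset.sum_eq_zero fun i hi => ho a (Finset.mem_insert_self _ _) i (Finset.mem_insert_of_mem hi) (h3 i hi)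
    · rw [Finset.sum_mul]
      exact Finset.sum_eq_zero fun i hi => ho i (Finset.mem_insert_of_mem hi) a (Finset.mem_insert_self _ _) (h3 i hi).symm

/-- on a rank-one idempotent everything commuting with it is scalar -/
theorem scOn_of_rk_le_one {e x : End F V} (he : IsIdempotentElem e) (hr : rk e ≤ 1) (hc : Commute e x) :
    ScOn e x := by
  obtain ⟨⟨v, w, rfl⟩, hv⟩ := finrank_le_one_iff.1 hr
  obtain ⟨c, h1⟩ := hv ⟨_, LinearMap.mem_range_self e (x w)⟩
  refine ⟨c, LinearMap.ext fun u => ?_⟩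
  obtain ⟨d, h2⟩ := hv ⟨_, LinearMap.mem_range_self e u⟩
  have h3 : c • e w = e (x w) := congrArg Subtype.val h1
  have h4 : d • e w = e u := congrArg Subtype.val h2
  rw [hc.eq, End.mul_apply, LinearMap.smul_apply, ← h4, map_smul, ← End.mul_apply, ← hc.eq, End.mul_apply, ← h3, smul_comm]

theorem St.map_eq {W : Submodule F V} {u : (End F V)ˣ} (h : St W (u : End F V)) :
    W.map (u : End F V) = W := by
  refine Submodule.eq_of_le_of_finrank_le (Submodule.map_le_iff_le_comap.2 h) ?_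
  exact (LinearEquiv.finrank_eq (W.equivMapOfInjective _ ((End.isUnit_iff _).1 u.isUnit).1)).le

theorem St.inv {W : Submodule F V} {u : (End F V)ˣ} (h : St W (u : End F V)) :
    St W ((u⁻¹ : (End F V)ˣ) : End F V) := by
  intro v hv
  obtain ⟨w, hw, rfl⟩ := h.map_eq.ge hv
  rwa [← End.mul_apply, Units.inv_mul, End.one_apply]

end Cfsg.Lib.WB
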