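import Cfsg.Agent.Lib.WB.AB

/-!
# S3694: the case `E` abelian, commuting with all neighbours
-/

set_option linter.unusedSectionVars false

namespace Cfsg.Lib.WB

open Module Cfsg.Lib.Unitary Cfsg.Lib.Transfer
open scoped commutatorElement

variable {F V : Type*} [Field F] [AddCommGroup V] [Module F V] [Finite F] [Finite V]
  {U : Subgroup (End F V)ˣ}

namespace LC

variable {p : ℕ} (L : LC U p)

/-- the hypotheses of this case -/
structure CM : Prop where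
  h0 : (p : F) ≠ 0
  ab : Ab L.E
  ad : ¬ NoAd U (sp L.E)
  cm : ∀ k ∈ L.K, ∀ x ∈ Ek L.E k, ∀ y ∈ L.E, Commute x y

/-- `E / ZZ U` is cyclic of order `p` -/
def Cy : Prop := ∀ y ∈ L.E, ∀ y' ∈ L.E, y ∉ ZZ U → ∃ j : ℕ, ∃ z ∈ ZZ U, y' = z * y ^ j

variable {L}

theorem cm_pow {e y : End F V} {a : F} (h : e * y = a • e) (n : ℕ) : e * y ^ n = a ^ n • e := by
  induction n with
  | zero => simp
  | succ n ih => rw [pow_succ, ← mul_assoc, ih, smul_mul_assoc, h, smul_smul, pow_succ]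

theorem cm_two {e x y : End F V} (h : e * x = e * y) (h' : (1 - e) * x = (1 - e) * y) : x = y := by
  rw [sub_mul, sub_mul, h, one_mul, one_mul] at h'
  exact sub_left_injective h'

theorem cm_ne {e : End F V} {y : (End F V)ˣ} {a : F} (h0 : e ≠ 0) (h : e * y = a • e) : a ≠ 0 := fun k => h0 (by
  rw [k, zero_smul] at h
  exact y.mul_left_eq_zero.1 h)

theorem cm_inj {e : End F V} {a b : F} (h0 : e ≠ 0) (h : a • e = b • e) : a = b := smul_left_injective F h0 h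

theorem cm_unconj {k : (End F V)ˣ} {e x : End F V} {a : F}
    (h : (k : End F V) * e * ((k⁻¹ : (End F V)ˣ) : End F V) * (k * x * ((k⁻¹ : (End F V)ˣ) : End F V)) =
      a • ((k : End F V) * e * ((k⁻¹ : (End F V)ˣ) : End F V))) : e * x = a • e := by
  have := congrArg (fun z => ((k⁻¹ : (End F V)ˣ) : End F V) * z * k) h
  simpa [mul_assoc] using this

theorem cm_sup_mul {e a b : End F V} (ha : Sup e a) (hb : Sup e b) : Sup e (a * b) :=
  ⟨ha.1.mul_right hb.1, by rw [← mul_assoc, ha.2, hb.2]⟩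

theorem cm_sup_inv {e : End F V} {s : (End F V)ˣ} (h : Sup e (s : End F V)) : Sup e ((s⁻¹ : (End F V)ˣ) : End F V) :=
  ⟨h.1.units_inv_right, by nth_rw 1 [← h.2]; rw [Units.mul_inv_cancel_right]⟩

theorem cm_sup_conj {e a : End F V} {x : (End F V)ˣ} (hx : Commute e (x : End F V)) (h : Sup e a) :
    Sup e (x * a * ((x⁻¹ : (End F V)ˣ) : End F V)) := by
  have c : Commute (1 - e) (x : End F V) := (Commute.one_left _).sub_left hx
  exact ⟨(hx.mul_right h.1).mul_right hx.units_inv_right, by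
    rw [← mul_assoc, ← mul_assoc, c.eq, mul_assoc _ _ a, h.2, ← c.eq, Units.mul_inv_cancel_right]⟩

theorem cm_sup_fix {e g : End F V} {s : (End F V)ˣ} (h : Sup e (s : End F V)) (h1 : e * g = 0) (h2 : g * e = 0) :
    (s : End F V) * g * ((s⁻¹ : (End F V)ˣ) : End F V) = g := by
  have c : Commute (1 - e) (s : End F V) := (Commute.one_left _).sub_left h.1
  have e1 : (1 - e) * g = g := by rw [sub_mul, h1, one_mul, sub_zero]
  have e2 : g * (1 - e) = g := by rw [mul_sub, h2, mul_one, sub_zero]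
  rw [← e1, ← mul_assoc, ← c.eq, h.2, e1, ← e2, mul_assoc, (cm_sup_inv h).2]

theorem Cy.ek (h : L.Cy) {k t x : (End F V)ˣ} (ht : t ∈ Ek L.E k) (hx : x ∈ Ek L.E k) (hn : t ∉ ZZ U) :
    ∃ j : ℕ, ∃ z ∈ ZZ U, x = z * t ^ j := by
  obtain ⟨j, z, hz, e⟩ := h _ ht _ hx (mt conj_mem_ZZ.1 hn)
  refine ⟨j, z, hz, (MulAut.conj k).injective ?_⟩
  rw [map_mul, map_pow]
  change k * x * k⁻¹ = k * z * k⁻¹ * (k * t * k⁻¹) ^ j
  rw [← (ZZ_comm hz k).eq, mul_inv_cancel_right]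
  exact e

/-- `y = α e + β (1 - e)`, `α, β ≠ 0`, `(α/β)^p = 1` (`pE`), `α ≠ β`; so `α'/β' = (α/β)^j` and `y' y^{-j}` is scalar. -/
theorem cy_of_sc {e : End F V} (hi : IsIdempotentElem e) (h0 : e ≠ 0) (h1 : e ≠ 1)
    (hc : ∀ y ∈ L.E, Commute e (y : End F V)) (hs : ∀ y ∈ L.E, ScOn e (y : End F V))
    (hs' : ∀ y ∈ L.E, ScOn (1 - e) (y : End F V)) : L.Cy := by
  intro y hy y' hy' hn
  have h1' : 1 - e ≠ 0 := sub_ne_zero.2 h1.symm
  have rt : ∀ w ∈ L.E, ∃ a b : F, e * w = a • e ∧ (1 - e) * w = b • (1 - e) ∧ a ≠ 0 ∧ b ≠ 0 ∧ (a / b) ^ p = 1 :=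
    fun w hw => by
      obtain ⟨a, ha⟩ := hs w hw
      obtain ⟨b, hb⟩ := hs' w hw
      obtain ⟨-, d, hd⟩ := L.pE w hw
      rw [Units.val_pow_eq_pow_val] at hd
      have e1 := cm_pow ha p
      have e2 := cm_pow hb p
      rw [hd, mul_smul_comm, mul_one] at e1 e2
      refine ⟨a, b, ha, hb, cm_ne h0 ha, cm_ne h1' hb, ?_⟩
      rw [div_pow, ← cm_inj h0 e1, cm_inj h1' e2, div_self (pow_ne_zero _ (cm_ne h1' hb))]
  obtain ⟨a, b, ha, hb, a0, b0, ab⟩ := rt y hy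
  obtain ⟨a', b', ha', hb', -, b0', ab'⟩ := rt y' hy'
  have := Fact.mk L.pp
  have : NeZero p := ⟨L.pp.ne_zero⟩
  have pr : IsPrimitiveRoot (a / b) p := orderOf_eq_prime ab (fun k => hn ⟨L.EU hy, a, cm_two (e := e)
    (by rw [ha, mul_smul_comm, mul_one]) (by rw [hb, mul_smul_comm, mul_one, (div_eq_one_iff_eq b0).1 k])⟩) ▸
    IsPrimitiveRoot.orderOf (a / b)
  obtain ⟨j, -, hj⟩ := pr.eq_pow_of_pow_eq_one ab'
  refine ⟨j, y' * (y ^ j)⁻¹, ⟨U.mul_mem (L.EU hy') (U.inv_mem (U.pow_mem (L.EU hy) j)), b' / b ^ j, ?_⟩,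
    (inv_mul_cancel_right _ _).symm⟩
  rw [Units.val_mul, Units.mul_inv_eq_iff_eq_mul, smul_mul_assoc, one_mul, Units.val_pow_eq_pow_val]
  refine cm_two (e := e) ?_ ?_
  · rw [ha', mul_smul_comm, cm_pow ha, smul_smul]
    congr 1
    rw [div_pow, div_eq_div_iff (pow_ne_zero _ b0) b0'] at hj
    field_simp
    rw [← hj, mul_comm]
  · rw [hb', mul_smul_comm, cm_pow hb, smul_smul, div_mul_cancel₀ _ (pow_ne_zero _ b0)]

/-- `y₀ ∈ E \ ZZ` is not scalar on `f`; by `c22`, `f y ∈ span {f, f y₀} \ 0` for `y ∈ E`, and `y ↦ f y` is injective (`f y = f` makes `y` scalar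
on `f`, so `y ∈ ZZ U`, `y = 1`).  `|E| ≤ |F|² - 1`, `|ZZ U| = |F| - 1` (`Q2.card_ZZ`), so `|E / ZZ| ≤ 5`.  `p ≠ 2` (`Q2.two`).  If `y' ∉ ⟨y⟩ ZZ` then the
elementary abelian `E / ZZ` has order `≥ p² ≥ 9`. -/
theorem cy_of_rk (h0 : (p : F) ≠ 0) (hab : Ab L.E) (hq : Q2 U) {f : End F V} (hi : IsIdempotentElem f) (h2 : rk f = 2)
    (hc : ∀ y ∈ L.E, Commute f (y : End F V)) (hs : ∀ y ∈ L.E, ScOn f (y : End F V) → y ∈ ZZ U) : L.Cy := by
  intro y hy y' hy' hn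
  have f0 : f ≠ 0 := fun k => by rw [rk_eq_zero.2 k] at h2; exact absurd h2 (by decide)
  have ex : ∀ w : L.E, ∃ v : {v : F × F // v ≠ 0}, f * w.1 = v.1.1 • f + v.1.2 • (f * y) := fun w => by
    obtain ⟨a, b, e⟩ := c22 hi h2 (hc y hy) (fun k => hn (hs y hy k)) (hc w w.2) (hab w w.2 y hy).units_val
    refine ⟨⟨(a, b), fun k => f0 ?_⟩, e⟩
    rw [(Prod.mk_eq_zero.1 k).1, (Prod.mk_eq_zero.1 k).2, zero_smul, zero_smul, add_zero] at e
    exact w.1.mul_left_eq_zero.1 e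
  choose φ hφ using ex
  have inj : Function.Injective φ := fun w w' k => by
    have e : f * ((w * w'⁻¹ : L.E).1 : (End F V)ˣ) = (1 : F) • f := by
      have := (hφ w).trans (k ▸ (hφ w').symm)
      simp [← mul_assoc, this]
    obtain ⟨-, d, hd⟩ := hs _ (w * w'⁻¹).2 ⟨1, e⟩
    rw [hd, mul_smul_comm, mul_one] at e
    rw [cm_inj f0 e, one_smul] at hd
    exact mul_inv_eq_one.1 (Subtype.ext (Units.ext hd))
  have c1 := Nat.card_le_card_of_injective φ inj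
  classical
  have := Fintype.ofFinite F
  rw [Nat.card_eq_fintype_card (α := {v : F × F // v ≠ 0}), Fintype.card_subtype_compl, Fintype.card_subtype_eq,
    Fintype.card_prod, ← Nat.card_eq_fintype_card, ← BG.card_mul_relIndex L.ZE, hq.card_ZZ L.kd] at c1
  have n : ((ZZ U).subgroupOf L.E).Normal := ⟨fun a ha g => conj_mem_ZZ.2 ha⟩
  have c2 : Nat.card (L.E ⧸ (ZZ U).subgroupOf L.E) ≤ 5 := by
    change (ZZ U).relIndex L.E ≤ 5
    rcases hq with k | ⟨k, -⟩ <;> rw [k] at c1 <;> omega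
  have := Fact.mk L.pp
  have o : orderOf (QuotientGroup.mk ⟨y, hy⟩ : L.E ⧸ (ZZ U).subgroupOf L.E) = p :=
    orderOf_eq_prime (by rw [← QuotientGroup.mk_pow, QuotientGroup.eq_one_iff]; exact L.pE y hy)
      fun k => hn ((QuotientGroup.eq_one_iff (⟨y, hy⟩ : L.E)).1 k)
  have p3 : 3 ≤ p := by
    have := L.pp.two_le
    refine by_contra fun k => h0 ?_
    rw [show p = 2 by omega]
    exact hq.two
  have c3 := (Subgroup.zpowers (QuotientGroup.mk ⟨y, hy⟩ : L.E ⧸ (ZZ U).subgroupOf L.E)).card_mul_index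
  rw [Nat.card_zpowers, o] at c3
  have c4 := (Subgroup.zpowers (QuotientGroup.mk ⟨y, hy⟩ : L.E ⧸ (ZZ U).subgroupOf L.E)).index_ne_zero_of_finite
  have c5 : (Subgroup.zpowers (QuotientGroup.mk ⟨y, hy⟩ : L.E ⧸ (ZZ U).subgroupOf L.E)) = ⊤ :=
    Subgroup.index_eq_one.1 (by_contra fun k => by nlinarith [Nat.two_le_iff _ |>.2 ⟨c4, k⟩])
  obtain ⟨j, hj⟩ := mem_powers_iff_mem_zpowers.2 (c5.ge (Subgroup.mem_top (QuotientGroup.mk ⟨y', hy'⟩)))
  have m := QuotientGroup.eq.1 ((QuotientGroup.mk_pow ((ZZ U).subgroupOf L.E) ⟨y, hy⟩ j).trans hj)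
  replace m : (y ^ j)⁻¹ * y' ∈ ZZ U := m
  exact ⟨j, _, m, by rw [(ZZ_comm m _).eq, mul_inv_cancel_left]⟩

/-- `eta_sc` for `1 - e`.  In the second case `{y ∈ E | ScOn (1 - e) y}` is an invariant subgroup (`Tau.scOn`), so `E` or `ZZ U` (`min`). -/
theorem cy_of_fix (h0 : (p : F) ≠ 0) (hab : Ab L.E) {e : End F V} (hZ : e ∈ sp L.E) (ha : Ad U e) (h1 : e ≠ 0) (h2 : e ≠ 1)
    (hT : ∀ τ ∈ L.T, τ e = e) (hs : ∀ y ∈ L.E, ScOn e (y : End F V)) : L.Cy := by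
  have hc : ∀ y ∈ L.E, Commute e (y : End F V) := fun y hy => hab.sp_comm hZ (mem_sp hy)
  have hc' : ∀ y ∈ L.E, Commute (1 - e) (y : End F V) := fun y hy => (Commute.one_left _).sub_left (hc y hy)
  have h2' : 1 - e ≠ 0 := sub_ne_zero.2 h2.symm
  have hT' : ∀ τ ∈ L.T, τ (1 - e) = 1 - e := fun τ hτ => by rw [map_sub, (L.tau τ hτ).one, hT τ hτ]
  rcases L.eta_sc h0 hab (sub_mem (one_mem _) hZ) (ha.compl L.kd) h2' (fun k => h1 (sub_eq_self.1 k)) hT' with k | k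
  · exact cy_of_sc ha.1 h1 h2 hc hs k
  let A : Subgroup (End F V)ˣ :=
    { carrier := {y | y ∈ L.E ∧ ScOn (1 - e) (y : End F V)}
      one_mem' := ⟨one_mem _, 1, by simp⟩
      mul_mem' := fun ⟨ha, a, ea⟩ ⟨hb, b, eb⟩ => ⟨mul_mem ha hb, a * b, by
        rw [Units.val_mul, ← mul_assoc, ea, smul_mul_assoc, eb, smul_smul]⟩
      inv_mem' := fun ⟨ha, a, ea⟩ => ⟨inv_mem ha, a⁻¹, by
        rw [Units.mul_inv_eq_iff_eq_mul, smul_mul_assoc, ea, smul_smul, inv_mul_cancel₀ (cm_ne h2' ea), one_smul]⟩ }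
  rcases L.min A (fun _ h => h.1) (fun z hz => ⟨L.ZE hz, hz.2.imp fun d hd => by rw [hd, mul_smul_comm, mul_one]⟩)
    (TI.of_u L.tau fun τ hτ a ha => ⟨L.tE.u_mem hτ _ ha.1, by
      have := (L.tau τ hτ).scOn (hc' a ha.1) ha.2
      rwa [hT' τ hτ] at this⟩) with m | m
  · exact cy_of_rk h0 hab k.1 ha.1.one_sub k.2 hc' fun y hy s => m.le ⟨hy, s⟩
  · exact cy_of_sc ha.1 h1 h2 hc hs fun y hy => (m.ge hy).2

variable (c : L.CM)
include c

theorem CM.commute {k x : (End F V)ˣ} (hk : k ∈ L.K) (hx : x ∈ Ek L.E k) {a : End F V} (ha : a ∈ sp L.E) :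
    Commute a (x : End F V) := by
  exact (commute_sp (fun y hy => (c.cm k hk x hx y hy).units_val) ha).symm

/-- commutators with `S_e`-conjugates are supported on `e` -/
theorem CM.sup {k x s : (End F V)ˣ} (hk : k ∈ L.K) (hx : x ∈ Ek L.E k) {e : End F V} (he : At U (sp L.E) e)
    (hs : Sup e (s : End F V)) : Sup e ((⁅x, s * x * s⁻¹⁆ : (End F V)ˣ) : End F V) := by
  have cx := c.commute hk hx he.1
  have h1 := cm_sup_conj cx hs
  have := cm_sup_mul (cm_sup_mul (cm_sup_mul h1 (cm_sup_conj cx (cm_sup_conj cx (cm_sup_inv hs)))) h1) (cm_sup_inv hs)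
  convert this using 1
  norm_cast
  rw [commutatorElement_def]
  group

/-- `f` from `exists_fix` for `t` lies in `sp (k⁻¹ E k)`; `(1 - e) f = 1 - e`; `e' = 1 - f ≠ 0` is admissible, `Le e' e`.  `k e' k⁻¹ ∈ sp E` has an atom `a`
below it: `rk e ≤ rk a ≤ rk e' ≤ rk e`, so `e' = e`, `a = k e k⁻¹`. -/
theorem CM.at_conj {k t : (End F V)ˣ} (hk : k ∈ L.K) (ht : t ∈ Ek L.E k) (h1 : t ≠ 1) {e : End F V}
    (he : At U (sp L.E) e) (hs : Sup e (t : End F V)) (hm : ∀ a, At U (sp L.E) a → rk e ≤ rk a) :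
    At U (sp L.E) ((k : End F V) * e * ((k⁻¹ : (End F V)ˣ) : End F V)) := by
  have hY := L.KY k hk ht
  obtain ⟨f, f1, f2, f3, f4⟩ := exists_fix L.kd (L.YU hY) (L.ssm c.h0 hY)
  have e1 := f4 _ hs.2
  have cf : Commute e f := Algebra.commute_of_mem_adjoin_of_forall_mem_commute f1 (by simpa using hs.1)
  have e2 : e * (1 - f) = 1 - f := by
    rw [sub_mul, one_mul, sub_eq_iff_eq_add] at e1
    rw [mul_sub, mul_one]
    nth_rw 2 [e1]
    abel
  have le : Le (1 - f) e := ⟨((Commute.one_right e).sub_right cf).eq.symm.trans e2, e2⟩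
  have m : (k : End F V) * (1 - f) * ((k⁻¹ : (End F V)ˣ) : End F V) ∈ sp L.E :=
    mem_sp_Ek.1 (sub_mem (one_mem _) (Algebra.adjoin_le (Set.singleton_subset_iff.2 (mem_sp ht)) f1))
  have ad := (f2.compl L.kd).conj (L.KU hk)
  obtain ⟨a, ha, ea⟩ := exists_at L.kd (fun _ h _ h' => c.ab.sp_comm h h') m ad fun z => h1 (by
    rw [← rk_eq_zero, rk_conj, rk_eq_zero, sub_eq_zero] at z
    rw [← z, one_mul] at f3
    exact Units.ext f3)
  have la : Le a _ := ⟨ea, (c.ab.sp_comm m ha.1).eq.trans ea⟩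
  have r1 := la.rk_le
  rw [rk_conj] at r1
  rw [← le.eq_of_rk he.2.1.1 f2.1.one_sub ((hm a ha).trans r1),
    ← la.eq_of_rk ad.1 ha.2.1.1 (by rw [rk_conj]; exact le.rk_le.trans (hm a ha))]
  exact ha

/-- K1.  Otherwise `Kd.conj_sc` gives `s ∈ SS U` supported on `e` (so `s ∈ H`) with `t = ⁅x, s x s⁻¹⁆ ≠ 1`, `t ∈ k⁻¹ E k ⊓ k'⁻¹ E k'`, `k' = s k s⁻¹`.
If `rk e` is minimal: `at_conj`, `at_sc` for `k e k⁻¹` and `k x k⁻¹ ∈ E`.  Otherwise `e` is fixed by `T` (`fix_or`; `rk e ≥ 2` by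
`scOn_of_rk_le_one`), so `Cy`.  `t ∉ ZZ U` (a scalar supported on `e ≠ 1` is `1`), so `x = z t^j`, `s x s⁻¹ = z' t^{j'}` commute. -/
theorem CM.k1 {k x : (End F V)ˣ} (hk : k ∈ L.K) (hx : x ∈ Ek L.E k) {e : End F V} (he : At U (sp L.E) e)
    (hs : ∀ y ∈ L.E, ScOn e (y : End F V)) (hn : ¬ ScOn e (x : End F V)) : Q2 U ∧ rk e = 2 := by
  have hc : ∀ a ∈ sp L.E, ∀ b ∈ sp L.E, Commute a b := fun _ h _ h' => c.ab.sp_comm h h'
  have hY := L.KY k hk hx
  by_contra hq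
  refine hq ((L.kd.conj_sc he.2.1 (L.YU hY) (L.ssm c.h0 hY) (c.commute hk hx he.1) fun s s1 s2 =>
    by_contra fun t1 => ?_).resolve_left hn)
  have sH := L.mem_H_of_sup c.ab c.ad he (L.SG s1) s2
  have x' := L.conj_mem_Ek sH hx
  obtain ⟨m1, m2⟩ := L.commutator_mem_Ek hk (L.Kc k hk s sH) hx x'
  have st := c.sup hk hx he s2
  have t2 := mt commutatorElement_eq_one_iff_commute.1 t1
  by_cases hm : ∀ a, At U (sp L.E) a → rk e ≤ rk a
  · rcases L.at_sc c.h0 c.ab c.ad (c.at_conj hk m1 t2 he st hm) with h | h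
    · exact hn ((h _ hx).imp fun _ => cm_unconj)
    · exact hq ⟨.inl h.1, rk_conj k e ▸ h.2⟩
  push Not at hm
  obtain ⟨a, ha, lt⟩ := hm
  have e1 := he.ne_one L.kd hc c.ad
  have cy := cy_of_fix c.h0 c.ab he.1 he.2.1 he.2.2.1 e1 (L.fix_or c.h0 c.ab he ha lt.ne (by_contra fun r =>
    hn (scOn_of_rk_le_one he.2.1.1 (by omega) (c.commute hk hx he.1)))) hs
  have t3 : ⁅x, s * x * s⁻¹⁆ ∉ ZZ U := fun ⟨_, d, hd⟩ => t2 (by
    have := st.2
    rw [hd, mul_smul_comm, mul_one] at this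
    rw [cm_inj (sub_ne_zero.2 e1.symm) (this.trans (one_smul F _).symm), one_smul] at hd
    exact Units.ext hd)
  obtain ⟨j, z, hz, e2⟩ := cy.ek m1 hx t3
  obtain ⟨j', z', hz', e3⟩ := cy.ek m2 x' t3
  generalize ⁅x, s * x * s⁻¹⁆ = t at e2 e3
  rw [e3, e2] at t1
  exact t1 ((ZZ_comm hz _).mul_left ((ZZ_comm hz' _).symm.mul_right (Commute.pow_pow_self t j j')))

/-- `exists_not_mem_sp`, `mem_of_ats`: `e x ∉ sp E`.  If some `y ∈ E` is not scalar on `e` then `rk e = 2` (`at_sc`) and `c22` puts `e x` in `sp E`. -/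
theorem CM.exists_at : ∃ k ∈ L.K, ∃ x ∈ Ek L.E k, ∃ e, At U (sp L.E) e ∧ (∀ y ∈ L.E, ScOn e (y : End F V)) ∧
    ¬ ScOn e (x : End F V) := by
  obtain ⟨k, hk⟩ := L.Kne
  obtain ⟨x, hx, n⟩ := L.exists_not_mem_sp c.ab hk
  have := mt (mem_of_ats L.kd fun _ h _ h' => c.ab.sp_comm h h') n
  push Not at this
  obtain ⟨e, he, m⟩ := this
  refine ⟨k, hk, x, hx, e, he, by_contra fun h => ?_, fun ⟨d, hd⟩ => m (hd ▸ Subalgebra.smul_mem _ he.1 d)⟩
  have r := ((L.at_sc c.h0 c.ab c.ad he).resolve_left h).2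
  push Not at h
  obtain ⟨y, hy, h⟩ := h
  obtain ⟨a, b, e1⟩ := c22 he.2.1.1 r (c.ab.sp_comm he.1 (mem_sp hy)) h (c.commute hk hx he.1)
    (c.cm k hk x hx y hy).units_val
  exact m (e1 ▸ add_mem (Subalgebra.smul_mem _ he.1 a) (Subalgebra.smul_mem _ (mul_mem he.1 (mem_sp hy)) b))

/-- `|F| = 2`: `e y = e` for `y ∈ E`.  `τ e` is an atom with the same property; if `τ e ≠ e`, `eq_of_scOn` with `η = e + τ e` gives `e = η`,
`τ e = 0`.  So `e` is fixed by `T`; `eta_sc` for `1 - e`: scalar would make `E = 1`, so `rk (1 - e) = 2`.  `H` commutes with `e` (`cj`),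
`card_commute_le`: `|H| ≤ 2 ^ 8`. -/
theorem CM.bd_two (h2 : Nat.card F = 2) {e : End F V} (he : At U (sp L.E) e)
    (hs : ∀ y ∈ L.E, ScOn e (y : End F V)) (hr : rk e = 2) : L.Bd := by
  have hc : ∀ a ∈ sp L.E, ∀ b ∈ sp L.E, Commute a b := fun _ h _ h' => c.ab.sp_comm h h'
  have one : ∀ {f : End F V} {y : (End F V)ˣ}, f ≠ 0 → ScOn f (y : End F V) → f * y = f := fun f0 ⟨d, hd⟩ => by
    obtain ⟨u, -, hu⟩ := (Nat.card_eq_two_iff' (0 : F)).1 h2
    rw [hd, (hu d (cm_ne f0 hd)).trans (hu 1 one_ne_zero).symm, one_smul]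
  have hT : ∀ τ ∈ L.T, τ e = e := fun τ hτ => by_contra fun ne => by
    have a := he.tau L.tau L.symm L.tZ hc hτ
    have z1 := a.mul_eq_zero L.kd hc he ne
    have z2 := he.mul_eq_zero L.kd hc a (Ne.symm ne)
    have := eq_of_scOn L.kd (η := e + τ e) (he.2.1.1.add a.2.1.1 (by rw [z1, z2, add_zero])) (fun y hy => ⟨1, by
      have y1 := L.tE.u_mem (L.symm τ hτ) (L.tau τ hτ).symm hy
      have := congrArg τ (one he.2.2.1 (hs _ y1))
      rw [(L.tau τ hτ).map_mul_of_commute (hc _ he.1 _ (mem_sp y1)), Tau.coe_u, τ.apply_symm_apply] at this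
      rw [add_mul, one he.2.2.1 (hs y hy), this, one_smul]⟩) he.1 he.2.1.1 he.2.2.1
        (by rw [add_mul, z1, add_zero, he.2.1.1.eq])
    exact a.2.2.1 (left_eq_add.1 this)
  have e1 : 1 - e ≠ 0 := sub_ne_zero.2 (he.ne_one L.kd hc c.ad).symm
  have r := ((L.eta_sc c.h0 c.ab (sub_mem (one_mem _) he.1) (he.2.1.compl L.kd) e1
    (fun k => he.2.2.1 (sub_eq_self.1 k)) fun τ hτ => by rw [map_sub, (L.tau τ hτ).one, hT τ hτ]).resolve_left
      fun k => L.ne fun y hy => by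
        rw [show y = 1 from Units.ext (cm_two (e := e) (by rw [one he.2.2.1 (hs y hy), Units.val_one, mul_one])
          (by rw [one e1 (k y hy), Units.val_one, mul_one]))]
        exact one_mem _).2
  have c1 := card_commute_le he.2.1.1
  have c2 : Nat.card L.H ≤ Nat.card {X : End F V // Commute e X} := Nat.card_le_card_of_injective
    (fun h => ⟨h.1, by
      obtain ⟨τ, hτ, k⟩ := L.cj h h.2
      exact ((Units.mul_inv_eq_iff_eq_mul _).1 ((k e).symm.trans (hT τ hτ))).symm⟩)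
    fun a b k => Subtype.ext (Units.ext (congrArg Subtype.val k))
  have c3 := Nat.le_of_dvd Nat.card_pos (BG.relIndex_dvd_card (ZZ U) L.H)
  rw [hr, r, h2] at c1
  unfold LC.Bd
  rw [h2]
  omega

/-- `𝒟 = adjoin 𝓕`, `𝓕 = {f | Ad U f ∧ rk f = 1 ∧ ∃ a, At a ∧ Le f a}` is invariant.  Each atom is in `𝓕` or a sum `f₀ + (a - f₀)` of two
members (`IsU.fr2`), members are equal or orthogonal, so `𝒟` is commutative and contains `E` (`at_sc`, `sum_ats`).  Let `f₁ ≤ e`, `f' ≤ e'` with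
`e' ≠ e` an atom, `s` from `Kd.sw`; it permutes `𝓕`, so `s ∈ H` (`w2`), and `s e s⁻¹ = f' + (e - f₁)` is an atom, neither equal nor orthogonal to
`e`. -/
theorem CM.not_small (h4 : Nat.card F = 4) (hu : Uni U) {e : End F V} (he : At U (sp L.E) e) (hr : rk e = 2)
    (hall : ∀ a, At U (sp L.E) a → rk a ≤ 2) : False := by
  obtain ⟨⟨σ, B, hB⟩, -⟩ := hu
  have hc : ∀ a ∈ sp L.E, ∀ b ∈ sp L.E, Commute a b := fun _ h _ h' => c.ab.sp_comm h h'
  have sc : ∀ a, At U (sp L.E) a → ∀ y ∈ L.E, ScOn a (y : End F V) := fun a ha =>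
    (L.at_sc c.h0 c.ab c.ad ha).resolve_right fun k => by omega
  let S : Set (End F V) := {f | Ad U f ∧ rk f = 1 ∧ ∃ a, At U (sp L.E) a ∧ Le f a}
  have two : ∀ a, At U (sp L.E) a → rk a = 2 → ∃ f, Le f a ∧ f ∈ S ∧ a - f ∈ S ∧ f * (a - f) = 0 ∧ (a - f) * f = 0 ∧
      ∀ g, Ad U g → rk g = 1 → Le g a → g = f ∨ g = a - f := fun a ha r => by
    obtain ⟨f, f1, f2, f3, f4⟩ := hB.fr2 h4 ha.2.1 r
    have := f3.rk_sub ha.2.1.1 f1.1
    exact ⟨f, f3, ⟨f1, f2, a, ha, f3⟩, ⟨ha.2.1.sub L.kd f1 f3, by omega, a, ha,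
      by rw [sub_mul, ha.2.1.1.eq, f3.1], by rw [mul_sub, ha.2.1.1.eq, f3.2]⟩,
      by rw [mul_sub, f3.1, f1.1.eq, sub_self], by rw [sub_mul, f3.2, f1.1.eq, sub_self], f4⟩
  have rk1 : ∀ a, At U (sp L.E) a → rk a = 1 ∨ rk a = 2 := fun a ha => by
    have := hall a ha
    have := mt rk_eq_zero.1 ha.2.2.1
    omega
  have self : ∀ a, At U (sp L.E) a → rk a = 1 → a ∈ S := fun a ha r => ⟨ha.2.1, r, a, ha, ha.2.1.1.eq, ha.2.1.1.eq⟩
  have far : ∀ {a b f g}, At U (sp L.E) a → At U (sp L.E) b → a ≠ b → Le f a → Le g b → f * g = 0 :=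
    fun {a b f g} ha hb ne l1 l2 => by
      rw [← l1.1, ← l2.2, mul_assoc, ← mul_assoc a, ha.mul_eq_zero L.kd hc hb ne, zero_mul, mul_zero]
  have ort : ∀ f ∈ S, ∀ g ∈ S, f ≠ g → f * g = 0 := by
    rintro f ⟨f1, f2, a, ha, f3⟩ g ⟨g1, g2, b, hb, g3⟩ ne
    by_cases ab : a = b
    · subst ab
      rcases rk1 a ha with r | r
      · exact absurd ((f3.eq_of_rk ha.2.1.1 f1.1 (by omega)).trans (g3.eq_of_rk ha.2.1.1 g1.1 (by omega)).symm) ne
      obtain ⟨u, -, -, -, u1, u2, u3⟩ := two a ha r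
      rcases u3 f f1 f2 f3 with rfl | rfl <;> rcases u3 g g1 g2 g3 with rfl | rfl
      exacts [absurd rfl ne, u1, u2, absurd rfl ne]
    · exact far ha hb ab f3 g3
  have tS : TS L.T S := by
    rintro τ hτ f ⟨f1, f2, a, ha, f3⟩
    exact ⟨(L.tau τ hτ).ad f1, ((L.tau τ hτ).rank f).trans f2, _, ha.tau L.tau L.symm L.tZ hc hτ, (L.tau τ hτ).le f3⟩
  obtain ⟨y, hy, yn⟩ := SetLike.not_le_iff_exists.1 L.ne
  have ys : ¬ Sc (y : End F V) := fun k => yn ⟨L.EU hy, k⟩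
  obtain ⟨e', he', ne⟩ := exists_at_ne L.kd hc c.ad he
  obtain ⟨f, fl, f1, f2, f3, f4, -⟩ := two e he hr
  obtain ⟨g, gl, g1⟩ : ∃ g, Le g e' ∧ g ∈ S := by
    rcases rk1 e' he' with r | r
    · exact ⟨e', ⟨he'.2.1.1.eq, he'.2.1.1.eq⟩, self e' he' r⟩
    · exact (two e' he' r).imp fun _ k => ⟨k.1, k.2.1⟩
  have el : Le e e := ⟨he.2.1.1.eq, he.2.1.1.eq⟩
  have fg := far he he' ne.symm fl gl
  have gf := far he' he ne gl fl
  obtain ⟨s, s1, s2, s3, s4⟩ := L.kd.sw f1.1 g1.1 f1.2.1 g1.2.1 fg gf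
  have s5 := (Units.mul_inv_eq_iff_eq_mul _).2 s2
  have sH : s ∈ L.H := by
    obtain ⟨τ, t1, t2⟩ := exists_tau_conj (SS_le s1)
    refine L.w2 (TS.adjoin L.tau tS) ys (fun a ha => Algebra.commute_of_mem_adjoin_of_forall_mem_commute ha ?_)
      ⟨y, L.HG (L.EH hy), ?_, ys⟩ (L.SG s1) fun a ha => t2 a ▸ TS.adjoin (T := {τ}) (fun _ h => h ▸ t1) ?_ τ rfl a ha
    · rintro u ⟨-, -, a, ha, l⟩
      obtain ⟨d, hd⟩ := sc a ha y hy
      change (y : End F V) * u = u * y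
      rw [← l.2, ← mul_assoc, ← (hc _ ha.1 _ (mem_sp hy)).eq, hd, l.2, ← l.1, mul_assoc u, hd, smul_mul_assoc,
        mul_smul_comm, l.1, l.2]
    · rw [← one_mul (y : End F V), ← sum_ats L.kd hc, Finset.sum_mul]
      refine sum_mem fun a ha => ?_
      rw [mem_ats] at ha
      obtain ⟨d, hd⟩ := sc a ha y hy
      refine hd ▸ Subalgebra.smul_mem _ ?_ d
      rcases rk1 a ha with r | r
      · exact Algebra.subset_adjoin (self a ha r)
      · obtain ⟨u, -, u1, u2, -⟩ := two a ha r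
        exact add_sub_cancel u a ▸ add_mem (Algebra.subset_adjoin u1) (Algebra.subset_adjoin u2)
    · rintro _ rfl u hu
      rw [t2]
      by_cases k1 : u = f
      · rwa [k1, s5]
      by_cases k2 : u = g
      · rwa [k2, (Units.mul_inv_eq_iff_eq_mul _).2 s3]
      · rwa [cm_sup_fix s4 (by rw [add_mul, ort f f1 u hu (Ne.symm k1), ort g g1 u hu (Ne.symm k2), add_zero])
          (by rw [mul_add, ort u hu f f1 k1, ort u hu g g1 k2, add_zero])]
  have b := he.conj (SS_le s1) fun a ha => L.conj_mem' L.tZ sH ha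
  have ge := far he' he ne gl el
  have e1 : (s : End F V) * e * ((s⁻¹ : (End F V)ˣ) : End F V) = g + (e - f) := by
    rw [← s5, ← cm_sup_fix (g := e - f) s4 (by rw [add_mul, f3, mul_sub, ge, gf, sub_self, add_zero])
      (by rw [mul_add, f4, sub_mul, far he he' ne.symm el gl, fg, sub_self, add_zero]), ← add_mul, ← mul_add,
      add_sub_cancel]
  rw [e1] at b
  by_cases k : g + (e - f) = e
  · have : g = f := by rwa [add_sub_left_comm, add_eq_left, sub_eq_zero] at k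
    rw [this, f1.1.1.eq] at fg
    have := f1.2.1
    rw [rk_eq_zero.2 fg] at this
    exact absurd this (by decide)
  · have z := b.mul_eq_zero L.kd hc he k
    rw [add_mul, ge, zero_add, sub_mul, el.1, fl.1] at z
    have := f2.2.1
    rw [rk_eq_zero.2 z] at this
    exact absurd this (by decide)

/-- `a` is fixed by `T` (`fix_or`); `eta_sc` for `1 - a` gives `e = 1 - a` (`eq_of_scOn` / `Le.eq_of_rk`).  `k x k⁻¹ = α e + β a`, so
`x = α e_k + β a_k` (`e_k = k⁻¹ e k ∈ sp (k⁻¹ E k)` commutes with `e`, `a`), `α ≠ β`.  By `k1`, `a x = γ a`.  `(α - γ) a e_k = 0 = (β - γ) a a_k`.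
If `γ ≠ β` then `a ≤ e_k`, rank `3 ≤ 2`.  So `a e_k = 0`, `e_k ≤ e`, `e_k = e`, `e x = α e`. -/
theorem CM.not_big (h4 : Nat.card F = 4) {k x : (End F V)ˣ} (hk : k ∈ L.K) (hx : x ∈ Ek L.E k) {e a : End F V}
    (he : At U (sp L.E) e) (hr : rk e = 2) (hn : ¬ ScOn e (x : End F V)) (ha : At U (sp L.E) a) (h3 : 3 ≤ rk a) :
    False := by
  have hc : ∀ a ∈ sp L.E, ∀ b ∈ sp L.E, Commute a b := fun _ h _ h' => c.ab.sp_comm h h'
  have sc : ∀ a, At U (sp L.E) a → ∀ y ∈ L.E, ScOn a (y : End F V) := fun a ha =>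
    (L.at_sc c.h0 c.ab c.ad ha).resolve_right fun k => by omega
  have hT := L.fix_or c.h0 c.ab ha he (by omega) (by omega)
  have ne : e ≠ a := fun k => by rw [k] at hr; omega
  have l : Le e (1 - a) := ⟨by rw [mul_sub, he.mul_eq_zero L.kd hc ha ne, mul_one, sub_zero],
    by rw [sub_mul, ha.mul_eq_zero L.kd hc he ne.symm, one_mul, sub_zero]⟩
  have e1 : e = 1 - a := by
    rcases L.eta_sc c.h0 c.ab (sub_mem (one_mem _) ha.1) (ha.2.1.compl L.kd)
      (sub_ne_zero.2 (ha.ne_one L.kd hc c.ad).symm) (fun k => ha.2.2.1 (sub_eq_self.1 k))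
      (fun τ hτ => by rw [map_sub, (L.tau τ hτ).one, hT τ hτ]) with k | k
    · exact eq_of_scOn L.kd ha.2.1.1.one_sub k he.1 he.2.1.1 he.2.2.1 l.2
    · exact l.eq_of_rk ha.2.1.1.one_sub he.2.1.1 (by omega)
  obtain ⟨α, hα⟩ := sc e he _ hx
  obtain ⟨β, hβ⟩ := sc a ha _ hx
  obtain ⟨γ, hγ⟩ : ScOn a (x : End F V) := by_contra fun k => by
    have := (c.k1 hk hx ha (sc a ha) k).2
    omega
  obtain ⟨f, hf⟩ : ∃ f, e = (k : End F V) * f * ((k⁻¹ : (End F V)ˣ) : End F V) :=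
    ⟨((k⁻¹ : (End F V)ˣ) : End F V) * e * k, by simp [mul_assoc]⟩
  have hf' : a = (k : End F V) * (1 - f) * ((k⁻¹ : (End F V)ˣ) : End F V) := by
    rw [mul_sub, sub_mul, ← hf, mul_one, Units.mul_inv, e1, sub_sub_cancel]
  have fα : f * x = α • f := cm_unconj (k := k) (hf ▸ hα)
  have fβ : (1 - f) * x = β • (1 - f) := cm_unconj (k := k) (hf' ▸ hβ)
  have fi : IsIdempotentElem f := by
    have := cm_unconj (k := k) (e := f) (x := f) (a := 1) (by rw [← hf, he.2.1.1.eq, one_smul])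
    rwa [one_smul] at this
  have rf : rk f = 2 := (rk_conj k f).symm.trans (hf ▸ hr)
  have af : Commute a f := commute_sp (fun w hw => c.commute hk hw ha.1) (mem_sp_Ek.2 (hf ▸ he.1))
  have key : ∀ {g : End F V} {δ : F}, Commute a g → g * x = δ • g → δ ≠ γ → a * g = 0 := fun {g δ} h1 h2 h3 =>
    by_contra fun k => h3 (cm_inj k (by rw [← mul_smul_comm, ← h2, ← mul_assoc, h1.eq, mul_assoc, hγ, mul_smul_comm]))
  have βγ : β = γ := by_contra fun k => by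
    have z := key ((Commute.one_right a).sub_right af) fβ k
    rw [mul_sub, mul_one, sub_eq_zero] at z
    have := Le.rk_le (⟨z.symm, af.eq.symm.trans z.symm⟩ : Le a f)
    omega
  have z := key af fα fun k => hn ⟨α, by
    rw [show (x : End F V) = α • 1 from cm_two (e := f) (by rw [fα, mul_smul_comm, mul_one])
      (by rw [fβ, mul_smul_comm, mul_one, βγ, k]), mul_smul_comm, mul_one]⟩
  have : f = e := Le.eq_of_rk he.2.1.1 fi ⟨by rw [e1, mul_sub, ← af.eq, z, mul_one, sub_zero],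
    by rw [e1, sub_mul, z, one_mul, sub_zero]⟩ (by omega)
  exact hn ⟨α, this ▸ fα⟩

theorem CM.bd : L.Bd := by
  obtain ⟨k, hk, x, hx, e, he, hs, hn⟩ := c.exists_at
  obtain ⟨hq, hr⟩ := c.k1 hk hx he hs hn
  rcases hq with h2 | ⟨h4, hu⟩
  · exact c.bd_two h2 he hs hr
  · by_cases hall : ∀ a, At U (sp L.E) a → rk a ≤ 2
    · exact (c.not_small h4 hu he hr hall).elim
    · push Not at hall
      obtain ⟨a, ha, h3⟩ := hall
      exact (c.not_big h4 hk hx he hr hn ha h3).elim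

end LC

end Cfsg.Lib.WB
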