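import Cfsg.Agent.Lib.WB.W
import Cfsg.Agent.Lib.WB.GS

/-!
# S3694: the case `p ≠ char F`, `E` non-abelian
-/

set_option linter.unusedSectionVars false

namespace Cfsg.Lib.WB

open Module Cfsg.Lib.Unitary Cfsg.Lib.Transfer
open scoped commutatorElement

variable {F V : Type*} [Field F] [AddCommGroup V] [Module F V] [Finite F] [Finite V]
  {U : Subgroup (End F V)ˣ}

instance na_normal : (ZZ U).Normal := ⟨fun _ hz _ => conj_mem_ZZ.2 hz⟩

theorem na_eq_one {a : (End F V)ˣ} : QuotientGroup.mk' (ZZ U) a = 1 ↔ a ∈ ZZ U :=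
  QuotientGroup.eq_one_iff a

theorem na_cz {a b : (End F V)ˣ} :
    ⁅a, b⁆ ∈ ZZ U ↔ Commute (QuotientGroup.mk' (ZZ U) a) (QuotientGroup.mk' (ZZ U) b) := by
  rw [← na_eq_one, map_commutatorElement, commutatorElement_eq_one_iff_commute]

theorem na_pz {a : (End F V)ˣ} {n : ℕ} : a ^ n ∈ ZZ U ↔ (QuotientGroup.mk' (ZZ U) a) ^ n = 1 := by
  rw [← na_eq_one, map_pow]

theorem na_symm {a b : (End F V)ˣ} (h : ⁅a, b⁆ ∈ ZZ U) : ⁅b, a⁆ ∈ ZZ U :=
  na_cz.2 (na_cz.1 h).symm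

theorem na_of_commute {a b : (End F V)ˣ} (h : Commute a b) : ⁅a, b⁆ ∈ ZZ U := by
  rw [commutatorElement_eq_one_iff_commute.2 h]; exact (ZZ U).one_mem

theorem na_mem_of_pow {p : ℕ} (hp : p.Prime) {M : Subgroup (End F V)ˣ} {x : (End F V)ˣ} (hx : x ^ p ∈ M)
    {j : ℕ} (hj : ¬ p ∣ j) (h : x ^ j ∈ M) : x ∈ M := by
  by_contra hn
  have := Fact.mk hp
  have := (PGroup.zpow_mem_iff_dvd hn hx (j : ℤ)).1 (by rwa [zpow_natCast])
  exact hj (by exact_mod_cast this)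

theorem na_glue {e : End F V} (he : IsIdempotentElem e) {a g y : (End F V)ˣ} (hg : Commute e (g : End F V))
    (hy : Commute e (y : End F V)) (ha : (a : End F V) = e * g + (1 - e)) :
    Commute e ((⁅g, y⁆ : (End F V)ˣ) : End F V) ∧
      ((⁅a, y⁆ : (End F V)ˣ) : End F V) = e * ((⁅g, y⁆ : (End F V)ˣ) : End F V) + (1 - e) := by
  have hi : ((a⁻¹ : (End F V)ˣ) : End F V) = e * ((g⁻¹ : (End F V)ˣ) : End F V) + (1 - e) := by
    apply Units.inv_eq_of_mul_eq_one_right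
    rw [ha, glue_mul he hg, Units.mul_inv, mul_one, add_sub_cancel]
  have h1 : (y : End F V) * e = e * y := hy.eq.symm
  have h2 : (y : End F V) * ((a⁻¹ : (End F V)ˣ) : End F V) * ((y⁻¹ : (End F V)ˣ) : End F V) =
      e * ((y : End F V) * ((g⁻¹ : (End F V)ˣ) : End F V) * ((y⁻¹ : (End F V)ˣ) : End F V)) + (1 - e) := by
    rw [hi, mul_add, add_mul, mul_sub, mul_one, sub_mul, Units.mul_inv, h1, mul_assoc e, Units.mul_inv, mul_one,
      ← mul_assoc (y : End F V) e, h1]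
    simp only [mul_assoc]
  refine ⟨?_, ?_⟩
  · rw [commutatorElement_def]
    simp only [Units.val_mul]
    exact ((hg.mul_right hy).mul_right hg.units_inv_right).mul_right hy.units_inv_right
  · have h3 : ((⁅a, y⁆ : (End F V)ˣ) : End F V) =
        a * ((y : End F V) * ((a⁻¹ : (End F V)ˣ) : End F V) * ((y⁻¹ : (End F V)ˣ) : End F V)) := by
      rw [commutatorElement_def]; simp only [Units.val_mul, mul_assoc]
    rw [h3, h2, ha, glue_mul he hg, commutatorElement_def]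
    simp only [Units.val_mul, mul_assoc]

theorem na_not_ab {E : Subgroup (End F V)ˣ} (h : ¬ Ab E) : ∃ a ∈ E, ∃ b ∈ E, ¬ Commute a b := by
  by_contra k
  push Not at k
  exact h k

theorem Sg.inv {p : ℕ} {x : (End F V)ˣ} (h : Sg U p x) : Sg U p x⁻¹ := by
  obtain ⟨z, hz, h⟩ := h
  refine ⟨z⁻¹, (ZZ U).inv_mem hz, ?_⟩
  rw [← mul_inv_rev, ← (ZZ_comm hz x).eq, inv_pow, h, inv_one]

theorem Sg.of_mem {p : ℕ} {x : (End F V)ˣ} (h : x ∈ ZZ U) : Sg U p x :=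
  ⟨x⁻¹, (ZZ U).inv_mem h, by rw [inv_mul_cancel, one_pow]⟩

theorem Sg.conj {p : ℕ} {x : (End F V)ˣ} (h : Sg U p x) (k : (End F V)ˣ) : Sg U p (k * x * k⁻¹) := by
  obtain ⟨z, hz, h⟩ := h
  refine ⟨z, hz, ?_⟩
  have : z * (k * x * k⁻¹) = k * (z * x) * k⁻¹ := by
    rw [← mul_assoc, ← mul_assoc, (ZZ_comm hz k).eq]; simp only [mul_assoc]
  rw [this, conj_pow, h, mul_one, mul_inv_cancel]

theorem Sg.tau {p : ℕ} {τ : End F V ≃+ End F V} (hτ : Tau U τ) {x : (End F V)ˣ} (h : Sg U p x) :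
    Sg U p (hτ.u x) := by
  obtain ⟨z, hz, h⟩ := h
  refine ⟨hτ.u z, hτ.u_mem_ZZ.2 hz, ?_⟩
  have h1 : hτ.u z * hτ.u x = hτ.u (z * x) := by
    rcases hτ.u_mul with k | k
    · rw [k]
    · rw [k, (ZZ_comm (hτ.u_mem_ZZ.2 hz) _).eq]
  rw [h1, ← hτ.u_pow, h]
  exact Units.ext hτ.one

namespace LC

variable {p : ℕ} (L : LC U p)

/-- the centraliser of `E` in `Y` -/
def D : Subgroup (End F V)ˣ := L.Y ⊓ Subgroup.centralizer (L.E : Set (End F V)ˣ)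

theorem mem_D {d : (End F V)ˣ} : d ∈ L.D ↔ d ∈ L.Y ∧ ∀ e ∈ L.E, Commute e d := Iff.rfl

theorem tD : TI L.T L.D := by
  exact L.tY.inf (TI.centralizer L.tau L.symm L.tE)

theorem ZD : ZZ U ≤ L.D := by
  intro z hz
  exact L.mem_D.2 ⟨L.ZY hz, fun e _ => (ZZ_comm hz e).symm⟩

variable (h0 : (p : F) ≠ 0) (hna : ¬ Ab L.E)
include hna

/-- `E ⊓ centralizer E` is invariant, contains `ZZ U`, is not `E`; `min`. -/
theorem zE {e : (End F V)ˣ} (he : e ∈ L.E) (h : ∀ e' ∈ L.E, Commute e e') : e ∈ ZZ U := by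
  rcases L.min (L.E ⊓ Subgroup.centralizer (L.E : Set (End F V)ˣ)) inf_le_left
    (fun z hz => ⟨L.ZE hz, fun e _ => (ZZ_comm hz e).symm⟩)
    (L.tE.inf (TI.centralizer L.tau L.symm L.tE)) with k | k
  · rw [← k]
    exact ⟨he, fun e' he' => (h e' he').symm⟩
  · exfalso
    apply hna
    intro a ha b hb
    rw [← k] at hb
    exact hb.2 a ha

theorem omega : ∃ ω : F, IsPrimitiveRoot ω p ∧ Un U (ω • (1 : End F V)) := by
  obtain ⟨a, ha, b, hb, hn⟩ := na_not_ab hna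
  exact exists_omega L.kd L.pp (L.cE a (L.EY ha) b hb) (L.pE a ha) hn

/-- `cnt` with `W = E` -/
theorem exists_ED {y : (End F V)ˣ} (hy : y ∈ L.Y) : ∃ e ∈ L.E, ∃ d ∈ L.D, y = e * d := by
  obtain ⟨w, hw, hc⟩ := cnt L.kd L.ZE (fun a ha b hb => L.cE a (L.EY ha) b hb)
    (fun a ha h => L.zE hna ha h) (g := y) (fun a ha => L.cE y hy a ha)
  refine ⟨w, hw, w⁻¹ * y, L.mem_D.2 ⟨L.Y.mul_mem (L.Y.inv_mem (L.EY hw)) hy, fun e he => (hc e he).symm⟩, ?_⟩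
  rw [mul_inv_cancel_left]

include h0

/-- Suppose `¬ A ≤ ZZ U`.  If `NoAd U (sp A)`, by `fld` `E ≤ centralizer (sp A) = sp A` is commutative, contradiction.  So take
`e ∈ sp A` admissible, `e ≠ 0, 1`; it commutes with `E`.  Take `x, y ∈ E` with `Scl x`, `¬ Commute y x` (`exists_scl`),
`y x = ω^j x y`, `p ∤ j`, `g` from `gauss'`: `g y g⁻¹ = z y x^j`, and `g` commutes with `e` and with `sp A`.  `a = e g + 1 - e`, `b = e y + 1 - e`
are in `U`; `u = ⁅a, b⁆ ∈ SS U` has value `e t + 1 - e`, `t = z y x^j y⁻¹ ∈ E`, lies in `centralizer (sp A)`, so `u ∈ H` (`w1`).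
`u y u⁻¹ y⁻¹ ∈ E` has value `e c + 1 - e` with `c = ⁅t, y⁆ ∈ ZZ U`, `c ≠ 1` (`x^j` does not commute with `y` as `p ∤ j²`); it commutes with `E`,
so is scalar (`zE`): `e c + 1 - e = d • 1`, multiply by `1 - e` and by `e`: `d = 1`, `c = 1`. -/
theorem na1 {A : Subgroup (End F V)ˣ} (hA : A ≤ L.D) (hT : TI L.T A) (hab : Ab A) : A ≤ ZZ U := by
  by_contra hn
  have hE : ∀ y ∈ L.E, ∀ X ∈ sp A, Commute (y : End F V) X := fun y hy X hX =>
    commute_sp (fun a ha => Commute.units_val_iff.2 ((L.mem_D.1 (hA ha)).2 y hy)) hX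
  by_cases hN : NoAd U (sp A)
  · obtain ⟨-, -, h3⟩ := L.fld h0 (hA.trans inf_le_left) hT hab hn hN
    exact hna fun a ha b hb => Commute.units_val_iff.1 (hE a ha _ (h3 _ fun X hX => hE b hb X hX))
  simp only [NoAd, not_forall, not_or] at hN
  obtain ⟨e, heA, hAd, he0, he1⟩ := hN
  obtain ⟨a₀, ha₀, b₀, hb₀, hn₀⟩ := na_not_ab hna
  obtain ⟨x, hx, y, hy, hyx, hs⟩ := exists_scl L.kd L.pp h0 ha₀ hb₀ (L.cE a₀ (L.EY ha₀) b₀ hb₀) hn₀
    (L.pE _ ha₀) (L.pE _ hb₀)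
  obtain ⟨ω, hω, hu⟩ := L.omega hna
  obtain ⟨j, hj, hpj⟩ := exists_omega_pow L.kd L.pp hω (L.cE y (L.EY hy) x hx) (L.pE x hx)
  obtain ⟨g, hgU, hg1, hg2⟩ := gauss' L.kd L.pp hω hu (L.EU hx) hs
  obtain ⟨z, hz, hgy⟩ := hg2 j y (L.EU hy) hj
  have heg : Commute e (g : End F V) := hg1 e (hE x hx e heA).symm
  have hey : Commute e (y : End F V) := (hE y hy e heA).symm
  obtain ⟨a, haU, ha⟩ := hAd.2 g (Un.coe hgU) heg
  obtain ⟨h1, h2⟩ := na_glue hAd.1 heg hey ha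
  have ht : ⁅g, y⁆ = z * y * x ^ j * y⁻¹ := by rw [commutatorElement_def, hgy]
  have htE : ⁅g, y⁆ ∈ L.E := by
    rw [ht]
    exact L.E.mul_mem (L.E.mul_mem (L.E.mul_mem (L.ZE hz) hy) (L.E.pow_mem hx j)) (L.E.inv_mem hy)
  have hsc : ¬ Sc e := by
    rintro ⟨c, hc⟩
    have h3 : (c * c) • (1 : End F V) = c • 1 := by
      have := hAd.1.eq
      rwa [hc, smul_mul_smul_comm, one_mul] at this
    have h4 := smul_one_inj L.kd h3
    by_cases hc0 : c = 0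
    · exact he0 (by rw [hc, hc0, zero_smul])
    · exact he1 (by rw [hc, mul_left_eq_self₀.1 h4 |>.resolve_right hc0, one_smul])
  have huH : ⁅a, y⁆ ∈ L.H := by
    refine L.w1 (TS.centralizer L.tau L.symm (TI.sp L.tau hT)) hsc (fun b hb => hb e heA)
      (L.SG (commutator_mem_SS haU (L.EU hy))) ?_
    rw [h2]
    intro X hX
    have k1 : Commute X e := hab.sp_comm hX heA
    exact ((k1.mul_right (hE _ htE X hX).symm).add_right ((Commute.one_right X).sub_right k1)).eq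
  obtain ⟨h3, h4⟩ := na_glue hAd.1 h1 hey h2
  have hvE : ⁅⁅a, y⁆, y⁆ ∈ L.E := by
    rw [commutatorElement_def ⁅a, y⁆]
    exact L.E.mul_mem (L.conj_mem L.tE huH hy) (L.E.inv_mem hy)
  have hcZ : ⁅⁅g, y⁆, y⁆ ∈ ZZ U := L.cE _ (L.EY htE) y hy
  obtain ⟨-, γ, hγ⟩ := mem_ZZ.1 hcZ
  have hvZ : ⁅⁅a, y⁆, y⁆ ∈ ZZ U := by
    refine L.zE hna hvE fun e' he' => Commute.units_val_iff.1 ?_
    rw [h4]
    have k1 : Commute e (e' : End F V) := (hE e' he' e heA).symm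
    exact (k1.mul_left (ZZ_comm' hcZ _)).add_left ((Commute.one_left _).sub_left k1)
  obtain ⟨-, δ, hδ⟩ := mem_ZZ.1 hvZ
  rw [hδ, hγ, mul_smul_comm, mul_one] at h4
  have hee := hAd.1.eq
  have k1 : δ • e = γ • e := by
    have := congrArg (e * ·) h4
    simp only [mul_smul_comm, mul_add, mul_sub, mul_one, hee, sub_self, add_zero] at this
    exact this
  have k2 : (δ - 1) • (1 - e) = 0 := by
    linear_combination (norm := module) h4 - k1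
  have k3 : δ = 1 := by
    rcases smul_eq_zero.1 k2 with k | k
    · exact sub_eq_zero.1 k
    · exact absurd (sub_eq_zero.1 k).symm he1
  have k4 : γ = 1 := by
    have : (γ - 1) • e = 0 := by
      rw [k3] at k1
      linear_combination (norm := module) - k1
    rcases smul_eq_zero.1 this with k | k
    · exact sub_eq_zero.1 k
    · exact absurd k he0
  have k5 : Commute ⁅g, y⁆ y := by
    rw [← commutatorElement_eq_one_iff_commute]
    apply Units.ext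
    rw [hγ, k4, one_smul, Units.val_one]
  have k6 : Commute (x ^ j) y := by
    have : x ^ j = y⁻¹ * (z⁻¹ * (⁅g, y⁆ * y)) := by rw [ht]; group
    rw [this]
    exact (Commute.refl y).inv_left.mul_left
      ((ZZ_comm ((ZZ U).inv_mem hz) y).mul_left (k5.mul_left (Commute.refl y)))
  have k7 : x ∈ Subgroup.centralizer ({y} : Set (End F V)ˣ) :=
    na_mem_of_pow L.pp (Subgroup.mem_centralizer_singleton_iff.2 (ZZ_comm (L.pE x hx) y).eq) (hpj hyx)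
      (Subgroup.mem_centralizer_singleton_iff.2 k6.eq)
  exact hyx (Subgroup.mem_centralizer_singleton_iff.1 k7).symm

/-- `na1` for `D ⊓ centralizer D` -/
theorem zD {d : (End F V)ˣ} (hd : d ∈ L.D) (h : ∀ d' ∈ L.D, Commute d d') : d ∈ ZZ U := by
  exact L.na1 h0 hna (A := L.D ⊓ Subgroup.centralizer (L.D : Set (End F V)ˣ)) inf_le_left
    (L.tD.inf (TI.centralizer L.tau L.symm L.tD)) (fun a ha b hb => hb.2 a ha.1)
    ⟨hd, fun d' hd' => (h d' hd').symm⟩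

/-- `Ω = {d ∈ D | (∀ y ∈ Y, ⁅d, y⁆ ∈ ZZ U) ∧ d ^ p ∈ ZZ U}` is an invariant subgroup; its centre is in `ZZ U` (`na1`).  `C = D ⊓ centralizer Ω` is
normal in `Y`; if `¬ C ≤ ZZ U`, the non-trivial normal subgroup `C / ZZ` of the `p`-group `Y / ZZ` contains a central element of order `p`, i.e.
an element of `C ⊓ Ω \ ZZ`, contradiction.  For `d ∈ D`, `cnt` with `W = Ω` gives `w⁻¹ d ∈ C ≤ ZZ U`, so `d ∈ Ω`. -/
theorem na2 {d : (End F V)ˣ} (hd : d ∈ L.D) : (∀ y ∈ L.Y, ⁅d, y⁆ ∈ ZZ U) ∧ d ^ p ∈ ZZ U := by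
  have := Fact.mk L.pp
  let Ω : Subgroup (End F V)ˣ :=
    { carrier := {d | d ∈ L.D ∧ (∀ y ∈ L.Y, ⁅d, y⁆ ∈ ZZ U) ∧ d ^ p ∈ ZZ U}
      one_mem' := ⟨L.D.one_mem, fun y _ => na_of_commute (Commute.one_left y), by
        rw [one_pow]; exact (ZZ U).one_mem⟩
      mul_mem' := by
        rintro a b ⟨ha, ha1, ha2⟩ ⟨hb, hb1, hb2⟩
        refine ⟨L.D.mul_mem ha hb, fun y hy => ?_, ?_⟩
        · rw [na_cz, map_mul]
          exact (na_cz.1 (ha1 y hy)).mul_left (na_cz.1 (hb1 y hy))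
        · rw [na_pz, map_mul, (na_cz.1 (ha1 b hb.1)).mul_pow, na_pz.1 ha2, na_pz.1 hb2, one_mul]
      inv_mem' := by
        rintro a ⟨ha, ha1, ha2⟩
        refine ⟨L.D.inv_mem ha, fun y hy => ?_, ?_⟩
        · rw [na_cz, map_inv]
          exact (na_cz.1 (ha1 y hy)).inv_left
        · rw [inv_pow]; exact (ZZ U).inv_mem ha2 }
  have hΩ : ∀ d, d ∈ Ω ↔ d ∈ L.D ∧ (∀ y ∈ L.Y, ⁅d, y⁆ ∈ ZZ U) ∧ d ^ p ∈ ZZ U := fun _ => Iff.rfl
  have hZ : ZZ U ≤ Ω := fun z hz =>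
    (hΩ z).2 ⟨L.ZD hz, fun y _ => na_of_commute (ZZ_comm hz y), (ZZ U).pow_mem hz p⟩
  have hT : TI L.T Ω := by
    refine TI.of_u L.tau fun τ hτ a ha => ?_
    obtain ⟨ha, ha1, ha2⟩ := (hΩ a).1 ha
    refine (hΩ _).2 ⟨L.tD.u_mem hτ _ ha, fun y hy => ?_, ?_⟩
    · rw [← (L.tau τ hτ).u_symm y, Tau.u_commutator]
      exact ha1 _ (L.tY.u_mem (L.symm τ hτ) _ hy)
    · rw [← Tau.u_pow, Tau.u_mem_ZZ]; exact ha2
  have hTc := TI.centralizer L.tau L.symm hT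
  have hc : Ω ⊓ Subgroup.centralizer (Ω : Set (End F V)ˣ) ≤ ZZ U :=
    L.na1 h0 hna (fun a ha => ((hΩ a).1 ha.1).1) (hT.inf hTc) (fun a ha b hb => hb.2 a ha.1)
  have hC : L.D ⊓ Subgroup.centralizer (Ω : Set (End F V)ˣ) ≤ ZZ U := by
    by_contra hn
    set C := L.D ⊓ Subgroup.centralizer (Ω : Set (End F V)ˣ) with hCdef
    have hTC : TI L.T C := L.tD.inf hTc
    have hP : IsPGroup p (L.Y.map (QuotientGroup.mk' (ZZ U))) := by
      rintro ⟨_, y, hy, rfl⟩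
      obtain ⟨j, hj⟩ := L.pY y hy
      exact ⟨j, Subtype.ext (na_pz.1 hj)⟩
    have hle : C.map (QuotientGroup.mk' (ZZ U)) ≤ L.Y.map (QuotientGroup.mk' (ZZ U)) :=
      Subgroup.map_mono fun a ha => ha.1.1
    obtain ⟨x, ⟨c, hcC, rfl⟩, hx2, hx3⟩ := PGroup.exists_mem_centralizer_orderOf_eq (hP.to_le hle) hP (by
      rintro _ ⟨y, hy, rfl⟩
      apply Subgroup.mem_normalizer_fintype
      rintro _ ⟨c, hc, rfl⟩
      exact ⟨y * c * y⁻¹, L.conj_mem hTC (L.YH hy) hc, by rw [map_mul, map_mul, map_inv]⟩) (by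
      intro hb
      apply hn
      intro c hc
      have : QuotientGroup.mk' (ZZ U) c ∈ C.map (QuotientGroup.mk' (ZZ U)) := ⟨c, hc, rfl⟩
      rw [hb] at this
      exact na_eq_one.1 this)
    have hcΩ : c ∈ Ω := by
      refine (hΩ c).2 ⟨hcC.1, fun y hy => na_cz.2 ?_, na_pz.2 ?_⟩
      · exact (hx2 _ ⟨y, hy, rfl⟩).symm
      · rw [← hx3, pow_orderOf_eq_one]
    rw [na_eq_one.2 (hc ⟨hcΩ, hcC.2⟩), orderOf_one] at hx3
    exact L.pp.one_lt.ne hx3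
  obtain ⟨w, hw, hwc⟩ := cnt L.kd hZ (fun a ha b hb => ((hΩ a).1 ha).2.1 b ((hΩ b).1 hb).1.1)
    (fun a ha h => hc ⟨ha, fun b hb => (h b hb).symm⟩) (g := d)
    (fun a ha => na_symm (((hΩ a).1 ha).2.1 d hd.1))
  have h1 : w⁻¹ * d ∈ ZZ U :=
    hC ⟨L.D.mul_mem (L.D.inv_mem ((hΩ w).1 hw).1) hd, fun a ha => (hwc a ha).symm⟩
  have h2 : d ∈ Ω := by
    have := Ω.mul_mem hw (hZ h1)
    rwa [mul_inv_cancel_left] at this
  exact ((hΩ d).1 h2).2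

/-- `exists_ED`, `na2`, `cE`, `pE` -/
theorem na2' {x : (End F V)ˣ} (hx : x ∈ L.Y) : (∀ y ∈ L.Y, ⁅x, y⁆ ∈ ZZ U) ∧ x ^ p ∈ ZZ U := by
  obtain ⟨e, he, d, hd, rfl⟩ := L.exists_ED hna hx
  obtain ⟨h1, h2⟩ := L.na2 h0 hna hd
  refine ⟨fun y hy => ?_, ?_⟩
  · rw [na_cz, map_mul]
    exact (na_cz.1 (L.cE y hy e he)).symm.mul_left (na_cz.1 (h1 y hy))
  · rw [((L.mem_D.1 hd).2 e he).mul_pow]
    exact (ZZ U).mul_mem (L.pE e he) h2

theorem na_gl {x : (End F V)ˣ} (hx : x ∈ L.Y) (hs : Scl U p x) : ∃ g ∈ U, ∀ y ∈ L.Y, ∃ j : ℕ, ∃ z ∈ ZZ U,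
    g * y * g⁻¹ = z * y * x ^ j ∧ (¬ Commute y x → ¬ p ∣ j) := by
  obtain ⟨ω, hω, hu⟩ := L.omega hna
  obtain ⟨g, hgU, -, hg2⟩ := gauss' L.kd L.pp hω hu (L.YU hx) hs
  refine ⟨g, hgU, fun y hy => ?_⟩
  obtain ⟨j, hj, hpj⟩ := exists_omega_pow L.kd L.pp hω ((L.na2' h0 hna hy).1 x hx) (L.na2' h0 hna hx).2
  obtain ⟨z, hz, h⟩ := hg2 j y (L.YU hy) hj
  exact ⟨j, z, hz, h, hpj⟩

/-- Put `x = e d`.  `g_x`, `g_f` from `gauss'` normalise `Y` (`na2'`, `exists_omega_pow`), `g_f` normalises `E`.  `u = ⁅g_x, g_f⁆ ∈ SS U` normalises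
`Y`, so lies in `H` and normalises `E`; so `t = g_x g_f g_x⁻¹ = u g_f` normalises `E`.  `f₁ = g_x f g_x⁻¹ = z f x^i`, `p ∤ i`.  For `y ∈ E` let
`y₀ = g_x⁻¹ y g_x ∈ Y`, `y₀ f = ω^j f y₀`; `t y t⁻¹ = g_x (z' y₀ f^j) g_x⁻¹ = z' y f₁^j`, so `f₁ ^ j ∈ E`.  Take `y = e`: it does not commute with `f₁`
(it commutes with `x`, not with `f`), so `y₀` does not commute with `f`, `p ∤ j`, `f₁ ∈ E` (`f₁ ^ p ∈ ZZ U`), `x ^ i ∈ E`, `x ∈ E`, `d ∈ E`, `d ∈ ZZ U` by `zE`. -/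
theorem key {e f d : (End F V)ˣ} (he : e ∈ L.E) (hf : f ∈ L.E) (hd : d ∈ L.D) (hz : d ∉ ZZ U) (hn : ¬ Commute e f)
    (h1 : Scl U p (e * d)) (h2 : Scl U p f) : False := by
  have hdE := (L.mem_D.1 hd).2
  have hx : e * d ∈ L.Y := L.Y.mul_mem (L.EY he) hd.1
  obtain ⟨g, hgU, hg⟩ := L.na_gl h0 hna hx h1
  obtain ⟨s, hsU, hs⟩ := L.na_gl h0 hna (L.EY hf) h2
  have hgN : g ∈ Subgroup.normalizer (L.Y : Set (End F V)ˣ) := by
    refine Subgroup.mem_normalizer_fintype fun y hy => ?_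
    obtain ⟨j, z, hz, h, -⟩ := hg y hy
    rw [h]
    exact L.Y.mul_mem (L.Y.mul_mem (L.ZY hz) hy) (L.Y.pow_mem hx j)
  have hsN : s ∈ Subgroup.normalizer (L.Y : Set (End F V)ˣ) := by
    refine Subgroup.mem_normalizer_fintype fun y hy => ?_
    obtain ⟨j, z, hz, h, -⟩ := hs y hy
    rw [h]
    exact L.Y.mul_mem (L.Y.mul_mem (L.ZY hz) hy) (L.Y.pow_mem (L.EY hf) j)
  have huH : ⁅g, s⁆ ∈ L.H := by
    refine L.mem_H_of_norm_Y (L.SG (commutator_mem_SS hgU hsU)) fun y hy => ?_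
    have : ⁅g, s⁆ ∈ Subgroup.normalizer (L.Y : Set (End F V)ˣ) := by
      rw [commutatorElement_def]
      exact mul_mem (mul_mem (mul_mem hgN hsN) (inv_mem hgN)) (inv_mem hsN)
    exact (Subgroup.mem_normalizer_iff.1 this y).1 hy
  have htE : ⁅g, s⁆ * (s * e * s⁻¹) * ⁅g, s⁆⁻¹ ∈ L.E := by
    refine L.conj_mem L.tE huH ?_
    obtain ⟨j, z, hz, h, -⟩ := hs e (L.EY he)
    rw [h]
    exact L.E.mul_mem (L.E.mul_mem (L.ZE hz) he) (L.E.pow_mem hf j)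
  obtain ⟨i, z, hz', hi, hpi⟩ := hg f (L.EY hf)
  have hpi' : ¬ p ∣ i := hpi fun k => hn (by
    have := k.mul_right (hdE f hf).inv_right
    rw [mul_inv_cancel_right] at this
    exact this.symm)
  have hy₀ : g⁻¹ * e * g ∈ L.Y := (Subgroup.mem_normalizer_iff''.1 hgN e).1 (L.EY he)
  obtain ⟨j, z', hz'', hj, hpj⟩ := hs _ hy₀
  have hpj' : ¬ p ∣ j := hpj fun k => hn (by
    have k1 : Commute e (g * f * g⁻¹) := by
      have := congrArg (fun t => g * t * g⁻¹) k.eq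
      simp only [mul_assoc, mul_inv_cancel_left, mul_inv_cancel, mul_one] at this
      rw [Commute, SemiconjBy]
      simp only [mul_assoc]
      exact this
    have k2 : f = z⁻¹ * (g * f * g⁻¹) * ((e * d) ^ i)⁻¹ := by rw [hi]; group
    rw [k2]
    exact ((ZZ_comm ((ZZ U).inv_mem hz') e).symm.mul_right k1).mul_right
      (((Commute.refl e).mul_right (hdE e he)).pow_right i).inv_right)
  have h3 : (g * f * g⁻¹) ^ j ∈ L.E := by
    have k1 : ⁅g, s⁆ * (s * e * s⁻¹) * ⁅g, s⁆⁻¹ = g * (s * (g⁻¹ * e * g) * s⁻¹) * g⁻¹ := by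
      rw [commutatorElement_def]; group
    have k2 : (g * f * g⁻¹) ^ j = e⁻¹ * (g * z' * g⁻¹)⁻¹ * (g * (z' * (g⁻¹ * e * g) * f ^ j) * g⁻¹) := by
      rw [conj_pow]; group
    rw [k2, ← hj, ← k1]
    exact L.E.mul_mem (L.E.mul_mem (L.E.inv_mem he) (L.E.inv_mem (L.ZE (conj_mem_ZZ.2 hz'')))) htE
  have h4 : g * f * g⁻¹ ∈ L.E :=
    na_mem_of_pow L.pp (by rw [conj_pow]; exact L.ZE (conj_mem_ZZ.2 (L.pE f hf))) hpj' h3
  have h5 : (e * d) ^ i ∈ L.E := by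
    have : (e * d) ^ i = f⁻¹ * z⁻¹ * (g * f * g⁻¹) := by rw [hi]; group
    rw [this]
    exact L.E.mul_mem (L.E.mul_mem (L.E.inv_mem hf) (L.E.inv_mem (L.ZE hz'))) h4
  have h6 : e * d ∈ L.E := na_mem_of_pow L.pp (L.ZE (L.na2' h0 hna hx).2) hpi' h5
  exact hz (L.zE hna ((L.E.mul_mem_cancel_left he).1 h6) fun e' he' => (hdE e' he').symm)

/-- otherwise `Y = E` (`exists_ED`), contradicting `not_Ek_le`; then `zD`. -/
theorem exists_D : ∃ a ∈ L.D, ∃ b ∈ L.D, ¬ Commute a b := by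
  by_contra hn
  push Not at hn
  obtain ⟨k, hk⟩ := L.Kne
  refine L.not_Ek_le hk fun x hx => ?_
  obtain ⟨e, he, d, hd, rfl⟩ := L.exists_ED hna (L.KY k hk hx)
  exact L.E.mul_mem he (L.ZE (L.zD h0 hna hd (hn d hd)))

theorem na_sclD : ∃ d ∈ L.D, d ∉ ZZ U ∧ Scl U p d := by
  obtain ⟨a, ha, b, hb, hn⟩ := L.exists_D h0 hna
  obtain ⟨x, hx, y, -, hyx, hs⟩ := exists_scl L.kd L.pp h0 ha hb ((L.na2 h0 hna ha).1 b hb.1) hn
    (L.na2 h0 hna ha).2 (L.na2 h0 hna hb).2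
  exact ⟨x, hx, fun k => hyx (ZZ_comm k y).symm, hs⟩

/-- `E₀ = {e ∈ E | Sg U p e}` is an invariant subgroup (`Sg.mul`) containing `ZZ U` and a non-scalar element (`exists_scl`), so `E₀ = E`.
`exists_scl` in `D` gives `d`; `key`. -/
theorem not_gd : ¬ Gd U p := by
  intro hg
  let E₀ : Subgroup (End F V)ˣ :=
    { carrier := {e | e ∈ L.E ∧ Sg U p e}
      one_mem' := ⟨L.E.one_mem, Sg.of_mem (ZZ U).one_mem⟩
      mul_mem' := by
        rintro a b ⟨ha, ha1⟩ ⟨hb, hb1⟩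
        exact ⟨L.E.mul_mem ha hb, Sg.mul L.kd L.pp h0 hg (L.cE a (L.EY ha) b hb) ha1 hb1⟩
      inv_mem' := by
        rintro a ⟨ha, ha1⟩
        exact ⟨L.E.inv_mem ha, ha1.inv⟩ }
  have hE₀ : ∀ e, e ∈ E₀ ↔ e ∈ L.E ∧ Sg U p e := fun _ => Iff.rfl
  obtain ⟨a, ha, b, hb, hn⟩ := na_not_ab hna
  obtain ⟨x, hx, y, hy, hyx, hs⟩ := exists_scl L.kd L.pp h0 ha hb (L.cE a (L.EY ha) b hb) hn
    (L.pE _ ha) (L.pE _ hb)
  obtain ⟨d, hd, hdz, hds⟩ := L.na_sclD h0 hna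
  rcases L.min E₀ (fun e he => ((hE₀ e).1 he).1) (fun z hz => (hE₀ z).2 ⟨L.ZE hz, Sg.of_mem hz⟩)
    (TI.of_u L.tau fun τ hτ a ha =>
      (hE₀ _).2 ⟨L.tE.u_mem hτ _ ((hE₀ a).1 ha).1, ((hE₀ a).1 ha).2.tau _⟩) with k | k
  · have : x ∈ ZZ U := by
      rw [← k]; exact (hE₀ x).2 ⟨hx, (scl_iff_sg L.kd L.pp h0 hg).1 hs⟩
    exact hyx (ZZ_comm this y).symm
  · have : y ∈ E₀ := by rw [k]; exact hy
    exact L.key h0 hna hy hx hd hdz hyx ((scl_iff_sg L.kd L.pp h0 hg).2 (Sg.mul L.kd L.pp h0 hg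
      (na_of_commute ((L.mem_D.1 hd).2 y hy)) ((hE₀ y).1 this).2 ((scl_iff_sg L.kd L.pp h0 hg).1 hds))) hs

/-- Bad case.  `exists_scl` in `D` gives a non-scalar `d₁` with `¬ Sg d₁`.  If `e ∈ E \ ZZ` has `Sg e`: take `y ∈ E` not commuting with `e` (`zE`); one of
`y, e y` is not `Sg`; `key` with `d₁`.  If `d ∈ D \ ZZ` has `Sg d`: `key` with any non-commuting `e, f ∈ E` (both not `Sg` by the first part). -/
theorem not_sg : (∀ e ∈ L.E, e ∉ ZZ U → ¬ Sg U p e) ∧ ∀ d ∈ L.D, d ∉ ZZ U → ¬ Sg U p d := by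
  have hg := L.not_gd h0 hna
  have hscl : ∀ x ∈ L.Y, ¬ Sg U p x → Scl U p x := fun x hx h =>
    (scl_iff_not_sg L.kd L.pp h0 hg (L.na2' h0 hna hx).2).2 h
  have hED : ∀ e ∈ L.E, ∀ d ∈ L.D, (Sg U p (e * d) ↔ (Sg U p e ↔ Sg U p d)) := fun e he d hd =>
    sg_mul_of_commute L.kd L.pp h0 hg ((L.mem_D.1 hd).2 e he) (L.pE e he) (L.na2 h0 hna hd).2
  have h1 : ∀ e ∈ L.E, e ∉ ZZ U → ¬ Sg U p e := by
    intro e he hz hs
    obtain ⟨d, hd, hdz, hds⟩ := L.na_sclD h0 hna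
    have hd' := (scl_iff_not_sg L.kd L.pp h0 hg (L.na2 h0 hna hd).2).1 hds
    have k1 : Scl U p (e * d) := hscl _ (L.Y.mul_mem (L.EY he) hd.1) fun k => hd' (((hED e he d hd).1 k).1 hs)
    obtain ⟨y, hy, hn⟩ : ∃ y ∈ L.E, ¬ Commute e y := by
      by_contra k
      push Not at k
      exact hz (L.zE hna he k)
    by_cases hys : Sg U p y
    · refine L.key h0 hna he (L.E.mul_mem he hy) hd hdz (fun k => hn ?_) k1
        (hscl _ (L.EY (L.E.mul_mem he hy)) fun k => ?_)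
      · have := (Commute.refl e).inv_right.mul_right k
        rwa [inv_mul_cancel_left] at this
      · exact (sg_mul_of_not_commute L.kd L.pp h0 hg (L.cE e (L.EY he) y hy) hn (L.pE e he) (L.pE y hy)).1 k
          ⟨fun _ => hys, fun _ => hs⟩
    · exact L.key h0 hna he hy hd hdz hn k1 (hscl _ (L.EY hy) hys)
  refine ⟨h1, fun d hd hz hs => ?_⟩
  obtain ⟨a, ha, b, hb, hn⟩ := na_not_ab hna
  exact L.key h0 hna ha hb hd hz hn
    (hscl _ (L.Y.mul_mem (L.EY ha) hd.1) fun k =>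
      h1 a ha (fun k' => hn (ZZ_comm k' b)) (((hED a ha d hd).1 k).2 hs))
    (hscl _ (L.EY hb) (h1 b hb fun k' => hn (ZZ_comm k' a).symm))

/-- `x ∈ k⁻¹ E k` non-scalar is not `Sg` (conjugate); `x = e d` with both factors non-scalar is `Sg`.  So `k⁻¹ E k ⊆ E ∪ D`, a group is not
the union of two proper subgroups, `not_Ek_le`. -/
theorem Ek_le_D {k : (End F V)ˣ} (hk : k ∈ L.K) : Ek L.E k ≤ L.D := by
  obtain ⟨h1, h2⟩ := L.not_sg h0 hna
  refine (SubgroupClass.subset_union.1 (fun x hx => ?_ :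
    (Ek L.E k : Set (End F V)ˣ) ⊆ (L.E : Set (End F V)ˣ) ∪ L.D)).resolve_left (L.not_Ek_le hk)
  obtain ⟨e, he, d, hd, rfl⟩ := L.exists_ED hna (L.KY k hk hx)
  by_cases hez : e ∈ ZZ U
  · exact Or.inr (L.D.mul_mem (L.ZD hez) hd)
  by_cases hdz : d ∈ ZZ U
  · exact Or.inl (L.E.mul_mem he (L.ZE hdz))
  by_cases hz : e * d ∈ ZZ U
  · exact Or.inl (L.ZE hz)
  exfalso
  refine h1 _ (mem_Ek.1 hx) (fun k' => hz (conj_mem_ZZ.1 k')) (Sg.conj ?_ k)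
  exact (sg_mul_of_commute L.kd L.pp h0 (L.not_gd h0 hna) ((L.mem_D.1 hd).2 e he) (L.pE e he)
    (L.na2 h0 hna hd).2).2 ⟨fun k' => absurd k' (h1 e he hez), fun k' => absurd k' (h2 d hd hdz)⟩

/-- `p = 2`; `a, b ∈ k⁻¹ E k` non-commuting.  For `d ∈ D`, commutators with `a`, `b` are `± 1`, so `d' = d a^i b^j` commutes with `a` and `b` for suitable
`i, j ∈ {0, 1}`.  If `d' ∉ ZZ U` then `Sg (d' a)` so `d' a ∈ ZZ U`, and `a` commutes with `b`. -/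
theorem D_le_Ek {k : (End F V)ˣ} (hk : k ∈ L.K) : L.D ≤ Ek L.E k := by
  have hg := L.not_gd h0 hna
  obtain ⟨-, h2⟩ := L.not_sg h0 hna
  have hp2 : p = 2 := by
    by_contra k
    exact hg (Or.inl k)
  have hle := L.Ek_le_D h0 hna hk
  have hZ : ZZ U ≤ Ek L.E k := ZZ_le_Ek L.ZE k
  have main : ∀ d ∈ L.D, ∀ a ∈ Ek L.E k, a ∉ ZZ U → Commute d a → d ∈ Ek L.E k := by
    intro d hd a ha haz hc
    by_cases hdz : d ∈ ZZ U
    · exact hZ hdz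
    have : d * a ∈ ZZ U := by
      by_contra k'
      exact h2 _ (L.D.mul_mem hd (hle ha)) k' ((sg_mul_of_commute L.kd L.pp h0 hg hc (L.na2 h0 hna hd).2
        (L.na2 h0 hna (hle ha)).2).2 ⟨fun k' => absurd k' (h2 d hd hdz), fun k' => absurd k' (h2 a (hle ha) haz)⟩)
    exact ((Ek L.E k).mul_mem_cancel_right ha).1 (hZ this)
  obtain ⟨a, ha, b, hb, hn⟩ : ∃ a ∈ Ek L.E k, ∃ b ∈ Ek L.E k, ¬ Commute a b := by
    obtain ⟨a, ha, b, hb, hn⟩ := na_not_ab hna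
    refine ⟨k⁻¹ * a * k, mem_Ek.2 (by simpa [mul_assoc] using ha), k⁻¹ * b * k,
      mem_Ek.2 (by simpa [mul_assoc] using hb), fun k' => hn ?_⟩
    have := congrArg (fun t => k * t * k⁻¹) k'.eq
    simp only [mul_assoc, mul_inv_cancel_left, mul_inv_cancel, mul_one] at this
    exact this
  intro d hd
  by_cases h3 : Commute d a
  · exact main d hd a ha (fun k' => hn (ZZ_comm k' b)) h3
  by_cases h4 : Commute d b
  · exact main d hd b hb (fun k' => hn (ZZ_comm k' a).symm) h4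
  refine main d hd (a * b) ((Ek L.E k).mul_mem ha hb) (fun k' => hn ?_) ?_
  · have := (Commute.refl a).inv_right.mul_right (ZZ_comm k' a).symm
    rwa [inv_mul_cancel_left] at this
  · obtain ⟨ω, hω, -⟩ := L.omega hna
    obtain ⟨i, hi, hpi⟩ := exists_omega_pow L.kd L.pp hω ((L.na2 h0 hna hd).1 a (hle ha).1)
      (L.na2 h0 hna (hle ha)).2
    obtain ⟨j, hj, hpj⟩ := exists_omega_pow L.kd L.pp hω ((L.na2 h0 hna hd).1 b (hle hb).1)
      (L.na2 h0 hna (hle hb)).2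
    have hij : ω ^ (i + j) = 1 := by
      rw [hω.pow_eq_one_iff_dvd]
      have k1 := hpi h3
      have k2 := hpj h4
      rw [hp2] at k1 k2 ⊢
      omega
    rw [← Commute.units_val_iff, Units.val_mul, Commute, SemiconjBy, ← mul_assoc, hi, smul_mul_assoc, mul_assoc,
      hj, mul_smul_comm, smul_smul, ← pow_add, hij, one_smul, mul_assoc]

/-- `k⁻¹ E k = D` is normalised by `H`, so `k h k⁻¹` normalises `E` and lies in `H` (`max` with `A = E`); `mem_H_of_norm_H`, `KH`. -/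
theorem false_of_na : False := by
  obtain ⟨k, hk⟩ := L.Kne
  refine L.KH k hk (L.mem_H_of_norm_H (L.KG k hk) fun h hh => ?_)
  refine L.max L.E (L.EH.trans L.HG) L.ZE L.tE L.ne (fun k' => L.SH (k'.trans L.EH)) _
    (L.G.mul_mem (L.G.mul_mem (L.KG k hk) (L.HG hh)) (L.G.inv_mem (L.KG k hk))) fun a ha => ?_
  have h1 : k⁻¹ * a * k ∈ Ek L.E k := mem_Ek.2 (by simpa [mul_assoc] using ha)
  have h2 := mem_Ek.1 (L.D_le_Ek h0 hna hk (L.conj_mem L.tD hh (L.Ek_le_D h0 hna hk h1)))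
  have h3 : k * h * k⁻¹ * a * (k * h * k⁻¹)⁻¹ = k * (h * (k⁻¹ * a * k) * h⁻¹) * k⁻¹ := by group
  rwa [h3]

end LC

end Cfsg.Lib.WB
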