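import Cfsg.Agent.Lib.WB.AB

/-!
# S3694: the case `E` abelian, not commuting with a neighbour: frames
-/

set_option linter.unusedSectionVars false

namespace Cfsg.Lib.WB

open Module Cfsg.Lib.Unitary Cfsg.Lib.Transfer
open scoped commutatorElement

variable {F V : Type*} [Field F] [AddCommGroup V] [Module F V] [Finite F] [Finite V]
  {U : Subgroup (End F V)ˣ}

/-- conjugation by a unit -/
noncomputable def ncj : (End F V)ˣ →* (End F V ≃ₐ[F] End F V) :=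
  (MulSemiringAction.toAlgAut (ConjAct (End F V)ˣ) F (End F V)).comp ConjAct.toConjAct.toMonoidHom

theorem ncj_apply (h : (End F V)ˣ) (X : End F V) :
    ncj h X = (h : End F V) * X * ((h⁻¹ : (End F V)ˣ) : End F V) := rfl

theorem ncj_ncj (a b : (End F V)ˣ) (X : End F V) : ncj a (ncj b X) = ncj (a * b) X := by rw [map_mul]; rfl

theorem ncj_coe (a b : (End F V)ˣ) : ncj a (b : End F V) = (a * b * a⁻¹ : (End F V)ˣ) := rfl

theorem ncj_eq_iff {a : (End F V)ˣ} {X Y : End F V} : ncj a X = Y ↔ (a : End F V) * X = Y * a :=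
  Units.mul_inv_eq_iff_eq_mul a

theorem ncj_ZZ {z : (End F V)ˣ} (hz : z ∈ ZZ U) (X : End F V) : ncj z X = X := ncj_eq_iff.2 (ZZ_comm' hz X)

/-- the component of `d` on `e` is `a` -/
def Ch (e : End F V) (d : (End F V)ˣ) (a : F) : Prop := e * d = a • e

theorem Ch.ne {e : End F V} {d : (End F V)ˣ} {a : F} (h : Ch e d a) (h0 : e ≠ 0) : a ≠ 0 := by
  rintro rfl
  exact h0 ((Units.mul_left_eq_zero d).1 (h.trans (zero_smul _ _)))

theorem Ch.eq_one {e : End F V} {a : F} (h : Ch e 1 a) (h0 : e ≠ 0) : a = 1 :=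
  smul_left_injective F h0 (by simpa [Ch] using h.symm)

theorem Ch.comm {e e' : End F V} {x d : (End F V)ˣ} {a b : F} (h : Ch e d a) (h' : Ch e' d b) (h0 : e' ≠ 0)
    (he : ncj x e = e') : Ch e' ⁅x, d⁆ (a / b) := by
  have h1 := congrArg (ncj x) h
  rw [map_mul, map_smul, he, ncj_coe] at h1
  rw [Ch, commutatorElement_def, Units.val_mul, ← mul_assoc, h1, Units.mul_inv_eq_iff_eq_mul, smul_mul_assoc, h',
    smul_smul, div_mul_cancel₀ _ (h'.ne h0)]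

theorem nc_calc {e X A W : End F V} {t : F} (a1 : e * A = 0) (a2 : A * e = 0) (w1 : e * W = t • X)
    (w2 : W * e = t • X) (hx : Le X e) (xx : X * X = 0) :
    e * ((1 + A) * (1 - W) * (1 + A) * (1 - X)) = e + -((1 + t) • X) ∧
      (1 + A) * (1 - W) * (1 + A) * (1 - X) * e = e + -((1 + t) • X) := by
  have h1 : X * A = 0 := by rw [← hx.1, mul_assoc, a1, mul_zero]
  have h2 : A * X = 0 := by rw [← hx.2, ← mul_assoc, a2, zero_mul]
  have h3 : W * X = 0 := by rw [← hx.2, ← mul_assoc, w2, smul_mul_assoc, xx, smul_zero]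
  constructor
  · rw [← mul_assoc, ← mul_assoc, ← mul_assoc, mul_one_add e, a1, add_zero, mul_one_sub e, w1, mul_one_add, sub_mul, a1,
      smul_mul_assoc, h1, smul_zero, sub_zero, add_zero, mul_one_sub, sub_mul, smul_mul_assoc, xx, hx.2]
    module
  · rw [mul_assoc, mul_assoc, mul_assoc, one_sub_mul X, hx.1, one_add_mul A (e - X), mul_sub A, a2, h2, sub_self,
      add_zero, one_sub_mul, mul_sub W, w2, h3, one_add_mul]
    simp only [mul_sub, mul_smul_comm, a2, h2, mul_zero]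
    module

namespace LC

variable {p : ℕ} (L : LC U p)

/-- the hypotheses of this case -/
structure NC (k x : (End F V)ˣ) : Prop where
  h0 : (p : F) ≠ 0
  ab : Ab L.E
  ad : ¬ NoAd U (sp L.E)
  hk : k ∈ L.K
  hx : x ∈ Ek L.E k
  nc : ∃ y ∈ L.E, ¬ Commute x y

/-- the atoms as a type -/
abbrev Ix := {e : End F V // At U (sp L.E) e}

theorem at_ncj {e : End F V} (he : At U (sp L.E) e) {h : (End F V)ˣ} (hh : h ∈ L.H) : At U (sp L.E) (ncj h e) :=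
  he.conj (L.HU hh) fun _ ha => L.conj_mem' L.tZ hh ha

/-- the action of `H` on the atoms -/
theorem exists_rho : ∃ ρ : L.H →* Equiv.Perm L.Ix, ∀ (h : L.H) (e : L.Ix),
    (ρ h e).1 = (h.1 : End F V) * e.1 * ((h.1⁻¹ : (End F V)ˣ) : End F V) :=
  ⟨MonoidHom.toHomPerm
    { toFun := fun h e => ⟨ncj h.1 e.1, L.at_ncj e.2 h.2⟩
      map_one' := funext fun e => Subtype.ext (ncj_ZZ (U := U) (one_mem _) e.1)
      map_mul' := fun _ _ => funext fun _ => Subtype.ext (ncj_ncj _ _ _).symm }, fun _ _ => rfl⟩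

variable {L} {k x : (End F V)ˣ} (c : L.NC k x)
include c

theorem NC.xY : x ∈ L.Y := L.KY k c.hk c.hx

theorem NC.xH : x ∈ L.H := L.YH c.xY

theorem NC.cm : ∀ a ∈ sp L.E, ∀ b ∈ sp L.E, Commute a b := fun _ ha _ hb => c.ab.sp_comm ha hb

theorem NC.orth {e f : End F V} (he : At U (sp L.E) e) (hf : At U (sp L.E) f) (h : e ≠ f) : e * f = 0 :=
  he.mul_eq_zero L.kd c.cm hf h

/-- `⁅x, y⁆ = ω • 1` with `ω ≠ 0, 1`, so `|F| ≠ 2`; `at_sc`. -/
theorem NC.sc {e : End F V} (he : At U (sp L.E) e) : ∀ y ∈ L.E, ScOn e (y : End F V) := by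
  refine (L.at_sc c.h0 c.ab c.ad he).resolve_right fun h => ?_
  obtain ⟨y, hy, n⟩ := c.nc
  have := ZZ_pow_card (L.cE x c.xY y hy)
  rw [h.1, pow_one] at this
  exact n (commutatorElement_eq_one_iff_commute.1 this)

/-- `x^j y x^{-j} = ω^j y` with `ω` a primitive `p`-th root of unity (`cE`, `pE`); if `x ^ j` commutes with `e` and `e y = c e` (`c ≠ 0`) then
`ω^j c e = c e`. -/
theorem NC.not_commute {e : End F V} (he : At U (sp L.E) e) {j : ℕ} (hj : ¬ p ∣ j) :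
    ¬ Commute e ((x ^ j : (End F V)ˣ) : End F V) := fun hc => by
  obtain ⟨y, hy, n⟩ := c.nc
  have hd := L.cE x c.xY y hy
  have := Fact.mk L.pp
  have ho := orderOf_eq_prime (gs_comm_pow hd (L.pow_mem_of_Ek c.hx))
    fun e => n (commutatorElement_eq_one_iff_commute.1 e)
  obtain ⟨a, ha⟩ := c.sc he y hy
  obtain ⟨w, hw⟩ := ((ZZ U).pow_mem hd j).2
  have h1 := Ch.comm (x := x ^ j) ha ha he.2.2.1 (ncj_eq_iff.2 hc.symm)
  have h2 : ⁅x ^ j, y⁆ = ⁅x, y⁆ ^ j := by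
    rw [commutatorElement_def, gs_pow_left (gs_comm_eq x y) (ZZ_comm hd x)]
    group
  rw [h2, div_self (Ch.ne ha he.2.2.1), Ch, hw, mul_smul_comm, mul_one] at h1
  rw [smul_left_injective F he.2.2.1 h1, one_smul] at hw
  exact hj (ho ▸ orderOf_dvd_of_pow_eq_one (Units.ext hw))

theorem NC.ne {e : End F V} (he : At U (sp L.E) e) {j : ℕ} (hj : ¬ p ∣ j) : ncj (x ^ j) e ≠ e := fun h =>
  c.not_commute he hj (ncj_eq_iff.1 h).symm

theorem NC.ne1 {e : End F V} (he : At U (sp L.E) e) : ncj x e ≠ e := by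
  simpa using c.ne he (j := 1) L.pp.not_dvd_one

theorem NC.per (X : End F V) : ncj (x ^ p) X = X := ncj_ZZ (L.pow_mem_of_Ek c.hx) X

/-- Suppose `rk e ≥ 2`; `X` from `Kd.g2`, `s = 1 + X ∈ H` (`mem_H_of_sup`).  `c = ⁅x, s x s⁻¹⁆ ∈ Y` is `Ssm`.  With `X_i = x^i X x^{-i}`, supported on the
atom `x^i e x^{-i}`: `c = (1 + X₁)(1 - X₂)(1 + X₁)(1 - X)`.  `e X₁ = X₁ e = 0`.  `p ≠ 2`: also `e X₂ = X₂ e = 0`, `e c = e - X`.  `p = 2`: `X₂ = X`
(`x² ∈ ZZ U`), `e c = e - 2 X`.  `Ssm.nil_loc` gives `X = 0`. -/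
theorem NC.rk_eq_one {e : End F V} (he : At U (sp L.E) e) : rk e = 1 := by
  refine le_antisymm (not_lt.1 fun h2 => ?_) (Nat.pos_of_ne_zero fun h => he.2.2.1 (rk_eq_zero.1 h))
  obtain ⟨X, X0, hX, hl⟩ := L.kd.g2 he.2.1 h2
  obtain ⟨s, hs, s1, s2⟩ := hX.exists_SS
  have sH := L.mem_H_of_sup c.ab c.ad he (L.SG hs) (by
    rw [s1]
    exact ⟨(Commute.one_right e).add_right (hl.2.trans hl.1.symm), by rw [mul_one_add, sub_mul, hl.2]; simp⟩)
  have hY := L.conj_mem L.tY sH c.xY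
  have hc := L.ssm c.h0 (y := ⁅x, s * x * s⁻¹⁆)
    (mul_mem (mul_mem (mul_mem c.xY hY) (inv_mem c.xY)) (inv_mem hY))
  have e1 : ((⁅x, s * x * s⁻¹⁆ : (End F V)ˣ) : End F V) =
      (1 + ncj x X) * (1 - ncj (x ^ 2) X) * (1 + ncj x X) * (1 - X) := by
    rw [show 1 + ncj x X = ncj x s by rw [s1, map_add, map_one],
      show 1 - ncj (x ^ 2) X = ncj (x ^ 2) (s⁻¹ : (End F V)ˣ) by rw [s2, map_sub, map_one], ← s2, ncj_coe, ncj_coe,
      ← Units.val_mul, ← Units.val_mul, ← Units.val_mul]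
    congr 1
    simp only [commutatorElement_def]
    group
  have z : ∀ h ∈ L.H, ncj h e ≠ e → e * ncj h X = 0 ∧ ncj h X * e = 0 := fun h hh n =>
    ⟨by rw [← hl.2, map_mul, ← mul_assoc, c.orth he (L.at_ncj he hh) n.symm, zero_mul],
      by rw [← hl.1, map_mul, mul_assoc, c.orth (L.at_ncj he hh) he n, mul_zero]⟩
  obtain ⟨t, t0, w1, w2⟩ : ∃ t : F, 1 + t ≠ 0 ∧ e * ncj (x ^ 2) X = t • X ∧ ncj (x ^ 2) X * e = t • X := by
    by_cases h : p = 2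
    · subst h
      exact ⟨1, by simpa [one_add_one_eq_two] using c.h0, by rw [c.per, one_smul, hl.2], by rw [c.per, one_smul, hl.1]⟩
    · refine ⟨0, by simp, ?_⟩
      rw [zero_smul]
      exact z _ (pow_mem c.xH 2) (c.ne he fun d => h ((Nat.prime_dvd_prime_iff_eq L.pp Nat.prime_two).1 d))
  obtain ⟨a1, a2⟩ := z x c.xH (c.ne1 he)
  obtain ⟨k1, k2⟩ := nc_calc a1 a2 w1 w2 hl hX.1
  rw [← e1] at k1 k2
  have := hc.nil_loc he.2.1.1 (k1.trans k2.symm) k1 (by simp [hX.1]) (by simp [hl.2]) (by simp [hl.1])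
  exact X0 ((smul_eq_zero.1 (neg_eq_zero.1 this)).resolve_left t0)

theorem NC.card_Ix : Nat.card L.Ix = finrank F V := by
  rw [Nat.subtype_card (ats U (sp L.E)) fun _ => mem_ats, ← sum_rk_ats L.kd c.cm, Finset.card_eq_sum_ones]
  exact Finset.sum_congr rfl fun e he => (c.rk_eq_one (mem_ats.1 he)).symm

/-- `s` from `Kd.sw` normalises `sp E`: it swaps `e, f` and commutes with the other atoms, and `sp E` is spanned by the atoms
(`a = ∑ e a`, `scOn_of_rk_le_one`).  `w2`. -/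
theorem NC.swap {e f : End F V} (he : At U (sp L.E) e) (hf : At U (sp L.E) f) (hne : e ≠ f) :
    ∃ s ∈ L.H, s ∈ SS U ∧ (s : End F V) * e = f * s ∧ (s : End F V) * f = e * s ∧
      ∀ g, At U (sp L.E) g → g ≠ e → g ≠ f → Commute g (s : End F V) := by
  obtain ⟨s, hs, s1, s2, s3, s4⟩ := L.kd.sw he.2.1 hf.2.1 (c.rk_eq_one he) (c.rk_eq_one hf) (c.orth he hf hne)
    (c.orth hf he hne.symm)
  have k : ∀ g, At U (sp L.E) g → g ≠ e → g ≠ f → Commute g (s : End F V) := fun g hg n1 n2 => by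
    have h1 : g * (1 - (e + f)) = g := by rw [mul_one_sub, mul_add, c.orth hg he n1, c.orth hg hf n2]; simp
    have h2 : (1 - (e + f)) * g = g := by
      rw [one_sub_mul, add_mul, c.orth he hg n1.symm, c.orth hf hg n2.symm]; simp
    calc g * s = g * ((1 - (e + f)) * s) := by rw [← mul_assoc, h1]
      _ = (1 - (e + f)) * s * g := by rw [s4, h1, h2]
      _ = s * g := by rw [((Commute.one_left _).sub_left s3).eq, mul_assoc, h2]
  obtain ⟨y, hy, n⟩ := SetLike.not_le_iff_exists.1 L.ne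
  have n' : ¬ Sc (y : End F V) := fun h => n ⟨L.EU hy, h⟩
  refine ⟨s, L.w2 L.tZ n' (c.cm _ (mem_sp hy)) ⟨y, L.HG (L.EH hy), mem_sp hy, n'⟩ (L.SG hs) fun a ha =>
    mem_of_ats L.kd c.cm fun g hg => ?_, hs, s1, s2, k⟩
  obtain ⟨g', hg', e'⟩ : ∃ g', At U (sp L.E) g' ∧ ncj s g' = g := by
    by_cases n1 : g = e
    · exact ⟨f, hf, ncj_eq_iff.2 (n1 ▸ s2)⟩
    by_cases n2 : g = f
    · exact ⟨e, he, ncj_eq_iff.2 (n2 ▸ s1)⟩
    exact ⟨g, hg, ncj_eq_iff.2 (k g hg n1 n2).symm⟩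
  obtain ⟨t, ht⟩ := scOn_of_rk_le_one hg'.2.1.1 (c.rk_eq_one hg').le (c.cm _ hg'.1 _ ha)
  rw [← ncj_apply, ← e', ← map_mul, ht, map_smul, e']
  exact Subalgebra.smul_mem _ hg.1 t

theorem NC.exists_at : ∃ e, At U (sp L.E) e :=
  have := L.kd.nontrivial
  (WB.exists_at L.kd c.cm (one_mem _) Ad.one one_ne_zero).imp fun _ h => h.1

/-- `ρ` is onto (swaps generate), `ρ (Y)` is a normal `p`-subgroup (`pY`) containing the fixed-point-free `ρ x`; `perm_small`. -/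
theorem NC.small : (p = 2 ∧ (finrank F V = 2 ∨ finrank F V = 4)) ∨ (p = 3 ∧ finrank F V = 3) := by
  classical
  obtain ⟨ρ, hρ⟩ := L.exists_rho
  have := Fintype.ofFinite L.Ix
  have hs : Function.Surjective ρ := MonoidHom.range_eq_top.1 (top_le_iff.1 (by
    rw [← Equiv.Perm.closure_isSwap, Subgroup.closure_le]
    rintro _ ⟨e, f, hne, rfl⟩
    obtain ⟨s, sH, -, s1, s2, s3⟩ := c.swap e.2 f.2 fun h => hne (Subtype.ext h)
    refine ⟨⟨s, sH⟩, Equiv.ext fun g => Subtype.ext ((hρ _ _).trans (ncj_eq_iff.2 ?_))⟩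
    by_cases n1 : g = e
    · rw [n1, Equiv.swap_apply_left]; exact s1
    by_cases n2 : g = f
    · rw [n2, Equiv.swap_apply_right]; exact s2
    rw [Equiv.swap_apply_of_ne_of_ne n1 n2]
    exact (s3 _ g.2 (fun h => n1 (Subtype.ext h)) fun h => n2 (Subtype.ext h)).symm))
  have hz : ∀ h : L.H, h.1 ∈ ZZ U → ρ h = 1 := fun h hh =>
    Equiv.ext fun g => Subtype.ext ((hρ _ _).trans (ncj_ZZ hh _))
  have : (L.Y.subgroupOf L.H).Normal := ⟨fun y hy h => L.conj_mem L.tY h.2 hy⟩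
  have : ((L.Y.subgroupOf L.H).map ρ).Normal := this.map ρ hs
  obtain ⟨e, he⟩ := c.exists_at
  have : Nonempty L.Ix := ⟨⟨e, he⟩⟩
  have := perm_small L.pp (P := (L.Y.subgroupOf L.H).map ρ) (by
    rintro ⟨_, y, hy, rfl⟩
    obtain ⟨j, hj⟩ := L.pY _ hy
    exact ⟨j, Subtype.ext (by rw [Subgroup.coe_pow, ← map_pow]; exact hz _ hj)⟩) (s := ρ ⟨x, c.xH⟩)
    ⟨_, c.xY, rfl⟩ (by rw [← map_pow]; exact hz _ (L.pow_mem_of_Ek c.hx))
    fun i h => c.ne1 i.2 ((hρ _ _).symm.trans (congrArg Subtype.val h))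
  rwa [← Nat.card_eq_fintype_card, c.card_Ix] at this

/-- An element of `ker ρ` commutes with all atoms, so is `∑ c_e • e` with `c_e • 1 ∈ ZZ U` (`Ad.scalar`): `|ker ρ| ≤ z ^ n`, `|H| ≤ n! z ^ n`,
and `relIndex * z = |H|`. -/
theorem NC.relIndex_le :
    (ZZ U).relIndex L.H ≤ (finrank F V).factorial * Nat.card (ZZ U) ^ (finrank F V - 1) := by
  obtain ⟨ρ, hρ⟩ := L.exists_rho
  have k : ∀ (h : ρ.ker) (e : L.Ix), ∃ z : ZZ U, e.1 * (h.1.1 : End F V) = e.1 * (z.1 : End F V) := fun h e => by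
    have hc : Commute e.1 (h.1.1 : End F V) :=
      (ncj_eq_iff.1 ((hρ h.1 e).symm.trans (by rw [MonoidHom.mem_ker.1 h.2]; rfl))).symm
    obtain ⟨t, ht⟩ := scOn_of_rk_le_one e.2.2.1.1 (c.rk_eq_one e.2).le hc
    obtain ⟨z, hz, e'⟩ := exists_ZZ (e.2.2.1.scalar L.kd e.2.2.2.1 (Un.coe (L.HU h.1.2)) hc ht)
    exact ⟨⟨z, hz⟩, by rw [ht, e', mul_smul_comm, mul_one]⟩
  choose φ hφ using k
  have h1 := Nat.card_le_card_of_injective φ fun a b h => Subtype.ext (Subtype.ext (Units.ext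
    (eq_of_ats L.kd c.cm fun e he => by rw [hφ a ⟨e, he⟩, hφ b ⟨e, he⟩, h])))
  have h2 := Subgroup.card_le_card_group ρ.range
  rw [Nat.card_fun, c.card_Ix] at h1
  rw [Nat.card_perm, c.card_Ix, ← Subgroup.index_ker] at h2
  have h3 := Nat.mul_le_mul h1 h2
  rw [Subgroup.card_mul_index, ← ((ZZ U).subgroupOf L.H).card_mul_index,
    Nat.card_congr (Subgroup.subgroupOfEquivOfLe L.ZH).toEquiv,
    ← Nat.sub_add_cancel (one_le_two.trans L.kd.two_le), pow_succ', mul_assoc,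
    Nat.sub_add_cancel (one_le_two.trans L.kd.two_le), mul_comm _ (Nat.factorial _)] at h3
  exact Nat.le_of_mul_le_mul_left h3 Nat.card_pos

theorem NC.exists_u {e : End F V} (he : At U (sp L.E) e) :
    ∃ (ζ : F) (u : (End F V)ˣ), (∀ m : ℕ, ζ ^ m = 1 → Nat.card (ZZ U) ∣ m) ∧ u ∈ U ∧ (u : End F V) ∈ sp L.E ∧
      Ch e u ζ ∧ ∀ g, At U (sp L.E) g → g ≠ e → Ch g u 1 := by
  obtain ⟨ζ, h1, h2⟩ := exists_gen L.kd
  obtain ⟨u, hu, e'⟩ := he.2.1.smul_un h1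
  refine ⟨ζ, u, h2, hu, e' ▸ add_mem (Subalgebra.smul_mem _ he.1 ζ) (sub_mem (one_mem _) he.1), ?_, fun g hg n => ?_⟩
  · rw [Ch, e', mul_add, he.2.1.1.mul_one_sub_self, mul_smul_comm, he.2.1.1.eq, add_zero]
  · rw [Ch, e', mul_add, mul_one_sub, mul_smul_comm, c.orth hg he n]
    simp

theorem NC.st2 (h2 : p = 2) {e : End F V} (he : At U (sp L.E) e) {d : (End F V)ˣ} {a b : F}
    (h : Ch e d a ∧ Ch (ncj x e) d b) : Ch e ⁅x, d⁆ (b / a) ∧ Ch (ncj x e) ⁅x, d⁆ (a / b) :=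
  ⟨h.2.comm h.1 he.2.2.1 (by rw [ncj_ncj, ← sq, ← h2, c.per]), h.1.comm h.2 (L.at_ncj he c.xH).2.2.1 rfl⟩

theorem NC.st3 (h3 : p = 3) {e : End F V} (he : At U (sp L.E) e) {d : (End F V)ˣ} {a b t : F}
    (h : Ch e d a ∧ Ch (ncj x e) d b ∧ Ch (ncj (x ^ 2) e) d t) :
    Ch e ⁅x, d⁆ (t / a) ∧ Ch (ncj x e) ⁅x, d⁆ (a / b) ∧ Ch (ncj (x ^ 2) e) ⁅x, d⁆ (b / t) :=
  ⟨h.2.2.comm h.1 he.2.2.1 (by rw [ncj_ncj, ← pow_succ']; subst h3; exact c.per e),
    h.1.comm h.2.1 (L.at_ncj he c.xH).2.2.1 rfl,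
    h.2.1.comm h.2.2 (L.at_ncj he (pow_mem c.xH 2)).2.2.1 (by rw [ncj_ncj, sq])⟩

/-- Components: for a unit `d` with value in `sp E` and an atom `e`, `e d = χ_e(d) • e`; `χ_e` is multiplicative and
`χ_{x e x⁻¹}(x d x⁻¹) = χ_e(d)`.  For `p = 2` put `e' = x e x⁻¹ ≠ e`, `x e' x⁻¹ = e`, `r(d) = χ_e(d) / χ_{e'}(d)`; then `χ_e ⁅x, d⁆ = r(d)⁻¹` and
`r ⁅x, d⁆ = r(d)⁻²`.  `u = ζ • e + (1 - e)` has `r = ζ`; `d4` gives `ζ ^ 8 = 1`; `exists_gen`. -/
theorem NC.z8 (h2 : p = 2) : Nat.card (ZZ U) ∣ 8 := by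
  obtain ⟨e, he⟩ := c.exists_at
  obtain ⟨ζ, u, h1, hu, hZ, a, b⟩ := c.exists_u he
  have k := (c.st2 h2 he (c.st2 h2 he (c.st2 h2 he (c.st2 h2 he ⟨a, b _ (L.at_ncj he c.xH) (c.ne1 he)⟩)))).1
  rw [L.d4 c.ab c.hk c.hx hu hZ] at k
  have := a.ne he.2.2.1
  exact h1 _ (by rw [← k.eq_one he.2.2.1]; field_simp)

/-- as `z8`, with a third atom `f ∉ {e, e'}`, `s` swapping `e, f` (`swap`) and `⁅u, s⁆ ∈ SS U ⊓ sp E ≤ H` which has `r = ζ`; `d3` gives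
`ζ ^ 4 = 1`. -/
theorem NC.z4 (h2 : p = 2) (h4 : finrank F V = 4) : Nat.card (ZZ U) ∣ 4 := by
  classical
  obtain ⟨e, he⟩ := c.exists_at
  obtain ⟨ζ, u, h1, hu, hZ, a, b⟩ := c.exists_u he
  have he' := L.at_ncj he c.xH
  obtain ⟨f, hf, n⟩ := Finset.exists_mem_notMem_of_card_lt_card (s := {e, ncj x e}) (t := ats U (sp L.E)) (by
    rw [← Nat.subtype_card (ats U (sp L.E)) fun _ => mem_ats, c.card_Ix, h4]
    exact Finset.card_le_two.trans_lt (by norm_num))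
  rw [mem_ats] at hf
  rw [Finset.mem_insert, Finset.mem_singleton, not_or] at n
  obtain ⟨s, sH, sS, -, s2, s3⟩ := c.swap he hf (Ne.symm n.1)
  have hw : ((⁅s, u⁆ : (End F V)ˣ) : End F V) ∈ sp L.E := mul_mem (L.conj_mem' L.tZ sH hZ) (inv_mem_alg hZ)
  have b' := b _ he' (c.ne1 he)
  have k := (c.st2 h2 he (c.st2 h2 he (c.st2 h2 he ⟨(b f hf n.1).comm a he.2.2.1 (ncj_eq_iff.2 s2),
    b'.comm b' he'.2.2.1 (ncj_eq_iff.2 (s3 _ he' (c.ne1 he) (Ne.symm n.2)).symm)⟩))).1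
  rw [L.d3 c.ab c.hk c.hx (L.mem_H_of_sp c.ab (L.SG (commutator_mem_SS sS.1 hu)) hw) hw] at k
  have := a.ne he.2.2.1
  exact h1 _ (by rw [← k.eq_one he.2.2.1]; field_simp)

/-- components `(a, b, c)` on `e, x e x⁻¹, x² e x⁻²` (`x³ ∈ ZZ U`): `⁅x, ·⁆` maps `(a, b, c)` to `(c/a, a/b, b/c)`; from `(ζ, 1, 1)` four steps give
`(ζ⁻³, ζ⁻³, ζ⁶)`; `d4`. -/
theorem NC.z3 (h3 : p = 3) : Nat.card (ZZ U) ∣ 3 := by
  obtain ⟨e, he⟩ := c.exists_at
  obtain ⟨ζ, u, h1, hu, hZ, a, b⟩ := c.exists_u he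
  have k := (c.st3 h3 he (c.st3 h3 he (c.st3 h3 he (c.st3 h3 he ⟨a, b _ (L.at_ncj he c.xH) (c.ne1 he),
    b _ (L.at_ncj he (pow_mem c.xH 2)) (c.ne he (by rw [h3]; norm_num))⟩)))).1
  rw [L.d4 c.ab c.hk c.hx hu hZ] at k
  have := a.ne he.2.2.1
  have k' := k.eq_one he.2.2.1
  field_simp at k'
  exact h1 _ k'.symm

/-- `card_F`: `n = 2`: `z ≤ 8`, `|F| ≤ 49`; `n = 4`: `z ≤ 4`, `|F| ≤ 9`, `8 * 24 * 64 ≤ 15552`; `n = 3`: `z ≤ 3`, `|F| ≤ 4`. -/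
theorem NC.bd : L.Bd := by
  have h1 := c.relIndex_le
  have h2 := card_F L.kd
  have k : ∀ m a b : ℕ, Nat.card (ZZ U) ∣ m → 0 < m → m ≤ a → (m - 1) ^ 2 - 1 ≤ a →
      (finrank F V).factorial * m ^ (finrank F V - 1) = b → a * b ≤ 15552 → L.Bd := fun m a b d m0 k1 k2 k3 k4 => by
    have l := Nat.le_of_dvd m0 d
    refine (Nat.mul_le_mul ?_ (h1.trans (k3 ▸ Nat.mul_le_mul_left _ (Nat.pow_le_pow_left l _)))).trans k4
    have := Nat.pow_le_pow_left (Nat.sub_le_sub_right l 1) 2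
    omega
  rcases c.small with ⟨h, n | n⟩ | ⟨h, n⟩
  · exact k 8 48 16 (c.z8 h) (by norm_num) (by norm_num) (by norm_num) (by rw [n]; rfl) (by norm_num)
  · exact k 4 8 1536 (c.z4 h n) (by norm_num) (by norm_num) (by norm_num) (by rw [n]; rfl) (by norm_num)
  · exact k 3 3 54 (c.z3 h) (by norm_num) (by norm_num) (by norm_num) (by rw [n]; rfl) (by norm_num)

end LC

end Cfsg.Lib.WB
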