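import Cfsg.Agent.Lib.WB.PL
import Cfsg.Agent.Lib.WB.NA
import Cfsg.Agent.Lib.WB.NC
import Cfsg.Agent.Lib.WB.CM

/-!
# S3694: the bound in the linear configuration
-/

set_option linter.unusedSectionVars false

namespace Cfsg.Lib.WB

open Module Cfsg.Lib.Unitary Cfsg.Lib.Transfer
open scoped commutatorElement

variable {F V : Type*} [Field F] [AddCommGroup V] [Module F V] [Finite F] [Finite V]
  {U : Subgroup (End F V)ˣ}

theorem LC.bd {p : ℕ} (L : LC U p) : L.Bd := by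
  by_cases h0 : (p : F) = 0
  · exact (L.false_of_char h0).elim
  by_cases hab : Ab L.E
  swap
  · exact (L.false_of_na h0 hab).elim
  by_cases hN : NoAd U (sp L.E)
  · exact L.bd_of_noAd h0 hab hN
  by_cases hc : ∀ k ∈ L.K, ∀ x ∈ Ek L.E k, ∀ y ∈ L.E, Commute x y
  · exact LC.CM.bd ⟨h0, hab, hN, hc⟩
  · push Not at hc
    obtain ⟨k, hk, x, hx, hy⟩ := hc
    exact LC.NC.bd ⟨h0, hab, hN, hk, hx, hy⟩

end Cfsg.Lib.WB
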