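import Cfsg.Agent.Lib.WB.FK
import Cfsg.Agent.Lib.Perm.TW

/-!
# S3694: Case II (the Thompson-Wielandt subgroups meet the inner-diagonal group trivially), first part
-/

set_option linter.unusedSectionVars false

namespace Cfsg.Lib.WB

open Cfsg.Lib.Transfer Cfsg.Lib.Perm Subgroup MulAction
open scoped commutatorElement

variable {G Ω : Type*} [Group G] [Finite G] [MulAction G Ω] [FaithfulSMul G Ω] [Finite Ω]

variable (G) in
/-- kernel of `G_a` on the suborbit through `b` -/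
def AA (a b : Ω) : Subgroup G := coreIn (stabilizer G a) (stabilizer G b)

variable (G) in
/-- the Thompson-Wielandt subgroup -/
def PP (a b : Ω) : Subgroup G := coreIn (stabilizer G a) (AA G a b ⊓ AA G b a)

variable (G) in
/-- the subdegree -/
noncomputable def dd (a b : Ω) : ℕ := (stabilizer G b).relIndex (stabilizer G a)

theorem mem_AA {a b : Ω} {x : G} : x ∈ AA G a b ↔ x • a = a ∧ ∀ c ∈ orbit (stabilizer G a) b, x • c = c :=
  mem_coreIn_stabilizer

theorem AA_smul (t : G) (a b : Ω) : AA G (t • a) (t • b) = t ⋆ AA G a b := by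
  rw [AA, stabilizer_smul_eq_conj, stabilizer_smul_eq_conj, ← conj_coreIn]; rfl

theorem dd_smul (t : G) (a b : Ω) : dd G (t • a) (t • b) = dd G a b := by
  rw [dd, stabilizer_smul_eq_conj, stabilizer_smul_eq_conj, relIndex_conj]; rfl

theorem AA_le_left (a b : Ω) : AA G a b ≤ stabilizer G a := coreIn_le_left _ _

theorem AA_le_right (a b : Ω) : AA G a b ≤ stabilizer G b := coreIn_le_right _ _

theorem le_normalizer_AA (a b : Ω) : stabilizer G a ≤ normalizer (AA G a b : Set G) := le_normalizer_coreIn _ _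

theorem PP_le_left (a b : Ω) : PP G a b ≤ AA G a b := (coreIn_le_right _ _).trans inf_le_left

theorem PP_le_right (a b : Ω) : PP G a b ≤ AA G b a := (coreIn_le_right _ _).trans inf_le_right

theorem le_normalizer_PP (a b : Ω) : stabilizer G a ≤ normalizer (PP G a b : Set G) := le_normalizer_coreIn _ _

theorem AA_le_stab {a b c : Ω} (hc : c ∈ orbit (stabilizer G a) b) : AA G a b ≤ stabilizer G c :=
  fun _ hx => (mem_AA.1 hx).2 c hc

theorem conj_mem_AA {a b : Ω} {t x : G} : t * x * t⁻¹ ∈ AA G (t • a) (t • b) ↔ x ∈ AA G a b := by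
  rw [AA_smul]; exact conj_mem_conj

theorem mem_PP {a b : Ω} {x : G} :
    x ∈ PP G a b ↔ x ∈ AA G a b ∧ ∀ c ∈ orbit (stabilizer G a) b, x ∈ AA G c a := by
  refine ⟨fun h => ⟨PP_le_left a b h, ?_⟩, fun h => mem_coreIn.2 ⟨AA_le_left a b h.1, fun m hm => ⟨?_, ?_⟩⟩⟩
  · rintro _ ⟨⟨m, hm⟩, rfl⟩
    have h1 := conj_mem_AA (t := m).2 ((mem_coreIn.1 h).2 m⁻¹ (inv_mem hm)).2
    rw [mem_stabilizer_iff.1 hm] at h1
    simpa [mul_assoc] using h1
  · exact le_normalizer_iff.1 (le_normalizer_AA a b) m hm x h.1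
  · have h1 := conj_mem_AA (t := m).2 (h.2 _ ⟨⟨m⁻¹, inv_mem hm⟩, rfl⟩)
    rw [mem_stabilizer_iff.1 hm] at h1
    simpa using h1

theorem card_orbit (a b : Ω) : Nat.card (orbit (stabilizer G a) b) = dd G a b := card_suborbit a b

/-- action of `X ≤ G_a` on the suborbit -/
theorem exists_rep {a : Ω} (b : Ω) {X : Subgroup G} (hX : X ≤ stabilizer G a) :
    ∃ ρ : X →* Equiv.Perm (orbit (stabilizer G a) b), (∀ x c, ((ρ x c : orbit (stabilizer G a) b) : Ω) = x.1 • c.1) ∧
      ρ.ker = (AA G a b).subgroupOf X := by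
  refine ⟨(MulAction.toPermHom (stabilizer G a) (orbit (stabilizer G a) b)).comp (inclusion hX),
    fun _ _ => rfl, ?_⟩
  ext x
  rw [MonoidHom.mem_ker, mem_subgroupOf, mem_AA, Equiv.ext_iff]
  exact ⟨fun h => ⟨hX x.2, fun c hc => congrArg Subtype.val (h ⟨c, hc⟩)⟩, fun h c => Subtype.ext (h.2 c.1 c.2)⟩

/-- action of `X ≤ G_a ⊓ G_b` on the suborbit minus `b` -/
theorem exists_rep' {a b : Ω} {X : Subgroup G} (hX : X ≤ stabilizer G a) (hb : X ≤ stabilizer G b) :
    ∃ ρ : X →* Equiv.Perm {c : Ω // c ∈ orbit (stabilizer G a) b ∧ c ≠ b}, (∀ x c, ((ρ x c).1 : Ω) = x.1 • c.1) ∧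
      ρ.ker = (AA G a b).subgroupOf X := by
  let _ : MulAction X {c : Ω // c ∈ orbit (stabilizer G a) b ∧ c ≠ b} :=
    { smul := fun x c => ⟨x.1 • c.1, by
        obtain ⟨m, hm⟩ := c.2.1
        exact ⟨⟨x.1, hX x.2⟩ * m, by rw [← hm]; exact mul_smul _ _ _⟩, fun h => c.2.2 (by
          have h1 : x.1 • b = b := hb x.2
          exact smul_left_cancel x.1 (h.trans h1.symm))⟩
      one_smul := fun c => Subtype.ext (one_smul G c.1)
      mul_smul := fun x y c => Subtype.ext (mul_smul x.1 y.1 c.1) }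
  refine ⟨MulAction.toPermHom X _, fun _ _ => rfl, ?_⟩
  ext x
  rw [MonoidHom.mem_ker, mem_subgroupOf, mem_AA, Equiv.ext_iff]
  refine ⟨fun h => ⟨hX x.2, fun c hc => ?_⟩, fun h c => Subtype.ext (h.2 c.1 c.2.1)⟩
  by_cases h1 : c = b
  · rw [h1]; exact hb x.2
  · exact congrArg Subtype.val (h ⟨c, hc, h1⟩)

theorem card_orbit' (a b : Ω) : Nat.card {c : Ω // c ∈ orbit (stabilizer G a) b ∧ c ≠ b} = dd G a b - 1 := by
  rw [← card_orbit, Nat.card_coe_set_eq, ← Set.ncard_sdiff_singleton_of_mem (mem_orbit_self b),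
    ← Nat.card_coe_set_eq]
  rfl

/-- `relIndex_biInf_dvd` over the points `c` of the suborbit; `X ⊓ PP = X ⊓ ⨅ AA c a`. -/
theorem relIndex_dvd_pow {a b : Ω} {X : Subgroup G} (hX : X ≤ AA G a b) (s : Finset Ω)
    (hs : ∀ c ∈ s, c ∈ orbit (stabilizer G a) b) {e : ℕ}
    (he : ∀ c ∈ orbit (stabilizer G a) b, (AA G c a).relIndex X ∣ e)
    (h : ∀ x ∈ X, (∀ c ∈ s, x ∈ AA G c a) → x ∈ PP G a b) : (PP G a b).relIndex X ∣ e ^ s.card := by
  have h1 := relIndex_biInf_dvd (A := X) (Finset.univ : Finset s) (fun c => AA G c.1 a) (e := e)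
    (fun c => (hX.trans (AA_le_stab (hs c.1 c.2))).trans (le_normalizer_AA _ _)) (fun c => he c.1 (hs c.1 c.2))
  rw [Finset.card_univ, Fintype.card_coe, ← inf_relIndex_right] at h1
  refine (relIndex_dvd_of_le_left X ?_).trans h1
  rintro x ⟨hx1, hx2⟩
  exact h x hx2 fun c hc => mem_iInf.1 (mem_iInf.1 hx1 ⟨c, hc⟩) (Finset.mem_univ _)

/-- conjugate by `t ∈ G_a` with `t • b = c` -/
theorem relIndex_AA_eq {a b c : Ω} (hc : c ∈ orbit (stabilizer G a) b) :
    (AA G c a).relIndex (AA G a b) = (AA G b a).relIndex (AA G a b) := by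
  obtain ⟨⟨t, ht⟩, rfl⟩ := hc
  have h1 := AA_smul t b a
  rw [mem_stabilizer_iff.1 ht] at h1
  have h2 : t ⋆ AA G a b = AA G a b := conj_eq_self_iff.2 (le_normalizer_AA a b ht)
  rw [← relIndex_conj t (AA G b a), h2, ← h1]
  rfl

/-- The hypotheses of Case II. -/
structure C2 (G₀ : Subgroup G) (p : ℕ) (a b : Ω) (g : G) : Prop where
  prim : IsPreprimitive G Ω
  ne : stabilizer G a ≠ stabilizer G b
  normal : G₀.Normal
  gG : g ∈ G₀
  ga : g • a = b
  comm : ∀ x y : G, ⁅x, y⁆ ∈ G₀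
  cyc : ∀ P : Subgroup G, P ⊓ G₀ = ⊥ → ∃ x ∈ P, Nat.card P ≤ 2 * orderOf x
  prime : p.Prime
  ne1 : PP G a b ≠ ⊥
  ne2 : PP G b a ≠ ⊥
  pg1 : IsPGroup p (PP G a b)
  pg2 : IsPGroup p (PP G b a)
  inf1 : PP G a b ⊓ G₀ = ⊥
  inf2 : PP G b a ⊓ G₀ = ⊥
  four : 4 ≤ dd G a b

theorem card_stab_eq {a b : Ω} {g : G} (h : g • a = b) :
    Nat.card (stabilizer G a) = Nat.card (stabilizer G b) := by
  rw [← h, stabilizer_smul_eq_conj, card_conj]

theorem c2_le_ker {ι : Type*} [Finite ι] {p : ℕ} (hp : p.Prime) {X O : Subgroup G} (ρ : X →* Equiv.Perm ι)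
    (hc : (Nat.card ι).factorial ≤ ρ.ker.index) (hO : IsPGroup p O) (hn : X ≤ normalizer (O : Set G))
    (h5 : 5 ≤ Nat.card ι) : O.subgroupOf X ≤ ρ.ker := by
  have hs : Function.Surjective ρ := by
    rw [← MonoidHom.range_eq_top]
    apply eq_top_of_le_card
    rwa [Nat.card_perm, ← index_ker]
  have h1 : (O.subgroupOf X).Normal := normal_subgroupOf_of_le_normalizer hn
  have h2 : ((O.subgroupOf X).map ρ).Normal := h1.map ρ hs
  exact (Subgroup.map_eq_bot_iff _).1 (perm_pgroup_bot hp ((hO.comap_subtype (K := X)).map ρ) h5)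

theorem dd_comm {a b : Ω} {g : G} (h : g • a = b) : dd G b a = dd G a b := by
  exact relIndex_comm_of_card_eq (card_stab_eq h)

namespace C2

variable {G₀ : Subgroup G} {p : ℕ} {a b : Ω} {g : G} (c : C2 G₀ p a b g)
include c

theorem symm : C2 G₀ p b a g⁻¹ :=
  ⟨c.prim, c.ne.symm, c.normal, inv_mem c.gG, by rw [← c.ga, inv_smul_smul], c.comm, c.cyc, c.prime, c.ne2, c.ne1,
    c.pg2, c.pg1, c.inf2, c.inf1, by rw [dd_comm c.ga]; exact c.four⟩

/-- `⁅x, m⁆ ∈ PP ⊓ G₀ = ⊥` -/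
theorem cent {x m : G} (hx : x ∈ PP G a b) (hm : m ∈ stabilizer G a) : Commute x m := by
  rw [← commutatorElement_eq_one_iff_commute, ← mem_bot, ← c.inf1]
  refine ⟨?_, c.comm x m⟩
  have h1 := le_normalizer_iff.1 (le_normalizer_PP a b) m hm _ (inv_mem hx)
  have h2 : ⁅x, m⁆ = x * (m * x⁻¹ * m⁻¹) := by rw [commutatorElement_def]; simp only [mul_assoc]
  rw [h2]
  exact mul_mem hx h1

/-- `isPrimSub_stabilizer` for `zpowers x` -/
theorem mem_stab {x y : G} (hx : x ∈ PP G a b) (h1 : x ≠ 1) (h : Commute x y) : y ∈ stabilizer G a := by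
  have := c.prim
  have k : ∀ y, Commute x y → y ∈ normalizer (zpowers x : Set G) := fun y h => by
    apply centralizer_le_normalizer
    rintro _ ⟨j, rfl⟩
    exact (h.zpow_left j).eq
  exact isPrimSub_stabilizer a (zpowers x) (zpowers_ne_bot.2 h1)
    (zpowers_le.2 (AA_le_left a b (PP_le_left a b hx))) (fun m hm => k m (c.cent hx hm)) (k y h)

/-- `x ≠ 1`, `orderOf x = p ^ k`, `k ≥ 1`.  `y = g x g⁻¹` is central in `G_b ∋ x`, so `y ∈ G_a` (`mem_stab`), `y ∈ AA b a`.  `n = y⁻¹ x ∈ AA b a ⊓ G₀`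
(`comm`: `n = (g x⁻¹ g⁻¹ x)`), `n ^ j = 1 ↔ x ^ j = y ^ j`, and then `x ^ j` is central in `G_a` and `G_b`, so `1` (`mem_stab`, `ne`, equal orders or
`IsPrimSub.eq_bot`).  `n ^ p ^ (k-1) ∉ PP b a` (`inf2`), so it moves a point `c'` of `orbit G_c b` for some `c ∈ orbit G_b a` (`mem_PP`); `n` fixes `c`
and `b`, `n ^ p ^ k = 1`, so the `n`-cycle of `c'` has length `p ^ k` and avoids `b`: `p ^ k ≤ dd c b - 1 = dd a b - 1`. -/
theorem ord_le {x : G} (hx : x ∈ PP G a b) : orderOf x ≤ dd G a b - 1 := by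
  have hp := Fact.mk c.prime
  have h4 := c.four
  by_cases h1 : x = 1
  · rw [h1, orderOf_one]; omega
  obtain ⟨k, hk⟩ := IsPGroup.iff_orderOf.1 c.pg1 ⟨x, hx⟩
  rw [orderOf_mk] at hk
  obtain _ | k := k
  · exact absurd (orderOf_eq_one_iff.1 hk) h1
  have hy : ∀ m ∈ stabilizer G b, Commute (g * x * g⁻¹) m := by
    intro m hm
    have h2 : g⁻¹ * m * g ∈ stabilizer G a := by
      rw [← c.ga, stabilizer_smul_eq_conj] at hm
      exact mem_conj.1 hm
    have h3 := congrArg (fun t => g * t * g⁻¹) (c.cent hx h2).eq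
    simp only [mul_assoc, mul_inv_cancel_left, mul_inv_cancel, mul_one] at h3
    rw [Commute, SemiconjBy]
    simp only [mul_assoc]
    exact h3
  have hxB : x ∈ AA G b a := PP_le_right a b hx
  have hxy : Commute x (g * x * g⁻¹) := (hy x (AA_le_left b a hxB)).symm
  have hyB : g * x * g⁻¹ ∈ AA G b a := by
    refine mem_coreIn.2 ⟨?_, fun m hm => ?_⟩
    · rw [← c.ga, stabilizer_smul_eq_conj]
      exact conj_mem_conj.2 (AA_le_right b a hxB)
    · rw [← (hy m hm).eq, mul_inv_cancel_right]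
      exact c.mem_stab hx h1 hxy
  set n := (g * x * g⁻¹)⁻¹ * x with hn
  have hnB : n ∈ AA G b a := mul_mem (inv_mem hyB) hxB
  have hnG : n ∈ G₀ := by
    have : n = ⁅g, x⁻¹⁆ := by rw [hn, commutatorElement_def]; group
    rw [this]; exact c.comm _ _
  have hpow : ∀ j : ℕ, n ^ j = ((g * x * g⁻¹) ^ j)⁻¹ * x ^ j := fun j => by
    rw [hn, hxy.symm.inv_left.mul_pow, inv_pow]
  have hk1 : x ^ p ^ (k + 1) = 1 := by rw [← hk, pow_orderOf_eq_one]
  have h2 : n ^ p ^ (k + 1) = 1 := by rw [hpow, conj_pow, hk1]; group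
  have h3 : n ^ p ^ k ≠ 1 := by
    intro h
    rw [hpow, inv_mul_eq_one] at h
    have h5 : x ^ p ^ k ≠ 1 := by
      intro h5
      have := (Nat.pow_dvd_pow_iff_le_right c.prime.one_lt).1 (hk ▸ orderOf_dvd_of_pow_eq_one h5)
      omega
    refine c.ne (eq_of_le_of_card_ge (fun m hm => c.mem_stab (pow_mem hx _) h5 ?_) (card_stab_eq c.ga).le).symm
    rw [← h]
    exact (hy m hm).pow_left _
  have h5 : n ^ p ^ k ∉ PP G b a := fun h => h3 (by
    rw [← mem_bot, ← c.inf2]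
    exact ⟨h, pow_mem hnG _⟩)
  rw [mem_PP] at h5
  push Not at h5
  obtain ⟨d, hd, h6⟩ := h5 (pow_mem hnB _)
  obtain ⟨ρ, -, hρ⟩ := exists_rep' (a := d) (b := b) (AA_le_stab hd) (AA_le_left b a)
  have h7 : ρ ⟨n, hnB⟩ ^ p ^ k ≠ 1 := fun h => h6 (by
    rw [← map_pow, ← MonoidHom.mem_ker, hρ] at h
    exact h)
  have h8 : ρ ⟨n, hnB⟩ ^ p ^ (k + 1) = 1 := by
    rw [← map_pow, ← ρ.map_one]
    congr 1
    exact Subtype.ext h2
  obtain ⟨s, hs⟩ : ∃ s, (ρ ⟨n, hnB⟩ ^ p ^ k) s ≠ s := by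
    by_contra h
    push Not at h
    exact h7 (Equiv.ext h)
  have h9 : Function.minimalPeriod (ρ ⟨n, hnB⟩) s = p ^ (k + 1) :=
    Function.minimalPeriod_eq_prime_pow (by
      rw [Function.IsPeriodicPt, ← Equiv.Perm.coe_pow]; exact hs) (by
      rw [Function.IsPeriodicPt, ← Equiv.Perm.coe_pow, h8]; rfl)
  have := Fintype.ofFinite {c : Ω // c ∈ orbit (stabilizer G d) b ∧ c ≠ b}
  have h10 := Function.minimalPeriod_le_card (f := ρ ⟨n, hnB⟩) (x := s)
  rw [h9, ← Nat.card_eq_fintype_card, card_orbit'] at h10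
  obtain ⟨⟨t, ht⟩, rfl⟩ := hd
  have h11 := dd_smul t a b
  rw [mem_stabilizer_iff.1 ht] at h11
  rw [hk, ← h11]
  exact h10

theorem card_PP_le : Nat.card (PP G a b) ≤ 2 * (dd G a b - 1) := by
  obtain ⟨x, hx, h⟩ := c.cyc _ c.inf1
  exact h.trans (Nat.mul_le_mul_left 2 (c.ord_le hx))

/-- `|G_a| = [G_a : A] [A : P] |P|`, `relIndex_coreIn_dvd` -/
theorem card_le_mul : Nat.card (stabilizer G a) ≤
    (dd G a b).factorial * ((PP G a b).relIndex (AA G a b) * Nat.card (PP G a b)) := by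
  rw [← Core.card_mul_relIndex ((PP_le_left a b).trans (AA_le_left a b)),
    ← relIndex_mul_relIndex _ _ _ (PP_le_left a b) (AA_le_left a b)]
  have := Nat.le_of_dvd (Nat.factorial_pos _) (relIndex_coreIn_dvd (stabilizer G a) (stabilizer G b))
  calc _ = (AA G a b).relIndex (stabilizer G a) * ((PP G a b).relIndex (AA G a b) * Nat.card (PP G a b)) := by ring
    _ ≤ _ := Nat.mul_le_mul_right _ this

/-- `exists_rep'` for `X = AA a b` acting on `orbit G_b a` minus `a` -/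
theorem relIndex_dvd : (AA G b a).relIndex (AA G a b) ∣ (dd G a b - 1).factorial := by
  obtain ⟨ρ, -, hρ⟩ := exists_rep' (G := G) (a := b) (b := a) (AA_le_right a b) (AA_le_left a b)
  rw [relIndex, ← hρ, index_ker, ← dd_comm c.ga, ← card_orbit', ← Nat.card_perm]
  exact card_subgroup_dvd_card _

theorem relIndex_PP_dvd : (PP G a b).relIndex (AA G a b) ∣ ((AA G b a).relIndex (AA G a b)) ^ dd G a b := by
  have h := relIndex_dvd_pow (le_refl (AA G a b)) (Set.toFinite (orbit (stabilizer G a) b)).toFinset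
    (fun d hd => (Set.Finite.mem_toFinset _).1 hd) (fun d hd => (relIndex_AA_eq hd).dvd)
    (fun x hx h => mem_PP.2 ⟨hx, fun d hd => h d ((Set.Finite.mem_toFinset _).2 hd)⟩)
  rwa [← Set.ncard_eq_toFinset_card, ← Nat.card_coe_set_eq, card_orbit] at h

/-- `2 e ≤ (d-1)!` and `2 (d - 1) ≤ 2 ^ d` -/
theorem slack (h : (AA G b a).relIndex (AA G a b) ≠ (dd G a b - 1).factorial) :
    Nat.card (stabilizer G a) ≤ (dd G a b).factorial * (dd G a b - 1).factorial ^ dd G a b := by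
  have h4 := c.four
  have h1 : 2 * (AA G b a).relIndex (AA G a b) ≤ (dd G a b - 1).factorial := by
    obtain ⟨j, hj⟩ := c.relIndex_dvd
    have h0 := Nat.factorial_pos (dd G a b - 1)
    obtain _ | _ | j := j
    · omega
    · omega
    · rw [hj]; nlinarith
  have h0 : 0 < (AA G b a).relIndex (AA G a b) := Nat.pos_of_ne_zero index_ne_zero_of_finite
  have h2 := Nat.le_of_dvd (pow_pos h0 _) c.relIndex_PP_dvd
  have h3 : Nat.card (PP G a b) ≤ 2 ^ dd G a b := by
    refine c.card_PP_le.trans ?_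
    obtain ⟨e, he⟩ : ∃ e, dd G a b = e + 1 := ⟨dd G a b - 1, by omega⟩
    rw [he, pow_succ', Nat.add_sub_cancel]
    exact Nat.mul_le_mul_left 2 Nat.lt_two_pow_self.le
  refine c.card_le_mul.trans (Nat.mul_le_mul_left _ ((Nat.mul_le_mul h2 h3).trans ?_))
  rw [← mul_pow, mul_comm]
  exact Nat.pow_le_pow_left h1 _

/-- The image of `G_a` in `Sym (orbit)` has order `d * [G_a ⊓ G_b : A] ≥ d * [B : A ⊓ B] = d!`, so is everything and `O_p(G_a) ≤ A`
(`perm_pgroup_bot`).  `A` induces the full `Sym (d - 1)` on `orbit G_b a` minus `a`, so `O_p(G_a) ≤ B`; `O_p(G_a) ⊴ B ⊴ G_b` gives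
`O_p(G_a) ≤ O_p(G_b)`, equal orders (conjugate), so it is normalised by both and is `⊥` (`IsPrimSub.eq_bot`), but contains `PP a b`. -/
theorem not_big (h1 : (AA G b a).relIndex (AA G a b) = (dd G a b - 1).factorial)
    (h2 : (AA G a b).relIndex (AA G b a) = (dd G a b - 1).factorial) : dd G a b ≤ 5 := by
  by_contra h6
  have := c.prim
  have hO := Core.pCoreOf_isPGroup p (stabilizer G a)
  have hn := Core.le_normalizer_pCoreOf p (stabilizer G a)
  have hl := Core.pCoreOf_le p (stabilizer G a)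
  set O := (pCore p (stabilizer G a)).map (stabilizer G a).subtype with hOdef
  have k1 : O ≤ AA G a b := by
    obtain ⟨ρ, -, hρ⟩ := exists_rep b (le_refl (stabilizer G a))
    have k := c2_le_ker c.prime ρ (by
      rw [hρ, card_orbit]
      change _ ≤ (AA G a b).relIndex (stabilizer G a)
      rw [← relIndex_mul_relIndex _ _ _ (le_inf (AA_le_left a b) (AA_le_right a b)) inf_le_left, inf_relIndex_left,
        ← Nat.mul_factorial_pred (n := dd G a b) (by omega), mul_comm, ← h2]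
      exact Nat.mul_le_mul_right _ (relIndex_le_of_le_right (le_inf (AA_le_right b a) (AA_le_left b a))
        index_ne_zero_of_finite)) hO hn (by rw [card_orbit]; omega)
    rw [hρ] at k
    exact fun x hx => k (x := ⟨x, hl hx⟩) hx
  have k2 : O ≤ AA G b a := by
    obtain ⟨ρ, -, hρ⟩ := exists_rep' (G := G) (a := b) (b := a) (AA_le_right a b) (AA_le_left a b)
    have k := c2_le_ker c.prime ρ (by
      rw [hρ, card_orbit', dd_comm c.ga, ← h1]; rfl) hO ((AA_le_left a b).trans hn)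
      (by rw [card_orbit', dd_comm c.ga]; omega)
    rw [hρ] at k
    exact fun x hx => k (x := ⟨x, k1 hx⟩) hx
  have k3 : O ≤ (pCore p (stabilizer G b)).map (stabilizer G b).subtype :=
    (Core.le_pCoreOf k2 ((AA_le_right b a).trans hn) hO).trans
      (Core.pCoreOf_le_of_le_normalizer (AA_le_left b a) (le_normalizer_AA b a))
  have k4 : O = (pCore p (stabilizer G b)).map (stabilizer G b).subtype := by
    refine eq_of_le_of_card_ge k3 ?_
    rw [← c.ga, stabilizer_smul_eq_conj, ← Core.pCoreOf_map_conj]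
    exact (card_conj g O).le
  have k5 : O = ⊥ := (isPrimSub_stabilizer a).eq_bot (isPrimSub_stabilizer b) c.ne hl
    (k2.trans (AA_le_left b a)) hn (by rw [k4]; exact Core.le_normalizer_pCoreOf p _)
  refine c.ne1 (le_bot_iff.1 ?_)
  rw [← k5]
  exact Core.le_pCoreOf ((PP_le_left a b).trans (AA_le_left a b)) (le_normalizer_PP a b) c.pg1

end C2

end Cfsg.Lib.WB
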