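import Cfsg.Agent.Lib.WB.C2

/-!
# S3694: Case II, subdegrees four and five
-/

set_option linter.unusedSectionVars false

namespace Cfsg.Lib.WB

open Cfsg.Lib.Transfer Cfsg.Lib.Perm Subgroup MulAction
open scoped commutatorElement

variable {G Ω : Type*} [Group G] [Finite G] [MulAction G Ω] [FaithfulSMul G Ω] [Finite Ω]

omit [Finite G] in
theorem c3_zpowers {β : G} (hβ : ∃ j : ℕ, β ^ 3 ^ j = 1) : IsPGroup 3 (zpowers β) := by
  rintro ⟨_, n, rfl⟩
  exact hβ.imp fun j h => Subtype.ext (show (β ^ n) ^ 3 ^ j = 1 by rw [← zpow_natCast, zpow_comm, zpow_natCast, h, one_zpow])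

/-- take a Sylow `3`-subgroup `S` of `A ⊔ zpowers β` containing `β` and `T = S ⊓ A` (`A` is normal there) -/
theorem exists_syl3 {A : Subgroup G} {β : G} (hβ : ∃ j : ℕ, β ^ 3 ^ j = 1) (hn : β ∈ normalizer (A : Set G)) :
    ∃ T ≤ A, IsPGroup 3 T ∧ ¬ 3 ∣ T.relIndex A ∧ β ∈ normalizer (T : Set G) := by
  obtain ⟨S, h1, -, h3, h4⟩ := exists_sylowIn_ge (c3_zpowers hβ) (zpowers_le.2 hn)
  exact ⟨S ⊓ A, inf_le_right, h3.to_inf_left, by
    rw [inf_relIndex_right]; exact not_dvd_relIndex_of_le_normalizer h4 le_normalizer le_rfl,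
    inf_normalizer_le_normalizer_inf ⟨le_normalizer (h1 (mem_zpowers β)), hn⟩⟩

/-- `[A : P] [P : T ⊓ P] = [A : T] [T : T ⊓ P]` and `[T : T ⊓ P] ∣ [A : P]` (`P` normal in `A`): the `3`-part of `[A : P]` divides `3 ^ k`.
With `[A : P] ∣ m ^ d`, `m ∈ {6, 24}`: `3 ^ i [A : P] ∣ m ^ d` for `k + i ≤ d`. -/
theorem three_pow_mul_le {A P T : Subgroup G} (hP : P ≤ A) (hn : A ≤ normalizer (P : Set G)) (hT : T ≤ A)
    (h3 : ¬ 3 ∣ T.relIndex A) {k i d m : ℕ} (hk : P.relIndex T ∣ 3 ^ k) (hm : m = 6 ∨ m = 24) (hd : P.relIndex A ∣ m ^ d)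
    (hi : k + i ≤ d) : 3 ^ i * P.relIndex A ≤ m ^ d := by
  have e : P.relIndex A ∣ P.relIndex T * T.relIndex A := by
    have := relIndex_inf_mul_relIndex P T A
    rw [inf_eq_left.2 hT] at this
    rw [this]
    exact relIndex_dvd_of_le_left _ inf_le_left
  obtain ⟨x, y, h1, h2, e⟩ := exists_dvd_and_dvd_of_dvd_mul e
  obtain ⟨r, rfl, r0⟩ : ∃ r, m = 3 * r ∧ 0 < r := by rcases hm with rfl | rfl; exacts [⟨2, rfl, two_pos⟩, ⟨8, rfl, by decide⟩]
  rw [e, mul_pow] at hd ⊢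
  have := (Nat.Coprime.pow_right d ((Nat.prime_three.coprime_iff_not_dvd.2 fun k => h3 (k.trans h2)).symm)).dvd_of_dvd_mul_left
    ((dvd_mul_left y x).trans hd)
  rw [← mul_assoc]
  refine Nat.le_of_dvd (by positivity) (mul_dvd_mul ((mul_dvd_mul_left _ (h1.trans hk)).trans ?_) this)
  rw [← pow_add]
  exact pow_dvd_pow 3 (by omega)

theorem card_dvd_three {ι : Type*} [Finite ι] (h : Nat.card ι ≤ 4) {S : Subgroup (Equiv.Perm ι)} (hS : IsPGroup 3 S) :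
    Nat.card S ∣ 3 := by
  obtain ⟨n, hn⟩ := hS.exists_card_eq
  have := (card_subgroup_dvd_card S).trans (Nat.card_perm (α := ι) ▸ Nat.factorial_dvd_factorial h)
  rw [hn] at this ⊢
  rcases n with _ | _ | n
  · simp
  · simp
  · exact absurd ((pow_dvd_pow 3 (Nat.le_add_left 2 n)).trans this) (by decide)

theorem dd_of_mem {a b e : Ω} (he : e ∈ orbit (stabilizer G a) b) : dd G e a = dd G b a := by
  obtain ⟨⟨t, ht⟩, rfl⟩ := he
  have := stabilizer_smul_eq_conj t a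
  rw [mem_stabilizer_iff.1 ht] at this
  exact (congrArg₂ relIndex this (stabilizer_smul_eq_conj t b)).trans (relIndex_conj _ _ _)

theorem three_rep {a b e : Ω} (h5 : dd G b a ≤ 5) (he : e ∈ orbit (stabilizer G a) b) {T : Subgroup G} (hT : T ≤ AA G a b)
    (h3 : IsPGroup 3 T) : ∃ (s : Set Ω) (ρ : T →* Equiv.Perm s), Nat.card s ≤ 4 ∧ IsPGroup 3 ρ.range ∧
      ρ.ker = (AA G e a).subgroupOf T := by
  obtain ⟨ρ, -, h⟩ := exists_rep' (a := e) (b := a) (X := T) (fun x hx => (mem_AA.1 (hT hx)).2 e he) fun x hx => (mem_AA.1 (hT hx)).1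
  exact ⟨{c | c ∈ orbit (stabilizer G e) a ∧ c ≠ a}, ρ, (card_orbit' e a).trans_le (by rw [dd_of_mem he]; omega),
    h3.of_surjective _ ρ.rangeRestrict_surjective, h⟩

/-- a `3`-subgroup of `Sym(n)`, `n ≤ 4`, has order `≤ 3` -/
theorem comm_of_three {ι : Type*} [Finite ι] (h : Nat.card ι ≤ 4) {S : Subgroup (Equiv.Perm ι)} (hS : IsPGroup 3 S)
    {x y : Equiv.Perm ι} (hx : x ∈ S) (hy : y ∈ S) : Commute x y := by
  have := isCyclic_of_card_dvd_prime (card_dvd_three h hS)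
  exact congrArg Subtype.val (IsCyclic.commGroup.mul_comm (⟨x, hx⟩ : S) ⟨y, hy⟩)

namespace C2

variable {G₀ : Subgroup G} {p : ℕ} {a b : Ω} {g : G} (c : C2 G₀ p a b g)
include c

/-- `exists_rep'` for `X = AA b a` is onto `Sym (d - 1)` by counting; take a preimage `β₀` of a `3`-cycle and `β = β₀ ^ m` a `3`-element with
`m ≡ 1 (mod 3)` (`m = r ^ 2`, `r` the `3'`-part of the order). -/
theorem exists_beta (h2 : (AA G a b).relIndex (AA G b a) = (dd G a b - 1).factorial) :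
    ∃ β ∈ AA G b a, (∃ j : ℕ, β ^ 3 ^ j = 1) ∧ ∃ c₁ ∈ orbit (stabilizer G a) b, c₁ ≠ b ∧ β • c₁ ≠ b ∧ β • β • c₁ ≠ b ∧
      β • c₁ ≠ c₁ ∧ β • β • c₁ ≠ c₁ ∧ β • β • c₁ ≠ β • c₁ ∧ β • β • β • c₁ = c₁ := by
  obtain ⟨T, -, h1, h3, h4⟩ := exists_sylowIn_ge (p := 3) (H := AA G b a) IsPGroup.of_bot bot_le
  obtain ⟨x, hx, xa⟩ := SetLike.not_le_iff_exists.1 fun k : T ≤ AA G a b => h4
    ((h2 ▸ Nat.dvd_factorial three_pos (by have := c.four; omega)).trans (relIndex_dvd_of_le_left _ k))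
  obtain ⟨j, hj⟩ := h3 ⟨x, hx⟩
  replace hj : x ^ 3 ^ j = 1 := congrArg Subtype.val hj
  obtain ⟨i, k1, k2⟩ := Nat.exists_not_and_succ_of_not_zero_of_exists (p := fun i => x ^ 3 ^ i ∈ AA G a b) (by simpa using xa)
    ⟨j, hj ▸ one_mem _⟩
  have m := pow_mem (h1 hx) (3 ^ i)
  refine ⟨_, m, ⟨j, by rw [pow_right_comm, hj, one_pow]⟩, ?_⟩
  rw [pow_succ, pow_mul] at k2
  generalize x ^ 3 ^ i = β at k1 k2 m
  have fb : β • b = b := (mem_AA.1 m).1
  have n : ∀ y, y ≠ b → β • y ≠ b := fun y h k => h (smul_left_cancel β (k.trans fb.symm))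
  obtain ⟨c₁, o, k⟩ : ∃ c₁ ∈ orbit (stabilizer G a) b, β • c₁ ≠ c₁ := by
    by_contra! k
    exact k1 (mem_AA.2 ⟨coreIn_le_right _ _ m, k⟩)
  have e : β • β • β • c₁ = c₁ := by rw [← mul_smul, ← mul_smul, ← pow_three']; exact (mem_AA.1 k2).2 _ o
  have n1 : c₁ ≠ b := fun h => k (by rw [h, fb])
  exact ⟨c₁, o, n1, n _ n1, n _ (n _ n1), k, fun h => k (by rwa [h] at e), fun h => k (smul_left_cancel β h), e⟩

/-- a `3`-subgroup `S ≤ AA b a` acts on `orbit G_c b` minus `b` (at most `4` points) for every `c ∈ orbit G_b a`; `comm_of_three`, `mem_PP`. -/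
theorem commutator_mem (h5 : dd G a b ≤ 5) {S : Subgroup G} (hS : S ≤ AA G b a) (h3 : IsPGroup 3 S) {x y : G}
    (hx : x ∈ S) (hy : y ∈ S) : ⁅x, y⁆ ∈ PP G b a := by
  have m : ⁅x, y⁆ ∈ S := mul_mem (mul_mem (mul_mem hx hy) (inv_mem hx)) (inv_mem hy)
  refine mem_PP.2 ⟨hS m, fun e he => ?_⟩
  obtain ⟨ι, ρ, h4, h1, h2⟩ := three_rep h5 he hS h3
  have : ⁅(⟨x, hx⟩ : S), (⟨y, hy⟩ : S)⁆ ∈ ρ.ker := by
    rw [MonoidHom.mem_ker, map_commutatorElement, commutatorElement_eq_one_iff_commute]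
    exact comm_of_three h4 h1 ⟨_, rfl⟩ ⟨_, rfl⟩
  rwa [h2] at this

/-- a `3`-group `T ≤ AA a b` has `[T : T ⊓ AA c a] ∣ (d-1)!` (`exists_rep'`), a power of `3`, so it divides `3`. -/
theorem relIndex_dvd_three (h5 : dd G a b ≤ 5) {T : Subgroup G} (hT : T ≤ AA G a b) (h3 : IsPGroup 3 T) {e : Ω}
    (he : e ∈ orbit (stabilizer G a) b) : (AA G e a).relIndex T ∣ 3 := by
  obtain ⟨ι, ρ, h4, h1, h2⟩ := three_rep (dd_comm c.ga ▸ h5) he hT h3
  rw [relIndex, ← h2, index_ker]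
  exact card_dvd_three h4 h1

/-- `S = (T ⊓ B) ⊔ zpowers β` is a `3`-subgroup of `B = AA b a` (`IsPGroup.to_sup_of_normal_left'`). -/
theorem commutator_beta (h5 : dd G a b ≤ 5) {T : Subgroup G} (h3 : IsPGroup 3 T) {β : G} (hβ : β ∈ AA G b a)
    (hβ3 : ∃ j : ℕ, β ^ 3 ^ j = 1) (hn : β ∈ normalizer (T : Set G)) {s : G} (hs : s ∈ T) (hb : s ∈ AA G b a) :
    ⁅β, s⁆ ∈ PP G b a ∧ ∃ j : ℕ, ⁅β, s⁆ ^ 3 ^ j = 1 := by
  have k : IsPGroup 3 ↥((T ⊓ AA G b a) ⊔ zpowers β) := h3.to_inf_left.to_sup_of_normal_left' (c3_zpowers hβ3)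
    (zpowers_le.2 (inf_normalizer_le_normalizer_inf ⟨hn, le_normalizer hβ⟩))
  have m1 : β ∈ (T ⊓ AA G b a) ⊔ zpowers β := mem_sup_right (mem_zpowers β)
  have m2 : s ∈ (T ⊓ AA G b a) ⊔ zpowers β := mem_sup_left ⟨hs, hb⟩
  exact ⟨c.commutator_mem h5 (sup_le inf_le_right (zpowers_le.2 hβ)) k m1 m2,
    (k ⟨_, mul_mem (mul_mem (mul_mem m1 m2) (inv_mem m1)) (inv_mem m2)⟩).imp fun _ h => congrArg Subtype.val h⟩

/-- `p ≤ orderOf x ≤ d - 1 ≤ 4`, so `p ∈ {2, 3}`.  `β`, `c₁, c₂ = β c₁, c₃ = β c₂` from `exists_beta`; `β ∈ G_a` normalises `A`; `T` from `exists_syl3`.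
`β s β⁻¹ ∈ AA (β c) a ↔ s ∈ AA c a` (`conj_mem_AA`).  For `s ∈ T ⊓ B`, `z = ⁅β, s⁆`, `β s β⁻¹ = z s`.
`p = 2`: `z = 1`; `s ∈ AA c a` for all `c ∉ {c₂, c₃}` gives `s ∈ PP a b`; `relIndex_dvd_pow` with `d - 2` points, slack `9 ≥ 8 ≥ |P|`.
`p = 3`: `z` is central in `G_b` (`symm.cent`), `β² s β⁻² = z² s`; if `s ∈ AA c a` for all `c ≠ c₃` then `z s` (from `c₂`) and `z² s` (from `c₁`) lie in
`AA c₃ a`, so `z` and `s` do; slack `3`, and `|P| ≤ 2 orderOf x ≤ 6` is a power of `3` (`cyc`, `ord_le`), `|P| ≤ 3`. -/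
theorem small (h5 : dd G a b ≤ 5) (h2 : (AA G a b).relIndex (AA G b a) = (dd G a b - 1).factorial) :
    Nat.card (stabilizer G a) ≤ (dd G a b).factorial * (dd G a b - 1).factorial ^ dd G a b := by
  classical
  have := Fact.mk c.prime
  have h4 := c.four
  obtain ⟨β, hβ, β3, c₁, o1, n1, n2, n3, n4, n5, n6, -⟩ := c.exists_beta h2
  have βa : β ∈ stabilizer G a := coreIn_le_right _ _ hβ
  obtain ⟨T, t1, t2, t3, t4⟩ := exists_syl3 (A := AA G a b) β3 (le_normalizer_coreIn _ _ βa)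
  have cj : ∀ x e, x ∈ AA G e a → β * x * β⁻¹ ∈ AA G (β • e) a := fun x e h => by
    have := (conj_mem_AA (t := β)).2 h
    rwa [mem_stabilizer_iff.1 βa] at this
  have o : ∀ e ∈ orbit (stabilizer G a) b, β • e ∈ orbit (stabilizer G a) b := fun e ⟨t, h⟩ => ⟨⟨β, βa⟩ * t, by simp [← h, mul_smul]⟩
  obtain ⟨O, mO, cO⟩ : ∃ O : Finset Ω, (∀ e, e ∈ O ↔ e ∈ orbit (stabilizer G a) b) ∧ O.card = dd G a b :=
    ⟨(Set.toFinite _).toFinset, fun _ => Set.Finite.mem_toFinset _, by rw [← card_orbit, Nat.card_eq_card_finite_toFinset]⟩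
  have key : ∀ (s : Finset Ω) (i : ℕ), s ⊆ O → s.card + i ≤ dd G a b → Nat.card (PP G a b) ≤ 3 ^ i →
      (∀ x ∈ T, (∀ e ∈ s, x ∈ AA G e a) → ∀ e ∈ O, x ∈ AA G e a) →
        Nat.card (stabilizer G a) ≤ (dd G a b).factorial * (dd G a b - 1).factorial ^ dd G a b := fun s i h1 h2 h3 h => by
    refine c.card_le_mul.trans (Nat.mul_le_mul_left _ ((Nat.mul_le_mul_left _ h3).trans ?_))
    rw [mul_comm]
    refine three_pow_mul_le ((coreIn_le_right _ _).trans inf_le_left) ((coreIn_le_left _ _).trans (le_normalizer_coreIn _ _)) t1 t3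
      (relIndex_dvd_pow t1 s (fun e he => (mO e).1 (h1 he)) (fun e he => c.relIndex_dvd_three h5 t1 t2 he) fun x hx k =>
        mem_PP.2 ⟨t1 hx, fun e he => h x hx k e ((mO e).2 he)⟩) ?_ (c.relIndex_PP_dvd.trans (pow_dvd_pow_of_dvd c.relIndex_dvd _)) h2
    obtain e | e : dd G a b = 4 ∨ dd G a b = 5 := by omega
    all_goals simp [e, Nat.factorial]
  have bO := (mO b).2 (mem_orbit_self b)
  have O1 := (mO _).2 o1
  have O2 := (mO _).2 (o _ o1)
  have O3 := (mO _).2 (o _ (o _ o1))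
  have h8 := c.card_PP_le
  obtain ⟨n, hn⟩ := c.pg1.exists_card_eq
  by_cases p2 : p = 2
  · refine key ((O.erase (β • β • c₁)).erase (β • c₁)) 2 ((Finset.erase_subset _ _).trans (Finset.erase_subset _ _)) (by
      rw [Finset.card_erase_of_mem (Finset.mem_erase.2 ⟨n6.symm, O2⟩), Finset.card_erase_of_mem O3]; omega) (by omega)
      fun x hx k e he => ?_
    simp only [Finset.mem_erase, and_imp] at k
    obtain ⟨z1, j, z2⟩ := c.commutator_beta h5 t2 hβ β3 t4 hx (k b n2.symm n3.symm bO)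
    obtain ⟨i, z3⟩ := c.pg2 ⟨_, z1⟩
    have z4 : β * x * β⁻¹ = x := mul_inv_eq_one.1 (show ⁅β, x⁆ = 1 from orderOf_eq_one_iff.1 (Nat.eq_one_of_dvd_coprimes
      (Nat.Coprime.pow i j (show p.Coprime 3 by rw [p2]; decide)) (orderOf_dvd_of_pow_eq_one (congrArg Subtype.val z3))
      (orderOf_dvd_of_pow_eq_one z2)))
    have k2 := z4 ▸ cj x _ (k c₁ n4.symm n5.symm O1)
    by_cases e2 : e = β • c₁
    · exact e2 ▸ k2
    by_cases e3 : e = β • β • c₁
    exacts [e3 ▸ z4 ▸ cj x _ k2, k e e2 e3 he]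
  refine key (O.erase (β • β • c₁)) 1 (Finset.erase_subset _ _) (by rw [Finset.card_erase_of_mem O3]; omega) ?_ fun x hx k e he => ?_
  · rcases n with _ | n
    · rw [pow_zero] at hn; omega
    obtain ⟨y, hy⟩ := exists_prime_orderOf_dvd_card' (G := PP G a b) p (hn ▸ dvd_pow_self p n.succ_ne_zero)
    have := c.ord_le y.2
    rw [orderOf_coe, hy] at this
    have := c.prime.two_le
    obtain rfl : p = 3 := by
      have : p ≠ 4 := fun e => absurd (e ▸ c.prime) (by decide)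
      omega
    rcases n with _ | n
    · omega
    · have := Nat.one_le_pow n 3 three_pos
      rw [pow_succ, pow_succ] at hn
      omega
  simp only [Finset.mem_erase, and_imp] at k
  by_cases e3 : e = β • β • c₁
  swap
  · exact k e e3 he
  have z := c.symm.cent (c.commutator_beta h5 t2 hβ β3 t4 hx (k b n3.symm bO)).1 (coreIn_le_left _ _ hβ)
  have k1 := cj x _ (k _ n6.symm O2)
  have k2 := cj _ _ (cj x _ (k c₁ n5.symm O1))
  have e1 : β * x * β⁻¹ = ⁅β, x⁆ * x := by group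
  rw [e1, ← mul_assoc, ← z.eq, mul_assoc, mul_assoc, ← mul_assoc β] at k2
  rw [e3]
  exact (mul_mem_cancel_left ((mul_mem_cancel_right k1).1 k2)).1 (e1 ▸ k1)

theorem card_le : Nat.card (stabilizer G a) ≤ (dd G a b).factorial * (dd G a b - 1).factorial ^ dd G a b := by
  by_cases h1 : (AA G b a).relIndex (AA G a b) = (dd G a b - 1).factorial
  swap
  · exact c.slack h1
  by_cases h2 : (AA G a b).relIndex (AA G b a) = (dd G a b - 1).factorial
  · exact c.small (c.not_big h1 h2) h2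
  · have h := c.symm.slack (by rwa [dd_comm c.ga])
    rw [dd_comm c.ga] at h
    have e : Nat.card (stabilizer G b) = Nat.card (stabilizer G a) := by
      rw [← c.ga, stabilizer_smul_eq_conj, card_conj]
    rwa [e] at h

end C2

/-- `φ` is injective on `P`; the kernel of the first coordinate has order `≤ 2`, the image of `P` in the cyclic group is generated by the image
of some `x ∈ P`. -/
theorem cyc_of_hom {C : Type*} [Group C] [IsCyclic C] (φ : G →* C × Multiplicative (ZMod 2)) (P : Subgroup G)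
    (h : P ⊓ φ.ker = ⊥) : ∃ x ∈ P, Nat.card P ≤ 2 * orderOf x := by
  let ψ : P →* C := (MonoidHom.fst _ _).comp (φ.comp P.subtype)
  obtain ⟨⟨_, x, rfl⟩, hx⟩ := IsCyclic.exists_ofOrder_eq_natCard (α := ψ.range)
  refine ⟨x, x.2, ?_⟩
  rw [← ψ.ker.card_mul_index, index_ker, ← hx, ← orderOf_coe, orderOf_coe x]
  refine Nat.mul_le_mul ((Nat.card_le_card_of_injective (fun k : ψ.ker => (φ k).2) fun k l e => ?_).trans_eq (by simp))
    (Nat.le_of_dvd (orderOf_pos x) (orderOf_map_dvd ψ x))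
  refine Subtype.ext (Subtype.ext (mul_inv_eq_one.1 (mem_bot.1 (h.le (mem_inf.2 ⟨P.mul_mem k.1.2 (P.inv_mem l.1.2), ?_⟩)))))
  rw [MonoidHom.mem_ker, map_mul, map_inv, mul_inv_eq_one]
  exact Prod.ext (k.2.trans l.2.symm) e

theorem comm_of_hom {C : Type*} [Group C] [IsCyclic C] (φ : G →* C × Multiplicative (ZMod 2)) (x y : G) :
    ⁅x, y⁆ ∈ φ.ker := by
  let _ := IsCyclic.commGroup (α := C)
  rw [MonoidHom.mem_ker, map_commutatorElement, commutatorElement_eq_one_iff_mul_comm, mul_comm]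

end Cfsg.Lib.WB
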