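import Mathlib
import Cfsg.Agent.Lib.Unitary.Std
import Cfsg.Agent.Lib.Perm.TW

/-!
# S3694 (Sims bound for linear and unitary socles): definitions

`F` finite field, `V` finite `F`-space, `R = End F V`.  `U ≤ Rˣ` is `GL(V)` (`Lin`) or `GU(V, B)` (`Uni`).
All geometric notions (`Rt` roots, `Ad` admissible idempotents, `Pr` flags) are defined from `U` alone.
-/

namespace Cfsg.Lib.WB

open Module Cfsg.Lib.Unitary Cfsg.Lib.Transfer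
open scoped commutatorElement

variable {F V : Type*} [Field F] [AddCommGroup V] [Module F V]

instance finEnd [Finite V] : Finite (End F V) := DFunLike.finite _

/-- scalar endomorphism -/
def Sc (X : End F V) : Prop := ∃ c : F, X = c • (1 : End F V)

/-- `U` is the full isometry group of the hermitian form `B` -/
def IsU (U : Subgroup (End F V)ˣ) (σ : F →+* F) (B : V →ₛₗ[σ] V →ₗ[F] F) : Prop :=
  IsHerm σ B ∧ ∀ u : (End F V)ˣ, u ∈ U ↔ ∀ x y, B (u.1 x) (u.1 y) = B x y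

def Lin (U : Subgroup (End F V)ˣ) : Prop :=
  U = ⊤ ∧ 2 ≤ finrank F V ∧ (finrank F V = 2 → 4 ≤ Nat.card F)

def Uni (U : Subgroup (End F V)ˣ) : Prop :=
  (∃ (σ : F →+* F) (B : V →ₛₗ[σ] V →ₗ[F] F), IsU U σ B) ∧ 3 ≤ finrank F V ∧
    ¬ (finrank F V = 3 ∧ Nat.card F = 4)

def Kd (U : Subgroup (End F V)ˣ) : Prop := Lin U ∨ Uni U

/-- `q = 2` -/
def Q2 (U : Subgroup (End F V)ˣ) : Prop := Nat.card F = 2 ∨ (Nat.card F = 4 ∧ Uni U)

def Un (U : Subgroup (End F V)ˣ) (X : End F V) : Prop := ∃ u ∈ U, (u : End F V) = X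

/-- root: `1 + X` is a quadratic unipotent element of `U` -/
def Rt (U : Subgroup (End F V)ˣ) (X : End F V) : Prop := X * X = 0 ∧ Un U (1 + X)

/-- admissible idempotent (any idempotent for `GL`, self-adjoint for `GU`) -/
def Ad (U : Subgroup (End F V)ˣ) (e : End F V) : Prop :=
  IsIdempotentElem e ∧ ∀ X, Un U X → Commute e X → Un U (e * X + (1 - e))

/-- `X` is supported on `e` -/
def Sup (e X : End F V) : Prop := Commute e X ∧ (1 - e) * X = 1 - e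

/-- `X` is scalar on `e` -/
def ScOn (e X : End F V) : Prop := ∃ c : F, e * X = c • e

/-- `f ≤ e` for idempotents -/
def Le (f e : End F V) : Prop := f * e = f ∧ e * f = f

noncomputable abbrev rk (X : End F V) : ℕ := finrank F (LinearMap.range X)

/-- order prime to the characteristic -/
def Ssm (u : (End F V)ˣ) : Prop := ((orderOf u : ℕ) : F) ≠ 0

/-- `X` stabilises `W` -/
def St (W : Submodule F V) (X : End F V) : Prop := ∀ v ∈ W, X v ∈ W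

/-- the scalars in `U` -/
def ZZ (U : Subgroup (End F V)ˣ) : Subgroup (End F V)ˣ where
  carrier := {u | u ∈ U ∧ Sc (u : End F V)}
  mul_mem' := by
    rintro a b ⟨ha, c, hc⟩ ⟨hb, d, hd⟩
    exact ⟨U.mul_mem ha hb, c * d, by simp [hc, hd, smul_smul, mul_comm]⟩
  one_mem' := ⟨U.one_mem, 1, by simp⟩
  inv_mem' := by
    rintro a ⟨ha, c, hc⟩
    refine ⟨U.inv_mem ha, ?_⟩
    have h1 : c • ((a⁻¹ : (End F V)ˣ) : End F V) = 1 := by
      have := a.mul_inv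
      rwa [hc, smul_mul_assoc, one_mul] at this
    by_cases h0 : c = 0
    · refine ⟨0, ?_⟩
      rw [h0, zero_smul] at h1
      rw [zero_smul, ← mul_one ((a⁻¹ : (End F V)ˣ) : End F V), ← h1, mul_zero]
    · exact ⟨c⁻¹, by rw [← h1, smul_smul, inv_mul_cancel₀ h0, one_smul]⟩

theorem mem_ZZ {U : Subgroup (End F V)ˣ} {u : (End F V)ˣ} :
    u ∈ ZZ U ↔ u ∈ U ∧ Sc (u : End F V) := Iff.rfl

/-- the elements of determinant one in `U` -/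
noncomputable def SS (U : Subgroup (End F V)ˣ) : Subgroup (End F V)ˣ :=
  U ⊓ ((LinearMap.det : End F V →* F).comp (Units.coeHom (End F V))).ker

theorem mem_SS {U : Subgroup (End F V)ˣ} {u : (End F V)ˣ} :
    u ∈ SS U ↔ u ∈ U ∧ LinearMap.det (u : End F V) = 1 := Iff.rfl

/-- flags `V₁ ≤ V₂` (with `V₂ = V₁^⊥` in the unitary case) -/
def Pr (U : Subgroup (End F V)ˣ) (V₁ V₂ : Submodule F V) : Prop :=
  V₁ ≠ ⊥ ∧ V₁ ≤ V₂ ∧ V₂ ≠ ⊤ ∧
    ∀ (σ : F →+* F) (B : V →ₛₗ[σ] V →ₗ[F] F), IsU U σ B → V₂ = perp B V₁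

/-- the algebra spanned by a group of units -/
def sp (A : Subgroup (End F V)ˣ) : Subalgebra F (End F V) :=
  Algebra.adjoin F ((fun u : (End F V)ˣ => (u : End F V)) '' (A : Set (End F V)ˣ))

theorem mem_sp {A : Subgroup (End F V)ˣ} {a : (End F V)ˣ} (h : a ∈ A) : (a : End F V) ∈ sp A :=
  Algebra.subset_adjoin ⟨a, h, rfl⟩

/-- abelian group of units -/
def Ab (A : Subgroup (End F V)ˣ) : Prop := ∀ a ∈ A, ∀ b ∈ A, Commute a b

/-- the algebra is a field -/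
def Fld (Z : Subalgebra F (End F V)) : Prop :=
  (∀ a ∈ Z, ∀ b ∈ Z, Commute a b) ∧ ∀ a ∈ Z, a ≠ 0 → ∃ b ∈ Z, a * b = 1

/-- no non-trivial admissible idempotent -/
def NoAd (U : Subgroup (End F V)ˣ) (Z : Subalgebra F (End F V)) : Prop :=
  ∀ e ∈ Z, Ad U e → e = 0 ∨ e = 1

/-- atoms: minimal non-zero admissible idempotents of a (commutative) algebra -/
def At (U : Subgroup (End F V)ˣ) (Z : Subalgebra F (End F V)) (e : End F V) : Prop :=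
  e ∈ Z ∧ Ad U e ∧ e ≠ 0 ∧ ∀ f ∈ Z, Ad U f → f * e = f → f = 0 ∨ f = e

/-- `x` can be scaled to `x ^ p = 1` -/
def Sg (U : Subgroup (End F V)ˣ) (p : ℕ) (x : (End F V)ˣ) : Prop := ∃ z ∈ ZZ U, (z * x) ^ p = 1

/-- `x` can be scaled to `x ^ p = -(-1) ^ p` (a Gauss element exists) -/
def Scl (U : Subgroup (End F V)ˣ) (p : ℕ) (x : (End F V)ˣ) : Prop :=
  ∃ z ∈ ZZ U, (((z * x) ^ p : (End F V)ˣ) : End F V) = (-(-1) ^ p : F) • (1 : End F V)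

/-- the good case for scaling -/
def Gd (U : Subgroup (End F V)ˣ) (p : ℕ) : Prop :=
  p ≠ 2 ∨ ∃ z ∈ ZZ U, ((z ^ 2 : (End F V)ˣ) : End F V) = -1

/-- semilinear automorphisms / anti-automorphisms of `End F V` preserving `U` -/
structure Tau (U : Subgroup (End F V)ˣ) (τ : End F V ≃+ End F V) : Prop where
  mul : (∀ X Y, τ (X * Y) = τ X * τ Y) ∨ (∀ X Y, τ (X * Y) = τ Y * τ X)
  one : τ 1 = 1
  smul : ∃ φ : F ≃+* F, ∀ (c : F) (X : End F V), τ (c • X) = φ c • τ X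
  un : ∀ X, Un U (τ X) ↔ Un U X
  rank : ∀ X, rk (τ X) = rk X

/-- invariant set -/
def TS (T : Set (End F V ≃+ End F V)) (A : Set (End F V)) : Prop := ∀ τ ∈ T, ∀ X ∈ A, τ X ∈ A

/-- invariant group of units -/
def TI (T : Set (End F V ≃+ End F V)) (A : Subgroup (End F V)ˣ) : Prop :=
  ∀ τ ∈ T, ∀ a ∈ A, ∃ a' ∈ A, τ (a : End F V) = (a' : End F V)

/-- the conjugate `k⁻¹ E k` -/
def Ek (E : Subgroup (End F V)ˣ) (k : (End F V)ˣ) : Subgroup (End F V)ˣ :=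
  E.comap (MulAut.conj k).toMonoidHom

theorem mem_Ek {E : Subgroup (End F V)ˣ} {k x : (End F V)ˣ} : x ∈ Ek E k ↔ k * x * k⁻¹ ∈ E := Iff.rfl

/-- The linear configuration: preimages in `U` of the inner-diagonal parts of `G`, of the maximal
subgroup `H`, of `O_p(H)`, of a minimal normal subgroup `E` of `H`; `K` = preimage of the `H`-class of `g`;
`T` = the lifts of the elements of `H`. -/
structure LC (U : Subgroup (End F V)ˣ) (p : ℕ) where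
  G : Subgroup (End F V)ˣ
  H : Subgroup (End F V)ˣ
  Y : Subgroup (End F V)ˣ
  E : Subgroup (End F V)ˣ
  K : Set (End F V)ˣ
  T : Set (End F V ≃+ End F V)
  kd : Kd U
  pp : p.Prime
  GU : G ≤ U
  SG : SS U ≤ G
  ZE : ZZ U ≤ E
  EY : E ≤ Y
  YH : Y ≤ H
  HG : H ≤ G
  tau : ∀ τ ∈ T, Tau U τ
  symm : ∀ τ ∈ T, τ.symm ∈ T
  cj : ∀ h ∈ H, ∃ τ ∈ T, ∀ X, τ X = (h : End F V) * X * ((h⁻¹ : (End F V)ˣ) : End F V)
  tG : TI T G
  tH : TI T H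
  tY : TI T Y
  tE : TI T E
  SH : ¬ SS U ≤ H
  max : ∀ A ≤ G, ZZ U ≤ A → TI T A → ¬ A ≤ ZZ U → ¬ SS U ≤ A →
    ∀ g ∈ G, (∀ a ∈ A, g * a * g⁻¹ ∈ A) → g ∈ H
  con : ∀ A ≤ H, ZZ U ≤ A → TI T A → ∀ a ∈ A, (∀ y ∈ A, y ∈ Y → ⁅a, y⁆ ∈ ZZ U) → a ∈ Y
  pY : ∀ y ∈ Y, ∃ j : ℕ, y ^ p ^ j ∈ ZZ U
  pE : ∀ e ∈ E, e ^ p ∈ ZZ U
  cE : ∀ y ∈ Y, ∀ e ∈ E, ⁅y, e⁆ ∈ ZZ U
  ne : ¬ E ≤ ZZ U
  min : ∀ A ≤ E, ZZ U ≤ A → TI T A → A = ZZ U ∨ A = E
  Kne : K.Nonempty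
  KG : ∀ k ∈ K, k ∈ G
  KH : ∀ k ∈ K, k ∉ H
  KY : ∀ k ∈ K, Ek E k ≤ Y
  KK : ∀ k ∈ K, ∀ k' ∈ K, ∀ x ∈ Ek E k, ∀ x' ∈ Ek E k', x * x' * x⁻¹ ∈ Ek E k'
  Kc : ∀ k ∈ K, ∀ h ∈ H, h * k * h⁻¹ ∈ K
  gen : SS U ≤ Subgroup.closure K ⊔ ZZ U

/-- the conclusion in the linear configuration -/
def LC.Bd {U : Subgroup (End F V)ˣ} {p : ℕ} (L : LC U p) : Prop :=
  (Nat.card F - 1) * (ZZ U).relIndex L.H ≤ 15552

/-- `τ` lifts conjugation by `g` -/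
def Lf {G : Type*} [Group G] {Γ : Subgroup (End F V)ˣ} (π : Γ →* G) (τ : End F V ≃+ End F V) (g : G) :
    Prop :=
  ∀ γ : Γ, ∃ γ' : Γ, (τ (γ.1 : End F V) = (γ'.1 : End F V) ∨
    τ (γ.1 : End F V) = ((γ'.1⁻¹ : (End F V)ˣ) : End F V)) ∧ π γ' = g * π γ * g⁻¹

/-- Linear data for a group `G` with socle `N`. -/
structure Ld {G : Type*} [Group G] (N : Subgroup G) (U : Subgroup (End F V)ˣ) where
  Γ : Subgroup (End F V)ˣ
  π : Γ →* G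
  kd : Kd U
  GU : Γ ≤ U
  SG : SS U ≤ Γ
  ZG : ZZ U ≤ Γ
  ker : ∀ γ : Γ, π γ = 1 ↔ γ.1 ∈ ZZ U
  mapS : ((SS U).subgroupOf Γ).map π = N
  lift : ∀ g : G, ∃ τ, Tau U τ ∧ Lf π τ g
  out : ∃ φ : G →* (F ≃+* F) × Multiplicative (ZMod 2), φ.ker = π.range

/-- The group configuration (Case I). -/
structure Cf {G : Type*} [Group G] (N G₀ H E : Subgroup G) (p : ℕ) (g : G) : Prop where
  prime : p.Prime
  coatom : IsCoatom H
  NH : ¬ N ≤ H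
  chr : generalizedFittingSubgroup H = pCore p H
  EG : E ≤ G₀
  E0 : E ≠ ⊥
  EH : E ≤ H
  nE : H ≤ Subgroup.normalizer (E : Set G)
  pE : IsPGroup p E
  min : ∀ A ≤ E, H ≤ Subgroup.normalizer (A : Set G) → A = ⊥ ∨ A = E
  gN : g ∈ N
  gH : g ∉ H
  gY : g⁻¹ ⋆ E ≤ pCoreOf p H
  gK : ∀ t ∈ H, g⁻¹ ⋆ E ≤ Subgroup.normalizer ((t ⋆ (g⁻¹ ⋆ E) : Subgroup G) : Set G)

end Cfsg.Lib.WB
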