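import Cfsg.Agent.Lib.WB.U1

/-!
# S3694: unitary geometry II (blocks)
-/

set_option linter.unusedSectionVars false

namespace Cfsg.Lib.WB

open Module Cfsg.Lib.Unitary Cfsg.Lib.Transfer
open scoped commutatorElement

variable {F V : Type*} [Field F] [AddCommGroup V] [Module F V] [Finite F] [Finite V]
  {U : Subgroup (End F V)ˣ}

variable {σ : F →+* F} {B : V →ₛₗ[σ] V →ₗ[F] F}

theorem Sup.of_apply {e X : End F V} (h1 : ∀ y, e (X y) = X (e y)) (h2 : ∀ y, e (X y - y) = X y - y) : Sup e X :=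
  ⟨LinearMap.ext h1, LinearMap.ext fun y => by
    have := h2 y
    rw [map_sub] at this
    simp only [End.mul_apply, LinearMap.sub_apply, End.one_apply]
    linear_combination (norm := module) -this⟩

theorem u2_sup {e : End F V} {s t : (End F V)ˣ} (hs : Sup e (s : End F V)) (ht : Sup e (t : End F V)) :
    Sup e ((s⁻¹ * t : (End F V)ˣ) : End F V) :=
  ⟨(hs.1.units_inv_right).mul_right ht.1, by
    rw [Units.val_mul, ← mul_assoc, (Units.mul_inv_eq_iff_eq_mul _).2 hs.2.symm, ht.2]⟩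

namespace IsU

variable (h : IsU U σ B)
include h

theorem u2_sym {e : End F V} (he : Ad U e) (u v : V) : B (e u) v = B u (e v) := by
  rw [h.adj_left, (h.ad_iff.1 he).2]

theorem u2_iso {v y : V} (hv : B v v = 0) (hy : B v y = 1) : ∃ a : F, B (y + a • v) (y + a • v) = 0 := by
  obtain ⟨a, ha⟩ := h.1.exists_trace_eq (s := -B y y) (by rw [map_neg, h.1.self_fixed])
  have : B y v = 1 := by rw [← h.1.symm, hy, map_one]
  exact ⟨a, by simp [hv, hy, this]; linear_combination ha⟩

theorem u2_rk {e : End F V} (he : Ad U e) (h1 : rk e = 1) : ∃ v, e v = v ∧ B v v = 1 ∧ ∀ y, e y = B v y • v := by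
  obtain ⟨u, hu, h0⟩ := h.exists_range_noniso he fun k => by simp [rk_eq_zero.2 k] at h1
  obtain ⟨c, -, hc⟩ := h.1.exists_smul_norm_eq h0 one_ne_zero (map_one σ)
  have hv : e (c • u) = c • u := by rw [map_smul, hu]
  generalize c • u = v at hc hv
  refine ⟨v, hv, hc, fun y => ?_⟩
  obtain ⟨t, ht⟩ := (finrank_eq_one_iff_of_nonzero' (⟨v, v, hv⟩ : LinearMap.range e) fun k => by
    simp [show v = 0 from congrArg Subtype.val k] at hc).1 h1 ⟨_, y, rfl⟩
  have k : t • v = e y := congrArg Subtype.val ht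
  have := h.u2_sym he v y
  rw [hv, ← k, map_smul, hc, smul_eq_mul, mul_one] at this
  rw [this, k]

/-- `exists_range_iso`, `rt_smulRight`; `B v (e x) = B (e v) x` (`ad_iff`). -/
theorem g2 {e : End F V} (he : Ad U e) (h2 : 2 ≤ rk e) :
    ∃ X : End F V, X ≠ 0 ∧ Rt U X ∧ Le X e := by
  obtain ⟨v, hv, h0, hi⟩ := h.exists_range_iso he h2
  obtain ⟨δ, d0, hd⟩ := h.1.exists_skew
  refine ⟨_, fun k => h0 (h.1.nondeg v fun y => ?_), h.rt_smulRight hi hd, LinearMap.ext fun y => ?_,
    LinearMap.ext fun y => by simp [hv]⟩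
  · simpa [d0, h0] using LinearMap.congr_fun k y
  · simp [← h.u2_sym he, hv]

/-- an isotropic partner inside the range of `e` -/
theorem exists_hyp {e : End F V} (he : Ad U e) {v : V} (hv : e v = v) (h0 : v ≠ 0) (hi : B v v = 0) :
    ∃ w, e w = w ∧ B v w = 1 ∧ B w w = 0 := by
  obtain ⟨w, hw, k⟩ := h.exists_range_ne he hv h0
  have k1 : B v ((B v w)⁻¹ • w) = 1 := by simp [k]
  obtain ⟨a, ha⟩ := h.u2_iso hi k1
  exact ⟨_, by simp [hv, hw], by rw [map_add, k1]; simp [hi], ha⟩

/-- `rk e ≤ 1`: `scOn_of_rk_le_one`.  Otherwise `x` commutes with `δ (B v) ⊗ v` for every isotropic `v` in `range e`, so `v` is an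
eigenvector.  Fix a hyperbolic pair `v, w` in `range e`: `v + δ w` is isotropic so the eigenvalues of `v`, `w` agree (`= c`).
An isotropic `u ∈ range e` with `B v u ≠ 0` (or `B w u ≠ 0`) has the same eigenvalue (same argument with a multiple of `u`); if
`u ⊥ v, w` then `u + v` is isotropic.  Any `y ∈ range e` is `u - a v - b w` with `u` isotropic (first make `B v y = 1` by adding a
multiple of `w`, then add `a v` with `σ a + a = - B y y`). -/
theorem cse {e x : End F V} (he : Ad U e) (hc : Commute e x)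
    (hX : ∀ (v : V) (c : F), e v = v → B v v = 0 → σ c = -c → Commute x (c • (B v).smulRight v)) : ScOn e x := by
  by_cases hr : rk e ≤ 1
  · exact scOn_of_rk_le_one he.1 hr hc
  obtain ⟨δ, d0, hd⟩ := h.1.exists_skew
  have eig : ∀ v, e v = v → B v v = 0 → ∃ c : F, x v = c • v := fun v hv hi => by
    by_cases h0 : v = 0
    · exact ⟨0, by simp [h0]⟩
    obtain ⟨w, -, k, -⟩ := h.exists_hyp he hv h0 hi
    exact ⟨B v (x w), by simpa [k, d0] using LinearMap.congr_fun (hX v δ hv hi hd) w⟩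
  have pair : ∀ v w (c : F), e v = v → e w = w → B v v = 0 → B w w = 0 → B v w ≠ 0 → x v = c • v → x w = c • w :=
    fun v w c hv hw iv iw k ev => by
      have k' : B w v ≠ 0 := mt h.1.eq_zero_comm.1 k
      obtain ⟨c', e1⟩ := eig w hw iw
      obtain ⟨c'', e2⟩ := eig (v + (δ / B v w) • w) (by simp [hv, hw]) (by
        simp [iv, iw, hd, h.1.symm]; field_simp; ring)
      rw [map_add, map_smul, ev, e1] at e2
      have a := congrArg (B v) e2
      have b := congrArg (B w) e2
      simp [iv, iw, k, k'] at a b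
      rw [e1, b, ← mul_left_cancel₀ (div_ne_zero d0 k) (mul_right_cancel₀ k (show δ / B v w * c' * B v w =
        δ / B v w * c'' * B v w by field_simp at a ⊢; exact a))]
  obtain ⟨v, hv, h0, iv⟩ := h.exists_range_iso he (by omega)
  obtain ⟨w, hw, k, iw⟩ := h.exists_hyp he hv h0 iv
  have k' : B w v = 1 := by rw [← h.1.symm, k, map_one]
  obtain ⟨c, ev⟩ := eig v hv iv
  have ew := pair v w c hv hw iv iw (by simp [k]) ev
  have iso : ∀ u, e u = u → B u u = 0 → x u = c • u := fun u hu iu => by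
    by_cases a : B v u = 0
    swap
    · exact pair v u c hv hu iv iu a ev
    by_cases b : B w u = 0
    swap
    · exact pair w u c hw hu iw iu b ew
    have := pair w (u + v) c hw (by simp [hu, hv]) iw (by simp [iu, iv, a, h.1.eq_zero_comm.1 a]) (by simp [b, k']) ew
    rwa [map_add, ev, smul_add, add_left_inj] at this
  refine ⟨c, hc.eq ▸ LinearMap.ext fun y => ?_⟩
  have hy : e (e y) = e y := LinearMap.congr_fun he.1 y
  obtain ⟨a, ha⟩ := h.u2_iso (y := e y + (1 - B v (e y)) • w) iv (by simp [k])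
  have := iso _ (by simp [hy, hv, hw]) ha
  simp only [map_add, map_smul, ev, ew] at this
  simp only [End.mul_apply, LinearMap.smul_apply]
  linear_combination (norm := module) this

/-- `e`, `f` are the orthogonal projections on `v`, `w` with `B v v = B w w = 1`, `B v w = 0` (`exists_range_noniso`,
`exists_smul_norm_eq`); `s = 1 - e - f + (B v) ⊗ w - (B w) ⊗ v` is an isometry and the product of three linear transvections
`(1 + (B v) ⊗ w)(1 - (B w) ⊗ v)(1 + (B v) ⊗ w)`, so has determinant one. -/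
theorem sw {e f : End F V} (he : Ad U e) (hf : Ad U f) (h1 : rk e = 1) (h2 : rk f = 1) (h3 : e * f = 0)
    (h4 : f * e = 0) :
    ∃ s ∈ SS U, (s : End F V) * e = f * s ∧ (s : End F V) * f = e * s ∧ Sup (e + f) (s : End F V) := by
  obtain ⟨v, -, iv, ev⟩ := h.u2_rk he h1
  obtain ⟨w, hw, iw, ew⟩ := h.u2_rk hf h2
  have a : B v w = 0 := by
    have := congrArg (B v) (LinearMap.congr_fun h3 w)
    simpa [hw, ev, iv] using this
  have b := h.1.eq_zero_comm.1 a
  let S : End F V := LinearMap.transvection (B v) w * LinearMap.transvection (-B w) v * LinearMap.transvection (B v) w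
  have hS : ∀ y, S y = y - B v y • v - B w y • w + B v y • w - B w y • v := fun y => by
    simp [S, LinearMap.transvection.apply, a, iv, iw]
    module
  obtain ⟨s, hs, e⟩ : Un U S := h.un_iff'.2 fun y z => by
    simp [hS, a, b, iv, iw, h.1.symm]
    ring
  refine ⟨s, mem_SS.2 ⟨hs, by simp [e, S, LinearMap.transvection.det, a, b]⟩, LinearMap.ext fun y => ?_,
    LinearMap.ext fun y => ?_, .of_apply (fun y => ?_) fun y => ?_⟩ <;>
  simp [e, hS, ev, ew, a, b, iv, iw]
  all_goals module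

/-- Same as `Lin.conj_sc` (read its docstring) with `X = δ (B v) ⊗ v` from `cse`, `X' = x X x⁻¹ = δ (B v') ⊗ v'`, `v' = x v`
(`x` isometry), `a = δ B v v'`, `b = δ B v' v`, and `t_c = 1 + c X` for `c` fixed by `σ`.  If `q ≠ 2` there is a fixed `c ≠ 0, 1`
(`IsBar.exists_fixed_ne`), contradiction; so `|F| = 4`.  If `rk e ≥ 3` take `0 ≠ w ∈ range e` with `B v w = B v' w = 0` and
the Eichler map `t = E(v, w) ∈ S_e`: `t v = v`, `t v' = v' + (B v v') w + γ' v`.  `y = y_1` stabilises
`range (t y t⁻¹ - 1) = t (span {v, v'})`, `y v = v - b v' - a b v`, so `v' ∈ span {v, t v'}`, `w ∈ span {v, v'}`, `w = 0`. -/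
theorem conj_sc {e : End F V} (he : Ad U e) {x : (End F V)ˣ} (hU : x ∈ U) (hs : Ssm x)
    (hc : Commute e (x : End F V)) (hx : ∀ s ∈ SS U, Sup e (s : End F V) → Commute x (s * x * s⁻¹)) :
    ScOn e (x : End F V) ∨ (Nat.card F = 4 ∧ rk e = 2) := by
  by_contra hn
  rw [not_or] at hn
  have r2 : ¬ rk e ≤ 1 := fun k => hn.1 (scOn_of_rk_le_one he.1 k hc)
  obtain ⟨v, δ, hv, iv, hd, nc⟩ : ∃ (v : V) (c : F), e v = v ∧ B v v = 0 ∧ σ c = -c ∧
      ¬ Commute (x : End F V) (c • (B v).smulRight v) := by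
    by_contra k
    push Not at k
    exact hn.1 (h.cse he hc k)
  have d0 : δ ≠ 0 := by rintro rfl; simp at nc
  have iso := h.un_iff'.1 (Un.coe hU)
  obtain ⟨v', e'⟩ : ∃ v', v' = (x : End F V) v := ⟨_, rfl⟩
  have hv' : e v' = v' := by rw [e', ← End.mul_apply, hc.eq, End.mul_apply, hv]
  have iv' : B v' v' = 0 := by rw [e', iso, iv]
  have cc : ∀ s ∈ SS U, Sup e (s : End F V) → ∀ t ∈ SS U, Sup e (t : End F V) →
      Commute (s * x * s⁻¹) (t * x * t⁻¹) := fun s a b t c d => by
    have := (hx _ (mul_mem (inv_mem a) c) (u2_sup b d)).conj s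
    rwa [show s * (s⁻¹ * t * x * (s⁻¹ * t)⁻¹) * s⁻¹ = t * x * t⁻¹ by group] at this
  have one : Sup e ((1 : (End F V)ˣ) : End F V) := ⟨Commute.one_right _, mul_one _⟩
  have cy : ∀ s ∈ SS U, Sup e (s : End F V) → ∀ t ∈ SS U, Sup e (t : End F V) → ∀ r ∈ SS U, Sup e (r : End F V) →
      Commute (s * x * s⁻¹ * x⁻¹) (r * (t * x * t⁻¹ * x⁻¹) * r⁻¹) := fun s a b t c d r f g => by
    have m := mul_mem f c
    have n : Sup e ((r * t : (End F V)ˣ) : End F V) := by simpa using u2_sup (u2_sup g one) d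
    rw [show r * (t * x * t⁻¹ * x⁻¹) * r⁻¹ = r * t * x * (r * t)⁻¹ * (r * x * r⁻¹)⁻¹ by group]
    exact ((cc s a b _ m n).mul_right (cc s a b r f g).inv_right).mul_left
      ((hx _ m n).mul_right (hx r f g).inv_right).inv_left
  have tv : ∀ c : F, σ c = -c → ∃ s ∈ SS U, Sup e (s : End F V) ∧ (∀ z, (s : End F V) z = z + (c * B v z) • v) ∧
      ∀ z, ((s * x * s⁻¹ * x⁻¹ : (End F V)ˣ) : End F V) z =
        z - (c * B v' z) • v' + (c * (B v z - c * B v' z * B v v')) • v := fun c hc => by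
    obtain ⟨s, hs, k⟩ := h.exists_tv iv hc
    refine ⟨s, hs, .of_apply (fun y => by simp [k, hv, ← h.u2_sym he]) fun y => by simp [k, hv], k, fun z => ?_⟩
    obtain ⟨z, rfl⟩ : ∃ u, (x : End F V) u = z := ⟨(x⁻¹ : (End F V)ˣ).1 z, by rw [← End.mul_apply, x.mul_inv]; rfl⟩
    have k1 : (s⁻¹ : (End F V)ˣ).1 z = z - (c * B v z) • v := by
      rw [show z = (s : End F V) (z - (c * B v z) • v) by simp [k, iv], ← End.mul_apply, s.inv_mul]
      simp [k, iv]
    rw [Units.val_mul, End.mul_apply, ← End.mul_apply (x⁻¹ : (End F V)ˣ).1, x.inv_mul, End.one_apply, Units.val_mul,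
      Units.val_mul, End.mul_apply, End.mul_apply, k1, k, e', iso]
    simp
  obtain ⟨s, s1, s2, s3, s4⟩ := tv δ hd
  by_cases b0 : B v v' = 0
  · have b1 := h.1.eq_zero_comm.1 b0
    have := ((hs.conj s).mul hs.inv (hx s s1 s2).symm.inv_right).eq_one ⟨2, LinearMap.ext fun z => by
      simp only [sq, End.mul_apply, LinearMap.sub_apply, s4, End.one_apply]
      simp [iv, iv', b0, b1]⟩
    rw [mul_inv_eq_one, mul_inv_eq_iff_eq_mul] at this
    refine nc (LinearMap.ext fun z => ?_)
    have := LinearMap.congr_fun (congrArg Units.val this) z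
    simpa [s3, smul_smul] using this.symm
  have b1 := mt h.1.eq_zero_comm.1 b0
  obtain ⟨q, hq⟩ := h.1.exists_isBar
  by_cases q2 : q = 2
  swap
  · obtain ⟨c, c1, c2, c3⟩ := hq.exists_fixed_ne q2
    obtain ⟨t, t1, t2, -, t4⟩ := tv (c * δ) (by rw [map_mul, c1, hd, mul_neg])
    have := congrArg (B v') (LinearMap.congr_fun (congrArg Units.val (cy s s1 s2 t t1 t2 1 (one_mem _) one).eq) v')
    simp only [one_mul, inv_one, mul_one, Units.val_mul _ (t * x * t⁻¹ * x⁻¹), Units.val_mul _ (s * x * s⁻¹ * x⁻¹),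
      End.mul_apply, s4, t4] at this
    simp only [map_add, map_sub, map_smul, smul_eq_mul, iv, iv'] at this
    have k : c * (c - 1) * δ ^ 3 * B v v' ^ 2 * B v' v ^ 2 = 0 := by linear_combination this
    simp [c2, sub_ne_zero.2 c3, d0, b0, b1] at k
  have r3 : 2 < rk e := by
    have : rk e ≠ 2 := fun k => hn.2 ⟨by rw [hq.card, q2]; rfl, k⟩
    omega
  obtain ⟨⟨w, y, hw⟩, w1, w0⟩ := (Submodule.ne_bot_iff _).1 (LinearMap.ker_ne_bot_of_finrank_lt
    (f := ((B v).prod (B v')).domRestrict (LinearMap.range e)) (by simpa using r3))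
  obtain ⟨a, b⟩ : B v w = 0 ∧ B v' w = 0 := Prod.ext_iff.1 w1
  have ew : e w = w := by rw [← hw, ← End.mul_apply, he.1.eq]
  obtain ⟨t, t1, γ, t2⟩ := h.exists_eichler iv a
  have a' := h.1.eq_zero_comm.1 a
  have b' := h.1.eq_zero_comm.1 b
  have tv : (t : End F V) v = v := by simp [t2, iv, a']
  have := LinearMap.congr_fun (congrArg Units.val (cy s s1 s2 s s1 s2 t t1 (.of_apply (fun y => by
    simp [t2, hv, ew, ← h.u2_sym he]) fun y => by
      rw [show (t : End F V) y - y = B v y • w - B w y • v + (γ * B v y) • v by rw [t2]; abel]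
      simp [hv, ew])).eq) ((t : End F V) v')
  generalize s * x * s⁻¹ * x⁻¹ = Y at s4 this
  simp only [Units.val_mul, End.mul_apply] at this
  rw [← End.mul_apply (t⁻¹ : (End F V)ˣ).1, t.inv_mul, End.one_apply, s4 v', s4 ((t⁻¹ : (End F V)ˣ).1 _)] at this
  simp only [map_add, map_sub, map_smul, tv, iv'] at this
  rw [← End.mul_apply t.1 (t⁻¹ : (End F V)ˣ).1, t.mul_inv, End.one_apply, s4 v] at this
  generalize B v' ((t⁻¹ : (End F V)ˣ).1 _) = p at this
  generalize B v ((t⁻¹ : (End F V)ˣ).1 _) = r at this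
  generalize Y.1 (t.1 v') = u at this
  rw [t2, b'] at this
  have k1 := congrArg (B v) this
  simp only [map_add, map_sub, map_smul, smul_eq_mul, iv, a] at k1
  have p1 : p = δ * B v v' * B v' v := mul_left_cancel₀ (mul_ne_zero d0 b0) (by linear_combination k1)
  obtain ⟨A, C, k⟩ : ∃ A C : F, (δ * p * B v v') • w = A • v + C • v' :=
    ⟨δ * (r - δ * p * B v v') - δ * p * γ * B v v' - δ * B v v' * (1 + δ * (B v v - δ * B v' v * B v v')),
      δ * B v v' * δ * B v' v - δ * p, by linear_combination (norm := module) this⟩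
  have k2 := congrArg (B v) k
  have k3 := congrArg (B v') k
  simp [iv, iv', a, b, b0, b1] at k2 k3
  simp [k2, k3, p1, d0, b0, b1] at k
  exact w0 (Subtype.ext k)

end IsU

end Cfsg.Lib.WB
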