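import Cfsg.Agent.Lib.WB.U1

/-!
# S3694: unitary geometry III (frames for q = 2, swapped idempotents, field case)
-/

set_option linter.unusedSectionVars false

namespace Cfsg.Lib.WB

open Module Cfsg.Lib.Unitary Cfsg.Lib.Transfer
open scoped commutatorElement

variable {F V : Type*} [Field F] [AddCommGroup V] [Module F V] [Finite F] [Finite V]
  {U : Subgroup (End F V)ˣ}

variable {σ : F →+* F} {B : V →ₛₗ[σ] V →ₗ[F] F}

theorem Le.rk_sub {e f : End F V} (he : IsIdempotentElem e) (hf : IsIdempotentElem f) (h : Le f e) :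
    rk e = rk f + rk (e - f) := by
  rw [← rk_add hf (hf.sub he h.1 h.2) (by rw [mul_sub, h.1, hf.eq, sub_self])
    (by rw [sub_mul, h.2, hf.eq, sub_self]), add_sub_cancel]

namespace IsU

variable (h : IsU U σ B)
include h

theorem proj_le {e : End F V} (he : Ad U e) {v : V} (hv : e v = v) (c : F) :
    Le (c • (B v).smulRight v) e := by
  refine ⟨LinearMap.ext fun x => ?_, LinearMap.ext fun x => by simp [hv]⟩
  simp [h.adj_right e v x, (h.ad_iff.1 he).2, hv]

theorem eq_proj {e : End F V} (he : Ad U e) (h1 : rk e = 1) {v : V} (hv : e v = v) (h0 : B v v ≠ 0) :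
    (B v v)⁻¹ • (B v).smulRight v = e :=
  (h.proj_le he hv _).eq_of_rk he.1 (h.ad_smulRight h0).1.1 (h1.trans (h.ad_smulRight h0).2.symm).le

theorem noniso_of_rk_one {e : End F V} (he : Ad U e) (h1 : rk e = 1) {v : V} (hv : e v = v) (h0 : v ≠ 0) :
    B v v ≠ 0 := by
  obtain ⟨w, hw, k⟩ := h.exists_range_ne he hv h0
  obtain ⟨c, hc⟩ := (finrank_eq_one_iff_of_nonzero' (⟨v, v, hv⟩ : LinearMap.range e)
    fun k' => h0 (congrArg Subtype.val k')).1 h1 ⟨w, w, hw⟩
  obtain rfl : c • v = w := congrArg Subtype.val hc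
  exact fun k' => k (by simp [k'])

theorem four_fixed (h4 : Nat.card F = 4) : (2 : F) = 0 ∧ ∀ s : F, σ s = s → s ≠ 0 → s = 1 := by
  obtain ⟨q, hq⟩ := h.1.exists_isBar
  have h3 := hq.card
  obtain rfl : q = 2 := by have := hq.two_le; nlinarith
  exact ⟨by exact_mod_cast hq.cast_q, fun s h1 h0 => by simpa using (hq.fixed_iff h0).1 h1⟩

/-- Orthonormal basis `v, w` of `range e` (restrict the form).  For `|F| = 4`, `c σ c = 1` for `c ≠ 0` and `1 + 1 = 0`, so
`a v + b w` is non-isotropic iff exactly one of `a, b` is zero.  `f` = projection on `v` (`ad_smulRight`), `e - f` = projection on `w`;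
a rank-one self-adjoint idempotent `g ≤ e` is the projection on a non-isotropic vector of `range e`. -/
theorem fr2 (h4 : Nat.card F = 4) {e : End F V} (he : Ad U e) (h2 : rk e = 2) :
    ∃ f, Ad U f ∧ rk f = 1 ∧ Le f e ∧ ∀ g, Ad U g → rk g = 1 → Le g e → g = f ∨ g = e - f := by
  have hz : ∀ {g : End F V}, rk g ≠ 0 → g ≠ 0 := fun k k' => k (rk_eq_zero.2 k')
  obtain ⟨v, hv, h0⟩ := h.exists_range_noniso he (hz (by omega))
  obtain ⟨hf, h1⟩ := h.ad_smulRight h0
  have hl := h.proj_le he hv (B v v)⁻¹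
  generalize (B v v)⁻¹ • (B v).smulRight v = f at hf h1 hl
  refine ⟨f, hf, h1, hl, fun g hg hr hle => ?_⟩
  have hf' : Ad U (e - f) := h.ad_iff.2 ⟨hf.1.sub he.1 hl.1 hl.2, by
    rw [h.adj_sub, (h.ad_iff.1 he).2, (h.ad_iff.1 hf).2]⟩
  have h1' : rk (e - f) = 1 := by have := hl.rk_sub he.1 hf.1; omega
  obtain ⟨u, hu, hu0⟩ := h.exists_range_noniso hg (hz (by omega))
  have hue : e u = u := by simpa [hu] using LinearMap.congr_fun hle.2 u
  rw [← h.eq_proj hg hr hu hu0]
  by_cases k : f u = 0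
  · exact Or.inr (h.eq_proj hf' h1' (by simp [hue, k]) hu0)
  by_cases k' : (e - f) u = 0
  · exact Or.inl (h.eq_proj hf h1 (by rw [LinearMap.sub_apply, hue, sub_eq_zero] at k'; exact k'.symm) hu0)
  have key : ∀ {p : End F V}, Ad U p → rk p = 1 → p u ≠ 0 → B u (p u) = 1 := fun {p} hp hr hn => by
    have hpp : p (p u) = p u := LinearMap.congr_fun hp.1.eq u
    have := (h.four_fixed h4).2 _ (h.1.self_fixed (p u)) (h.noniso_of_rk_one hp hr hpp hn)
    rwa [h.adj_left, (h.ad_iff.1 hp).2, hpp] at this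
  have h5 := key hf' h1' k'
  rw [LinearMap.sub_apply, hue, map_sub, key hf h1 k] at h5
  exact absurd (by linear_combination h5 + (h.four_fixed h4).1) hu0

/-- Conjugation by `x` permutes `{f, e - f}` (`fr2`), so `x²` commutes with `f`; `orderOf x` is odd, so `x` commutes with `f`.
`x e = α f + β (e - f)` (`scOn_of_rk_le_one`), `α ≠ β`, `f = (α - β)⁻¹ (x e - β e)`. -/
theorem fr2b (h4 : Nat.card F = 4) {e : End F V} (he : Ad U e) (h2 : rk e = 2) {x : (End F V)ˣ} (hU : x ∈ U)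
    (hs : Ssm x) (hc : Commute e (x : End F V)) (hn : ¬ ScOn e (x : End F V)) :
    ∃ f ∈ Algebra.adjoin F {e, (x : End F V)}, Ad U f ∧ f * e = f ∧ f ≠ 0 ∧ f ≠ e := by
  obtain ⟨f, hf, h1, hl, hg⟩ := h.fr2 h4 he h2
  have hi : ∀ Y : End F V, (x : End F V) * (((x⁻¹ : (End F V)ˣ) : End F V) * Y) = Y := fun Y => by simp
  have hx : (x : End F V) * e * ((x⁻¹ : (End F V)ˣ) : End F V) = e := by simp [← hc.eq]
  have h3 : Commute f ((x : End F V) ^ 2) := by
    have hm : ∀ a b : End F V, (x : End F V) * a * ((x⁻¹ : (End F V)ˣ) : End F V) = b → x * a = b * x :=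
      fun a b k => by simp [← k]
    rcases hg _ (hf.conj hU) ((rk_conj x f).trans h1) ⟨by
        rw [mul_assoc, ← hc.units_inv_right.eq, ← mul_assoc, mul_assoc _ f, hl.1], by
        rw [← mul_assoc, ← mul_assoc, hc.eq, mul_assoc _ e, hl.2]⟩ with k | k
    · exact (show Commute f x from (hm _ _ k).symm).pow_right 2
    · have k' := hm (e - f) f (by rw [mul_sub, sub_mul, hx, k, sub_sub_cancel])
      rw [Commute, SemiconjBy, sq, ← mul_assoc, ← k', mul_assoc, ← hm _ _ k, mul_assoc]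
  have h5 : Commute f (x : End F V) := by
    obtain ⟨k, hk | hk⟩ := Nat.even_or_odd' (orderOf x)
    · exact absurd (by rw [hk, Nat.cast_mul, Nat.cast_ofNat, (h.four_fixed h4).1, zero_mul]) hs
    have := h3.pow_right (k + 1)
    rwa [← pow_mul, show 2 * (k + 1) = orderOf x + 1 by omega, pow_succ, ← Units.val_pow_eq_pow_val,
      pow_orderOf_eq_one, Units.val_one, one_mul] at this
  obtain ⟨a, ha⟩ := scOn_of_rk_le_one hf.1 h1.le h5
  obtain ⟨b, hb⟩ := scOn_of_rk_le_one (hf.1.sub he.1 hl.1 hl.2)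
    (by have := hl.rk_sub he.1 hf.1; omega) (hc.sub_left h5)
  have h6 : e * x - b • e = (a - b) • f := by
    rw [sub_mul, ha, sub_eq_iff_eq_add] at hb
    rw [hb]
    module
  have hab : a - b ≠ 0 := fun k => hn ⟨b, by rwa [k, zero_smul, sub_eq_zero] at h6⟩
  have h7 : e ∈ Algebra.adjoin F {e, (x : End F V)} := Algebra.subset_adjoin (by simp)
  refine ⟨f, ?_, hf, hl.1, fun k => by simp [rk_eq_zero.2 k] at h1, fun k => by rw [k] at h1; omega⟩
  rw [← inv_smul_smul₀ hab f, ← h6]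
  exact Subalgebra.smul_mem _ (Subalgebra.sub_mem _ (Subalgebra.mul_mem _ h7
    (Algebra.subset_adjoin (by simp))) (Subalgebra.smul_mem _ h7 _)) _

/-- For a non-trivial idempotent `f ∈ Z = sp A` (commutative, closed under `adj`): `f f*` is a self-adjoint idempotent, not `1`,
so `0`; `f + f*` is a non-zero self-adjoint idempotent, so `1`. -/
theorem adj_eq_compl {A : Subgroup (End F V)ˣ} (hA : A ≤ U) (hab : Ab A) (hN : NoAd U (sp A)) {f : End F V}
    (hf : f ∈ sp A) (hi : IsIdempotentElem f) (h0 : f ≠ 0) (h1 : f ≠ 1) : h.adj f = 1 - f := by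
  have hg := h.adj_mem_sp hA hf
  have hc := hab.sp_comm hf hg
  have hj : IsIdempotentElem (h.adj f) := by rw [IsIdempotentElem, ← h.adj_mul, hi.eq]
  have h2 : f * h.adj f = 0 := (hN _ (Subalgebra.mul_mem _ hf hg) (h.ad_iff.2 ⟨hi.mul_of_commute hc hj, by
    rw [h.adj_mul, h.adj_adj]⟩)).resolve_right fun k => h1 (by rw [← mul_one f, ← k, ← mul_assoc, hi.eq])
  refine eq_sub_of_add_eq' ((hN _ (Subalgebra.add_mem _ hf hg) (h.ad_iff.2 ⟨hi.add hj (by
    rw [← hc.eq, h2, add_zero]), by rw [h.adj_add, h.adj_adj, add_comm]⟩)).resolve_left fun k => h0 ?_)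
  have := congrArg (f * ·) k
  simpa [mul_add, hi.eq, h2] using this

/-- If `e f` is non-trivial, `1 - e f = (1 - e)(1 - f)` gives `e + f = 2 e f`, so `e = e f = f`.  If `e f = 0` apply this
to `1 - f`. -/
theorem idem_cases {A : Subgroup (End F V)ˣ} (hA : A ≤ U) (hab : Ab A) (hN : NoAd U (sp A)) {e f : End F V}
    (he : e ∈ sp A) (hi : IsIdempotentElem e) (h0 : e ≠ 0) (h1 : e ≠ 1) (hf : f ∈ sp A) (hj : IsIdempotentElem f) :
    f = 0 ∨ f = 1 ∨ f = e ∨ f = 1 - e := by
  have key : ∀ f ∈ sp A, IsIdempotentElem f → f ≠ 0 → f ≠ 1 → e * f ≠ 0 → f = e := fun f hf hj k0 k1 k => by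
    have hc := hab.sp_comm he hf
    have h2 := h.adj_eq_compl hA hab hN (Subalgebra.mul_mem _ he hf) (hi.mul_of_commute hc hj) k
      fun k => h1 (by rw [← mul_one e, ← k, ← mul_assoc, hi.eq])
    rw [h.adj_mul, h.adj_eq_compl hA hab hN he hi h0 h1, h.adj_eq_compl hA hab hN hf hj k0 k1] at h2
    have h3 := congrArg (· * e) h2
    have h4 := congrArg (f * ·) h2
    simp only [mul_assoc, hi.one_sub_mul_self, mul_zero, sub_mul, one_mul, ← hc.eq, ← mul_assoc e e, hi.eq] at h3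
    simp only [← mul_assoc, hj.mul_one_sub_self, zero_mul, mul_sub f 1 (e * f), mul_one, ← hc.eq] at h4
    rw [mul_assoc, hj.eq] at h4
    exact (sub_eq_zero.1 h4.symm).trans (sub_eq_zero.1 (h3.symm.trans (sub_self _))).symm
  by_cases k0 : f = 0
  · exact Or.inl k0
  by_cases k1 : f = 1
  · exact Or.inr (Or.inl k1)
  by_cases k : e * f = 0
  · have := key (1 - f) (Subalgebra.sub_mem _ (Subalgebra.one_mem _) hf) hj.one_sub (sub_ne_zero.2 (Ne.symm k1))
      (by simpa using k0) (by rwa [mul_sub, k, mul_one, sub_zero])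
    exact Or.inr (Or.inr (Or.inr (by rw [← this, sub_sub_cancel])))
  · exact Or.inr (Or.inr (Or.inl (key f hf hj k0 k1 k)))

/-- `adj e = 1 - e`: `V₁ = range e` and `V₂ = range (1 - e)` are totally isotropic, `2 dim V_i ≤ n`, `dim V₁ + dim V₂ = n ≥ 3`, so
`dim V₁ ≥ 2`.  Take independent `v₁, v₂ ∈ V₁`, `w` with `B w v₁ = 0`, `B w v₂ = 1`, replace `w` by `(1 - e) w ∈ V₂`.
`X = (B w) ⊗ v₁ - (B v₁) ⊗ w`; `(a e + σ a (1 - e)) X = a (B w) ⊗ v₁ - σ a (B v₁) ⊗ w` is skew with square zero. -/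
theorem g4 (h3 : 3 ≤ finrank F V) {e : End F V} (hi : IsIdempotentElem e) (ha : h.adj e = 1 - e) :
    ∃ X : End F V, X ≠ 0 ∧ Commute e X ∧ ∀ a : F, Rt U ((a • e + σ a • (1 - e)) * X) := by
  have hb : h.adj (1 - e) = e := by rw [← ha, h.adj_adj]
  have iso : ∀ {p : End F V}, h.adj p * p = 0 → ∀ x y, B (p x) (p y) = 0 := fun {p} k x y => by
    rw [h.adj_left, ← Module.End.mul_apply, k]; simp
  have i1 := iso (p := e) (by rw [ha, hi.one_sub_mul_self])
  have i2 := iso (p := 1 - e) (by rw [hb, hi.mul_one_sub_self])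
  have hr := rk_add hi hi.one_sub hi.mul_one_sub_self hi.one_sub_mul_self
  rw [add_sub_cancel, rk_one] at hr
  have h2 : 2 * rk (1 - e) ≤ finrank F V := h.1.two_mul_finrank_le (by
    rintro _ ⟨y, rfl⟩
    exact mem_perp.2 (by rintro _ ⟨x, rfl⟩; exact i2 x y))
  obtain ⟨v, hv⟩ := exists_linearIndependent_of_le_finrank (R := F) (M := LinearMap.range e) (n := 2)
    (by change 2 ≤ rk e; omega)
  have hv' := hv.map' (LinearMap.range e).subtype (Submodule.ker_subtype _)
  obtain ⟨y, hy⟩ := h.1.exists_apply_eq hv' ![0, 1]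
  have hev : ∀ i, e (v i) = v i := fun i => by
    obtain ⟨x, hx⟩ := (v i).2
    rw [← hx]; exact LinearMap.congr_fun hi.eq x
  have hvv : ∀ i j, B (v i) (v j) = 0 := fun i j => by rw [← hev i, ← hev j, i1]
  obtain ⟨w, hw⟩ : ∃ w, w = (1 - e) y := ⟨_, rfl⟩
  have hww : B w w = 0 := hw ▸ i2 y y
  have hew : e w = 0 := hw ▸ LinearMap.congr_fun hi.mul_one_sub_self y
  have hvw : ∀ i, B (v i) w = ![0, 1] i := fun i => by rw [hw, h.adj_right, hb, hev]; exact hy i
  have h0 : B (v 0) w = 0 := hvw 0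
  have h0' : B w (v 0) = 0 := h.1.eq_zero_comm.1 h0
  have h1 : B w (v 1) = 1 := by rw [← h.1.symm, hvw 1]; simp
  refine ⟨(B w).smulRight (v 0 : V) - (B (v 0)).smulRight w, fun k => hv'.ne_zero 0 ?_,
    LinearMap.ext fun x => ?_, fun a => ?_⟩
  · simpa [h1, hvv] using LinearMap.congr_fun k (v 1)
  · simp [h.adj_right e _ x, ha, hev, hew]
  have : (a • e + σ a • (1 - e)) * ((B w).smulRight (v 0 : V) - (B (v 0)).smulRight w) =
      a • (B w).smulRight (v 0 : V) - σ a • (B (v 0)).smulRight w := LinearMap.ext fun x => by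
    simp [hev, hew]
    module
  rw [this]
  refine h.rt_of_skew (LinearMap.ext fun x => by simp [hvv, hww, h0, h0']) ?_
  rw [h.adj_sub, h.adj_smul, h.adj_smul, h.adj_smulRight, h.adj_smulRight, h.1.invol, neg_sub]

end IsU

end Cfsg.Lib.WB
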