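import Cfsg.Agent.Lib.WB.L2
import Cfsg.Agent.Lib.WB.U2
import Cfsg.Agent.Lib.WB.U3
import Cfsg.Agent.Lib.WB.U4

/-!
# S3694: geometry, uniform statements
-/

set_option linter.unusedSectionVars false

namespace Cfsg.Lib.WB

open Module Cfsg.Lib.Unitary Cfsg.Lib.Transfer
open scoped commutatorElement

variable {F V : Type*} [Field F] [AddCommGroup V] [Module F V] [Finite F] [Finite V]
  {U : Subgroup (End F V)ˣ}

namespace Kd

variable (h : Kd U)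
include h

theorem g1 {V₁ V₂ : Submodule F V} (hP : Pr U V₁ V₂) :
    ∃ X : End F V, X ≠ 0 ∧ Rt U X ∧ LinearMap.range X ≤ V₁ ∧ V₂ ≤ LinearMap.ker X := by
  rcases h with h | ⟨⟨σ, B, h⟩, -⟩
  · exact h.g1 hP
  · exact h.g1 (h.prB hP)

theorem inv {V₁ V₂ W : Submodule F V} (hP : Pr U V₁ V₂)
    (hW : ∀ s ∈ SS U, St V₁ (s : End F V) → St V₂ (s : End F V) → St W (s : End F V)) :
    W = ⊥ ∨ W = V₁ ∨ W = V₂ ∨ W = ⊤ := by
  rcases h with h | ⟨⟨σ, B, h⟩, -⟩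
  · exact h.inv hP hW
  · exact h.inv (h.prB hP) hW

theorem irr {W : Submodule F V} (hW : ∀ s ∈ SS U, St W (s : End F V)) : W = ⊥ ∨ W = ⊤ := by
  have h2 := h.two_le
  rcases h with h | ⟨⟨σ, B, h⟩, -⟩
  · exact h.irr hW
  · exact h.irr h2 hW

theorem uw {V₁ V₂ W₁ W₂ : Submodule F V} (hP : Pr U V₁ V₂) (hQ : Pr U W₁ W₂) {𝒳 : Set (End F V)}
    (h1 : ∀ X ∈ 𝒳, LinearMap.range X ≤ V₁ ∧ V₂ ≤ LinearMap.ker X) (h0 : ∃ X ∈ 𝒳, X ≠ 0)
    (hs : ∀ s ∈ SS U, St V₁ (s : End F V) → St V₂ (s : End F V) →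
      ∀ X ∈ 𝒳, (s : End F V) * X * ((s⁻¹ : (End F V)ˣ) : End F V) ∈ 𝒳)
    {w : V} (hw2 : w ∈ W₂) (hw : w ∉ V₂) (hX : ∀ X ∈ 𝒳, X w ∈ W₁) : V₁ ≤ W₁ := by
  rcases h with h | ⟨⟨σ, B, h⟩, -⟩
  · exact h.uw hP h1 h0 hs hw hX
  · exact (h.uw (h.prB hP) (h.prB hQ) h1 h0 hs hw2 hw hX).elim

theorem g2 {e : End F V} (he : Ad U e) (h2 : 2 ≤ rk e) : ∃ X : End F V, X ≠ 0 ∧ Rt U X ∧ Le X e := by
  rcases h with h | ⟨⟨σ, B, h⟩, -⟩
  · exact h.g2 he h2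
  · exact h.g2 he h2

/-- the centraliser of `SS U` consists of scalars -/
theorem cs {x : End F V} (hx : ∀ s ∈ SS U, Commute x (s : End F V)) : Sc x := by
  have k : ∀ X, Rt U X → Commute x X := fun X hX => by
    obtain ⟨s, hs, e, -⟩ := hX.exists_SS
    have := hx s hs
    rw [e] at this
    simpa using this.sub_right (Commute.one_right x)
  have : ScOn 1 x := by
    rcases h with h | ⟨⟨σ, B, h⟩, -⟩
    · exact h.cse Ad.one (Commute.one_left x) fun X hX _ _ => k X hX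
    · exact h.cse Ad.one (Commute.one_left x) fun v c _ hv hc => k _ (h.rt_smulRight hv hc)
  obtain ⟨c, hc⟩ := this
  exact ⟨c, by simpa using hc⟩

theorem sw {e f : End F V} (he : Ad U e) (hf : Ad U f) (h1 : rk e = 1) (h2 : rk f = 1) (h3 : e * f = 0)
    (h4 : f * e = 0) :
    ∃ s ∈ SS U, (s : End F V) * e = f * s ∧ (s : End F V) * f = e * s ∧ Sup (e + f) (s : End F V) := by
  rcases h with h | ⟨⟨σ, B, h⟩, -⟩
  · exact h.sw he hf h1 h2 h3 h4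
  · exact h.sw he hf h1 h2 h3 h4

theorem conj_sc {e : End F V} (he : Ad U e) {x : (End F V)ˣ} (hU : x ∈ U) (hs : Ssm x)
    (hc : Commute e (x : End F V)) (hx : ∀ s ∈ SS U, Sup e (s : End F V) → Commute x (s * x * s⁻¹)) :
    ScOn e (x : End F V) ∨ (Q2 U ∧ rk e = 2) := by
  rcases h with h | h'
  · exact (h.conj_sc he hs hc hx).imp_right fun k => ⟨Or.inl k.1, k.2⟩
  · obtain ⟨⟨σ, B, h⟩, -⟩ := id h'
    exact (h.conj_sc he hU hs hc hx).imp_right fun k => ⟨Or.inr ⟨k.1, h'⟩, k.2⟩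

omit h in
theorem geo_char : (ringChar F).Prime ∧ ringChar F ≤ Nat.card F := by
  have := Fintype.ofFinite F
  obtain ⟨n, hp, e⟩ := FiniteField.card F (ringChar F)
  exact ⟨hp, by rw [Nat.card_eq_fintype_card, e]; exact Nat.le_self_pow n.2.ne' _⟩

/-- a non-trivial idempotent in `sp A` without admissible ones.  `Lin`: impossible (`Lin.ad_iff`).  `Uni`: `idem_cases`,
`adj_eq_compl`, `g4`; `Λ` = image of the injective additive map `a ↦ a • e + σ a • (1 - e)`, `|F| = q² > ringChar F`. -/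
theorem g4 {A : Subgroup (End F V)ˣ} (hA : A ≤ U) (hab : Ab A) (hN : NoAd U (sp A)) {e : End F V}
    (he : e ∈ sp A) (hi : IsIdempotentElem e) (h0 : e ≠ 0) (h1 : e ≠ 1) :
    (∀ f ∈ sp A, IsIdempotentElem f → f = 0 ∨ f = 1 ∨ f = e ∨ f = 1 - e) ∧
    ∃ X : End F V, X ≠ 0 ∧ Commute e X ∧ ∃ Λ : AddSubgroup (End F V), ringChar F < Nat.card Λ ∧
      ∀ l ∈ Λ, (∃ a b : F, l = a • e + b • (1 - e)) ∧ Rt U (l * X) ∧ (l ≠ 0 → IsUnit l) := by
  rcases h with k | ⟨⟨σ, B, k⟩, h3, -⟩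
  · exact ((hN e he (k.ad_iff.2 hi)).elim h0 h1).elim
  obtain ⟨X, a, b, c⟩ := k.g4 h3 hi (k.adj_eq_compl hA hab hN he hi h0 h1)
  let φ : F →+ End F V := AddMonoidHom.mk' (fun a => a • e + σ a • (1 - e)) fun a b => by simp only [map_add, add_smul]; abel
  have m : ∀ a b c d : F, (a • e + b • (1 - e)) * (c • e + d • (1 - e)) = (a * c) • e + (b * d) • (1 - e) := fun a b c d => by
    simp only [add_mul, mul_add, smul_mul_smul_comm, hi.eq, hi.mul_one_sub_self, hi.one_sub_mul_self, hi.one_sub.eq, smul_zero,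
      add_zero, zero_add]
  have inj : Function.Injective φ := (injective_iff_map_eq_zero _).2 fun a ha => by
    have := m a (σ a) 1 0
    rw [show a • e + σ a • (1 - e) = 0 from ha] at this
    simpa [h0] using this.symm
  refine ⟨fun f hf hj => k.idem_cases hA hab hN he hi h0 h1 hf hj, X, a, b, φ.range, ?_, ?_⟩
  · obtain ⟨q, hq⟩ := k.1.exists_isBar
    rw [← Nat.card_congr (φ.ofInjective inj).toEquiv]
    refine geo_char.2.lt_of_ne fun e => ?_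
    have := geo_char (F := F).1
    rw [e, hq.card] at this
    exact not_prime_pow (by norm_num) this.prime
  · rintro _ ⟨a, rfl⟩
    refine ⟨⟨a, σ a, rfl⟩, c a, fun n => ?_⟩
    have a0 : a ≠ 0 := fun e => n (e ▸ map_zero φ)
    have s0 : σ a ≠ 0 := (map_ne_zero σ).2 a0
    exact ⟨⟨φ a, a⁻¹ • e + (σ a)⁻¹ • (1 - e), (m _ _ _ _).trans (by simp [a0, s0]), (m _ _ _ _).trans (by simp [a0, s0])⟩, rfl⟩

/-- `Lin`: `Lin.g3`, `Λ = sp A`, of dimension `≥ 2` so `|Λ| ≥ |F|² > ringChar F`.  `Uni`: `IsU.g3`, `fld_card`, `adj_mem_sp`,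
`Λ` = self-adjoint elements. -/
theorem g3 {A : Subgroup (End F V)ˣ} (hA : A ≤ U) (hZ : Fld (sp A)) (hn : ¬ A ≤ ZZ U) {v w : V} (hv : v ≠ 0)
    (hw : ∀ a ∈ sp A, a v ≠ w) :
    ∃ X : End F V, X ≠ 0 ∧ (∀ a ∈ sp A, Commute a X) ∧ ∃ Λ : AddSubgroup (End F V), ringChar F < Nat.card Λ ∧
      ∀ l ∈ Λ, l ∈ sp A ∧ Rt U (l * X) := by
  obtain ⟨a, ha, na⟩ := SetLike.not_le_iff_exists.1 hn
  have ns : ¬ Sc (a : End F V) := fun s => na ⟨hA ha, s⟩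
  rcases id h with k | ⟨⟨σ, B, k⟩, -⟩
  · obtain ⟨X, x0, x1, x2⟩ := k.g3 hZ hv hw
    refine ⟨X, x0, x1, (sp A).toSubmodule.toAddSubgroup, geo_char.2.trans_lt ?_, fun l hl => ⟨hl, x2 l hl⟩⟩
    have := Fintype.ofFinite F
    have := Fintype.ofFinite (sp A).toSubmodule.toAddSubgroup
    rw [Nat.card_eq_fintype_card, Nat.card_eq_fintype_card]
    exact Fintype.card_lt_of_injective_of_notMem (fun c : F => ⟨c • 1, (sp A).smul_mem (sp A).one_mem c⟩)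
      (fun c d e => smul_one_inj h (congrArg Subtype.val e)) (b := ⟨a, mem_sp ha⟩) fun ⟨c, e⟩ => ns ⟨c, (congrArg Subtype.val e).symm⟩
  · obtain ⟨X, x0, x1, x2⟩ := k.g3 hZ (fun _ => k.adj_mem_sp hA) hv hw
    exact ⟨X, x0, x1, ⟨⟨⟨{a | a ∈ sp A ∧ k.adj a = a}, fun a b => ⟨add_mem a.1 b.1, by rw [k.adj_add, a.2, b.2]⟩⟩,
      zero_mem _, k.adj_zero⟩, fun a => ⟨neg_mem a.1, by rw [k.adj_neg, a.2]⟩⟩,
      k.fld_card hZ (fun _ => k.adj_mem_sp hA) ⟨a, mem_sp ha, ns⟩, fun l hl => ⟨hl.1, x2 l hl.1 hl.2⟩⟩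

end Kd

end Cfsg.Lib.WB
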