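import Cfsg.Agent.Lib.WB.Def
import Cfsg.Agent.Lib.Comp.GenFitting
import Cfsg.Agent.Lib.PGroup.Basic

/-!
# S3694: group-theoretic facts about the Case I configuration
-/

set_option linter.unusedSectionVars false

namespace Cfsg.Lib.WB

open Cfsg.Lib.Transfer Cfsg.Lib.Perm Subgroup

variable {G : Type*} [Group G] [Finite G] {N G₀ H E : Subgroup G} {p : ℕ} {g : G}

namespace Cf

variable (c : Cf N G₀ H E p g)
include c

theorem le_core : E ≤ pCoreOf p H := by
  exact Loc.le_core c.EH c.nE c.pE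

/-- `E ⊓ Z(O_p(H))` is non-trivial (normal subgroup of a `p`-group) and normalised by `H`; `min`. -/
theorem commute {y e : G} (hy : y ∈ pCoreOf p H) (he : e ∈ E) : Commute y e := by
  have := Fact.mk c.prime
  have h0 := PGroup.inf_centralizer_ne_bot c.pE (Loc.core_pgroup p H) ((Loc.core_le p H).trans c.nE) c.E0
  have h1 := (c.min _ inf_le_left (Core.le_normalizer_inf c.nE
    (Core.le_normalizer_centralizer (Loc.le_normalizer_core p H)))).resolve_left h0
  rw [← h1] at he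
  exact he.2 y hy

/-- `E` is abelian; `{e ∈ E | e ^ p = 1}` is non-trivial and normalised by `H`. -/
theorem pow_eq {e : G} (he : e ∈ E) : e ^ p = 1 := by
  have := Fact.mk c.prime
  let A : Subgroup G :=
    { carrier := {x | x ∈ E ∧ x ^ p = 1}
      mul_mem' := fun {a b} ha hb => ⟨E.mul_mem ha.1 hb.1, by
        rw [(c.commute (c.le_core ha.1) hb.1).mul_pow, ha.2, hb.2, one_mul]⟩
      one_mem' := ⟨E.one_mem, one_pow _⟩
      inv_mem' := fun {a} ha => ⟨E.inv_mem ha.1, by rw [inv_pow, ha.2, inv_one]⟩ }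
  have hA : A ≠ ⊥ := by
    have hd : p ∣ Nat.card E := by
      rcases c.pE.card_eq_or_dvd with h | h
      · exact absurd (card_eq_one.1 h) c.E0
      · exact h
    obtain ⟨x, hx⟩ := exists_prime_orderOf_dvd_card' p hd
    intro h
    have hm : (x : G) ∈ A := ⟨x.2, by rw [← coe_pow, ← hx, pow_orderOf_eq_one, coe_one]⟩
    rw [h, mem_bot] at hm
    have : x = 1 := Subtype.ext hm
    rw [this, orderOf_one] at hx
    exact c.prime.one_lt.ne hx
  have h1 := (c.min A (fun _ h => h.1) (le_normalizer_iff.2 fun t ht x hx =>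
    ⟨le_normalizer_iff.1 c.nE t ht x hx.1, by rw [conj_pow, hx.2]; simp⟩)).resolve_left hA
  rw [← h1] at he
  exact he.2

/-- `A ⊴ H` has `F*(A) = O_p(A)` (`genFitting_eq_pCore_of_isSubnormal`), `O_p(A) ≤ O_p(H)`, and `C_A(F*(A)) ≤ F*(A)`. -/
theorem con {A : Subgroup G} (hA : A ≤ H) (hn : H ≤ normalizer (A : Set G)) {a : G} (ha : a ∈ A)
    (h : ∀ y ∈ A, y ∈ pCoreOf p H → Commute a y) : a ∈ pCoreOf p H := by
  have := Fact.mk c.prime
  have hN : (A.subgroupOf H).Normal := (normal_subgroupOf_iff_le_normalizer hA).2 hn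
  have h1 := Comp.genFitting_eq_pCore_of_isSubnormal_subgroupOf hA c.chr hN.isSubnormal
  have h2 := Comp.genFitting_eq_pCore_iff_centralizer_le.1 h1
  have e := Loc.core_eq_inf_of_le_normalizer (p := p) hA hn
  have h3 : (⟨a, ha⟩ : A) ∈ pCore p A := h2 fun y hy => Subtype.ext (by
    have : (y : G) ∈ pCoreOf p A := ⟨y, hy, rfl⟩
    rw [e] at this
    exact (h y y.2 this.1).symm)
  have h4 : a ∈ pCoreOf p A := ⟨_, h3, rfl⟩
  rw [e] at h4
  exact h4.1

variable (hmin : ∀ A : Subgroup G, A.Normal → A ≠ ⊥ → N ≤ A)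
include hmin

theorem norm_le {A : Subgroup G} (h0 : A ≠ ⊥) (hn : H ≤ normalizer (A : Set G)) (hN : ¬ N ≤ A) :
    normalizer (A : Set G) ≤ H := by
  rcases eq_or_lt_of_le hn with h | h
  · exact h.ge
  · exact absurd (hmin A (normalizer_eq_top_iff.1 (c.coatom.2 _ h)) h0) hN

/-- `X = closure {t g t⁻¹}` is normalised by `H` and by `g ∉ H`, so it is normal, and `≠ ⊥`. -/
theorem gen : N ≤ closure {x | ∃ t ∈ H, x = t * g * t⁻¹} := by
  set X := closure {x | ∃ t ∈ H, x = t * g * t⁻¹} with hX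
  have hg : g ∈ X := subset_closure ⟨1, H.one_mem, by simp⟩
  have hn : H ≤ normalizer (X : Set G) := fun h hh => mem_normalizer_of_conj_le (by
    rw [hX, MonoidHom.map_closure]
    refine closure_mono ?_
    rintro _ ⟨_, ⟨t, ht, rfl⟩, rfl⟩
    exact ⟨h * t, H.mul_mem hh ht, by simp [mul_assoc]⟩)
  have h0 : X ≠ ⊥ := fun h => c.gH (by rw [h, mem_bot] at hg; rw [hg]; exact H.one_mem)
  by_contra hN
  exact c.gH (c.norm_le hmin h0 hn hN (le_normalizer hg))

end Cf

/-- in an almost simple group -/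
theorem le_of_normal {N : Subgroup G} [N.Normal] (hs : IsSimpleGroup N) (hc : centralizer (N : Set G) = ⊥)
    (A : Subgroup G) (hA : A.Normal) (h0 : A ≠ ⊥) : N ≤ A := by
  have h1 : ((A ⊓ N).subgroupOf N).Normal := by
    rw [inf_subgroupOf_right]; exact hA.subgroupOf N
  rcases hs.eq_bot_or_eq_top_of_normal _ h1 with h | h
  · refine absurd (eq_bot_iff.2 (hc ▸ ?_)) h0
    rw [inf_subgroupOf_right, subgroupOf_eq_bot] at h
    intro a ha n hn
    exact (commute_of_normal_of_disjoint A N hA inferInstance h a n ha hn).symm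
  · rw [inf_subgroupOf_right, subgroupOf_eq_top] at h
    exact h

/-- Case I.  `P = coreIn M (A ⊓ B)` is normalised by `M`; take `E₁ ≤ P ⊓ G₀` minimal among non-trivial subgroups normalised by `M`, `E = g ⋆ E₁`.
`E₁ ≤ P ⊴ B ⊴ M'` gives `E₁ ≤ O_p(M')`; `E₁ ≤ B ≤ t ⋆ M ≤ N(t ⋆ E₁)` for `t ∈ M'`.  `g ∉ M'` as `M' ≠ M`.  `chr` by conjugation. -/
theorem exists_cf {N G₀ M : Subgroup G} [N.Normal] [G₀.Normal] (hM : IsCoatom M) (hN : ¬ N ≤ M) {g : G} (hg : g ∈ N)
    (hne : M ≠ g ⋆ M) {p : ℕ} (hp : p.Prime) (hF : generalizedFittingSubgroup M = pCore p M)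
    (hP : IsPGroup p (coreIn M (coreIn M (g ⋆ M) ⊓ coreIn (g ⋆ M) M)))
    (h0 : coreIn M (coreIn M (g ⋆ M) ⊓ coreIn (g ⋆ M) M) ⊓ G₀ ≠ ⊥) :
    ∃ E, Cf N G₀ (g ⋆ M) E p g := by
  have := Fact.mk hp
  set B := coreIn (g ⋆ M) M with hB
  set P := coreIn M (coreIn M (g ⋆ M) ⊓ B) with hPd
  have nP : M ≤ normalizer (P : Set G) := le_normalizer_coreIn _ _
  obtain ⟨E₁, ⟨hle, hE0, hn⟩, hmin⟩ := exists_minimal_of_wellFoundedLT
    (fun E : Subgroup G => E ≤ P ⊓ G₀ ∧ E ≠ ⊥ ∧ M ≤ normalizer (E : Set G))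
    ⟨P ⊓ G₀, le_rfl, h0, Core.le_normalizer_inf nP (by rw [normalizer_eq_top]; exact le_top)⟩
  have hEP : E₁ ≤ P := hle.trans inf_le_left
  have hPB : P ≤ B := (coreIn_le_right _ _).trans inf_le_right
  have hBM : B ≤ M := coreIn_le_right _ _
  have nB : g ⋆ M ≤ normalizer (B : Set G) := le_normalizer_coreIn _ _
  refine ⟨g ⋆ E₁, hp, ?_, ?_, ?_, ?_, ?_, ?_, ?_, ?_, ?_, hg, ?_, ?_, ?_⟩
  · exact (OrderIso.isCoatom_iff (MulAut.conj g).mapSubgroup M).2 hM
  · rw [le_conj_iff_inv_conj_le, conj_eq_self_of_normal]; exact hN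
  · exact (Comp.genFitting_eq_pCore_congr ((MulAut.conj g).subgroupMap M)).1 hF
  · rw [conj_le_iff_le_inv_conj, conj_eq_self_of_normal]; exact hle.trans inf_le_right
  · rwa [Ne, conj_eq_bot_iff]
  · exact conj_mono g (hEP.trans (hPB.trans hBM))
  · rw [← conj_normalizer]; exact conj_mono g hn
  · exact isPGroup_conj (hP.to_le hEP) g
  · intro A hA hnA
    by_cases hA0 : A = ⊥
    · exact Or.inl hA0
    right
    have h1 : g⁻¹ ⋆ A ≤ E₁ := le_conj_iff_inv_conj_le.1 hA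
    have h2 := hmin (y := g⁻¹ ⋆ A) ⟨h1.trans hle, by rwa [Ne, conj_eq_bot_iff],
      by rw [← conj_normalizer, ← conj_le_iff_le_inv_conj]; exact hnA⟩ h1
    exact le_antisymm hA (conj_le_iff_le_inv_conj.2 h2)
  · intro h
    rw [mem_conj, inv_mul_cancel, one_mul] at h
    exact hne (conj_eq_self_of_mem h).symm
  · rw [inv_conj_conj]
    have h1 : P ≤ pCoreOf p B := Loc.le_core hPB (hBM.trans nP) hP
    rw [Loc.core_eq_inf_of_le_normalizer (coreIn_le_left _ _) nB] at h1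
    exact hEP.trans (h1.trans inf_le_left)
  · intro t ht
    rw [inv_conj_conj, ← conj_normalizer]
    refine (hEP.trans hPB).trans ?_
    rw [← conj_eq_self_iff.2 (nB ht)]
    exact conj_mono t (hBM.trans hn)

end Cfsg.Lib.WB
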