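import Cfsg.Agent.Lib.WB.Adm

/-!
# S3694: linear geometry I (flags)
-/

set_option linter.unusedSectionVars false

namespace Cfsg.Lib.WB

open Module Cfsg.Lib.Unitary Cfsg.Lib.Transfer
open scoped commutatorElement

variable {F V : Type*} [Field F] [AddCommGroup V] [Module F V] [Finite F] [Finite V]
  {U : Subgroup (End F V)ˣ}

/-! Tool: for `f : V →ₗ[F] F`, `v` with `f v = 0`, `X = f.smulRight v` has `X * X = 0`, so (`Lin.rt_iff`,
`Rt.exists_SS`) `1 + X` is in `SS U`.  Functionals with prescribed values: `Submodule.exists_dual_map_eq_bot_of_notMem`,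
`Module.exists_dual_forall_apply_eq_zero`, `LinearIndependent` extension, `LinearMap.exists_extend`. -/

/-- a functional vanishing on `A` with value `1` at `w ∉ A` (any field) -/
theorem exists_fn {K M : Type*} [Field K] [AddCommGroup M] [Module K M] {A : Submodule K M} {w : M} (hw : w ∉ A) :
    ∃ f : M →ₗ[K] K, f w = 1 ∧ ∀ x ∈ A, f x = 0 := by
  obtain ⟨f, h1, h2⟩ := LinearMap.exists_extend_of_notMem (0 : A →ₗ[K] K) hw 1
  exact ⟨f, h2, fun x hx => LinearMap.congr_fun h1 ⟨x, hx⟩⟩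

theorem St.of_fix {A B : Submodule F V} {X : End F V} (h : ∀ x ∈ B, X x = x) (hA : A ≤ B) : St A X :=
  fun x hx => (h x (hA hx)).symm ▸ hx

theorem St.of_sub {A B : Submodule F V} {X : End F V} (h : ∀ x, X x - x ∈ B) (hA : B ≤ A) : St A X :=
  fun x hx => sub_add_cancel (X x) x ▸ A.add_mem (hA (h x)) hx

namespace Lin

variable (h : Lin U)
include h

theorem exists_tv {f : V →ₗ[F] F} {v : V} (hv : f v = 0) :
    ∃ s ∈ SS U, ∀ x, (s : End F V) x = x + f x • v := by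
  obtain ⟨s, hs, e, -⟩ := (h.rt_iff.2 (show f.smulRight v * f.smulRight v = 0 by ext x; simp [hv])).exists_SS
  exact ⟨s, hs, fun x => by rw [e]; rfl⟩

/-- `X = f.smulRight v` with `0 ≠ v ∈ V₁`, `f ≠ 0` vanishing on `V₂`. -/
theorem g1 {V₁ V₂ : Submodule F V} (hP : Pr U V₁ V₂) :
    ∃ X : End F V, X ≠ 0 ∧ Rt U X ∧ LinearMap.range X ≤ V₁ ∧ V₂ ≤ LinearMap.ker X := by
  obtain ⟨v, hv, h0⟩ := (Submodule.ne_bot_iff _).1 hP.1
  obtain ⟨w, -, hw⟩ := SetLike.exists_of_lt (lt_top_iff_ne_top.2 hP.2.2.1)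
  obtain ⟨f, h1, h2⟩ := exists_fn hw
  refine ⟨f.smulRight v, fun e => h0 ?_, h.rt_iff.2 ?_, ?_, fun x hx => by simp [h2 x hx]⟩
  · simpa [h1] using LinearMap.congr_fun e w
  · ext x
    simp [h2 v (hP.2.1 hv)]
  · rintro _ ⟨x, rfl⟩
    exact V₁.smul_mem _ hv

/-- transvections fixing `A` pointwise with centre in `B` move `w ∈ B \ A` over a spanning set of `B` -/
theorem tv_le {A B W : Submodule F V} {w : V} (hw : w ∈ W) (hA : w ∉ A) (hB : w ∈ B)
    (hW : ∀ s ∈ SS U, (∀ x ∈ A, (s : End F V) x = x) → (∀ x, (s : End F V) x - x ∈ B) → (s : End F V) w ∈ W) :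
    B ≤ W := by
  obtain ⟨f, h1, h2⟩ := exists_fn hA
  intro x hx
  obtain ⟨s, hs, e⟩ := h.exists_tv (f := f) (v := x - f x • w) (by simp [h1])
  have := hW s hs (fun y hy => by rw [e, h2 y hy, zero_smul, add_zero]) fun y => by
    rw [e, add_sub_cancel_left]
    exact B.smul_mem _ (B.sub_mem hx (B.smul_mem _ hB))
  rw [e, h1, one_smul] at this
  exact (W.sub_mem_iff_left (W.smul_mem _ hw)).1 ((W.add_mem_iff_right hw).1 this)

/-- Transvections `x ↦ x + f x • v`, `f v = 0`.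
(a) `w ∈ W \ V₂`: `f (V₂) = 0`, `f w = 1`, any `v ∈ ker f`: `ker f ≤ W`, so `W = ⊤`.
(b) `W ≤ V₂`, `w ∈ W \ V₁`: `f (V₁) = 0`, `f w = 1`, `v ∈ V₂ ⊓ ker f`: `V₂ ≤ W`.
(c) `W ≤ V₁`, `w ≠ 0`: `f w = 1`, `v ∈ V₁ ⊓ ker f`: `V₁ ≤ W`. -/
theorem inv {V₁ V₂ W : Submodule F V} (hP : Pr U V₁ V₂)
    (hW : ∀ s ∈ SS U, St V₁ (s : End F V) → St V₂ (s : End F V) → St W (s : End F V)) :
    W = ⊥ ∨ W = V₁ ∨ W = V₂ ∨ W = ⊤ := by
  by_cases a : W ≤ V₂
  · by_cases b : W ≤ V₁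
    · by_cases c : W = ⊥
      · exact .inl c
      obtain ⟨w, hw, h0⟩ := (Submodule.ne_bot_iff _).1 c
      exact .inr (.inl (b.antisymm (h.tv_le (A := ⊥) hw h0 (b hw) fun s hs _ h2 =>
        hW s hs (St.of_sub h2 le_rfl) (St.of_sub h2 hP.2.1) w hw)))
    · obtain ⟨w, hw, h0⟩ := SetLike.not_le_iff_exists.1 b
      exact .inr (.inr (.inl (a.antisymm (h.tv_le hw h0 (a hw) fun s hs h1 h2 =>
        hW s hs (St.of_fix h1 le_rfl) (St.of_sub h2 le_rfl) w hw))))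
  · obtain ⟨w, hw, h0⟩ := SetLike.not_le_iff_exists.1 a
    exact .inr (.inr (.inr (top_le_iff.1 (h.tv_le hw h0 Submodule.mem_top fun s hs h1 _ =>
      hW s hs (St.of_fix h1 hP.2.1) (St.of_fix h1 le_rfl) w hw))))

/-- `0 ≠ w ∈ W`, `f w = 1`, `v ∈ ker f`. -/
theorem irr {W : Submodule F V} (hW : ∀ s ∈ SS U, St W (s : End F V)) : W = ⊥ ∨ W = ⊤ := by
  by_cases c : W = ⊥
  · exact .inl c
  obtain ⟨w, hw, h0⟩ := (Submodule.ne_bot_iff _).1 c
  exact .inr (top_le_iff.1 (h.tv_le (A := ⊥) hw h0 Submodule.mem_top fun s hs _ _ => hW s hs w hw))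

/-- The common kernel of `𝒳` is invariant under the stabiliser (`St.inv`), contains `V₂ ≠ ⊥`, is not `⊤`; by `inv` it is
`V₂` (if it is `V₁` then `V₁ = V₂`).  So `u₀ = X₀ w ≠ 0` for some `X₀ ∈ 𝒳`.  For `v ∈ V₁` not a multiple of `u₀` take `f` with
`f u₀ = f v = 1`, `f w = 0` (`u₀, v, w` independent as `w ∉ V₂`); `s = 1 + f ⊗ (v - u₀)` stabilises `V₁, V₂`, fixes `w`, and
`(s X₀ s⁻¹) w = s u₀ = v ∈ W₁`. -/
theorem uw {V₁ V₂ W₁ : Submodule F V} (hP : Pr U V₁ V₂) {𝒳 : Set (End F V)}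
    (h1 : ∀ X ∈ 𝒳, LinearMap.range X ≤ V₁ ∧ V₂ ≤ LinearMap.ker X) (h0 : ∃ X ∈ 𝒳, X ≠ 0)
    (hs : ∀ s ∈ SS U, St V₁ (s : End F V) → St V₂ (s : End F V) →
      ∀ X ∈ 𝒳, (s : End F V) * X * ((s⁻¹ : (End F V)ˣ) : End F V) ∈ 𝒳)
    {w : V} (hw : w ∉ V₂) (hX : ∀ X ∈ 𝒳, X w ∈ W₁) : V₁ ≤ W₁ := by
  have hC : ⨅ X ∈ 𝒳, LinearMap.ker X ≤ V₂ := by
    have k : V₂ ≤ ⨅ X ∈ 𝒳, LinearMap.ker X := le_iInf₂ fun X hX => (h1 X hX).2
    rcases h.inv hP (W := ⨅ X ∈ 𝒳, LinearMap.ker X) (fun s a b c x hx => by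
      simp only [Submodule.mem_iInf, LinearMap.mem_ker] at hx ⊢
      intro X hX
      have := congrArg (s : End F V) (hx _ (hs _ ((SS U).inv_mem a) b.inv c.inv X hX))
      rwa [inv_inv, ← End.mul_apply, mul_assoc, Units.mul_inv_cancel_left, map_zero] at this) with e | e | e | e
    · exact e.le.trans bot_le
    · exact e.le.trans hP.2.1
    · exact e.le
    · obtain ⟨X, a, b⟩ := h0
      exact (b (LinearMap.ker_eq_top.1 (top_le_iff.1 (e.ge.trans (iInf₂_le X a))))).elim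
  obtain ⟨X, a, b⟩ : ∃ X ∈ 𝒳, X w ≠ 0 := by
    by_contra! k
    exact hw (hC (by simpa [Submodule.mem_iInf] using k))
  have hu : X w ∈ V₁ := (h1 X a).1 (LinearMap.mem_range_self X w)
  refine h.tv_le (A := F ∙ w) (hX X a) (fun k => ?_) hu fun s c d e => ?_
  · obtain ⟨t, ht⟩ := Submodule.mem_span_singleton.1 k
    refine hw ((V₂.smul_mem_iff (s := t) fun e => b ?_).1 (ht ▸ hP.2.1 hu))
    rw [← ht, e, zero_smul]
  · have e1 := d w (Submodule.mem_span_singleton_self w)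
    have := hX _ (hs s c (St.of_sub e le_rfl) (St.of_sub e hP.2.1) X a)
    rwa [← e1, ← End.mul_apply, Units.inv_mul_cancel_right, End.mul_apply] at this

/-- `Z` is a field acting on `V` (`IsField.toField` on the subtype `Z`, `Module Z V`); `W = Z v` is a proper
`Z`-subspace; take a `Z`-linear functional `φ ≠ 0` vanishing on `W`, `X x = φ x • v` (it is `F`-linear as `c • 1 ∈ Z`).
Then `X v = 0`, `(a X) (a X) = 0`. -/
theorem g3 {Z : Subalgebra F (End F V)} (hZ : Fld Z) {v w : V} (hv : v ≠ 0) (hw : ∀ a ∈ Z, a v ≠ w) :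
    ∃ X : End F V, X ≠ 0 ∧ (∀ a ∈ Z, Commute a X) ∧ ∀ a ∈ Z, Rt U (a * X) := by
  have hF : IsField Z := ⟨⟨1, 0, fun e => hv (by simpa using LinearMap.congr_fun (congrArg Subtype.val e) v)⟩,
    fun a b => Subtype.ext (hZ.1 _ a.2 _ b.2), fun {a} ha => by
      obtain ⟨b, h1, h2⟩ := hZ.2 _ a.2 fun e => ha (Subtype.ext e)
      exact ⟨⟨b, h1⟩, Subtype.ext h2⟩⟩
  letI := hF.toField
  obtain ⟨φ, h1, h2⟩ := exists_fn (K := Z) (A := Z ∙ v) (w := w) fun k => by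
    obtain ⟨a, ha⟩ := Submodule.mem_span_singleton.1 k
    exact hw _ a.2 ha
  have h3 : ∀ (a : Z) x, (φ (a.1 x) : End F V) = a * φ x := fun a x => congrArg Subtype.val (φ.map_smul a x)
  have h4 : ∀ a : Z, φ (a.1 v) = 0 := fun a => h2 _ (Submodule.mem_span_singleton.2 ⟨a, rfl⟩)
  let X : End F V :=
    { toFun := fun x => (φ x : End F V) v
      map_add' := fun x y => by simp
      map_smul' := fun c x => by simpa using LinearMap.congr_fun (h3 (algebraMap F Z c) x) v }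
  have hX : ∀ x, X x = (φ x : End F V) v := fun _ => rfl
  have hc : ∀ a ∈ Z, Commute a X := fun a ha => LinearMap.ext fun x => by
    rw [End.mul_apply, End.mul_apply, hX, hX, h3 ⟨a, ha⟩, End.mul_apply]
  refine ⟨X, fun e => hv (by simpa [hX, h1] using LinearMap.congr_fun e w), hc, fun a ha => h.rt_iff.2 ?_⟩
  have : X * X = 0 := LinearMap.ext fun x => by
    rw [End.mul_apply, hX x, hX, h4]
    rfl
  rw [mul_assoc, ← mul_assoc X, ← (hc a ha).eq, mul_assoc, this, mul_zero, mul_zero]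

end Lin

end Cfsg.Lib.WB
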