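import Cfsg.Agent.Lib.WB.L1

/-!
# S3694: linear geometry II (blocks)
-/

set_option linter.unusedSectionVars false
set_option linter.unusedSimpArgs false
set_option linter.unusedVariables false

namespace Cfsg.Lib.WB

open Module Cfsg.Lib.Unitary Cfsg.Lib.Transfer
open scoped commutatorElement

variable {F V : Type*} [Field F] [AddCommGroup V] [Module F V] [Finite F] [Finite V]
  {U : Subgroup (End F V)ˣ}

/-- a functional through `e` killing `W` and equal to `1` on `y` -/
theorem exists_fn_idem {e : End F V} (he : IsIdempotentElem e) {W : Submodule F V} (hW : ∀ w ∈ W, e w = w)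
    {y : V} (hy : e y = y) (hn : y ∉ W) :
    ∃ f : V →ₗ[F] F, (∀ z, f (e z) = f z) ∧ (∀ w ∈ W, f w = 0) ∧ f y = 1 := by
  obtain ⟨g, hg, hg0⟩ := Submodule.exists_dual_map_eq_bot_of_notMem hn inferInstance
  refine ⟨(g y)⁻¹ • g ∘ₗ e, fun z => ?_, fun w hw => ?_, ?_⟩
  · simp only [LinearMap.smul_apply, LinearMap.comp_apply]
    rw [← Module.End.mul_apply, he.eq]
  · have : g w = 0 := by
      have : g w ∈ W.map g := Submodule.mem_map_of_mem hw
      rwa [hg0] at this
    simp [hW w hw, this]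
  · simp [hy, hg]

theorem fix_span_one {e : End F V} {v : V} (hv : e v = v) : ∀ w ∈ F ∙ v, e w = w := by
  intro w hw
  obtain ⟨c, rfl⟩ := Submodule.mem_span_singleton.1 hw
  rw [map_smul, hv]

theorem le_smulRight {e : End F V} {f : V →ₗ[F] F} {v : V} (hf : ∀ z, f (e z) = f z) (hv : e v = v) :
    Le (f.smulRight v) e :=
  ⟨LinearMap.ext fun z => by simp [hf], LinearMap.ext fun z => by simp [hv]⟩

theorem sq_smulRight {f : V →ₗ[F] F} {v : V} (hv : f v = 0) :
    (f.smulRight v : End F V) * f.smulRight v = 0 :=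
  LinearMap.ext fun z => by simp [hv]

theorem rk_smulRight {f : V →ₗ[F] F} {v y : V} (hv : v ≠ 0) (hy : f y = 1) :
    rk (f.smulRight v : End F V) = 1 := by
  have : LinearMap.range (f.smulRight v : End F V) = F ∙ v := by
    apply le_antisymm
    · rintro _ ⟨x, rfl⟩
      exact Submodule.smul_mem _ _ (Submodule.mem_span_singleton_self v)
    · rw [Submodule.span_singleton_le_iff_mem]
      exact ⟨y, by simp [hy]⟩
  unfold rk
  rw [this, finrank_span_singleton hv]

/-- every vector of `range e` an eigenvector: scalar on `e` -/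
theorem scOn_of_eig {e x : End F V} (he : IsIdempotentElem e) (hc : Commute e x)
    (k : ∀ v, e v = v → x v ∈ F ∙ v) : ScOn e x := by
  have he' : ∀ z, e (e z) = e z := fun z => by rw [← Module.End.mul_apply, he.eq]
  by_cases h0 : ∀ v, e v = 0
  · exact ⟨0, LinearMap.ext fun z => by simp [h0]⟩
  push Not at h0
  obtain ⟨u, hu⟩ := h0
  obtain ⟨c, hcu⟩ := Submodule.mem_span_singleton.1 (k _ (he' u))
  refine ⟨c, LinearMap.ext fun z => ?_⟩
  rw [hc.eq, Module.End.mul_apply, LinearMap.smul_apply]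
  by_cases hz : e z ∈ F ∙ e u
  · obtain ⟨a, ha⟩ := Submodule.mem_span_singleton.1 hz
    rw [← ha, map_smul, ← hcu, smul_comm]
  · obtain ⟨a, ha⟩ := Submodule.mem_span_singleton.1 (k _ (he' z))
    obtain ⟨d, hd⟩ := Submodule.mem_span_singleton.1 (k (e u + e z) (by rw [map_add, he', he']))
    rw [map_add, ← hcu, ← ha] at hd
    have h1 : a = d := by
      by_contra hn
      refine hz (Submodule.mem_span_singleton.2 ⟨(a - d)⁻¹ * (d - c), ?_⟩)
      have h2 : (d - c) • e u = (a - d) • e z := by linear_combination (norm := module) hd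
      rw [mul_smul, h2, smul_smul, inv_mul_cancel₀ (sub_ne_zero.2 hn), one_smul]
    subst h1
    have h2 : (a - c) • e u = 0 := by linear_combination (norm := module) hd
    rw [← ha, sub_eq_zero.1 ((smul_eq_zero.1 h2).resolve_right hu)]

/-- rank-one idempotents -/
theorem exists_of_rk_one {e : End F V} (he : IsIdempotentElem e) (h1 : rk e = 1) :
    ∃ (φ : V →ₗ[F] F) (v : V), v ≠ 0 ∧ φ v = 1 ∧ ∀ y, e y = φ y • v := by
  obtain ⟨⟨_, u, rfl⟩, hv0, hv⟩ := finrank_eq_one_iff'.1 h1
  have hu : e u ≠ 0 := fun e0 => hv0 (Subtype.ext e0)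
  have he' : ∀ z, e (e z) = e z := fun z => by rw [← Module.End.mul_apply, he.eq]
  obtain ⟨φ, h2, -, h3⟩ := exists_fn_idem he (W := ⊥) (by simp) (he' u) (by simpa using hu)
  refine ⟨φ, e u, hu, h3, fun y => ?_⟩
  obtain ⟨c, hc⟩ := hv ⟨e y, y, rfl⟩
  have hc' : c • e u = e y := congrArg Subtype.val hc
  rw [← h2 y, ← hc', map_smul, h3, smul_eq_mul, mul_one]

namespace Lin

variable (h : Lin U)
include h

/-- independent `v₁, v₂` in the range of `e`, `f v₁ = 0`, `f v₂ = 1`, `X = (f ∘ e).smulRight v₁`. -/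
theorem g2 {e : End F V} (he : Ad U e) (h2 : 2 ≤ rk e) :
    ∃ X : End F V, X ≠ 0 ∧ Rt U X ∧ Le X e := by
  have he1 := he.1
  have he' : ∀ z, e (e z) = e z := fun z => by rw [← Module.End.mul_apply, he1.eq]
  obtain ⟨u, hu⟩ : ∃ u, e u ≠ 0 := by
    by_contra hn
    push Not at hn
    have : rk e = 0 := rk_eq_zero.2 (LinearMap.ext hn)
    omega
  obtain ⟨y, hy⟩ : ∃ y, e y ∉ F ∙ e u := by
    by_contra hn
    push Not at hn
    have h3 : LinearMap.range e ≤ F ∙ e u := by
      rintro _ ⟨y, rfl⟩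
      exact hn y
    have := Submodule.finrank_mono h3
    rw [finrank_span_singleton hu] at this
    unfold rk at h2
    omega
  obtain ⟨f, h3, h4, h5⟩ := exists_fn_idem he1 (fix_span_one (he' u)) (he' y) hy
  refine ⟨f.smulRight (e u), fun e0 => hu ?_,
    h.rt_iff.2 (sq_smulRight (h4 _ (Submodule.mem_span_singleton_self _))), le_smulRight h3 (he' u)⟩
  simpa [h5] using LinearMap.congr_fun e0 (e y)

/-- If `v` in the range of `e` has `x v ∉ F v`, take `f` with `f v = 0`, `f (x v) = 1`, `X = (f ∘ e).smulRight v`: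
`x X v = 0 ≠ X x v`.  So every vector of `range e` is an eigenvector of `x`, with a common eigenvalue. -/
theorem cse {e x : End F V} (he : Ad U e) (hc : Commute e x)
    (hX : ∀ X : End F V, Rt U X → Le X e → rk X = 1 → Commute x X) : ScOn e x := by
  refine scOn_of_eig he.1 hc fun v hv => ?_
  by_contra hn
  have hv0 : v ≠ 0 := by
    rintro rfl
    simp at hn
  have hxv : e (x v) = x v := by rw [← Module.End.mul_apply, hc.eq, Module.End.mul_apply, hv]
  obtain ⟨f, h3, h4, h5⟩ := exists_fn_idem he.1 (fix_span_one hv) hxv hn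
  have h6 := h4 _ (Submodule.mem_span_singleton_self v)
  have := LinearMap.congr_fun (hX _ (h.rt_iff.2 (sq_smulRight h6)) (le_smulRight h3 hv)
    (rk_smulRight hv0 h5)).eq v
  exact hv0 (by simpa [h5, h6] using this.symm)

/-- `e = φ ⊗ v`, `f = ψ ⊗ w` with `φ v = ψ w = 1`, `φ w = ψ v = 0`; `s = 1 - e - f + φ ⊗ w - ψ ⊗ v` is the product of
three transvections `(1 + φ ⊗ w)(1 - ψ ⊗ v)(1 + φ ⊗ w)` (check), so lies in `SS U`. -/
theorem sw {e f : End F V} (he : Ad U e) (hf : Ad U f) (h1 : rk e = 1) (h2 : rk f = 1) (h3 : e * f = 0)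
    (h4 : f * e = 0) :
    ∃ s ∈ SS U, (s : End F V) * e = f * s ∧ (s : End F V) * f = e * s ∧ Sup (e + f) (s : End F V) := by
  obtain ⟨φ, v, hv0, hv, hev⟩ := exists_of_rk_one he.1 h1
  obtain ⟨ψ, w, hw0, hw, hfw⟩ := exists_of_rk_one hf.1 h2
  have a1 : φ w = 0 := by
    have := LinearMap.congr_fun h3 w
    simpa [hev, hfw, hw, hv0] using this
  have a2 : ψ v = 0 := by
    have := LinearMap.congr_fun h4 v
    simpa [hev, hfw, hv, hw0] using this
  obtain ⟨a, ha, ea⟩ := h.exists_tv a1
  obtain ⟨b, hb, eb⟩ := h.exists_tv (f := -ψ) (v := v) (by simp [a2])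
  have es : ∀ y, ((a * b * a : (End F V)ˣ) : End F V) y =
      y + φ y • w - ψ y • v - φ y • v - ψ y • w := fun y => by
    simp only [Units.val_mul, Module.End.mul_apply, ea, eb, map_add, map_smul, LinearMap.neg_apply, a1, a2,
      hv, hw, smul_eq_mul]
    module
  have b1 : ((a * b * a : (End F V)ˣ) : End F V) * e = f * (a * b * a : (End F V)ˣ) :=
    LinearMap.ext fun y => by
      simp only [Module.End.mul_apply, es, hev, hfw, map_add, map_sub, map_smul, a1, a2, hv, hw, smul_eq_mul]
      module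
  have b2 : ((a * b * a : (End F V)ˣ) : End F V) * f = e * (a * b * a : (End F V)ˣ) :=
    LinearMap.ext fun y => by
      simp only [Module.End.mul_apply, es, hev, hfw, map_add, map_sub, map_smul, a1, a2, hv, hw, smul_eq_mul]
      module
  refine ⟨a * b * a, mul_mem (mul_mem ha hb) ha, b1, b2, ?_, LinearMap.ext fun y => ?_⟩
  · rw [Commute, SemiconjBy, add_mul, mul_add, b1, b2, add_comm]
  · simp only [Module.End.mul_apply, LinearMap.sub_apply, LinearMap.add_apply, Module.End.one_apply, es, hev,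
      hfw, map_add, map_sub, map_smul, a1, a2, hv, hw, smul_eq_mul]
    module

/-- Suppose `x` is not scalar on `e`.  All `S_e`-conjugates of `x` commute pairwise (conjugate the hypothesis; `S_e` is a group).
By `cse` there is `X = f ⊗ v` (`f v = 0`, `e v = v`, `f ∘ e = f`) with `X' = x X x⁻¹ = f' ⊗ v' ≠ X` (`v' = x v`, `f' = f ∘ x⁻¹`).
For `c : F` put `t_c = 1 + c X ∈ S_e`, `y_c = t_c x t_c⁻¹ x⁻¹ = (1 + c X)(1 - c X')`; the `y_c` lie in the abelian group generated
by the conjugates of `x` and are `Ssm`.  Let `a = f v'`, `b = f' v`.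
* `a b = 0`: `y_1 - 1 = X - X' - X X'` is nilpotent (cube zero), so `y_1 = 1` (`Ssm.eq_one`), `X = X'`, contradiction.
* `a b ≠ 0`: `v, v'` independent; `N_c = y_c - 1`: `N_c v = -c b v' - c² a b v`, `N_c v' = c a v`.  The `v'`-coefficient of
  `N_c N_d v` is `c d² a b²`, so `N_c N_d = N_d N_c` gives `c d (d - c) = 0`: `F = {0, 1}`, `|F| = 2`.
  If `rk e ≠ 2` then `rk e ≥ 3`; take `0 ≠ w ∈ range e` with `f w = f' w = 0`, `t = 1 + f ⊗ w ∈ S_e`.  `y = y_1` commutes with
  `t y t⁻¹`, so stabilises `range (t y t⁻¹ - 1) = span {v, v' + w}`; but `y v = v'` and `v' ∈ span {v, v' + w}` forces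
  `w ∈ span {v, v'}`, then `f w = f' w = 0` gives `w = 0`. -/
theorem conj_sc {e : End F V} (he : Ad U e) {x : (End F V)ˣ} (hs : Ssm x) (hc : Commute e (x : End F V))
    (hx : ∀ s ∈ SS U, Sup e (s : End F V) → Commute x (s * x * s⁻¹)) :
    ScOn e (x : End F V) ∨ (Nat.card F = 2 ∧ rk e = 2) := by
  by_cases hS : ScOn e (x : End F V)
  · exact .inl hS
  right
  obtain ⟨v, hv, hn⟩ : ∃ v, e v = v ∧ (x : End F V) v ∉ F ∙ v := by
    by_contra hn
    push Not at hn
    exact hS (scOn_of_eig he.1 hc hn)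
  have hv0 : v ≠ 0 := by
    rintro rfl
    simp at hn
  have hxv : e ((x : End F V) v) = (x : End F V) v := by
    rw [← Module.End.mul_apply, hc.eq, Module.End.mul_apply, hv]
  have key : ∀ f : V →ₗ[F] F, (∀ z, f (e z) = f z) → f v = 0 → ∀ y,
      f (x.1 y) • x.1 v - f y • x.1 (x.1 v) - (f (x.1 v) * f y) • x.1 v =
        f (x.1 (x.1 y)) • v - f (x.1 y) • x.1 v - (f (x.1 v) * f (x.1 y)) • v := by
    intro f hf hfv y
    obtain ⟨s, hs1, e1, e2⟩ := (h.rt_iff.2 (sq_smulRight hfv)).exists_SS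
    have hl := le_smulRight hf hv
    have hsup : Sup e (s : End F V) := by
      rw [e1]
      refine ⟨(Commute.one_right e).add_right (hl.2.trans hl.1.symm), ?_⟩
      rw [mul_add, mul_one, sub_mul, one_mul, hl.2, sub_self, add_zero]
    have := LinearMap.congr_fun (congrArg Units.val (hx s hs1 hsup).eq) y
    simp only [Units.val_mul, e1, e2, Module.End.mul_apply, LinearMap.add_apply, LinearMap.sub_apply,
      Module.End.one_apply, LinearMap.smulRight_apply, map_add, map_sub, map_smul, smul_eq_mul] at this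
    linear_combination (norm := module) this
  obtain ⟨f, h3, h4, h5⟩ := exists_fn_idem he.1 (fix_span_one hv) hxv hn
  have h6 := h4 _ (Submodule.mem_span_singleton_self v)
  constructor
  · refine (Nat.card_eq_two_iff' (0 : F)).2 ⟨1, one_ne_zero, fun c hc0 => ?_⟩
    have k1 := key f h3 h6 v
    have k2 := key (c • f) (fun z => by simp [h3]) (by simp [h6]) v
    simp only [LinearMap.smul_apply, smul_eq_mul, h5, h6] at k1 k2
    have k3 : (c * (c - 1)) • v = 0 := by linear_combination (norm := module) k2 - c • k1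
    exact sub_eq_zero.1 ((mul_eq_zero.1 ((smul_eq_zero.1 k3).resolve_right hv0)).resolve_left hc0)
  · have hW : ∀ w ∈ Submodule.span F {v, (x : End F V) v}, e w = w := fun w hw => by
      obtain ⟨a, b, rfl⟩ := Submodule.mem_span_pair.1 hw
      rw [map_add, map_smul, map_smul, hv, hxv]
    have hr : LinearMap.range e = Submodule.span F {v, (x : End F V) v} := by
      refine le_antisymm ?_ fun w hw => ⟨w, hW w hw⟩
      rintro _ ⟨u, rfl⟩
      by_contra hu
      obtain ⟨g, g1, g2, g3⟩ := exists_fn_idem he.1 hW (by rw [← Module.End.mul_apply, he.1.eq]) hu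
      have g4 : g v = 0 := g2 _ (Submodule.subset_span (by simp))
      have g5 : g (x.1 v) = 0 := g2 _ (Submodule.subset_span (by simp))
      have k1 := key f h3 h6 (e u)
      have k2 := key g g1 g4 (e u)
      have k3 := key (f + g) (fun z => by simp [h3, g1]) (by simp [h6, g4]) (e u)
      simp only [LinearMap.add_apply, h5, g5, g3] at k1 k2 k3
      refine hn (Submodule.mem_span_singleton.2 ⟨g (x.1 (e u)), ?_⟩)
      linear_combination (norm := module) k3 - k1 - k2
    have hli : LinearIndependent F ![v, (x : End F V) v] :=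
      (LinearIndependent.pair_iff' hv0).2 fun a ha => hn (Submodule.mem_span_singleton.2 ⟨a, ha⟩)
    have := finrank_span_eq_card hli
    unfold rk
    rw [Matrix.range_cons_cons_empty] at this
    rw [hr, this, Fintype.card_fin]

end Lin

end Cfsg.Lib.WB
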