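import Cfsg.Agent.Lib.WB.Tau
import Cfsg.Agent.Lib.WB.Adm
import Cfsg.Agent.Lib.Linear.AutType

/-!
# S3694: linear data for Aut PSL
-/

set_option linter.unusedSectionVars false

namespace Cfsg.Lib.WB

open Module Cfsg.Lib.Unitary Cfsg.Lib.Transfer
open scoped commutatorElement

variable {F V : Type*} [Field F] [AddCommGroup V] [Module F V] [Finite F] [Finite V]
  {U : Subgroup (End F V)ˣ}

/-- the additive automorphism of `End K (Fin n → K)` induced by one of matrices -/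
noncomputable def ofMat {K : Type*} [Field K] {n : ℕ} (t : Matrix (Fin n) (Fin n) K ≃+ Matrix (Fin n) (Fin n) K) :
    End K (Fin n → K) ≃+ End K (Fin n → K) :=
  (LinearMap.toMatrix'.toAddEquiv.trans t).trans Matrix.toLin'.toAddEquiv

section
variable {K : Type*} [Field K] {n : ℕ}

theorem ofMat_toLin (t : Matrix (Fin n) (Fin n) K ≃+ Matrix (Fin n) (Fin n) K) (M : Matrix (Fin n) (Fin n) K) :
    ofMat t (Matrix.toLin' M) = Matrix.toLin' (t M) :=
  congrArg (fun X => Matrix.toLin' (t X)) (LinearMap.toMatrix'_toLin' M)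

theorem tau_ofMat {W : Subgroup (End K (Fin n → K))ˣ} (t : Matrix (Fin n) (Fin n) K ≃+ Matrix (Fin n) (Fin n) K)
    (h1 : (∀ X Y, t (X * Y) = t X * t Y) ∨ ∀ X Y, t (X * Y) = t Y * t X) (h2 : t 1 = 1) (φ : K ≃+* K)
    (h3 : ∀ (c : K) X, t (c • X) = φ c • t X)
    (h4 : ∀ M, Un W (Matrix.toLin' (t M)) ↔ Un W (Matrix.toLin' M)) (h5 : ∀ M, (t M).rank = M.rank) :
    Tau W (ofMat t) := by
  have m : ∀ X Y : Matrix (Fin n) (Fin n) K, Matrix.toLin' X * Matrix.toLin' Y = Matrix.toLin' (X * Y) :=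
    fun X Y => (Matrix.toLin'_mul X Y).symm
  refine ⟨h1.imp (fun h X Y => ?_) fun h X Y => ?_, ?_, ⟨φ, fun c X => ?_⟩, fun X => ?_, fun X => ?_⟩
  iterate 2
    obtain ⟨X, rfl⟩ := Matrix.toLin'.surjective X
    obtain ⟨Y, rfl⟩ := Matrix.toLin'.surjective Y
    simp only [m, ofMat_toLin, h]
  · rw [End.one_eq_id, ← Matrix.toLin'_one, ofMat_toLin, h2]
  all_goals obtain ⟨X, rfl⟩ := Matrix.toLin'.surjective X
  · rw [← map_smul, ofMat_toLin, ofMat_toLin, h3, map_smul]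
  · rw [ofMat_toLin, h4]
  · rw [ofMat_toLin]
    exact h5 X

theorem rank_map_ge [Finite K] (σ : K ≃+* K) (M : Matrix (Fin n) (Fin n) K) : M.rank ≤ (M.map σ).rank := by
  rw [← Nat.pow_le_pow_iff_right (Finite.one_lt_card (α := K)), Matrix.rank, Matrix.rank,
    ← Module.natCard_eq_pow_finrank, ← Module.natCard_eq_pow_finrank]
  refine Nat.card_le_card_of_injective (fun v => ⟨σ ∘ v.1, ?_⟩)
    fun v w e => Subtype.ext (σ.injective.comp_left (congrArg Subtype.val e))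
  obtain ⟨_, x, rfl⟩ := v
  exact ⟨σ ∘ x, funext fun i => (RingHom.map_mulVec σ.toRingHom M x i).symm⟩

end

/-- applying a field automorphism to the entries (`Matrix.rank` is preserved: `Matrix.rank_map`-type argument, or the semilinear
bijection `v ↦ σ ∘ v` maps range onto range and the ranges are finite of size `|K| ^ rank`). -/
theorem exists_tau_field {K : Type*} [Field K] [Finite K] {n : ℕ} (σ : K ≃+* K) {W : Subgroup (End K (Fin n → K))ˣ}
    (hW : ∀ M : Matrix (Fin n) (Fin n) K, Un W (Matrix.toLin' (M.map σ)) ↔ Un W (Matrix.toLin' M)) :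
    ∃ τ : End K (Fin n → K) ≃+ End K (Fin n → K), Tau W τ ∧
      ∀ M : Matrix (Fin n) (Fin n) K, τ (Matrix.toLin' M) = Matrix.toLin' (M.map σ) := by
  refine ⟨_, tau_ofMat (AddEquiv.mapMatrix σ.toAddEquiv) (.inl fun _ _ => Matrix.map_mul (f := σ))
    (Matrix.map_one _ (map_zero σ) (map_one σ)) σ (fun c M => Matrix.ext fun i j => map_mul σ _ _) hW fun M => ?_,
    ofMat_toLin _⟩
  refine le_antisymm ((rank_map_ge σ.symm _).trans_eq (congrArg _ ?_)) (rank_map_ge σ M)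
  ext i j
  exact σ.symm_apply_apply _

/-- transpose (`Matrix.rank_transpose`) -/
theorem exists_tau_transpose {K : Type*} [Field K] [Finite K] {n : ℕ} :
    ∃ τ : End K (Fin n → K) ≃+ End K (Fin n → K), Tau ⊤ τ ∧
      ∀ M : Matrix (Fin n) (Fin n) K, τ (Matrix.toLin' M) = Matrix.toLin' M.transpose := by
  have k : ∀ M : Matrix (Fin n) (Fin n) K, Un ⊤ (Matrix.toLin' M) ↔ IsUnit M := fun M =>
    ⟨fun ⟨u, _, e⟩ => Matrix.isUnit_toLin'_iff.1 ⟨u, e⟩,
      fun h => let ⟨u, e⟩ := Matrix.isUnit_toLin'_iff.2 h; ⟨u, trivial, e⟩⟩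
  exact ⟨_, tau_ofMat (Matrix.transposeAddEquiv _ _ K) (.inr Matrix.transpose_mul) Matrix.transpose_one (.refl K)
    (fun _ _ => rfl) (fun M => by rw [k, k]; exact Matrix.isUnit_transpose M) Matrix.rank_transpose, ofMat_toLin _⟩

omit [Finite F] [Finite V] in
/-- lifts compose (signs multiply) -/
theorem Lf.mul {G : Type*} [Group G] {Γ : Subgroup (End F V)ˣ} {π : Γ →* G} {τ τ' : End F V ≃+ End F V} {g g' : G}
    (h : Lf π τ g) (h' : Lf π τ' g') : Lf π (τ'.trans τ) (g * g') := by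
  intro γ
  obtain ⟨γ', e | e, h1⟩ := h' γ
  · obtain ⟨γ'', e', h2⟩ := h γ'
    exact ⟨γ'', by rwa [AddEquiv.trans_apply, e], by rw [h2, h1]; group⟩
  · obtain ⟨γ'', e', h2⟩ := h γ'⁻¹
    refine ⟨γ''⁻¹, ?_, by rw [map_inv, h2, map_inv, h1]; group⟩
    rw [AddEquiv.trans_apply, e, Subgroup.coe_inv, inv_inv]
    exact e'.symm

/-- conjugation by `γ ∈ Γ ≤ U` lifts `π γ` (`exists_tau_conj`) -/
theorem exists_lf_conj {G : Type*} [Group G] {Γ : Subgroup (End F V)ˣ} (hU : Γ ≤ U) (π : Γ →* G) (γ : Γ) :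
    ∃ τ, Tau U τ ∧ Lf π τ (π γ) ∧ ∀ X, τ X = (γ.1 : End F V) * X * ((γ.1⁻¹ : (End F V)ˣ) : End F V) := by
  obtain ⟨τ, h, e⟩ := exists_tau_conj (hU γ.2)
  exact ⟨τ, h, fun δ => ⟨γ * δ * γ⁻¹, .inl (e _), by rw [map_mul, map_mul, map_inv]⟩, e⟩

/-- `Γ = ⊤`, `π = innDiag ∘ Matrix.GeneralLinearGroup.toLin.symm`.  `ker`: `innDiag_eq_iff`.  `mapS`: `innDiag_toGL`.  `lift`: `aut_PSL_decomp`,
`Lf.mul`, `Tau.trans`, `fieldAut_mul_innDiag`, `graphAut_mul_innDiag` (`graphGL_inv_coe`).  `out`: `exists_autType`, `exists_autType_two`. -/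
theorem ld_PSL {K : Type*} [Field K] [Fintype K] {n : ℕ} (hn : 2 ≤ n) (h4 : n = 2 → 4 ≤ Fintype.card K) :
    Nonempty (Ld (Cfsg.Inn (Matrix.ProjectiveSpecialLinearGroup (Fin n) K)) (⊤ : Subgroup (End K (Fin n → K))ˣ)) := by
  let T : GL (Fin n) K ≃* (End K (Fin n → K))ˣ := Matrix.GeneralLinearGroup.toLin
  let E : GL (Fin n) K ≃* (⊤ : Subgroup (End K (Fin n → K))ˣ) := T.trans Subgroup.topEquiv.symm
  have hE : ∀ g, ((E g).1 : End K (Fin n → K)) = Matrix.toLin' g.1 := fun _ => rfl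
  let π := Linear.innDiag.comp E.symm.toMonoidHom
  have hπ : ∀ g, π (E g) = Linear.innDiag g := fun g => congrArg Linear.innDiag (E.symm_apply_apply g)
  have rg : π.range = Linear.innDiag.range := by
    rw [MonoidHom.range_comp, MonoidHom.range_eq_top.2 E.symm.surjective, ← MonoidHom.range_eq_map]
  refine ⟨⟨⊤, π, .inl ⟨rfl, by simpa, by simpa⟩, le_rfl, le_top, le_top, fun γ => ?_, ?_, fun β => ?_, ?_⟩⟩
  · obtain ⟨g, rfl⟩ := E.surjective γ
    rw [hπ, ← MonoidHom.mem_ker, Linear.ker_innDiag,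
      Matrix.GeneralLinearGroup.mem_center_iff_val_mem_range_scalar, mem_ZZ, hE]
    refine ⟨fun ⟨c, e⟩ => ⟨trivial, c, ?_⟩, fun ⟨_, c, e⟩ => ⟨c, Matrix.toLin'.injective (e.trans ?_).symm⟩⟩ <;>
      simp [← e, Matrix.scalar_apply, ← Matrix.smul_one_eq_diagonal, End.one_eq_id]
  · ext β
    constructor
    · rintro ⟨γ, h, rfl⟩
      obtain ⟨g, rfl⟩ := E.surjective γ
      have : g.1.det = 1 := (LinearMap.det_toLin' g.1).symm.trans (mem_SS.1 h).2
      let s : Matrix.SpecialLinearGroup (Fin n) K := ⟨g.1, this⟩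
      have e : Matrix.SpecialLinearGroup.toGL s = g := Units.ext rfl
      exact ⟨_, ((hπ g).trans ((congrArg _ e.symm).trans (Linear.innDiag_toGL s))).symm⟩
    · rintro ⟨s, rfl⟩
      obtain ⟨s, rfl⟩ := QuotientGroup.mk_surjective s
      exact ⟨E (Matrix.SpecialLinearGroup.toGL s), mem_SS.2 ⟨trivial, (LinearMap.det_toLin' _).trans s.2⟩,
        (hπ _).trans (Linear.innDiag_toGL s)⟩
  · obtain ⟨g, σ, h⟩ := Linear.aut_PSL_decomp hn β
    obtain ⟨τ₁, a1, b1, -⟩ := exists_lf_conj le_rfl π (E g)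
    have k : ∀ M : Matrix (Fin n) (Fin n) K, Un ⊤ (Matrix.toLin' M) ↔ M.det ≠ 0 := fun M =>
      ⟨fun ⟨u, _, e⟩ => ((Matrix.isUnit_iff_isUnit_det M).1 (Matrix.isUnit_toLin'_iff.1 ⟨u, e⟩)).ne_zero,
        fun h => let ⟨u, e⟩ := Matrix.isUnit_toLin'_iff.2 ((Matrix.isUnit_iff_isUnit_det M).2 h.isUnit)
          ⟨u, trivial, e⟩⟩
    obtain ⟨τ₂, a2, c2⟩ := exists_tau_field σ (W := ⊤) (n := n) fun M => by
      rw [k, k, ← RingEquiv.mapMatrix_apply, ← RingEquiv.map_det, map_ne_zero]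
    have b2 : Lf π τ₂ (Linear.fieldAut σ) := fun γ => by
      obtain ⟨g, rfl⟩ := E.surjective γ
      exact ⟨E (Linear.fieldGL σ g), .inl (c2 _), by
        rw [hπ, hπ, Linear.fieldAut_mul_innDiag, mul_inv_cancel_right]⟩
    obtain ⟨τ₃, a3, c3⟩ := exists_tau_transpose (K := K) (n := n)
    have b3 : Lf π τ₃ Linear.graphAut := fun γ => by
      obtain ⟨g, rfl⟩ := E.surjective γ
      exact ⟨E (Linear.graphGL g), .inr (c3 _), by
        rw [hπ, hπ, Linear.graphAut_mul_innDiag, mul_inv_cancel_right]⟩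
    rw [hπ] at b1
    rcases h with rfl | ⟨-, rfl⟩
    exacts [⟨_, a2.trans a1, b1.mul b2⟩, ⟨_, a3.trans (a2.trans a1), (b1.mul b2).mul b3⟩]
  · rcases hn.eq_or_lt with rfl | h3
    · obtain ⟨τ, h, -⟩ := Linear.exists_autType_two (F := K)
      exact ⟨(MonoidHom.inl _ _).comp τ, by
        rw [rg, ← h, ← MonoidHom.comap_ker, (MonoidHom.ker_eq_bot_iff _).2 (Prod.mk_left_injective 1),
          MonoidHom.comap_bot]⟩
    · obtain ⟨τ, h, -⟩ := Linear.exists_autType (ι := Fin n) (F := K) (by rw [Fintype.card_fin]; exact h3)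
      exact ⟨τ, h.trans rg.symm⟩

end Cfsg.Lib.WB
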