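import Cfsg.Agent.Lib.WB.LdL
import Cfsg.Agent.Lib.Unitary.Aut

/-!
# S3694: linear data for Aut PSU, and for subgroups
-/

set_option linter.unusedSectionVars false

namespace Cfsg.Lib.WB

open Module Cfsg.Lib.Unitary Cfsg.Lib.Transfer
open scoped commutatorElement

variable {F V : Type*} [Field F] [AddCommGroup V] [Module F V] [Finite F] [Finite V]
  {U : Subgroup (End F V)ˣ}

/-- `σ` from `exists_isBar`, `W = (GU n K q).map Matrix.GeneralLinearGroup.toLin` (`IsBar.mem_GU`), `Γ = W`, `π = diagAut ∘ (iso)⁻¹`.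
`ker`: `ker_diagAut` and the centre of `GU` is scalar (or `Kd.cs`-free: `IsHerm.eq_smul_of_semilinear`, `diagAut_mul_fieldAut_eq_one`,
`exists_semilinear_of_eq_one`).  `mapS`: `diagAut_suToGU`.  `lift`: `aut_PSU_decomp`, `fieldAut_conj_diagAut`, `exists_tau_field` (`fieldGL_mem_GU`).
`out`: `Unitary.exists_autType` followed by `MonoidHom.inl`. -/
theorem ld_PSU {K : Type*} [Field K] [Fintype K] {n q : ℕ} (hK : Fintype.card K = q ^ 2) (hn : 3 ≤ n)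
    (h32 : ¬ (n = 3 ∧ q = 2)) :
    ∃ W : Subgroup (End K (Fin n → K))ˣ, Nonempty (Ld (Cfsg.Inn (PSU n K q)) W) := by
  obtain ⟨σ, hσ⟩ := Unitary.exists_isBar hK
  let T : GL (Fin n) K ≃* (End K (Fin n → K))ˣ := Matrix.GeneralLinearGroup.toLin
  have hT : ∀ g : GL (Fin n) K, ((T g : (End K (Fin n → K))ˣ) : End K (Fin n → K)) = Matrix.toLin' g.1 :=
    fun g => rfl
  let W : Subgroup (End K (Fin n → K))ˣ := (GU n K q).comap T.symm.toMonoidHom
  have hW : ∀ g, T g ∈ W ↔ g ∈ GU n K q := fun g => by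
    change T.symm (T g) ∈ GU n K q ↔ _
    rw [T.symm_apply_apply]
  let e : GU n K q ≃* W := subgroupEquivOf T hW
  have he : ∀ g, ((e g).1 : End K (Fin n → K)) = Matrix.toLin' g.1.1 := fun g => rfl
  let π : W →* MulAut (PSU n K q) := diagAut.comp e.symm.toMonoidHom
  have hπ : ∀ g, π (e g) = diagAut g := fun g => by
    change diagAut (e.symm (e g)) = _
    rw [e.symm_apply_apply]
  have hU : ∀ M, Un W (Matrix.toLin' M) ↔ ∃ g : GU n K q, g.1.1 = M := fun M => by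
    constructor
    · rintro ⟨u, hu, h⟩
      obtain ⟨g, hg⟩ := e.surjective ⟨u, hu⟩
      refine ⟨g, Matrix.toLin'.injective ?_⟩
      rw [← he, hg]; exact h
    · rintro ⟨g, rfl⟩
      exact ⟨_, (e g).2, he g⟩
  refine ⟨W, ⟨⟨W, π, .inr ⟨⟨σ, stdForm σ (Fin n), hσ.isHerm, fun u => ?_⟩, by simpa using hn, ?_⟩, le_rfl,
    inf_le_left, fun u hu => hu.1, fun γ => ?_, ?_, fun β => ?_, ?_⟩⟩⟩
  · obtain ⟨g, rfl⟩ := T.surjective u
    rw [hW, hσ.mem_GU]; rfl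
  · rintro ⟨h1, h2⟩
    rw [Nat.card_eq_fintype_card, hK] at h2
    refine h32 ⟨by simpa using h1, ?_⟩
    exact Nat.pow_left_injective two_ne_zero h2
  · obtain ⟨g, rfl⟩ := e.surjective γ
    rw [hπ, ← MonoidHom.mem_ker, ker_diagAut hK (by omega), mem_center_GU hK (by omega), mem_ZZ, he]
    constructor
    · rintro ⟨a, ha⟩
      exact ⟨(e g).2, a, by rw [ha, map_smul, Matrix.toLin'_one]; rfl⟩
    · rintro ⟨-, a, ha⟩
      exact ⟨a, Matrix.toLin'.injective (by rw [ha, map_smul, Matrix.toLin'_one]; rfl)⟩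
  · apply le_antisymm
    · rintro _ ⟨γ, hγ, rfl⟩
      obtain ⟨g, rfl⟩ := e.surjective γ
      have h1 : LinearMap.det ((e g).1 : End K (Fin n → K)) = 1 := (mem_SS.1 hγ).2
      rw [he, LinearMap.det_toLin'] at h1
      have h2 : g ∈ (suToGU : SU n K q →* GU n K q).range := by
        rw [range_suToGU]; exact Units.ext h1
      obtain ⟨s, rfl⟩ := h2
      rw [hπ, diagAut_suToGU]
      exact ⟨_, rfl⟩
    · rintro _ ⟨x, rfl⟩
      obtain ⟨s, rfl⟩ := QuotientGroup.mk_surjective x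
      refine ⟨e (suToGU s), mem_SS.2 ⟨(e _).2, ?_⟩, by rw [hπ, diagAut_suToGU]⟩
      change LinearMap.det ((e (suToGU s)).1 : End K (Fin n → K)) = 1
      rw [he, LinearMap.det_toLin', suToGU_coe]
      exact s.1.2
  · obtain ⟨g, τ, rfl⟩ := aut_PSU_decomp hK hn h32 β
    obtain ⟨t₁, h1, l1, -⟩ := exists_lf_conj (U := W) le_rfl π (e g)
    obtain ⟨t₂, h2, l2⟩ := exists_tau_field τ (W := W) fun M => by
      rw [hU, hU]
      constructor
      · rintro ⟨x, hx⟩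
        refine ⟨fieldGU τ⁻¹ x, ?_⟩
        rw [fieldGU_coe, hx]
        ext i j
        exact τ.symm_apply_apply _
      · rintro ⟨x, rfl⟩
        exact ⟨fieldGU τ x, fieldGU_coe τ x⟩
    refine ⟨_, h2.trans h1, ?_⟩
    rw [← hπ]
    refine l1.mul fun γ => ?_
    obtain ⟨x, rfl⟩ := e.surjective γ
    exact ⟨e (fieldGU τ x), .inl (by rw [he, he, l2, fieldGU_coe]),
      by rw [hπ, hπ, fieldAut_conj_diagAut]⟩
  · obtain ⟨θ, hθ, -⟩ := Unitary.exists_autType hK hn h32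
    refine ⟨(MonoidHom.inl _ _).comp θ, ?_⟩
    ext β
    rw [MonoidHom.mem_ker, MonoidHom.comp_apply, MonoidHom.inl_apply, Prod.mk_eq_one, and_iff_left rfl,
      ← MonoidHom.mem_ker, hθ]
    constructor
    · rintro ⟨g, rfl⟩
      exact ⟨e g, hπ g⟩
    · rintro ⟨γ, rfl⟩
      exact ⟨e.symm γ, rfl⟩

omit [Finite F] [Finite V] in
/-- `Γ' = {γ ∈ Γ | π γ ∈ range ι}`, `π' = ι⁻¹ ∘ π` (`MonoidHom.ofInjective`). -/
theorem Ld.comap {A G : Type*} [Group A] [Group G] {N' : Subgroup A} (D : Ld N' U) (ι : G →* A)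
    (hi : Function.Injective ι) {N : Subgroup G} (hN : N.map ι = N') : Nonempty (Ld N U) := by
  let Γ : Subgroup (End F V)ˣ := (ι.range.comap D.π).map D.Γ.subtype
  have hle : Γ ≤ D.Γ := Subgroup.map_subtype_le _
  have hm : ∀ γ : D.Γ, D.π γ ∈ ι.range → γ.1 ∈ Γ := fun γ h => ⟨γ, h, rfl⟩
  have hr : ∀ γ : Γ, (D.π.comp (Subgroup.inclusion hle)) γ ∈ ι.range := by
    rintro ⟨_, γ, h, rfl⟩; exact h
  let π : Γ →* G := (MonoidHom.ofInjective hi).symm.toMonoidHom.comp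
    ((D.π.comp (Subgroup.inclusion hle)).codRestrict ι.range hr)
  have hπ : ∀ γ : Γ, ι (π γ) = D.π ⟨γ.1, hle γ.2⟩ := fun γ =>
    MonoidHom.apply_ofInjective_symm hi _
  have hM := hN.trans D.mapS.symm
  have hS : SS U ≤ Γ := fun s hs => hm ⟨s, D.SG hs⟩ (by
    have : D.π ⟨s, D.SG hs⟩ ∈ N.map ι := by rw [hM]; exact ⟨_, hs, rfl⟩
    exact Subgroup.map_le_range _ _ this)
  refine ⟨⟨Γ, π, D.kd, hle.trans D.GU, hS, fun z hz => hm ⟨z, D.ZG hz⟩ ?_, fun γ => ?_, ?_, fun g => ?_, ?_⟩⟩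
  · rw [(D.ker _).2 hz]; exact one_mem _
  · rw [← map_eq_one_iff ι hi, hπ, D.ker]
  · apply Subgroup.map_injective hi
    rw [hM]
    apply le_antisymm
    · rintro _ ⟨_, ⟨γ, hγ, rfl⟩, rfl⟩
      exact ⟨⟨γ.1, hle γ.2⟩, hγ, (hπ γ).symm⟩
    · rintro _ ⟨γ, hγ, rfl⟩
      exact ⟨_, ⟨⟨γ.1, hS hγ⟩, hγ, rfl⟩, hπ _⟩
  · obtain ⟨τ, h1, h2⟩ := D.lift (ι g)
    refine ⟨τ, h1, fun γ => ?_⟩
    obtain ⟨γ', h3, h4⟩ := h2 ⟨γ.1, hle γ.2⟩
    rw [← hπ, ← map_inv, ← map_mul, ← map_mul] at h4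
    exact ⟨⟨γ'.1, hm γ' ⟨_, h4.symm⟩⟩, h3, hi ((hπ _).trans h4)⟩
  · obtain ⟨φ, hφ⟩ := D.out
    refine ⟨φ.comp ι, ?_⟩
    ext g
    rw [MonoidHom.mem_ker, MonoidHom.comp_apply, ← MonoidHom.mem_ker, hφ]
    constructor
    · rintro ⟨γ, h⟩
      exact ⟨⟨γ.1, hm γ ⟨g, h.symm⟩⟩, hi ((hπ _).trans h)⟩
    · rintro ⟨γ, rfl⟩
      exact ⟨_, (hπ γ).symm⟩

/-- `MulAut.conjNormal` followed by `MulAut.congr e` -/
theorem exists_iota {G P : Type*} [Group G] [Group P] {N : Subgroup G} [N.Normal]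
    (hc : Subgroup.centralizer (N : Set G) = ⊥) (e : N ≃* P) :
    ∃ ι : G →* MulAut P, Function.Injective ι ∧ N.map ι = Cfsg.Inn P := by
  let ι : G →* MulAut P := (MulAut.congr e).toMonoidHom.comp MulAut.conjNormal
  have h1 : ∀ x : N, ι x = MulAut.conj (e x) := fun x => by
    ext y
    obtain ⟨y, rfl⟩ := e.surjective y
    change e (MulAut.conjNormal (x : G) (e.symm (e y))) = e x * e y * (e x)⁻¹
    rw [e.symm_apply_apply, ← map_inv, ← map_mul, ← map_mul]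
    exact congrArg e (Subtype.ext rfl)
  refine ⟨ι, (injective_iff_map_eq_one ι).2 fun g hg => ?_, le_antisymm ?_ ?_⟩
  · rw [← Subgroup.mem_bot, ← hc, Subgroup.mem_centralizer_iff]
    intro x hx
    have h2 : MulAut.conjNormal g = (1 : MulAut N) :=
      (map_eq_one_iff _ (MulAut.congr e).injective).1 hg
    have h3 : g * x * g⁻¹ = x := congrArg Subtype.val (DFunLike.congr_fun h2 (⟨x, hx⟩ : N))
    rw [mul_inv_eq_iff_eq_mul] at h3
    exact h3.symm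
  · rintro _ ⟨x, hx, rfl⟩
    exact ⟨e ⟨x, hx⟩, (h1 ⟨x, hx⟩).symm⟩
  · rintro _ ⟨y, rfl⟩
    obtain ⟨x, rfl⟩ := e.surjective y
    exact ⟨x, x.2, h1 x⟩

theorem exists_ld {G : Type*} [Group G] {N : Subgroup G} [N.Normal] (hc : Subgroup.centralizer (N : Set G) = ⊥)
    (h : Cfsg.IsPSL N ∨ Cfsg.IsPSU N) :
    ∃ (K : Type) (_ : Field K) (_ : Finite K) (n : ℕ) (W : Subgroup (End K (Fin n → K))ˣ), Nonempty (Ld N W) := by
  rcases h with ⟨K, _, _, n, hn, h4, ⟨e⟩⟩ | ⟨K, _, _, n, q, hK, hn, h32, ⟨e⟩⟩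
  · obtain ⟨ι, hi, hN⟩ := exists_iota hc e
    obtain ⟨D⟩ := ld_PSL hn h4
    exact ⟨K, _, inferInstance, n, _, D.comap ι hi hN⟩
  · obtain ⟨ι, hi, hN⟩ := exists_iota hc e
    obtain ⟨W, ⟨D⟩⟩ := ld_PSU hK hn h32
    exact ⟨K, _, inferInstance, n, _, D.comap ι hi hN⟩

end Cfsg.Lib.WB
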