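import Cfsg.Agent.Lib.WB.W

/-!
# S3694: the case `p = char F`
-/

set_option linter.unusedSectionVars false

namespace Cfsg.Lib.WB

open Module Cfsg.Lib.Unitary Cfsg.Lib.Transfer
open scoped commutatorElement

variable {F V : Type*} [Field F] [AddCommGroup V] [Module F V] [Finite F] [Finite V]
  {U : Subgroup (End F V)ˣ}

namespace LC

variable {p : ℕ} (L : LC U p)

/-- the `p`-elements of `E` -/
def Pe : Set (End F V)ˣ := {e | e ∈ L.E ∧ ∃ j : ℕ, e ^ p ^ j = 1}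

/-- `{e - 1}` -/
def II : Set (End F V) := {X | ∃ e ∈ L.Pe, X = (e : End F V) - 1}

/-- fixed space -/
def CC : Submodule F V := ⨅ a ∈ L.II, LinearMap.ker a

/-- commutator space -/
def DD : Submodule F V := ⨆ a ∈ L.II, LinearMap.range a

theorem mem_CC {v : V} : v ∈ L.CC ↔ ∀ e ∈ L.Pe, (e : End F V) v = v := by
  simp only [CC, Submodule.mem_iInf, LinearMap.mem_ker]
  exact ⟨fun h e he => sub_eq_zero.1 (h _ ⟨e, he, rfl⟩), by
    rintro h _ ⟨e, he, rfl⟩; exact sub_eq_zero.2 (h e he)⟩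

theorem DD_le {W : Submodule F V} : L.DD ≤ W ↔ ∀ e ∈ L.Pe, ∀ v, (e : End F V) v - v ∈ W := by
  simp only [DD, iSup_le_iff]
  exact ⟨fun h e he v => h _ ⟨e, he, rfl⟩ ⟨v, rfl⟩, by rintro h _ ⟨e, he, rfl⟩ _ ⟨v, rfl⟩; exact h e he v⟩

theorem sub_mem_DD {e : (End F V)ˣ} (he : e ∈ L.Pe) (v : V) : (e : End F V) v - v ∈ L.DD :=
  L.DD_le.1 le_rfl e he v

omit [Finite F] [Finite V] in
theorem _root_.Cfsg.Lib.WB.pl_conj {x : (End F V)ˣ} (g : (End F V)ˣ) (h : ∃ j : ℕ, x ^ p ^ j = 1) :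
    ∃ j : ℕ, (g * x * g⁻¹) ^ p ^ j = 1 :=
  h.imp fun j hj => by rw [conj_pow, hj, mul_one, mul_inv_cancel]

omit [Finite F] [Finite V] in
theorem _root_.Cfsg.Lib.WB.pl_mul (a b : (End F V)ˣ) (v : V) :
    ((a * b : (End F V)ˣ) : End F V) v = (a : End F V) ((b : End F V) v) := rfl

omit [Finite F] [Finite V] in
theorem _root_.Cfsg.Lib.WB.pl_inv (a : (End F V)ˣ) (v : V) :
    ((a⁻¹ : (End F V)ˣ) : End F V) ((a : End F V) v) = v := by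
  rw [← pl_mul, inv_mul_cancel]; rfl

omit [Finite F] [Finite V] in
theorem _root_.Cfsg.Lib.WB.pl_inv' (a : (End F V)ˣ) (v : V) :
    (a : End F V) (((a⁻¹ : (End F V)ˣ) : End F V) v) = v := by
  rw [← pl_mul, mul_inv_cancel]; rfl

theorem conj_Pe {h e : (End F V)ˣ} (hh : h ∈ L.H) (he : e ∈ L.Pe) : h * e * h⁻¹ ∈ L.Pe :=
  ⟨L.conj_mem L.tE hh he.1, pl_conj h he.2⟩

theorem exists_Q (h0 : (p : F) = 0) :
    ∃ Q : Subgroup (End F V)ˣ, (∀ x, x ∈ Q ↔ x ∈ L.Pe) ∧ ∃ q ∈ L.Pe, q ≠ 1 := by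
  obtain ⟨Q, h1, h2⟩ := exists_pp L.pp h0 L.ZE fun k hk => ⟨1, by rw [pow_one]; exact L.pE k hk⟩
  refine ⟨Q, h1, by_contra fun n => L.ne fun k hk => ?_⟩
  obtain ⟨z, hz, q, hq, rfl⟩ := h2 k hk
  obtain rfl : q = 1 := by_contra fun q1 => n ⟨q, (h1 q).1 hq, q1⟩
  rwa [mul_one]

theorem st_DD' {n : (End F V)ˣ} (hn : ∀ e ∈ L.Pe, n * e * n⁻¹ ∈ L.Pe) : St L.DD (n : End F V) := fun _ hv =>
  (L.DD_le (W := L.DD.comap (n : End F V))).2 (fun e he v => by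
    have := L.sub_mem_DD (hn e he) ((n : End F V) v)
    rwa [pl_mul, pl_mul, pl_inv, ← map_sub] at this) hv

theorem ts_II : TS L.T L.II := by
  rintro τ hτ _ ⟨e, ⟨he, j, hj⟩, rfl⟩
  have t := L.tau τ hτ
  refine ⟨t.u e, ⟨L.tE.u_mem hτ t he, j, ?_⟩, by rw [map_sub, t.one, t.coe_u]⟩
  rw [← t.u_pow, hj]
  exact Units.ext t.one

/-- `H` normalises `Pe` -/
theorem st_CC {h : (End F V)ˣ} (hh : h ∈ L.H) : St L.CC (h : End F V) := by
  refine fun v hv => L.mem_CC.2 fun e he => ?_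
  have := L.mem_CC.1 hv _ (L.conj_Pe (inv_mem hh) he)
  rw [inv_inv, pl_mul, pl_mul] at this
  rw [← pl_inv' h ((e : End F V) _), this]

theorem st_DD {h : (End F V)ˣ} (hh : h ∈ L.H) : St L.DD (h : End F V) := by
  exact L.st_DD' fun e he => L.conj_Pe hh he

/-- `Pe` is a subgroup `Q` (`exists_pp`), `Q ≠ 1` as `E = ZZ · Q` (`ne`).  `DD ≠ ⊥`, `CC ≠ ⊤`.  `up_fix` with `⊥ < DD` gives
`CC ⊓ DD ≠ ⊥`; `up_comm` with `CC < ⊤` gives `CC ⊔ DD ≠ ⊤`; `perp_fix`. -/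
theorem pr (h0 : (p : F) = 0) : Pr U (L.CC ⊓ L.DD) (L.CC ⊔ L.DD) := by
  obtain ⟨Q, hQ, q, hq, q1⟩ := L.exists_Q h0
  have hp : ∀ q ∈ Q, ∃ j : ℕ, q ^ p ^ j = 1 := fun q hq => ((hQ q).1 hq).2
  have hH : ∀ q ∈ Q, q ∈ L.H := fun q hq => L.EH ((hQ q).1 hq).1
  have n : ∃ v, (q : End F V) v ≠ v := by
    by_contra! z
    exact q1 (Units.ext (LinearMap.ext z))
  obtain ⟨v, hv⟩ := n
  refine ⟨?_, inf_le_sup, ?_, fun σ B h => ?_⟩
  · obtain ⟨w, w1, w2, w3⟩ := up_fix L.pp h0 hp (W₁ := ⊥) (W₂ := L.DD)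
      (bot_lt_iff_ne_bot.2 fun z => hv (sub_eq_zero.1 (z.le (L.sub_mem_DD hq v))))
      (fun q _ x hx => by rw [(Submodule.mem_bot F).1 hx, map_zero]; exact zero_mem _)
      fun q hq => L.st_DD (hH q hq)
    exact fun z => w2 (z.le ⟨L.mem_CC.2 fun e he => sub_eq_zero.1 (w3 e ((hQ e).2 he)), w1⟩)
  · obtain ⟨W, w1, w2, w3⟩ := up_comm L.pp h0 hp (W₁ := L.CC) (W₂ := ⊤)
      (lt_top_iff_ne_top.2 fun z => hv (L.mem_CC.1 (z.ge trivial) q hq))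
      (fun q hq => L.st_CC (hH q hq)) fun _ _ _ _ => trivial
    exact ((sup_le w1 (L.DD_le.2 fun e he v => w3 e ((hQ e).2 he) v trivial)).trans_lt w2).ne
  · have e1 : L.CC = ⨅ q ∈ Q, LinearMap.ker ((q : End F V) - 1) := by
      ext x
      simp only [L.mem_CC, Submodule.mem_iInf, LinearMap.mem_ker, hQ, LinearMap.sub_apply, End.one_apply,
        sub_eq_zero]
    have e2 : L.DD = ⨆ q ∈ Q, LinearMap.range ((q : End F V) - 1) :=
      le_antisymm (L.DD_le.2 fun e he v => le_iSup₂ (f := fun (q : (End F V)ˣ) (_ : q ∈ Q) =>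
        LinearMap.range ((q : End F V) - 1)) e ((hQ e).2 he) ⟨v, rfl⟩)
        (iSup₂_le fun e he => by rintro _ ⟨v, rfl⟩; exact L.sub_mem_DD ((hQ e).1 he) v)
    rw [e1, e2]
    exact perp_fix h fun q hq => L.HU (hH q hq)

theorem exists_II (h0 : (p : F) = 0) : ∃ X ∈ L.II, X ≠ 0 := by
  obtain ⟨-, -, q, hq, q1⟩ := L.exists_Q h0
  exact ⟨_, ⟨q, hq, rfl⟩, fun z => q1 (Units.ext (sub_eq_zero.1 z))⟩

/-- `w2` for `homAlg` (`ts_homAlg`, `homAlg_comm`; the root `X` of `Kd.g1` is not scalar and `1 + X ∈ SS U`). -/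
theorem mem_H_of_st (h0 : (p : F) = 0) {s : (End F V)ˣ} (hs : s ∈ SS U) (h1 : St (L.CC ⊓ L.DD) (s : End F V))
    (h2 : St (L.CC ⊔ L.DD) (s : End F V)) : s ∈ L.H := by
  obtain ⟨X, x0, xr, x1, x2⟩ := L.kd.g1 (L.pr h0)
  have ns : ¬ Sc X := by
    rintro ⟨c, rfl⟩
    have := xr.1
    rw [smul_mul_assoc, one_mul, smul_eq_zero] at this
    rcases this with rfl | e
    exacts [x0 (zero_smul _ _), x0 e]
  obtain ⟨t, ht, t1, -⟩ := xr.exists_SS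
  refine L.w2 (ts_homAlg (fun τ hτ => ⟨(L.tau τ hτ).mul, fun c => ?_⟩) L.symm L.ts_II) ns
    (fun a ha => homAlg_comm _ ⟨0, X, x1, x2, by simp⟩ ha)
    ⟨t, L.SG ht, ⟨1, X, x1, x2, by simp [t1]⟩, ?_⟩ (L.SG hs) ?_
  · obtain ⟨φ, hφ⟩ := (L.tau τ hτ).smul
    exact ⟨φ c, by rw [hφ, (L.tau τ hτ).one]⟩
  · rintro ⟨c, hc⟩
    exact ns ⟨c - 1, by rw [sub_smul, ← hc, t1, one_smul, add_sub_cancel_left]⟩
  · rintro _ ⟨c, Y, y1, y2, rfl⟩
    refine ⟨c, (s : End F V) * Y * ((s⁻¹ : (End F V)ˣ) : End F V), ?_, fun v hv => ?_, ?_⟩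
    · rintro _ ⟨v, rfl⟩
      exact h1 _ (y1 ⟨_, rfl⟩)
    · have : Y (((s⁻¹ : (End F V)ˣ) : End F V) v) = 0 := y2 (h2.inv v hv)
      rw [LinearMap.mem_ker, End.mul_apply, End.mul_apply, this, map_zero]
    · rw [mul_add, add_mul, mul_smul_comm, mul_one, smul_mul_assoc, Units.mul_inv]

theorem inv (h0 : (p : F) = 0) {W : Submodule F V} (hW : ∀ h ∈ L.H, St W (h : End F V)) :
    W = ⊥ ∨ W = L.CC ⊓ L.DD ∨ W = L.CC ⊔ L.DD ∨ W = ⊤ :=
  L.kd.inv (L.pr h0) fun s hs h1 h2 => hW s (L.mem_H_of_st h0 hs h1 h2)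

/-- `CC` and `DD` are `H`-invariant, between `V₁` and `V₂`. -/
theorem cases (h0 : (p : F) = 0) : L.CC ≤ L.DD ∨ L.DD ≤ L.CC := by
  rcases L.inv h0 (W := L.CC) (fun h hh => L.st_CC hh) with e | e | e | e
  · exact .inl (e.le.trans bot_le)
  · exact .inl (e.le.trans inf_le_right)
  · exact .inr (le_sup_right.trans e.ge)
  · exact .inr (le_top.trans e.ge)

theorem st_inf {h : (End F V)ˣ} (hh : h ∈ L.H) : St (L.CC ⊓ L.DD) (h : End F V) :=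
  fun v hv => ⟨L.st_CC hh v hv.1, L.st_DD hh v hv.2⟩

theorem st_sup {h : (End F V)ˣ} (hh : h ∈ L.H) : St (L.CC ⊔ L.DD) (h : End F V) := fun v hv => by
  obtain ⟨a, ha, b, hb, rfl⟩ := Submodule.mem_sup.1 hv
  rw [map_add]
  exact Submodule.add_mem_sup (L.st_CC hh a ha) (L.st_DD hh b hb)

theorem triv_aux (h0 : (p : F) = 0) {A B : Submodule F V} (hA : ∀ h ∈ L.H, St A (h : End F V))
    (hB : ∀ h ∈ L.H, St B (h : End F V)) (hAB : A < B) :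
    ∃ W : Submodule F V, (∀ h ∈ L.H, St W (h : End F V)) ∧ ¬ W ≤ A ∧
      ∀ y ∈ L.Y, (∃ j : ℕ, y ^ p ^ j = 1) → ∀ v ∈ W, (y : End F V) v - v ∈ A := by
  obtain ⟨Q, hQ, -⟩ := exists_pp L.pp h0 L.ZY L.pY
  have hH : ∀ q ∈ Q, q ∈ L.H := fun q hq => L.YH ((hQ q).1 hq).1
  obtain ⟨w, -, w2, w3⟩ := up_fix L.pp h0 (fun q hq => ((hQ q).1 hq).2) hAB (fun q hq => hA q (hH q hq))
    fun q hq => hB q (hH q hq)
  have m : ∀ v, v ∈ (⨅ q ∈ Q, A.comap ((q : End F V) - 1)) ↔ ∀ q ∈ Q, (q : End F V) v - v ∈ A := fun v => by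
    simp only [Submodule.mem_iInf, Submodule.mem_comap, LinearMap.sub_apply, End.one_apply]
  refine ⟨⨅ q ∈ Q, A.comap ((q : End F V) - 1), fun h hh v hv => (m _).2 fun q hq => ?_,
    fun l => w2 (l ((m w).2 w3)), fun y hy hp v hv => (m v).1 hv y ((hQ y).2 ⟨hy, hp⟩)⟩
  have := hA h hh _ ((m v).1 hv _ ((hQ _).2
    ⟨L.conj_mem L.tY (inv_mem hh) ((hQ q).1 hq).1, pl_conj h⁻¹ ((hQ q).1 hq).2⟩))
  rwa [map_sub, inv_inv, pl_mul, pl_mul, pl_inv'] at this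

/-- The `p`-elements of `Y` form a subgroup `Q` normalised by `H`.  `{v ∈ V₁ | Q v = v}` is `H`-invariant and `≠ ⊥` (`up_fix`), so
`V₁`.  `{v ∈ V₂ | ∀ q, q v - v ∈ V₁}` is `H`-invariant and bigger than `V₁` if `V₁ < V₂`.  `⨆ range (q - 1)` is `H`-invariant and
`≠ ⊤` (`up_comm`), so `≤ V₂`. -/
theorem triv (h0 : (p : F) = 0) {y : (End F V)ˣ} (hy : y ∈ L.Y) (hp : ∃ j : ℕ, y ^ p ^ j = 1) :
    (∀ v ∈ L.CC ⊓ L.DD, (y : End F V) v = v) ∧ (∀ v ∈ L.CC ⊔ L.DD, (y : End F V) v - v ∈ L.CC ⊓ L.DD) ∧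
      ∀ v, (y : End F V) v - v ∈ L.CC ⊔ L.DD := by
  have P := L.pr h0
  refine ⟨fun v hv => ?_, fun v hv => ?_, fun v => ?_⟩
  · obtain ⟨W, w1, w2, w3⟩ := L.triv_aux h0 (A := ⊥)
      (fun q _ x hx => by rw [(Submodule.mem_bot F).1 hx, map_zero]; exact zero_mem _)
      (fun h hh => L.st_inf hh) (bot_lt_iff_ne_bot.2 P.1)
    refine sub_eq_zero.1 (w3 y hy hp v ?_)
    rcases L.inv h0 w1 with e | e | e | e
    exacts [(w2 e.le).elim, e.ge hv, e.ge (P.2.1 hv), e.ge trivial]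
  · rcases P.2.1.eq_or_lt with e | l
    · rw [← e] at hv
      exact sub_mem (L.st_inf (L.YH hy) v hv) hv
    obtain ⟨W, w1, w2, w3⟩ := L.triv_aux h0 (fun h hh => L.st_inf hh) (fun h hh => L.st_sup hh) l
    refine w3 y hy hp v ?_
    rcases L.inv h0 w1 with e | e | e | e
    exacts [(w2 (e.le.trans bot_le)).elim, (w2 e.le).elim, e.ge hv, e.ge trivial]
  · obtain ⟨W, w1, w2, w3⟩ := L.triv_aux h0 (B := ⊤) (fun h hh => L.st_sup hh) (fun _ _ _ _ => trivial)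
      (lt_top_iff_ne_top.2 P.2.2.1)
    refine w3 y hy hp v ?_
    rcases L.inv h0 w1 with e | e | e | e
    exacts [(w2 (e.le.trans bot_le)).elim, (w2 (e.le.trans P.2.1)).elim, (w2 e.le).elim, e.ge trivial]

theorem pe_Ek {k e : (End F V)ˣ} (he : e ∈ L.Pe) : k⁻¹ * e * k ∈ Ek L.E k := by
  rw [mem_Ek]
  simpa [mul_assoc] using he.1

theorem triv_K (h0 : (p : F) = 0) {k e : (End F V)ˣ} (hk : k ∈ L.K) (he : e ∈ L.Pe) :
    (∀ v ∈ L.CC ⊓ L.DD, (e : End F V) ((k : End F V) v) = (k : End F V) v) ∧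
      (∀ v ∈ L.CC ⊔ L.DD, (e : End F V) ((k : End F V) v) - (k : End F V) v ∈ (L.CC ⊓ L.DD).map (k : End F V)) ∧
      ∀ v, (e : End F V) ((k : End F V) v) - (k : End F V) v ∈ (L.CC ⊔ L.DD).map (k : End F V) := by
  obtain ⟨a, b, c⟩ := L.triv h0 (L.KY k hk (L.pe_Ek he)) (by simpa using pl_conj k⁻¹ he.2)
  have q : ∀ v, (k : End F V) (((k⁻¹ * e * k : (End F V)ˣ) : End F V) v) = (e : End F V) ((k : End F V) v) :=
    fun v => by rw [pl_mul, pl_mul, pl_inv']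
  exact ⟨fun v hv => by rw [← q, a v hv], fun v hv => ⟨_, b v hv, by rw [map_sub, q]⟩,
    fun v => ⟨_, c v, by rw [map_sub, q]⟩⟩

/-- for `k ∈ K`, `e ∈ Pe`, `k⁻¹ e k` is a `p`-element of `Y`; first part of `triv`. -/
theorem map_le_CC (h0 : (p : F) = 0) {k : (End F V)ˣ} (hk : k ∈ L.K) :
    (L.CC ⊓ L.DD).map (k : End F V) ≤ L.CC := by
  rintro _ ⟨v, hv, rfl⟩
  exact L.mem_CC.2 fun e he => (L.triv_K h0 hk he).1 v hv

/-- third part of `triv`: `range (k⁻¹ (e - 1) k) ≤ V₂`. -/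
theorem DD_le_map (h0 : (p : F) = 0) {k : (End F V)ˣ} (hk : k ∈ L.K) :
    L.DD ≤ (L.CC ⊔ L.DD).map (k : End F V) := by
  refine L.DD_le.2 fun e he v => ?_
  have := (L.triv_K h0 hk he).2.2 (((k⁻¹ : (End F V)ˣ) : End F V) v)
  rwa [pl_inv'] at this

/-- `V₁ = CC`, every `k ∈ K` stabilises it; `xlem`. -/
theorem not_CC_le (h0 : (p : F) = 0) : ¬ L.CC ≤ L.DD := by
  intro h
  have P := L.pr h0
  rcases L.xlem (W := L.CC) (fun k hk v hv => L.map_le_CC h0 hk ⟨v, ⟨hv, h hv⟩, rfl⟩) with e | e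
  · exact P.1 (by rw [e, bot_inf_eq])
  · exact P.2.2.1 (by rw [e, top_sup_eq])

theorem uw_DD (h0 : (p : F) = 0) (hD : L.DD ≤ L.CC) {g : (End F V)ˣ} (hg : g ∈ U) {v : V} (hv : v ∈ L.CC)
    (hw : (g : End F V) v ∉ L.CC)
    (hX : ∀ e ∈ L.Pe, (e : End F V) ((g : End F V) v) - (g : End F V) v ∈ L.DD.map (g : End F V)) :
    St L.DD (g : End F V) := by
  have P := L.pr h0
  have M := @LC.mem_H_of_st _ _ _ _ _ _ _ _ _ L h0
  rw [inf_eq_right.2 hD, sup_eq_left.2 hD] at P M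
  have := L.kd.uw P (P.map hg) (𝒳 := L.II) (by
      rintro _ ⟨e, he, rfl⟩
      exact ⟨by rintro _ ⟨x, rfl⟩; exact L.sub_mem_DD he x, fun x hx => sub_eq_zero.2 (L.mem_CC.1 hx e he)⟩)
    (L.exists_II h0) (fun s hs s1 s2 X hX => L.conj_mem' L.ts_II (M hs s1 s2) hX) ⟨v, hv, rfl⟩ hw
    (by rintro _ ⟨e, he, rfl⟩; exact hX e he)
  have i : St L.DD ((g⁻¹ : (End F V)ˣ) : End F V) := fun x hx => by
    obtain ⟨u, hu, rfl⟩ := this hx
    rwa [pl_inv]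
  simpa using i.inv

/-- Case `DD ≤ CC`, so `V₁ = DD`, `V₂ = CC`, `II` satisfies the hypotheses of `Kd.uw`.  If `k` does not stabilise `CC` then
`CC.map k ≠ CC`; same dimension, so there is `w ∈ CC.map k \ CC`; by the second part of `triv`, `X w ∈ DD.map k` for `X ∈ II`; `uw` with
`W_i = V_i.map k` (`Pr.map`) gives `DD ≤ DD.map k`, equality by dimension. -/
theorem st_or (h0 : (p : F) = 0) (hD : L.DD ≤ L.CC) {k : (End F V)ˣ} (hk : k ∈ L.K) :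
    St L.DD (k : End F V) ∨ St L.CC (k : End F V) := by
  refine or_iff_not_imp_right.2 fun n => ?_
  simp only [St, not_forall] at n
  obtain ⟨v, hv, hw⟩ := n
  refine L.uw_DD h0 hD (L.KU hk) hv hw fun e he => ?_
  exact Submodule.map_mono inf_le_right ((L.triv_K h0 hk he).2.1 v (Submodule.mem_sup_left hv))

/-- Claim: `k⁻¹ DD ≤ k'⁻¹ CC` for `k, k' ∈ K`.  If `k` stabilises `DD`: `map_le_CC` for `k'`.  If `k'` stabilises `CC`: `DD_le_map` for `k`.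
Otherwise `k'` stabilises `DD` (`st_or`) and `k` does not.  The elements `x = k'⁻¹ e k'` (`e ∈ Pe`) normalise `k⁻¹ Pe k` (`KK`), so stabilise
`k⁻¹ DD`; so `Pe` stabilises `W₁ = (k' k⁻¹) DD`.  If `W₁ ≰ CC`, `uw` (`w ∈ W₁ \ CC`, `W₂ = (k' k⁻¹) CC`) gives `DD ≤ W₁`, so `DD = W₁`,
`k⁻¹ DD = k'⁻¹ DD = DD`, contradiction. -/
theorem map_le_map (h0 : (p : F) = 0) (hD : L.DD ≤ L.CC) {k k' : (End F V)ˣ} (hk : k ∈ L.K) (hk' : k' ∈ L.K) :
    L.DD.map ((k⁻¹ : (End F V)ˣ) : End F V) ≤ L.CC.map ((k'⁻¹ : (End F V)ˣ) : End F V) := by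
  rintro _ ⟨v, hv, rfl⟩
  refine ⟨(k' : End F V) (((k⁻¹ : (End F V)ˣ) : End F V) v), ?_, pl_inv _ _⟩
  by_cases h1 : St L.DD (k : End F V)
  · exact L.map_le_CC h0 hk' ⟨_, ⟨hD (h1.inv v hv), h1.inv v hv⟩, rfl⟩
  rcases L.st_or h0 hD hk' with h2 | h2
  swap
  · obtain ⟨u, hu, rfl⟩ := L.DD_le_map h0 hk hv
    rw [pl_inv]
    exact h2 u ((sup_le le_rfl hD) hu)
  by_contra hw
  have g := L.uw_DD h0 hD (g := k' * k⁻¹) (mul_mem (L.KU hk') (inv_mem (L.KU hk))) (hD hv) hw fun e he => by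
    have n : St L.DD ((k * (k'⁻¹ * e * k') * k⁻¹ : (End F V)ˣ) : End F V) := L.st_DD' fun e' he' => by
      refine ⟨?_, pl_conj _ he'.2⟩
      have := L.KK k' hk' k hk _ (L.pe_Ek he) _ (L.pe_Ek he')
      rw [mem_Ek] at this
      convert this using 1
      group
    refine sub_mem ⟨_, n v hv, ?_⟩ ⟨v, hv, rfl⟩
    rw [← pl_mul, ← pl_mul]
    congr 2
    group
  refine h1 ?_
  have i : St L.DD ((k⁻¹ : (End F V)ˣ) : End F V) := fun x hx => by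
    have := h2.inv _ (g x hx)
    rwa [pl_mul, pl_inv] at this
  simpa using i.inv

include L in
/-- By `xlem` some `k₁ ∈ K` does not stabilise `DD` and some `k₂ ∈ K` does not stabilise `CC`; by `st_or`, `k₂` stabilises `DD` and
`k₁` stabilises `CC`.  `S = ⨆_{k ∈ K} k⁻¹ DD` is `H`-invariant (`Kc`), `≤ CC` (`DD_le_map`), `≥ k₂⁻¹ DD = DD`, `≠ DD` (`k₁`), so `S = CC` by `inv`.
By `map_le_map`, `CC = S ≤ k₂⁻¹ CC`, so `k₂` stabilises `CC`. -/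
theorem false_of_char (h0 : (p : F) = 0) : False := by
  have hD := (L.cases h0).resolve_left (L.not_CC_le h0)
  have P := L.pr h0
  have I := @LC.inv _ _ _ _ _ _ _ _ _ L h0
  rw [inf_eq_right.2 hD, sup_eq_left.2 hD] at P I
  have n1 : ¬ ∀ k ∈ L.K, St L.DD (k : End F V) := fun h => (L.xlem h).elim P.1 fun e =>
    P.2.2.1 (eq_top_iff.2 (e.ge.trans hD))
  have n2 : ¬ ∀ k ∈ L.K, St L.CC (k : End F V) := fun h => (L.xlem h).elim
    (fun e => P.1 (eq_bot_iff.2 (hD.trans e.le))) P.2.2.1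
  simp only [not_forall] at n1 n2
  obtain ⟨k₁, hk₁, n1⟩ := n1
  obtain ⟨k₂, hk₂, n2⟩ := n2
  have s2 := (L.st_or h0 hD hk₂).resolve_right n2
  set S : Submodule F V := ⨆ k ∈ L.K, L.DD.map ((k⁻¹ : (End F V)ˣ) : End F V) with hS
  have le : ∀ k ∈ L.K, L.DD.map ((k⁻¹ : (End F V)ˣ) : End F V) ≤ S := fun k hk =>
    le_iSup₂ (f := fun (k : (End F V)ˣ) (_ : k ∈ L.K) => L.DD.map ((k⁻¹ : (End F V)ˣ) : End F V)) k hk
  have hH : ∀ h ∈ L.H, St S (h : End F V) := fun h hh v hv =>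
    (iSup₂_le (f := fun (k : (End F V)ˣ) (_ : k ∈ L.K) => L.DD.map ((k⁻¹ : (End F V)ˣ) : End F V))
      (a := S.comap (h : End F V)) fun k hk => by
        rintro _ ⟨u, hu, rfl⟩
        refine le _ (L.Kc k hk h hh) ⟨_, L.st_DD hh u hu, ?_⟩
        rw [← pl_mul, ← pl_mul]
        congr 2
        group) hv
  have d : L.DD ≤ S := fun v hv => le _ hk₂ ⟨_, s2 v hv, pl_inv _ _⟩
  have c : L.CC ≤ S := by
    rcases I hH with e | e | e | e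
    · exact (P.1 (eq_bot_iff.2 (d.trans e.le))).elim
    · have i : St L.DD ((k₁⁻¹ : (End F V)ˣ) : End F V) := fun x hx => e.le (le _ hk₁ ⟨x, hx, rfl⟩)
      exact (n1 (by simpa using i.inv)).elim
    · exact e.ge
    · exact le_top.trans e.ge
  refine n2 fun v hv => ?_
  obtain ⟨u, hu, rfl⟩ := (c.trans (iSup₂_le fun k hk => L.map_le_map h0 hD hk hk₂)) hv
  rwa [pl_inv']

end LC

end Cfsg.Lib.WB
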