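import Cfsg.Agent.Lib.WB.Bd
import Cfsg.Agent.Lib.WB.Grp
import Cfsg.Agent.Lib.WB.LdL
import Cfsg.Agent.Lib.WB.FK

/-!
# S3694: transfer from the group to the linear configuration
-/

set_option linter.unusedSectionVars false

namespace Cfsg.Lib.WB

open Module Cfsg.Lib.Unitary Cfsg.Lib.Transfer
open scoped commutatorElement

variable {F V : Type*} [Field F] [AddCommGroup V] [Module F V] [Finite F] [Finite V]
  {U : Subgroup (End F V)ˣ}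

variable {G : Type*} [Group G] [Finite G] {N : Subgroup G}

namespace Ld

variable (D : Ld N U)

/-- preimage -/
def hat (K : Subgroup G) : Subgroup (End F V)ˣ := (K.comap D.π).map D.Γ.subtype

theorem mem_hat {K : Subgroup G} {x : (End F V)ˣ} : x ∈ D.hat K ↔ ∃ h : x ∈ D.Γ, D.π ⟨x, h⟩ ∈ K := by
  exact ⟨fun ⟨y, hy, e⟩ => e ▸ ⟨y.2, hy⟩, fun ⟨h, k⟩ => ⟨⟨x, h⟩, k, rfl⟩⟩

theorem mem_hat' {K : Subgroup G} {x : D.Γ} : x.1 ∈ D.hat K ↔ D.π x ∈ K :=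
  D.mem_hat.trans ⟨fun h => h.2, fun h => ⟨x.2, h⟩⟩

/-- image -/
def img (A : Subgroup (End F V)ˣ) : Subgroup G := (A.subgroupOf D.Γ).map D.π

/-- lifts of the elements of `H` -/
def TT (H : Subgroup G) : Set (End F V ≃+ End F V) := {τ | Tau U τ ∧ ∃ h ∈ H, Lf D.π τ h}

/-- preimage of the `H`-class of `g` -/
def KK (H : Subgroup G) (g : G) : Set (End F V)ˣ := {k | ∃ hk : k ∈ D.Γ, ∃ t ∈ H, D.π ⟨k, hk⟩ = t * g * t⁻¹}

theorem hat_le (K : Subgroup G) : D.hat K ≤ D.Γ := by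
  exact Subgroup.map_subtype_le _

theorem hat_mono {K K' : Subgroup G} (h : K ≤ K') : D.hat K ≤ D.hat K' := by
  exact Subgroup.map_mono (Subgroup.comap_mono h)

theorem ZZ_le_hat (K : Subgroup G) : ZZ U ≤ D.hat K := by
  exact fun z hz => D.mem_hat.2 ⟨D.ZG hz, (D.ker ⟨z, D.ZG hz⟩).2 hz ▸ one_mem K⟩

/-- if `ZZ U ≤ A ≤ Γ` then `A` is the full preimage of its image -/
theorem mem_img {A : Subgroup (End F V)ˣ} (hZ : ZZ U ≤ A) {x : D.Γ} : D.π x ∈ D.img A ↔ x.1 ∈ A := by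
  refine ⟨fun ⟨y, hy, e⟩ => ?_, fun h => ⟨x, h, rfl⟩⟩
  have := hZ ((D.ker (y⁻¹ * x)).1 (by rw [map_mul, map_inv, e, inv_mul_cancel]))
  exact (mul_mem_cancel_left (inv_mem (Subgroup.mem_subgroupOf.1 hy))).1 this

theorem img_eq_bot {A : Subgroup (End F V)ˣ} (hA : A ≤ D.Γ) : D.img A = ⊥ ↔ A ≤ ZZ U := by
  rw [img, Subgroup.map_eq_bot_iff]
  exact ⟨fun h a ha => (D.ker ⟨a, hA ha⟩).1 (h ha), fun h x hx => (D.ker x).2 (h hx)⟩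

theorem N_le_img {A : Subgroup (End F V)ˣ} (hZ : ZZ U ≤ A) : N ≤ D.img A ↔ SS U ≤ A := by
  exact ⟨fun h s hs => (D.mem_img hZ (x := ⟨s, D.SG hs⟩)).1 (h (D.mapS.le ⟨_, hs, rfl⟩)),
    fun h => D.mapS.ge.trans (Subgroup.map_mono (Subgroup.comap_mono h))⟩

/-- `γ ↦ τ γ` is an injective self-map of the finite `Γ`, so onto; `τ.symm` lifts `h⁻¹`. -/
theorem TT_symm {H : Subgroup G} {τ : End F V ≃+ End F V} (h : τ ∈ D.TT H) : τ.symm ∈ D.TT H := by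
  obtain ⟨t, h, hh, l⟩ := h
  refine ⟨t.symm, h⁻¹, inv_mem hh, fun γ => ?_⟩
  have m : ∀ δ : D.Γ, t.u δ.1 ∈ D.Γ := fun δ => by
    obtain ⟨δ', e | e, -⟩ := l δ
    · exact (Units.ext e : t.u δ.1 = δ'.1) ▸ δ'.2
    · exact (Units.ext e : t.u δ.1 = δ'.1⁻¹) ▸ inv_mem δ'.2
  obtain ⟨δ, e⟩ := Finite.surjective_of_injective (f := fun δ : D.Γ => (⟨_, m δ⟩ : D.Γ))
    (fun a b k => Subtype.ext (Units.ext (τ.injective (congrArg (fun x : D.Γ => (x.1 : End F V)) k)))) γ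
  have e1 : τ (δ.1 : End F V) = γ.1 := congrArg (fun x : D.Γ => (x.1 : End F V)) e
  obtain ⟨δ', k | k, k'⟩ := l δ
  · refine ⟨δ, .inl (τ.symm_apply_eq.2 e1.symm), ?_⟩
    rw [show γ = δ' from Subtype.ext (Units.ext (e1.symm.trans k)), k']
    group
  · refine ⟨δ⁻¹, .inr (τ.symm_apply_eq.2 (by simpa using e1.symm)), ?_⟩
    rw [show γ = δ'⁻¹ from Subtype.ext (Units.ext (e1.symm.trans k)), map_inv, map_inv, k']
    group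

theorem TT_cj {H : Subgroup G} {h : (End F V)ˣ} (hh : h ∈ D.hat H) :
    ∃ τ ∈ D.TT H, ∀ X, τ X = (h : End F V) * X * ((h⁻¹ : (End F V)ˣ) : End F V) := by
  obtain ⟨h1, h2⟩ := D.mem_hat.1 hh
  obtain ⟨τ, t, l, e⟩ := exists_lf_conj D.GU D.π ⟨h, h1⟩
  exact ⟨τ, ⟨t, _, h2, l⟩, e⟩

theorem ti_Γ (H : Subgroup G) : TI (D.TT H) D.Γ := by
  rintro τ ⟨-, h, -, l⟩ a ha
  obtain ⟨γ, e | e, -⟩ := l ⟨a, ha⟩
  exacts [⟨γ, γ.2, e⟩, ⟨_, inv_mem γ.2, e⟩]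

theorem ti_hat {H K : Subgroup G} (h : H ≤ Subgroup.normalizer (K : Set G)) : TI (D.TT H) (D.hat K) := by
  rintro τ ⟨-, t, ht, l⟩ a ha
  obtain ⟨h1, h2⟩ := D.mem_hat.1 ha
  obtain ⟨γ, e, k⟩ := l ⟨a, h1⟩
  have m : γ.1 ∈ D.hat K := D.mem_hat'.2 (k ▸ BG.conj_mem_of_norm (h ht) h2)
  exact e.elim (fun e => ⟨γ, m, e⟩) fun e => ⟨_, inv_mem m, e⟩

/-- `lift` gives `τ ∈ TT H` for each `h ∈ H`; finite, so conjugation into `img A` gives the normaliser. -/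
theorem le_norm_img {H : Subgroup G} {A : Subgroup (End F V)ˣ} (hA : A ≤ D.Γ) (hT : TI (D.TT H) A) :
    H ≤ Subgroup.normalizer (D.img A : Set G) := by
  intro h hh
  obtain ⟨τ, t, l⟩ := D.lift h
  refine mem_normalizer_of_conj_le (conj_le_iff.2 ?_)
  rintro _ ⟨γ, hγ, rfl⟩
  obtain ⟨a, ha, e⟩ := hT τ ⟨t, h, hh, l⟩ γ.1 hγ
  obtain ⟨δ, k | k, k'⟩ := l γ
  · exact ⟨δ, Subgroup.mem_subgroupOf.2 ((Units.ext (e.symm.trans k) : a = δ.1) ▸ ha), k'⟩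
  · exact ⟨δ, Subgroup.mem_subgroupOf.2 (inv_mem_iff.1 ((Units.ext (e.symm.trans k) : a = δ.1⁻¹) ▸ ha)), k'⟩

/-- `H / (H ⊓ range π)` embeds in `Aut F × C₂` (`out`, `card_ringAut_le`), and `hat H / ZZ U ≅ H ⊓ range π`. -/
theorem card_le_mul (H : Subgroup G) : Nat.card H ≤ 2 * ((Nat.card F - 1) * (ZZ U).relIndex (D.hat H)) := by
  obtain ⟨φ, h⟩ := D.out
  have e1 : ZZ U = D.π.ker.map D.Γ.subtype := le_antisymm
    (fun z hz => ⟨⟨z, D.ZG hz⟩, (D.ker _).2 hz, rfl⟩) (Subgroup.map_le_iff_le_comap.2 fun x hx => (D.ker x).1 hx)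
  have e2 : (ZZ U).relIndex (D.hat H) = Nat.card ↥(φ.ker ⊓ H) := by
    rw [e1, hat, Subgroup.relIndex_map_map_of_injective _ _ D.Γ.subtype_injective, Subgroup.relIndex_ker,
      Subgroup.map_comap_eq, h]
  have e3 := BG.card_mul_relIndex (inf_le_right : φ.ker ⊓ H ≤ H)
  rw [Subgroup.inf_relIndex_right, Subgroup.relIndex_ker] at e3
  have e4 := (H.map φ).card_le_card_group
  rw [Nat.card_prod, Nat.card_eq_fintype_card (α := Multiplicative (ZMod 2)), Fintype.card_multiplicative,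
    ZMod.card] at e4
  rw [e2, ← e3, mul_comm, ← mul_assoc, mul_comm 2]
  exact Nat.mul_le_mul_right _ (e4.trans (Nat.mul_le_mul_right 2 card_ringAut_le))

theorem range_normal : D.π.range.Normal := by
  obtain ⟨φ, h⟩ := D.out
  rw [← h]
  infer_instance

theorem N_le_range : N ≤ D.π.range := D.mapS.symm.le.trans (Subgroup.map_le_range _ _)

variable {H E : Subgroup G} {p : ℕ} {g : G} (c : Cf N D.π.range H E p g)
  (hmin : ∀ A : Subgroup G, A.Normal → A ≠ ⊥ → N ≤ A)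
include c

theorem c_SH : ¬ SS U ≤ D.hat H := by
  exact fun h => c.NH (D.mapS.ge.trans (Subgroup.map_le_iff_le_comap.2 fun x hx => D.mem_hat'.1 (h hx)))

include hmin in
theorem c_max : ∀ A ≤ D.Γ, ZZ U ≤ A → TI (D.TT H) A → ¬ A ≤ ZZ U → ¬ SS U ≤ A →
    ∀ x ∈ D.Γ, (∀ a ∈ A, x * a * x⁻¹ ∈ A) → x ∈ D.hat H := by
  refine fun A hA hZ hT h1 h2 x hx hn => D.mem_hat.2 ⟨hx, c.norm_le hmin (mt (D.img_eq_bot hA).1 h1)
    (D.le_norm_img hA hT) (mt (D.N_le_img hZ).1 h2) (mem_normalizer_of_conj_le (conj_le_iff.2 ?_))⟩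
  rintro _ ⟨a, ha, rfl⟩
  exact ⟨⟨x, hx⟩ * a * ⟨x, hx⟩⁻¹, hn a ha, by rw [map_mul, map_mul, map_inv]⟩

theorem c_con : ∀ A ≤ D.hat H, ZZ U ≤ A → TI (D.TT H) A → ∀ a ∈ A,
    (∀ y ∈ A, y ∈ D.hat (pCoreOf p H) → ⁅a, y⁆ ∈ ZZ U) → a ∈ D.hat (pCoreOf p H) := by
  intro A hA hZ hT a ha h
  have hΓ := hA.trans (D.hat_le H)
  refine D.mem_hat.2 ⟨hΓ ha, c.con (A := D.img A) (Subgroup.map_le_iff_le_comap.2 fun x hx => D.mem_hat'.1 (hA hx))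
    (D.le_norm_img hΓ hT) ⟨_, ha, rfl⟩ ?_⟩
  rintro _ ⟨y, hy, rfl⟩ k
  rw [← commutatorElement_eq_one_iff_commute, ← map_commutatorElement]
  exact (D.ker _).2 (h y hy (D.mem_hat'.2 k))

theorem c_pY : ∀ y ∈ D.hat (pCoreOf p H), ∃ j : ℕ, y ^ p ^ j ∈ ZZ U := by
  intro y hy
  obtain ⟨h1, h2⟩ := D.mem_hat.1 hy
  obtain ⟨j, e⟩ := ((Core.pCore_isPGroup p H).map H.subtype) ⟨_, h2⟩
  exact ⟨j, (D.ker (⟨y, h1⟩ ^ p ^ j)).1 ((map_pow _ _ _).trans (congrArg Subtype.val e))⟩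

theorem c_pE : ∀ e ∈ D.hat E, e ^ p ∈ ZZ U := by
  intro e he
  obtain ⟨h1, h2⟩ := D.mem_hat.1 he
  exact (D.ker (⟨e, h1⟩ ^ p)).1 ((map_pow _ _ _).trans (c.pow_eq h2))

theorem c_cE : ∀ y ∈ D.hat (pCoreOf p H), ∀ e ∈ D.hat E, ⁅y, e⁆ ∈ ZZ U := by
  intro y hy e he
  obtain ⟨h1, h2⟩ := D.mem_hat.1 hy
  obtain ⟨h3, h4⟩ := D.mem_hat.1 he
  exact (D.ker ⁅⟨y, h1⟩, ⟨e, h3⟩⁆).1 ((map_commutatorElement _ _ _).trans
    (commutatorElement_eq_one_iff_commute.2 (c.commute h2 h4)))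

theorem c_ne : ¬ D.hat E ≤ ZZ U := by
  refine fun h => c.E0 (eq_bot_iff.2 fun e he => ?_)
  obtain ⟨γ, rfl⟩ := c.EG he
  exact (D.ker γ).2 (h (D.mem_hat'.2 he))

theorem c_min : ∀ A ≤ D.hat E, ZZ U ≤ A → TI (D.TT H) A → A = ZZ U ∨ A = D.hat E := by
  intro A hA hZ hT
  have hΓ := hA.trans (D.hat_le E)
  refine (c.min (D.img A) (Subgroup.map_le_iff_le_comap.2 fun x hx => D.mem_hat'.1 (hA hx))
    (D.le_norm_img hΓ hT)).imp (fun k => le_antisymm ((D.img_eq_bot hΓ).1 k) hZ) fun k => le_antisymm hA fun x hx => ?_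
  obtain ⟨h1, h2⟩ := D.mem_hat.1 hx
  exact (D.mem_img hZ (x := ⟨x, h1⟩)).1 (k.ge h2)

theorem c_Kne : (D.KK H g).Nonempty := by
  obtain ⟨γ, e⟩ := D.N_le_range c.gN
  exact ⟨γ, γ.2, 1, one_mem H, by rw [one_mul, inv_one, mul_one]; exact e⟩

theorem c_KH : ∀ k ∈ D.KK H g, k ∉ D.hat H := by
  rintro k ⟨hk, t, ht, e⟩ h
  have := (D.mem_hat' (x := ⟨k, hk⟩)).1 h
  rw [e, mul_mem_cancel_right (inv_mem ht), mul_mem_cancel_left ht] at this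
  exact c.gH this

/-- `π (k⁻¹ Ê k) = t ⋆ (g⁻¹ ⋆ E)` for `π k = t g t⁻¹` -/
theorem c_mem_Ek {k : (End F V)ˣ} (hk : k ∈ D.Γ) {t : G} (ht : t ∈ H) (e : D.π ⟨k, hk⟩ = t * g * t⁻¹)
    {x : (End F V)ˣ} : x ∈ Ek (D.hat E) k ↔ x ∈ D.hat (t ⋆ (g⁻¹ ⋆ E)) := by
  have key : ∀ hx : x ∈ D.Γ, k * x * k⁻¹ ∈ D.hat E ↔ x ∈ D.hat (t ⋆ (g⁻¹ ⋆ E)) := fun hx => by
    refine (D.mem_hat' (x := ⟨k, hk⟩ * ⟨x, hx⟩ * ⟨k, hk⟩⁻¹)).trans (Iff.trans ?_ (D.mem_hat' (x := ⟨x, hx⟩)).symm)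
    rw [map_mul, map_mul, map_inv, e, mem_conj, mem_conj, Subgroup.mem_normalizer_iff.1 (c.nE ht) (_ * g⁻¹)]
    exact iff_of_eq (by congr 1; group)
  exact ⟨fun h => (key ((mul_mem_cancel_left hk).1 ((mul_mem_cancel_right (inv_mem hk)).1 (D.hat_le E h)))).1 h,
    fun h => (key (D.hat_le _ h)).2 h⟩

omit c in
theorem norm_core (H : Subgroup G) (p : ℕ) : H ≤ Subgroup.normalizer (pCoreOf p H : Set G) :=
  (BG.Nml.of_normal H (pCore p H)).norm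

theorem c_KY : ∀ k ∈ D.KK H g, Ek (D.hat E) k ≤ D.hat (pCoreOf p H) := by
  rintro k ⟨hk, t, ht, e⟩ x hx
  exact D.hat_mono (BG.conj_le_of_norm c.gY (norm_core H p ht)) ((D.c_mem_Ek c hk ht e).1 hx)

/-- conjugate `gK (t⁻¹ t')` by `t` -/
theorem c_KK : ∀ k ∈ D.KK H g, ∀ k' ∈ D.KK H g, ∀ x ∈ Ek (D.hat E) k, ∀ x' ∈ Ek (D.hat E) k',
    x * x' * x⁻¹ ∈ Ek (D.hat E) k' := by
  rintro k ⟨hk, t, ht, e⟩ k' ⟨hk', t', ht', e'⟩ x hx x' hx'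
  rw [D.c_mem_Ek c hk ht e] at hx
  rw [D.c_mem_Ek c hk' ht' e'] at hx' ⊢
  obtain ⟨h1, h2⟩ := D.mem_hat.1 hx
  obtain ⟨h3, h4⟩ := D.mem_hat.1 hx'
  have := conj_mono t (c.gK _ (mul_mem (inv_mem ht) ht'))
  rw [conj_normalizer, conj_conj t (t⁻¹ * t'), mul_inv_cancel_left] at this
  refine (D.mem_hat' (x := ⟨x, h1⟩ * ⟨x', h3⟩ * ⟨x, h1⟩⁻¹)).2 ?_
  rw [map_mul, map_mul, map_inv D.π]
  exact BG.conj_mem_of_norm (this h2) h4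

omit c in
theorem c_Kc : ∀ k ∈ D.KK H g, ∀ h ∈ D.hat H, h * k * h⁻¹ ∈ D.KK H g := by
  rintro k ⟨hk, t, ht, e⟩ h hh
  obtain ⟨h1, h2⟩ := D.mem_hat.1 hh
  refine ⟨(⟨h, h1⟩ * ⟨k, hk⟩ * ⟨h, h1⟩⁻¹ : D.Γ).2, _, mul_mem h2 ht, ?_⟩
  change D.π (⟨h, h1⟩ * ⟨k, hk⟩ * ⟨h, h1⟩⁻¹) = _
  rw [map_mul, map_mul, map_inv, e]
  group

include hmin in
/-- `Cf.gen`; `range π` is normal and contains `g`, so `closure {t g t⁻¹} ≤ img (closure KK ⊔ ZZ U)`. -/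
theorem c_gen : SS U ≤ Subgroup.closure (D.KK H g) ⊔ ZZ U := by
  refine (D.N_le_img le_sup_right).1 ((c.gen hmin).trans ((Subgroup.closure_le _).2 ?_))
  rintro _ ⟨t, ht, rfl⟩
  obtain ⟨γ, e⟩ := D.range_normal.conj_mem g (D.N_le_range c.gN) t
  exact ⟨γ, Subgroup.mem_sup_left (Subgroup.subset_closure ⟨γ.2, t, ht, e⟩), e⟩

omit c in
theorem le_norm_core (H : Subgroup G) (p : ℕ) : H ≤ Subgroup.normalizer (pCoreOf p H : Set G) := by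
  exact norm_core H p

/-- the linear configuration -/
def toLC (c : Cf N D.π.range H E p g) (hmin : ∀ A : Subgroup G, A.Normal → A ≠ ⊥ → N ≤ A) : LC U p where
  G := D.Γ
  H := D.hat H
  Y := D.hat (pCoreOf p H)
  E := D.hat E
  K := D.KK H g
  T := D.TT H
  kd := D.kd
  pp := c.prime
  GU := D.GU
  SG := D.SG
  ZE := D.ZZ_le_hat E
  EY := D.hat_mono c.le_core
  YH := D.hat_mono (Subgroup.map_subtype_le _)
  HG := D.hat_le H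
  tau := fun _ h => h.1
  symm := fun _ h => D.TT_symm h
  cj := fun _ h => D.TT_cj h
  tG := D.ti_Γ H
  tH := D.ti_hat Subgroup.le_normalizer
  tY := D.ti_hat (le_norm_core H p)
  tE := D.ti_hat c.nE
  SH := D.c_SH c
  max := D.c_max c hmin
  con := D.c_con c
  pY := D.c_pY c
  pE := D.c_pE c
  cE := D.c_cE c
  ne := D.c_ne c
  min := D.c_min c
  Kne := D.c_Kne c
  KG := fun _ h => h.1
  KH := D.c_KH c
  KY := D.c_KY c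
  KK := D.c_KK c
  Kc := D.c_Kc
  gen := D.c_gen c hmin

include hmin in
theorem card_le : Nat.card H ≤ 31104 := by
  have h1 : (Nat.card F - 1) * (ZZ U).relIndex (D.hat H) ≤ 15552 := (D.toLC c hmin).bd
  have h2 := D.card_le_mul H
  omega

end Ld

end Cfsg.Lib.WB
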