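import Cfsg.Agent.Lib.WB.B0
import Cfsg.Agent.Lib.Unitary.Eichler
import Cfsg.Agent.Lib.Unitary.Gram

/-!
# S3694: the adjoint for a hermitian form
-/

set_option linter.unusedSectionVars false

namespace Cfsg.Lib.WB

open Module Cfsg.Lib.Unitary Cfsg.Lib.Transfer
open scoped commutatorElement

variable {F V : Type*} [Field F] [AddCommGroup V] [Module F V] [Finite F] [Finite V]
  {U : Subgroup (End F V)ˣ}

variable {σ : F →+* F} {B : V →ₛₗ[σ] V →ₗ[F] F}

namespace IsU

variable (h : IsU U σ B)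
include h

theorem adj_ex (X : End F V) : ∃ Y : End F V, ∀ u v, B (Y v) u = B v (X u) := by
  choose a ha using fun v => h.1.exists_eq ((B v).comp X)
  have inj : ∀ x y : V, B x = B y → x = y := fun x y e => sub_eq_zero.1 (h.1.nondeg _ fun v => by
    simp [e])
  refine ⟨⟨⟨a, fun x y => inj _ _ ?_⟩, fun c x => inj _ _ ?_⟩, fun u v => by
    simpa using LinearMap.congr_fun (ha v) u⟩
  · rw [map_add, ha, ha, ha, map_add, LinearMap.add_comp]
  · rw [RingHom.id_apply, LinearMap.map_smulₛₗ, ha, ha, LinearMap.map_smulₛₗ, LinearMap.smul_comp]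

/-- the adjoint -/
noncomputable def adj (X : End F V) : End F V := (h.adj_ex X).choose

theorem adj_right (X : End F V) (u v : V) : B u (X v) = B (h.adj X u) v :=
  ((h.adj_ex X).choose_spec v u).symm

theorem ext_right {x y : V} (e : ∀ u, B u x = B u y) : x = y :=
  sub_eq_zero.1 (h.1.nondeg_right _ fun v => by rw [map_sub, e, sub_self])

theorem ext_left {x y : V} (e : ∀ u, B x u = B y u) : x = y :=
  sub_eq_zero.1 (h.1.nondeg _ fun v => by rw [map_sub, LinearMap.sub_apply, e, sub_self])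

/-- apply `σ` to `adj_right` -/
theorem adj_left (X : End F V) (u v : V) : B (X u) v = B u (h.adj X v) := by
  rw [← h.1.symm v (X u), h.adj_right, h.1.symm]

theorem adj_eq {X Y : End F V} (k : ∀ u v, B (X u) v = B u (Y v)) : h.adj X = Y :=
  LinearMap.ext fun v => h.ext_right fun u => by rw [← h.adj_left, k]

theorem adj_adj (X : End F V) : h.adj (h.adj X) = X :=
  h.adj_eq fun u v => (h.adj_right X u v).symm

theorem adj_one : h.adj 1 = 1 :=
  h.adj_eq fun _ _ => rfl

theorem adj_zero : h.adj 0 = 0 :=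
  h.adj_eq fun _ _ => by simp

theorem adj_add (X Y : End F V) : h.adj (X + Y) = h.adj X + h.adj Y :=
  h.adj_eq fun u v => by simp [h.adj_left]

theorem adj_neg (X : End F V) : h.adj (-X) = -h.adj X :=
  h.adj_eq fun u v => by simp [h.adj_left]

theorem adj_sub (X Y : End F V) : h.adj (X - Y) = h.adj X - h.adj Y :=
  h.adj_eq fun u v => by simp [h.adj_left]

theorem adj_mul (X Y : End F V) : h.adj (X * Y) = h.adj Y * h.adj X :=
  h.adj_eq fun u v => by simp [h.adj_left]

theorem adj_smul (c : F) (X : End F V) : h.adj (c • X) = σ c • h.adj X :=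
  h.adj_eq fun u v => by simp [h.adj_left]

theorem adj_pow (X : End F V) (j : ℕ) : h.adj (X ^ j) = h.adj X ^ j := by
  induction j with
  | zero => simpa using h.adj_one
  | succ j ih => rw [pow_succ, h.adj_mul, ih, pow_succ']

theorem adj_sum {ι : Type*} (s : Finset ι) (X : ι → End F V) :
    h.adj (∑ i ∈ s, X i) = ∑ i ∈ s, h.adj (X i) := by
  classical
  induction s using Finset.induction_on with
  | empty => simpa using h.adj_zero
  | insert i s hi ih => rw [Finset.sum_insert hi, Finset.sum_insert hi, h.adj_add, ih]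

theorem adj_unit {u : (End F V)ˣ} (hu : u ∈ U) :
    h.adj (u : End F V) = ((u⁻¹ : (End F V)ˣ) : End F V) := by
  refine h.adj_eq fun x y => ?_
  rw [← (h.2 u).1 hu x ((u⁻¹ : (End F V)ˣ).1 y), ← Module.End.mul_apply, Units.mul_inv,
    Module.End.one_apply]

/-- a left inverse is two-sided in the finite monoid (`mul_eq_one_comm`) -/
theorem un_iff {X : End F V} : Un U X ↔ h.adj X * X = 1 := by
  constructor
  · rintro ⟨u, hu, rfl⟩
    rw [h.adj_unit hu, Units.inv_mul]
  · intro e
    refine ⟨⟨X, h.adj X, mul_eq_one_comm.1 e, e⟩, (h.2 _).2 fun x y => ?_, rfl⟩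
    change B (X x) (X y) = B x y
    rw [h.adj_left, ← Module.End.mul_apply, e, Module.End.one_apply]

theorem un_iff' {X : End F V} : Un U X ↔ ∀ u v, B (X u) (X v) = B u v := by
  constructor
  · rintro ⟨u, hu, rfl⟩
    exact (h.2 u).1 hu
  · intro e
    refine h.un_iff.2 (LinearMap.ext fun y => h.ext_right fun x => ?_)
    rw [Module.End.mul_apply, ← h.adj_left, e, Module.End.one_apply]

theorem un_smul_one [Nontrivial V] {c : F} : Un U (c • (1 : End F V)) ↔ c * σ c = 1 := by
  rw [h.un_iff, h.adj_smul, h.adj_one, smul_mul_smul_comm, one_mul, mul_comm]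
  constructor
  · intro e
    have : (c * σ c - 1) • (1 : End F V) = 0 := by rw [sub_smul, e, one_smul, sub_self]
    exact sub_eq_zero.1 ((smul_eq_zero.1 this).resolve_right one_ne_zero)
  · intro e
    rw [e, one_smul]

theorem un_smul_one' {c : F} (hc : c * σ c = 1) : Un U (c • (1 : End F V)) := by
  rw [h.un_iff, h.adj_smul, h.adj_one, smul_mul_smul_comm, one_mul, mul_comm, hc, one_smul]

/-- `←`: `adj (e X + 1 - e) (e X + 1 - e) = 1` (`e` commutes with `X`, so with `adj X = X⁻¹`).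
`→`: take `X = c • 1` with `c σ c = 1`, `c ≠ 1` (`IsBar.exists_norm_one_ne_one`); `c e + 1 - e` isometric gives
`B (e u) ((1 - e) v) = 0` and `B ((1 - e) u) (e v) = 0`, so `B (e u) v = B (e u) (e v) = B u (e v)`. -/
theorem ad_iff {e : End F V} : Ad U e ↔ IsIdempotentElem e ∧ h.adj e = e := by
  constructor
  · rintro ⟨he, hA⟩
    refine ⟨he, ?_⟩
    obtain ⟨q, hq⟩ := exists_isBar_of_invol h.1.ne_id h.1.invol
    obtain ⟨c, hc, hc1⟩ := hq.exists_norm_one_ne_one
    have k := h.un_iff'.1 (hA _ (h.un_smul_one' hc) ((Commute.one_right e).smul_right c))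
    have he' : ∀ v, e (e v) = e v := fun v => by rw [← Module.End.mul_apply, he.eq]
    have hs1 : σ c ≠ 1 := fun e1 => hc1 (by rw [← h.1.invol c, e1, map_one])
    have k1 : ∀ u v, B (e u) (v - e v) = 0 := fun u v => by
      have := k (e u) (v - e v)
      simp only [LinearMap.add_apply, Module.End.mul_apply, LinearMap.smul_apply, Module.End.one_apply,
        LinearMap.sub_apply, map_smul, he', map_sub e, sub_self, smul_zero, add_zero, zero_add, sub_zero,
        LinearMap.map_smulₛₗ, smul_eq_mul] at this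
      have h2 : (σ c - 1) * B (e u) (v - e v) = 0 := by rw [sub_mul, this, one_mul, sub_self]
      exact (mul_eq_zero.1 h2).resolve_left (sub_ne_zero.2 hs1)
    refine h.adj_eq fun u v => ?_
    have a1 := k1 u v
    have a2 := h.1.eq_zero_comm.1 (k1 v u)
    rw [map_sub] at a1
    rw [map_sub, LinearMap.sub_apply] at a2
    rw [sub_eq_zero.1 a1, sub_eq_zero.1 a2]
  · rintro ⟨he, ha⟩
    refine ⟨he, fun X hX hc => ?_⟩
    have e1 := h.un_iff.1 hX
    rw [h.un_iff, h.adj_add, h.adj_mul, h.adj_sub, h.adj_one, ha]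
    have hc' : h.adj X * e = e * h.adj X := by
      have := congrArg h.adj hc.eq
      rwa [h.adj_mul, h.adj_mul, ha] at this
    have e2 : h.adj X * e * (e * X) = e := by
      rw [mul_assoc, ← mul_assoc e e, he.eq, ← mul_assoc, hc', mul_assoc, e1, mul_one]
    have e3 : h.adj X * e * (1 - e) = 0 := by rw [mul_assoc, he.mul_one_sub_self, mul_zero]
    have e4 : (1 - e) * (e * X) = 0 := by rw [← mul_assoc, he.one_sub_mul_self, zero_mul]
    rw [add_mul, mul_add, mul_add, e2, e3, e4, he.one_sub.eq]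
    simp

theorem rt_of_skew {X : End F V} (h1 : X * X = 0) (h2 : h.adj X = -X) : Rt U X := by
  refine ⟨h1, ?_⟩
  rw [h.un_iff, h.adj_add, h.adj_one, h2]
  simp [mul_add, add_mul, h1]

/-- `adj (1 + X) = (1 + X)⁻¹ = 1 - X` -/
theorem skew_of_rt {X : End F V} (hX : Rt U X) : h.adj X = -X := by
  have e := h.un_iff.1 hX.2
  rw [h.adj_add, h.adj_one] at e
  have e2 : (1 + X) * (1 - X) = 1 := by simp [mul_sub, add_mul, hX.1]
  have e3 : 1 + h.adj X = 1 - X := left_inv_eq_right_inv e e2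
  rw [sub_eq_add_neg] at e3
  exact add_left_cancel e3

theorem adj_mem_sp {A : Subgroup (End F V)ˣ} (hA : A ≤ U) {X : End F V} (hX : X ∈ sp A) :
    h.adj X ∈ sp A := by
  refine sp_induction (P := fun X => h.adj X ∈ sp A) (fun a ha => ?_) ?_ (fun X Y h1 h2 => ?_)
    (fun c X h1 => ?_) hX
  · rw [h.adj_unit (hA ha)]
    exact mem_sp (A.inv_mem ha)
  · rw [h.adj_zero]
    exact zero_mem _
  · rw [h.adj_add]
    exact add_mem h1 h2
  · rw [h.adj_smul]
    exact Subalgebra.smul_mem _ h1 _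

theorem ker_adj (X : End F V) : LinearMap.ker (h.adj X) = perp B (LinearMap.range X) := by
  ext v
  rw [LinearMap.mem_ker, mem_perp]
  constructor
  · rintro e _ ⟨u, rfl⟩
    rw [h.adj_left, e, map_zero]
  · intro e
    exact h.1.nondeg_right _ fun u => by rw [← h.adj_left]; exact e _ ⟨u, rfl⟩

theorem exists_of_UG {g : V ≃ₗ[F] V} (hg : g ∈ UG B) : ∃ u ∈ U, ∀ v, (u : End F V) v = g v :=
  ⟨⟨(g : V →ₗ[F] V), (g.symm : V →ₗ[F] V), by ext; simp, by ext; simp⟩, (h.2 _).2 hg, fun _ => rfl⟩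

theorem exists_of_SUG {g : V ≃ₗ[F] V} (hg : g ∈ SUG B) : ∃ u ∈ SS U, ∀ v, (u : End F V) v = g v :=
  ⟨⟨(g : V →ₗ[F] V), (g.symm : V →ₗ[F] V), by ext; simp, by ext; simp⟩,
    ⟨(h.2 _).2 hg.1, (mem_SUG'.1 hg).2⟩, fun _ => rfl⟩

/-- adjoint of the rank-one map `x ↦ B w x • v` -/
theorem adj_smulRight (v w : V) : h.adj ((B w).smulRight v) = (B v).smulRight w := by
  refine h.adj_eq fun x y => ?_
  simp only [LinearMap.smulRight_apply, LinearMap.map_smulₛₗ, LinearMap.smul_apply, map_smul, smul_eq_mul,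
    h.1.symm]
  ring

/-- transvection roots -/
theorem rt_smulRight {v : V} (hv : B v v = 0) {c : F} (hc : σ c = -c) : Rt U (c • (B v).smulRight v) := by
  refine h.rt_of_skew ?_ ?_
  · ext x
    simp [hv]
  · rw [h.adj_smul, h.adj_smulRight, hc, neg_smul]

/-- the orthogonal projection onto a non-isotropic vector -/
theorem ad_smulRight {v : V} (hv : B v v ≠ 0) :
    Ad U ((B v v)⁻¹ • (B v).smulRight v) ∧ rk ((B v v)⁻¹ • (B v).smulRight v : End F V) = 1 := by
  have hv0 : v ≠ 0 := by rintro rfl; simp at hv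
  refine ⟨h.ad_iff.2 ⟨?_, ?_⟩, ?_⟩
  · ext x
    simp only [Module.End.mul_apply, LinearMap.smul_apply, LinearMap.smulRight_apply, map_smul, smul_smul]
    congr 1
    field_simp
  · rw [h.adj_smul, h.adj_smulRight, map_inv₀, h.1.self_fixed]
  · have : LinearMap.range ((B v v)⁻¹ • (B v).smulRight v : End F V) = F ∙ v := by
      apply le_antisymm
      · rintro _ ⟨x, rfl⟩
        exact Submodule.smul_mem _ _ (Submodule.smul_mem _ _ (Submodule.mem_span_singleton_self v))
      · rw [Submodule.span_singleton_le_iff_mem]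
        exact ⟨v, by simp [smul_smul, hv]⟩
    unfold rk
    rw [this, finrank_span_singleton hv0]

/-- for a self-adjoint idempotent, `B` is non-degenerate on the range -/
theorem exists_range_ne {e : End F V} (he : Ad U e) {v : V} (hv : e v = v) (h0 : v ≠ 0) :
    ∃ w, e w = w ∧ B v w ≠ 0 := by
  obtain ⟨h1, h2⟩ := h.ad_iff.1 he
  obtain ⟨w, hw⟩ := h.1.exists_ne_zero h0
  refine ⟨e w, by rw [← Module.End.mul_apply, h1.eq], ?_⟩
  rwa [h.adj_right, h2, hv]

theorem exists_range_noniso {e : End F V} (he : Ad U e) (h0 : e ≠ 0) : ∃ w, e w = w ∧ B w w ≠ 0 := by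
  obtain ⟨h1, -⟩ := h.ad_iff.1 he
  obtain ⟨x, hx⟩ : ∃ x, e x ≠ 0 := by
    by_contra hn
    push Not at hn
    exact h0 (LinearMap.ext hn)
  have hx' : e (e x) = e x := by rw [← Module.End.mul_apply, h1.eq]
  obtain ⟨w, hw, hb⟩ := h.exists_range_ne he hx' hx
  obtain ⟨z, ⟨y, rfl⟩, hz⟩ := h.1.exists_nonisotropic (W := LinearMap.range e) ⟨x, rfl⟩ ⟨w, hw⟩ hb
  exact ⟨e y, by rw [← Module.End.mul_apply, h1.eq], hz⟩

/-- restrict `B` to the range of `e` (`IsHerm.restrict`), then `exists_isotropic`. -/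
theorem exists_range_iso {e : End F V} (he : Ad U e) (h2 : 2 ≤ rk e) :
    ∃ w, e w = w ∧ w ≠ 0 ∧ B w w = 0 := by
  obtain ⟨h1, -⟩ := h.ad_iff.1 he
  have hd : Disjoint (LinearMap.range e) (perp B (LinearMap.range e)) := by
    rw [Submodule.disjoint_def]
    rintro _ ⟨x, rfl⟩ hp
    by_contra hx
    obtain ⟨w, hw, hb⟩ := h.exists_range_ne he (v := e x) (by rw [← Module.End.mul_apply, h1.eq]) hx
    exact hb (h.1.eq_zero_comm.1 (mem_perp.1 hp w ⟨w, hw⟩))
  obtain ⟨⟨_, y, rfl⟩, hw0, hw⟩ := (h.1.restrict hd).exists_isotropic h2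
  exact ⟨e y, by rw [← Module.End.mul_apply, h1.eq], fun e0 => hw0 (Subtype.ext e0), hw⟩

/-- Eichler transformation as an element of `SS U` (`eichler` in `Lib/Unitary`, or directly:
`x ↦ x + B v x • w - B w x • v + γ B v x • v` with `γ + σ γ = - B w w`; it is unipotent). -/
theorem exists_eichler {v w : V} (hv : B v v = 0) (hw : B v w = 0) :
    ∃ s ∈ SS U, ∃ γ : F, ∀ x, (s : End F V) x = x + B v x • w - B w x • v + (γ * B v x) • v := by
  obtain ⟨γ, hγ⟩ := h.1.exists_eichler_param w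
  have hwv := h.1.eq_zero_comm.1 hw
  obtain ⟨s, hs, e⟩ := h.exists_of_SUG (g := eichler B v w γ hv hw hwv)
    (mem_SUG.2 ⟨h.1.eichler_mem_UG hγ, det_eichler v w γ hv hw hwv⟩)
  exact ⟨s, hs, γ, fun x => by rw [e, eichler_apply]⟩

end IsU

end Cfsg.Lib.WB
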