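import Cfsg.Agent.Lib.WB.Adm

/-!
# S3694: unitary geometry I (flags)
-/

set_option linter.unusedSectionVars false

namespace Cfsg.Lib.WB

open Module Cfsg.Lib.Unitary Cfsg.Lib.Transfer
open scoped commutatorElement

variable {F V : Type*} [Field F] [AddCommGroup V] [Module F V] [Finite F] [Finite V]
  {U : Subgroup (End F V)ˣ}

variable {σ : F →+* F} {B : V →ₛₗ[σ] V →ₗ[F] F}

/-- flags for an explicit form -/
def PrB (B : V →ₛₗ[σ] V →ₗ[F] F) (V₁ V₂ : Submodule F V) : Prop := V₁ ≠ ⊥ ∧ V₁ ≤ V₂ ∧ V₂ = perp B V₁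

theorem PrB.zero {V₁ V₂ : Submodule F V} (hP : PrB B V₁ V₂) {v x : V} (hv : v ∈ V₁) (hx : x ∈ V₂) :
    B v x = 0 := mem_perp.1 (hP.2.2 ▸ hx) v hv

theorem PrB.exists_ne {V₁ V₂ : Submodule F V} (hP : PrB B V₁ V₂) {w : V} (hw : w ∉ V₂) :
    ∃ v ∈ V₁, B v w ≠ 0 := by
  by_contra! k
  exact hw (hP.2.2 ▸ mem_perp.2 k)

namespace IsU

variable (h : IsU U σ B)
include h

/-- Eichler maps in the stabiliser of a flag -/
theorem eich {V₁ V₂ : Submodule F V} (hP : PrB B V₁ V₂) {v y : V} (hv : v ∈ V₁) (hy : B v y = 0) :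
    ∃ s ∈ SS U, St V₁ (s : End F V) ∧ St V₂ (s : End F V) ∧
      ∃ γ : F, ∀ x, (s : End F V) x = x + B v x • y - B y x • v + (γ * B v x) • v := by
  obtain ⟨s, hs, γ, e⟩ := h.exists_eichler (hP.zero hv (hP.2.1 hv)) hy
  refine ⟨s, hs, fun x hx => ?_, fun x hx => ?_, γ, e⟩
  · simpa [e, hP.zero hv (hP.2.1 hx)] using V₁.sub_mem hx (V₁.smul_mem _ hv)
  · simpa [e, hP.zero hv hx] using V₂.sub_mem hx (V₂.smul_mem _ (hP.2.1 hv))

theorem prB {V₁ V₂ : Submodule F V} (hP : Pr U V₁ V₂) : PrB B V₁ V₂ := ⟨hP.1, hP.2.1, hP.2.2.2 σ B h⟩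

/-- unitary transvections -/
theorem exists_tv {v : V} (hv : B v v = 0) {c : F} (hc : σ c = -c) :
    ∃ s ∈ SS U, ∀ x, (s : End F V) x = x + (c * B v x) • v := by
  obtain ⟨s, hs, e, -⟩ := (h.rt_smulRight hv hc).exists_SS
  exact ⟨s, hs, fun x => by simp [e, smul_smul]⟩

/-- `V₂ = perp V₁ ≥ V₁`; `X = δ • (B v).smulRight v`, `0 ≠ v ∈ V₁`, `δ` skew (`rt_smulRight`). -/
theorem g1 {V₁ V₂ : Submodule F V} (hP : PrB B V₁ V₂) :
    ∃ X : End F V, X ≠ 0 ∧ Rt U X ∧ LinearMap.range X ≤ V₁ ∧ V₂ ≤ LinearMap.ker X := by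
  obtain ⟨v, hv, v0⟩ := Submodule.exists_mem_ne_zero_of_ne_bot hP.1
  obtain ⟨δ, δ0, hδ⟩ := h.1.exists_skew
  obtain ⟨y, hy⟩ := h.1.exists_eq_one v0
  refine ⟨_, fun e => v0 ?_, h.rt_smulRight (hP.zero hv (hP.2.1 hv)) hδ, ?_, fun x hx => ?_⟩
  · simpa [hy, δ0] using DFunLike.congr_fun e y
  · rintro _ ⟨x, rfl⟩
    exact V₁.smul_mem _ (V₁.smul_mem _ hv)
  · simp [hP.zero hv hx]

/-- For `u ∈ V₂ = perp V₁` there is `s ∈ SS U` stabilising `V₁, V₂` with `s x - x - c B u x • u ∈ V₁` for all `x ∈ V₂`, `c ≠ 0`.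
Isotropic `u`: transvection.  Non-isotropic `u`: quasi-reflection `r` in `u` with determinant `l` (`l σ l = 1`, `l ≠ 1`,
`exists_quasiReflection`) times an isometry `d` of determinant `l⁻¹` that stabilises `V₁` and acts trivially on `V₂ / V₁`:
for a hyperbolic pair `v ∈ V₁`, `v'` (`B v v' = 1`, `B v' v' = 0`), `d = 1 + (a - 1) (B v') ⊗ v + ((σ a)⁻¹ - 1) (B v) ⊗ v'`
has determinant `a / σ a` (`IsBar.exists_div_eq`). -/
theorem exists_mid {V₁ V₂ : Submodule F V} (hP : PrB B V₁ V₂) {u : V} (hu : u ∈ V₂) :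
    ∃ s ∈ SS U, St V₁ (s : End F V) ∧ St V₂ (s : End F V) ∧ ∃ c : F, c ≠ 0 ∧
      ∀ x ∈ V₂, (s : End F V) x - x - (c * B u x) • u ∈ V₁ := by
  suffices ∃ s ∈ SS U, ∃ c : F, c ≠ 0 ∧ ∀ x ∈ V₂, (s : End F V) x - x - (c * B u x) • u ∈ V₁ by
    obtain ⟨s, hs, c, c0, k⟩ := this
    refine ⟨s, hs, fun x hx => ?_, fun x hx => ?_, c, c0, k⟩
    · simpa [h.1.eq_zero_comm.1 (hP.zero hx hu)] using V₁.add_mem (k x (hP.2.1 hx)) hx
    · simpa using V₂.add_mem (V₂.add_mem (hP.2.1 (k x hx)) (V₂.smul_mem (c * B u x) hu)) hx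
  by_cases h0 : B u u = 0
  · obtain ⟨δ, δ0, hδ⟩ := h.1.exists_skew
    obtain ⟨s, hs, e⟩ := h.exists_tv h0 hδ
    exact ⟨s, hs, δ, δ0, fun x _ => by simp [e]⟩
  obtain ⟨q, hq⟩ := h.1.exists_isBar
  obtain ⟨l, hl, l1⟩ := hq.exists_norm_one_ne_one
  obtain ⟨r, hr, rd, -, -, re⟩ := h.1.exists_quasiReflection h0 hl
  obtain ⟨a, a0, ha⟩ := hq.exists_div_eq hl
  obtain ⟨v, hv, v0⟩ := Submodule.exists_mem_ne_zero_of_ne_bot hP.1
  have vv := hP.zero hv (hP.2.1 hv)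
  obtain ⟨v', v1, v2⟩ := h.1.exists_hyperbolic v0 vv
  have v3 : B v' v = 1 := by rw [← h.1.symm, v2, map_one]
  have s0 : σ a ≠ 0 := (map_ne_zero σ).2 a0
  let d : End F V := LinearMap.transvection ((a - 1) • B v') v *
    LinearMap.transvection (((σ a)⁻¹ - 1) • B v) v'
  have de : ∀ x, d x = x + ((a - 1) * B v' x) • v + (((σ a)⁻¹ - 1) * B v x) • v' := fun x => by
    simp [d, LinearMap.transvection.apply, v1, add_right_comm]
  obtain ⟨s, hs, e⟩ := h.un_iff'.2 (show ∀ x y, B ((d * r.toLinearMap) x) ((d * r.toLinearMap) y) = B x y from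
    fun x y => by
      rw [← hr x y]
      change B (d (r x)) (d (r y)) = _
      generalize r x = x
      generalize r y = y
      simp only [de, map_add, map_smulₛₗ, LinearMap.add_apply, LinearMap.smul_apply, smul_eq_mul, vv, v1, v2, v3,
        map_mul, map_sub, map_one, map_inv₀, h.1.invol, h.1.symm, RingHom.id_apply]
      field_simp
      ring)
  refine ⟨s, mem_SS.2 ⟨hs, ?_⟩, (l - 1) / B u u, div_ne_zero (sub_ne_zero.2 l1) h0, fun x hx => ?_⟩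
  · rw [e, map_mul, rd, map_mul, LinearMap.transvection.det, LinearMap.transvection.det]
    simp only [LinearMap.smul_apply, smul_eq_mul, v2, v3]
    field_simp
    linear_combination -ha
  · have m : r x ∈ V₂ := re x ▸ V₂.add_mem hx (V₂.smul_mem _ hu)
    rw [e]
    change d (r x) - _ - _ ∈ _
    rw [de, hP.zero hv m, sub_sub, ← re x]
    simpa using V₁.smul_mem _ hv

/-- Eichler maps `E(v, y)` (`exists_eichler`) with `v ∈ V₁`, `B v y = 0` stabilise `V₁` and `V₂ = perp V₁` (isometry).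
(c) `0 ≠ w ∈ W ⊓ V₁`: for `v ∈ V₁` independent of `w` take `y` with `B v y = 0`, `B y w = 1`: `E w = w - v`; so `V₁ ≤ W`.
(b) `w ∈ W ⊓ V₂ \ V₁`: there is `y ∈ V₂` with `B y w ≠ 0`; `E(v, y) w = w - B y w • v`, so `V₁ ≤ W`; put `W' = W ⊓ V₂`.  By
`exists_mid` each `u ∈ V₂` lies in `W'` or in `perp W'`; `V₂` is not a union of two proper subspaces and
`¬ V₂ ≤ perp W'`; so `V₂ ≤ W`.
(a) `w ∈ W \ V₂`: there is `v ∈ V₁` with `B v w ≠ 0`; the transvection in `v` gives `v ∈ W`, so `V₁ ≤ W` by (c);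
`E(v, y) w - w ∈ W` gives `y ∈ W` for all `y ⊥ v`; with `w`, `W = ⊤`. -/
theorem inv {V₁ V₂ W : Submodule F V} (hP : PrB B V₁ V₂)
    (hW : ∀ s ∈ SS U, St V₁ (s : End F V) → St V₂ (s : End F V) → St W (s : End F V)) :
    W = ⊥ ∨ W = V₁ ∨ W = V₂ ∨ W = ⊤ := by
  obtain ⟨δ, δ0, hδ⟩ := h.1.exists_skew
  by_cases ha : W ≤ V₂
  swap
  · obtain ⟨w, hw, w2⟩ := SetLike.not_le_iff_exists.1 ha
    obtain ⟨v, hv, vw⟩ := hP.exists_ne w2
    obtain ⟨s, hs, e⟩ := h.exists_tv (hP.zero hv (hP.2.1 hv)) hδ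
    have vW : v ∈ W := by
      have := hW s hs (fun x hx => by simpa [e, hP.zero hv (hP.2.1 hx)]) (fun x hx => by
        simpa [e, hP.zero hv hx]) w hw
      rwa [e, W.add_mem_iff_right hw, W.smul_mem_iff (mul_ne_zero δ0 vw)] at this
    refine .inr (.inr (.inr (eq_top_iff.2 fun x _ => ?_)))
    obtain ⟨s, hs, s1, s2, γ, e⟩ := h.eich hP hv (y := x - (B v x / B v w) • w) (by simp [vw])
    have := hW s hs s1 s2 w hw
    rwa [e, W.add_mem_iff_left (W.smul_mem _ vW), W.sub_mem_iff_left (W.smul_mem _ vW), W.add_mem_iff_right hw,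
      W.smul_mem_iff vw, W.sub_mem_iff_left (W.smul_mem _ hw)] at this
  have key : ∀ w ∈ W, ∀ v ∈ V₁, ∀ y, B v y = 0 → B y w ≠ 0 → v ∈ W := fun w hw v hv y h1 h2 => by
    obtain ⟨s, hs, s1, s2, γ, e⟩ := h.eich hP hv h1
    have := hW s hs s1 s2 w hw
    rw [e, hP.zero hv (ha hw)] at this
    simpa [W.sub_mem_iff_right hw, W.smul_mem_iff h2] using this
  by_cases hb : W ≤ V₁
  swap
  · obtain ⟨w, hw, w1⟩ := SetLike.not_le_iff_exists.1 hb
    obtain ⟨y, hy, yw⟩ : ∃ y ∈ V₂, B y w ≠ 0 := by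
      by_contra! k
      exact w1 (h.1.perp_perp V₁ ▸ hP.2.2 ▸ mem_perp.2 k)
    have k : ∀ u ∈ V₂, B u w ≠ 0 → u ∈ W := fun u hu uw => by
      obtain ⟨s, hs, s1, s2, c, c0, e⟩ := h.exists_mid hP hu
      have := key w hw _ (e w (ha hw)) y (hP.zero (e w (ha hw)) hy) yw
      rwa [W.sub_mem_iff_right (W.sub_mem (hW s hs s1 s2 w hw) hw), W.smul_mem_iff (mul_ne_zero c0 uw)] at this
    refine .inr (.inr (.inl (le_antisymm ha fun u hu => ?_)))
    by_cases uw : B u w = 0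
    · exact (W.add_mem_iff_left (k y hy yw)).1 (k _ (V₂.add_mem hu hy) (by simpa [uw]))
    · exact k u hu uw
  refine or_iff_not_imp_left.2 fun h0 => .inl (le_antisymm hb fun v hv => ?_)
  obtain ⟨w, hw, w0⟩ := Submodule.exists_mem_ne_zero_of_ne_bot h0
  by_cases hi : LinearIndependent F ![w, v]
  · obtain ⟨y, hy⟩ := h.1.exists_apply_eq hi ![1, 0]
    exact key w hw v hv y (hy 1) fun e => by simpa [h.1.eq_zero_comm.1 e] using hy 0
  · rw [LinearIndependent.pair_iff' w0] at hi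
    push Not at hi
    obtain ⟨a, rfl⟩ := hi
    exact W.smul_mem a hw

/-- Take an isotropic `v ≠ 0`, `V₁ = F v`, `V₂ = perp V₁`; by `inv`, `W` is `⊥, V₁, V₂, ⊤`.  For isotropic `v'` with
`B v v' ≠ 0` the transvection in `v'` moves `v` out of `V₂`, which excludes `V₁` and `V₂`. -/
theorem irr (h2 : 2 ≤ finrank F V) {W : Submodule F V} (hW : ∀ s ∈ SS U, St W (s : End F V)) :
    W = ⊥ ∨ W = ⊤ := by
  obtain ⟨v, v0, hv⟩ := h.1.exists_isotropic h2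
  obtain ⟨v', v1, v2⟩ := h.1.exists_hyperbolic v0 hv
  obtain ⟨δ, δ0, hδ⟩ := h.1.exists_skew
  obtain ⟨s, hs, e⟩ := h.exists_tv v1 hδ
  have m := Submodule.mem_span_singleton_self (R := F) v
  have l : (F ∙ v) ≤ perp B (F ∙ v) := (Submodule.span_singleton_le_iff_mem _ _).2 (mem_perp_singleton.2 hv)
  have k : v ∈ W → ¬ W ≤ perp B (F ∙ v) := fun h1 h3 => by
    have := mem_perp_singleton.1 (h3 (hW s hs v h1))
    simp [e, hv, v2, δ0, ← h.1.symm v v'] at this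
  rcases h.inv (V₁ := F ∙ v) ⟨by simpa, l, rfl⟩ fun s hs _ _ => hW s hs with e | e | e | e
  exacts [.inl e, absurd (e ▸ l) (k (e ▸ m)), absurd e.le (k (e ▸ l m)), .inr e]

/-- Here `B (X w) w = 0` for `X ∈ 𝒳` (`W₂ = perp W₁`), and we derive a contradiction.  Let `𝒲 = {x | ∀ X ∈ 𝒳, B (X x) x = 0}`;
it is stable under the stabiliser in `SS U`, under scalars and under adding `V₂` (`X V₂ = 0`, `B V₁ V₂ = 0`).
Take `u ∈ V₁` with `B u w ≠ 0`; `E(u, y) w ∈ w + B u w • y + V₁` for `y ⊥ u`, so `w + y ∈ 𝒲` for all `y ⊥ u`.  For `X ∈ 𝒳`,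
`g x x' = B (X x) x'` is sesquilinear and `g (w + c y) (w + c y) = 0` for all `c : F`:
`c g w y + σ c g y w + c σ c g y y = 0`.  Put `A, B', C` for the coefficients: `c = 1` and a general `c`; comparing `c`, `d`, `c + d`
gives `(c σ d + d σ c) C = 0`, so `C = 0` (`exists_trace_eq`), then `c A + σ c B' = 0` for all `c` gives `A = B' = 0`.
Replacing `y` by `y + c y'` gives `g y y' = 0`.  As `V = F w + perp u`, `g = 0`, so `X = 0`. -/
theorem uw {V₁ V₂ W₁ W₂ : Submodule F V} (hP : PrB B V₁ V₂) (hQ : PrB B W₁ W₂) {𝒳 : Set (End F V)}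
    (h1 : ∀ X ∈ 𝒳, LinearMap.range X ≤ V₁ ∧ V₂ ≤ LinearMap.ker X) (h0 : ∃ X ∈ 𝒳, X ≠ 0)
    (hs : ∀ s ∈ SS U, St V₁ (s : End F V) → St V₂ (s : End F V) →
      ∀ X ∈ 𝒳, (s : End F V) * X * ((s⁻¹ : (End F V)ˣ) : End F V) ∈ 𝒳)
    {w : V} (hw2 : w ∈ W₂) (hw : w ∉ V₂) (hX : ∀ X ∈ 𝒳, X w ∈ W₁) : False := by
  obtain ⟨X, mX, X0⟩ := h0
  obtain ⟨u, hu, uw⟩ := hP.exists_ne hw
  have k1 : ∀ y, B u y = 0 → B (X (w + y)) (w + y) = 0 := fun y hy => by
    obtain ⟨s, ms, s1, s2, γ, e⟩ := h.eich hP hu (y := (B u w)⁻¹ • y) (by simp [hy])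
    have := hQ.zero (hX _ (hs _ (inv_mem ms) s1.inv s2.inv X mX)) hw2
    rw [← (h.2 s).1 (SS_le ms), inv_inv, ← End.mul_apply, ← mul_assoc, ← mul_assoc, Units.mul_inv, one_mul,
      End.mul_apply, e, smul_smul, mul_inv_cancel₀ uw, one_smul] at this
    have a : X u = 0 := (h1 X mX).2 (hP.2.1 hu)
    have b : ∀ z, B (X z) u = 0 := fun z => hP.zero ((h1 X mX).1 ⟨z, rfl⟩) (hP.2.1 hu)
    generalize w + y = z at this ⊢
    simpa [a, b] using this
  have k0 : B (X w) w = 0 := by simpa using k1 0 (map_zero _)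
  have k2 : ∀ y, B u y = 0 → B (X y) y = 0 := fun y hy => by
    obtain ⟨c, hc⟩ := h.1.exists_trace_eq (map_one σ)
    have e1 := k1 y hy
    have e2 := k1 (c • y) (by simp [hy])
    have e3 := k1 ((c + 1) • y) (by simp [hy])
    simp only [map_add, map_smulₛₗ, LinearMap.add_apply, LinearMap.smul_apply, smul_eq_mul, RingHom.id_apply,
      map_one, k0] at e1 e2 e3
    linear_combination e3 - e1 - e2 - B (X y) y * hc
  have k3 : ∀ x, B (X x) x = 0 := fun x => by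
    by_cases hx : B u x = 0
    · exact k2 x hx
    have := k1 ((B u w / B u x) • x - w) (by simp [hx])
    simpa [uw, hx] using this
  obtain ⟨c, hc⟩ : ∃ c, σ c ≠ c := not_forall.1 fun e => h.1.ne_id (RingHom.ext e)
  refine X0 (LinearMap.ext fun x => h.1.nondeg _ fun y => mul_left_cancel₀ (sub_ne_zero.2 hc) ?_)
  have e1 := k3 (x + y)
  have e2 := k3 (x + c • y)
  simp only [map_add, map_smulₛₗ, LinearMap.add_apply, LinearMap.smul_apply, smul_eq_mul, RingHom.id_apply,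
    k3] at e1 e2
  linear_combination σ c * e1 - e2

end IsU

end Cfsg.Lib.WB
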