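import Cfsg.Agent.Lib.WB.Adm

/-!
# S3694: unipotent groups, ring lemmas
-/

set_option linter.unusedSectionVars false

namespace Cfsg.Lib.WB

open Module Cfsg.Lib.Unitary Cfsg.Lib.Transfer
open scoped commutatorElement

variable {F V : Type*} [Field F] [AddCommGroup V] [Module F V] [Finite F] [Finite V]
  {U : Subgroup (End F V)ˣ}

/-- `Q` is a `p`-group acting on the finite set `W₂ / W₁` (or on the cosets `v + W₁`) whose size is a power of `p` greater than `1`;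
it fixes `0`, so another point (`IsPGroup.exists_fixed_point_of_prime_dvd_card_of_fixed_point`). -/
theorem up_fix {p : ℕ} (hp : p.Prime) (h0 : (p : F) = 0) {Q : Subgroup (End F V)ˣ}
    (hQ : ∀ q ∈ Q, ∃ j : ℕ, q ^ p ^ j = 1) {W₁ W₂ : Submodule F V} (hW : W₁ < W₂)
    (h1 : ∀ q ∈ Q, St W₁ (q : End F V)) (h2 : ∀ q ∈ Q, St W₂ (q : End F V)) :
    ∃ v ∈ W₂, v ∉ W₁ ∧ ∀ q ∈ Q, (q : End F V) v - v ∈ W₁ := by
  have := Fact.mk hp
  let act : Q → (V ⧸ W₁) →ₗ[F] (V ⧸ W₁) := fun q => W₁.mapQ W₁ q.1.1 (h1 q q.2)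
  let W' := W₂.map W₁.mkQ
  letI : MulAction Q W' :=
    { smul := fun q c => ⟨act q c, by
        obtain ⟨_, v, hv, rfl⟩ := c
        exact ⟨_, h2 q q.2 v hv, rfl⟩⟩
      one_smul := by
        rintro ⟨_, v, hv, rfl⟩
        rfl
      mul_smul := by
        rintro a b ⟨_, v, hv, rfl⟩
        rfl }
  have : Finite (V ⧸ W₁) := Finite.of_surjective _ W₁.mkQ_surjective
  have hq : IsPGroup p Q := fun q => (hQ q q.2).imp fun _ h => Subtype.ext h
  obtain ⟨u, u2, u1⟩ := SetLike.exists_of_lt hW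
  have hd : p ∣ Nat.card W' := by
    rw [← addOrderOf_eq_prime (p := p) (x := (⟨_, u, u2, rfl⟩ : W')) (by rw [← Nat.cast_smul_eq_nsmul F, h0, zero_smul])
      fun e => u1 ((Submodule.Quotient.mk_eq_zero W₁).1 (congrArg Subtype.val e))]
    exact addOrderOf_dvd_natCard _
  obtain ⟨⟨_, v, hv, rfl⟩, b1, b2⟩ := hq.exists_fixed_point_of_prime_dvd_card_of_fixed_point W' hd (a := 0)
    fun q => Subtype.ext (map_zero (act q))
  exact ⟨v, hv, fun e => b2 (Subtype.ext ((Submodule.Quotient.mk_eq_zero W₁).2 e).symm),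
    fun q hq => (Submodule.Quotient.eq W₁).1 (congrArg Subtype.val (b1 ⟨q, hq⟩))⟩

/-- Take `W` maximal among the `Q`-invariant subspaces with `W₁ ≤ W < W₂`; `{v ∈ W₂ | ∀ q, q v - v ∈ W}` is invariant and
bigger than `W` by `up_fix`, so it is `W₂`. -/
theorem up_comm {p : ℕ} (hp : p.Prime) (h0 : (p : F) = 0) {Q : Subgroup (End F V)ˣ}
    (hQ : ∀ q ∈ Q, ∃ j : ℕ, q ^ p ^ j = 1) {W₁ W₂ : Submodule F V} (hW : W₁ < W₂)
    (h1 : ∀ q ∈ Q, St W₁ (q : End F V)) (h2 : ∀ q ∈ Q, St W₂ (q : End F V)) :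
    ∃ W : Submodule F V, W₁ ≤ W ∧ W < W₂ ∧ ∀ q ∈ Q, ∀ v ∈ W₂, (q : End F V) v - v ∈ W := by
  have : Finite (Submodule F V) := Finite.of_injective _ SetLike.coe_injective
  obtain ⟨W, ⟨a, b, c⟩, m⟩ := (Set.toFinite {W : Submodule F V | W₁ ≤ W ∧ W < W₂ ∧
    ∀ q ∈ Q, St W (q : End F V)}).exists_maximal ⟨W₁, le_rfl, hW, h1⟩
  obtain ⟨v, v2, v1, hv⟩ := up_fix hp h0 hQ b c h2
  have k : ∀ q ∈ Q, ∀ u ∈ W ⊔ F ∙ v, (q : End F V) u - u ∈ W := fun q hq u hu => by
    obtain ⟨w, hw, _, hx, rfl⟩ := Submodule.mem_sup.1 hu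
    obtain ⟨t, rfl⟩ := Submodule.mem_span_singleton.1 hx
    rw [map_add, map_smul, add_sub_add_comm, ← smul_sub]
    exact W.add_mem (W.sub_mem (c q hq w hw) hw) (W.smul_mem t (hv q hq))
  refine ⟨W, a, b, ?_⟩
  rcases (sup_le b.le ((Submodule.span_singleton_le_iff_mem _ _).2 v2)).eq_or_lt with e | e
  · exact e ▸ k
  · refine absurd (m ⟨le_sup_of_le_left a, e, fun q hq u hu => ?_⟩ le_sup_left
      (Submodule.mem_sup_right (Submodule.mem_span_singleton_self v))) v1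
    simpa using add_mem (Submodule.mem_sup_left (k q hq u hu)) hu

/-- `K / ZZ U` is a `p`-group, `ZZ U` is central of order prime to `p` (`ZZ_pow_card`, `p ∤ |F| - 1`).  So `K` is nilpotent
(or: a Sylow `p`-subgroup `Q` has `K = ZZ U · Q`, hence is normal and contains every `p`-element). -/
theorem exists_pp {p : ℕ} (hp : p.Prime) (h0 : (p : F) = 0) {K : Subgroup (End F V)ˣ} (hZ : ZZ U ≤ K)
    (hK : ∀ k ∈ K, ∃ j : ℕ, k ^ p ^ j ∈ ZZ U) :
    ∃ Q : Subgroup (End F V)ˣ, (∀ x, x ∈ Q ↔ x ∈ K ∧ ∃ j : ℕ, x ^ p ^ j = 1) ∧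
      ∀ k ∈ K, ∃ z ∈ ZZ U, ∃ q ∈ Q, k = z * q := by
  have := Fact.mk hp
  let Z := (ZZ U).subgroupOf K
  have : Z.Normal := ⟨fun z hz g => conj_mem_ZZ.2 hz⟩
  have hq : IsPGroup p (K ⧸ Z) := fun q => by
    obtain ⟨k, rfl⟩ := QuotientGroup.mk_surjective q
    exact (hK k k.2).imp fun j hj => (QuotientGroup.eq_one_iff (k ^ p ^ j)).2 hj
  let P : Sylow p K := default
  have dec : ∀ k : K, ∃ z ∈ Z, ∃ q ∈ P, k = z * q := fun k => by
    obtain ⟨q, h1, h2⟩ := ((P.mapSurjective (QuotientGroup.mk'_surjective Z)).is_maximal'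
      (hq.to_subgroup ⊤) le_top).le (Subgroup.mem_top (k : K ⧸ Z))
    exact ⟨k * q⁻¹, QuotientGroup.eq_iff_div_mem.1 h2.symm, q, h1, by simp⟩
  have hn : (P : Subgroup K).Normal := ⟨fun x hx k => by
    obtain ⟨z, hz, q, h1, rfl⟩ := dec k
    have : z * (q * x * q⁻¹) = q * x * q⁻¹ * z := Subtype.ext (ZZ_comm hz _)
    rw [show z * q * x * (z * q)⁻¹ = z * (q * x * q⁻¹) * z⁻¹ by group, this, mul_inv_cancel_right]
    exact mul_mem (mul_mem h1 hx) (inv_mem h1)⟩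
  refine ⟨(P : Subgroup K).map K.subtype, fun x => ⟨?_, fun ⟨hx, j, hj⟩ => ⟨⟨x, hx⟩, ?_, rfl⟩⟩, fun k hk => ?_⟩
  · rintro ⟨y, hy, rfl⟩
    exact ⟨y.2, (P.2 ⟨y, hy⟩).imp fun j hj => congrArg (fun t => t.1.1) hj⟩
  · obtain ⟨P', h⟩ := (show IsPGroup p (Subgroup.zpowers (⟨x, hx⟩ : K)) by
      rintro ⟨_, i, rfl⟩
      exact ⟨j, Subtype.ext (Subtype.ext (by
        simp only [SubmonoidClass.mk_pow, SubgroupClass.coe_zpow, SubmonoidClass.coe_pow, OneMemClass.coe_one]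
        rw [← zpow_natCast, ← zpow_mul, mul_comm, zpow_mul, zpow_natCast, hj, one_zpow]))⟩).exists_le_sylow
    have := P.unique_of_normal hn
    exact Subsingleton.elim P' P ▸ h (Subgroup.mem_zpowers _)
  · obtain ⟨z, hz, q, h1, e⟩ := dec ⟨k, hk⟩
    exact ⟨z, hz, q, ⟨q, h1, rfl⟩, congrArg Subtype.val e⟩

section ring

variable {I : Set (End F V)} {X : End F V}

theorem range_le_iInf_ker : LinearMap.range X ≤ ⨅ a ∈ I, LinearMap.ker a ↔ ∀ a ∈ I, a * X = 0 := by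
  simp only [le_iInf_iff, LinearMap.range_le_ker_iff, End.mul_eq_comp]

theorem iSup_range_le_ker : (⨆ a ∈ I, LinearMap.range a) ≤ LinearMap.ker X ↔ ∀ a ∈ I, X * a = 0 := by
  simp only [iSup_le_iff, LinearMap.range_le_ker_iff, End.mul_eq_comp]

/-- `←`: take `Y` with kernel exactly `⨆ range` (projection along a complement). -/
theorem range_le_iSup_range : LinearMap.range X ≤ ⨆ a ∈ I, LinearMap.range a ↔
    ∀ Y : End F V, (∀ a ∈ I, Y * a = 0) → Y * X = 0 := by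
  refine ⟨fun h Y hY => LinearMap.range_le_ker_iff.1 (h.trans (iSup_range_le_ker.2 hY)), fun h => ?_⟩
  obtain ⟨W, hW⟩ := Submodule.exists_isCompl (⨆ a ∈ I, LinearMap.range a)
  rw [← Submodule.ker_projection hW.symm, LinearMap.range_le_ker_iff]
  exact h _ (iSup_range_le_ker.1 (Submodule.ker_projection hW.symm).ge)

/-- `←`: take `Y` the projection onto `⨅ ker`. -/
theorem iInf_ker_le_ker : (⨅ a ∈ I, LinearMap.ker a) ≤ LinearMap.ker X ↔
    ∀ Y : End F V, (∀ a ∈ I, a * Y = 0) → X * Y = 0 := by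
  refine ⟨fun h Y hY => LinearMap.range_le_ker_iff.1 ((range_le_iInf_ker.2 hY).trans h), fun h => ?_⟩
  obtain ⟨W, hW⟩ := Submodule.exists_isCompl (⨅ a ∈ I, LinearMap.ker a)
  rw [← Submodule.range_projection hW, LinearMap.range_le_ker_iff]
  exact h _ (range_le_iInf_ker.1 (Submodule.range_projection hW).le)

end ring

/-- `F + Hom(V / V₂, V₁)` -/
def homAlg {V₁ V₂ : Submodule F V} (h : V₁ ≤ V₂) : Subalgebra F (End F V) where
  carrier := {Y | ∃ (c : F) (X : End F V), LinearMap.range X ≤ V₁ ∧ V₂ ≤ LinearMap.ker X ∧ Y = c • 1 + X}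
  mul_mem' := by
    rintro _ _ ⟨c, X, x1, x2, rfl⟩ ⟨d, Y, y1, y2, rfl⟩
    have e : X * Y = 0 := LinearMap.range_le_ker_iff.1 (y1.trans (h.trans x2))
    refine ⟨c * d, c • Y + d • X, ?_, fun v hv => ?_, ?_⟩
    · rintro _ ⟨v, rfl⟩
      exact add_mem (V₁.smul_mem c (y1 ⟨v, rfl⟩)) (V₁.smul_mem d (x1 ⟨v, rfl⟩))
    · simp [LinearMap.mem_ker.1 (x2 hv), LinearMap.mem_ker.1 (y2 hv)]
    · simp [add_mul, mul_add, e, smul_smul, add_assoc, mul_comm c d, add_comm (d • X)]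
  add_mem' := by
    rintro _ _ ⟨c, X, x1, x2, rfl⟩ ⟨d, Y, y1, y2, rfl⟩
    refine ⟨c + d, X + Y, ?_, fun v hv => ?_, ?_⟩
    · rintro _ ⟨v, rfl⟩
      exact add_mem (x1 ⟨v, rfl⟩) (y1 ⟨v, rfl⟩)
    · simp [LinearMap.mem_ker.1 (x2 hv), LinearMap.mem_ker.1 (y2 hv)]
    · rw [add_smul, add_add_add_comm]
  algebraMap_mem' := by
    intro c
    exact ⟨c, 0, by simp, by simp, by rw [add_zero, Algebra.algebraMap_eq_smul_one]⟩

theorem homAlg_comm {V₁ V₂ : Submodule F V} (h : V₁ ≤ V₂) {a b : End F V} (ha : a ∈ homAlg h) (hb : b ∈ homAlg h) :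
    Commute a b := by
  obtain ⟨c, X, x1, x2, rfl⟩ := ha
  obtain ⟨d, Y, y1, y2, rfl⟩ := hb
  have e : X * Y = 0 := LinearMap.range_le_ker_iff.1 (y1.trans (h.trans x2))
  have e' : Y * X = 0 := LinearMap.range_le_ker_iff.1 (x1.trans (h.trans y2))
  exact (((Commute.one_left _).smul_left c)).add_left
    (((Commute.one_right _).smul_right d).add_right (e.trans e'.symm))

/-- The four conditions above describe `𝒩 = {X | range X ≤ C ⊓ D, C ⊔ D ≤ ker X}`; a multiplicative `τ` preserves each, an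
anti-multiplicative one swaps them in pairs (use `τ.symm ∈ T`, `X = τ (τ.symm X)`); `τ (c • 1 + X) = φ c • 1 + τ X`. -/
theorem ts_homAlg {T : Set (End F V ≃+ End F V)} (hm : ∀ τ ∈ T, ((∀ X Y, τ (X * Y) = τ X * τ Y) ∨
      (∀ X Y, τ (X * Y) = τ Y * τ X)) ∧ ∀ c : F, ∃ d : F, τ (c • 1) = d • 1) (hs : ∀ τ ∈ T, τ.symm ∈ T)
    {I : Set (End F V)} (hI : TS T I) :
    TS T (homAlg (V₁ := (⨅ a ∈ I, LinearMap.ker a) ⊓ ⨆ a ∈ I, LinearMap.range a)
      (V₂ := (⨅ a ∈ I, LinearMap.ker a) ⊔ ⨆ a ∈ I, LinearMap.range a) inf_le_sup) := by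
  rintro τ hτ _ ⟨c, X, x1, x2, rfl⟩
  obtain ⟨d, hd⟩ := (hm τ hτ).2 c
  rw [le_inf_iff, range_le_iInf_ker, range_le_iSup_range] at x1
  rw [sup_le_iff, iInf_ker_le_ker, iSup_range_le_ker] at x2
  have i := hI _ (hs τ hτ)
  refine ⟨d, τ X, ?_, ?_, by rw [map_add, hd]⟩
  · rw [le_inf_iff, range_le_iInf_ker, range_le_iSup_range]
    refine ⟨fun a ha => ?_, fun Y hY => ?_⟩
    · have := i a ha
      obtain ⟨a, rfl⟩ := τ.surjective a
      rw [τ.symm_apply_apply] at this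
      rcases (hm τ hτ).1 with m | m <;> rw [← m]
      · rw [x1.1 a this, map_zero]
      · rw [x2.2 a this, map_zero]
    · obtain ⟨Y, rfl⟩ := τ.surjective Y
      rcases (hm τ hτ).1 with m | m <;> rw [← m]
      · rw [x1.2 Y fun a ha => τ.map_eq_zero_iff.1 ((m _ _).trans (hY _ (hI τ hτ a ha))), map_zero]
      · rw [x2.1 Y fun a ha => τ.map_eq_zero_iff.1 ((m _ _).trans (hY _ (hI τ hτ a ha))), map_zero]
  · rw [sup_le_iff, iInf_ker_le_ker, iSup_range_le_ker]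
    refine ⟨fun Y hY => ?_, fun a ha => ?_⟩
    · obtain ⟨Y, rfl⟩ := τ.surjective Y
      rcases (hm τ hτ).1 with m | m <;> rw [← m]
      · rw [x2.1 Y fun a ha => τ.map_eq_zero_iff.1 ((m _ _).trans (hY _ (hI τ hτ a ha))), map_zero]
      · rw [x1.2 Y fun a ha => τ.map_eq_zero_iff.1 ((m _ _).trans (hY _ (hI τ hτ a ha))), map_zero]
    · have := i a ha
      obtain ⟨a, rfl⟩ := τ.surjective a
      rw [τ.symm_apply_apply] at this
      rcases (hm τ hτ).1 with m | m <;> rw [← m]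
      · rw [x2.2 a this, map_zero]
      · rw [x1.1 a this, map_zero]

/-- Elements of `sp A` are semisimple endomorphisms: `a ^ m = 1` with `(m : F) ≠ 0` gives a squarefree minimal polynomial
(`Module.End.isSemisimple_of_squarefree_aeval_eq_zero`), sums and scalar multiples of commuting semisimple maps over the perfect
field `F` are semisimple (`Module.End.IsSemisimple.add_of_commute`), nilpotent + semisimple is zero. -/
theorem sp_reduced {A : Subgroup (End F V)ˣ} (hab : Ab A) (hs : ∀ a ∈ A, Ssm a) {X : End F V} (hX : X ∈ sp A)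
    (hn : IsNilpotent X) : X = 0 := by
  refine End.eq_zero_of_isNilpotent_isSemisimple hn (And.right (a := X ∈ sp A) ?_)
  refine sp_induction (P := fun X => X ∈ sp A ∧ X.IsSemisimple) (fun a ha => ⟨mem_sp ha, ?_⟩)
    ⟨zero_mem _, End.isSemisimple_zero⟩ (fun X Y hX hY => ⟨add_mem hX.1 hY.1,
      End.IsSemisimple.add_of_commute (hab.sp_comm hX.1 hY.1) hX.2 hY.2⟩)
    (fun c X hX => ⟨Subalgebra.smul_mem _ hX.1 c, End.IsSemisimple_smul c hX.2⟩) hX
  refine End.isSemisimple_of_squarefree_aeval_eq_zero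
    (Polynomial.separable_X_pow_sub_C 1 (hs a ha) one_ne_zero).squarefree ?_
  simp [← Units.val_pow_eq_pow_val]

/-- some positive power of `a` is idempotent (finite monoid); it is non-zero, hence `1`. -/
theorem fld_of_idem {Z : Subalgebra F (End F V)} (hc : ∀ a ∈ Z, ∀ b ∈ Z, Commute a b)
    (hr : ∀ a ∈ Z, IsNilpotent a → a = 0) (hi : ∀ e ∈ Z, IsIdempotentElem e → e = 0 ∨ e = 1) : Fld Z := by
  refine ⟨hc, fun a ha h0 => ?_⟩
  obtain ⟨i, d, e⟩ : ∃ i d : ℕ, a ^ (i + (d + 1)) = a ^ i := by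
    obtain ⟨i, j, hij, e⟩ := Finite.exists_ne_map_eq_of_infinite fun n : ℕ => a ^ n
    rcases hij.lt_or_gt with h | h
    · exact ⟨i, j - i - 1, by rw [e]; congr 1; omega⟩
    · exact ⟨j, i - j - 1, by rw [← e]; congr 1; omega⟩
  have per : ∀ k, a ^ (i + k * (d + 1)) = a ^ i := fun k => by
    induction k with
    | zero => simp
    | succ k ih => rw [add_mul, one_mul, add_comm (k * _), ← add_assoc, pow_add, e, ← pow_add, ih]
  have n : (i + 1) * (d + 1) = i + (i * d + d) + 1 := by ring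
  rcases hi (a ^ ((i + 1) * (d + 1))) (pow_mem ha _) (by
    rw [IsIdempotentElem]
    nth_rw 1 [n]
    rw [add_assoc, add_comm i, pow_add, mul_assoc, ← pow_add, per, ← pow_add, n]
    congr 1
    ring) with h | h
  · exact absurd (hr a ha ⟨_, h⟩) h0
  · exact ⟨_, pow_mem ha _, by rw [← pow_succ', ← n, h]⟩

/-- `a ↦ a v` is a linear bijection `Z → V`; `x v = a v` gives `x (b v) = b a v = a (b v)`. -/
theorem Fld.dim_one {Z : Subalgebra F (End F V)} (hZ : Fld Z) {v : V} (hv : v ≠ 0) (hw : ∀ w, ∃ a ∈ Z, a v = w) :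
    finrank F Z = finrank F V ∧ ∀ x : End F V, (∀ a ∈ Z, Commute x a) → x ∈ Z := by
  refine ⟨(LinearEquiv.ofBijective ((LinearMap.applyₗ v).comp Z.val.toLinearMap)
    ⟨(injective_iff_map_eq_zero _).2 fun a (ha : a.1 v = 0) => by_contra fun h0 => hv ?_,
      fun w => (hw w).elim fun a ha => ⟨⟨a, ha.1⟩, ha.2⟩⟩).finrank_eq, fun x hx => ?_⟩
  · obtain ⟨b, hb, e⟩ := hZ.2 a a.2 fun e => h0 (Subtype.ext e)
    rw [← End.one_apply (R := F) v, ← e, hZ.1 _ a.2 b hb, End.mul_apply, ha, map_zero]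
  · obtain ⟨a, ha, e⟩ := hw (x v)
    refine (LinearMap.ext fun w => ?_ : a = x) ▸ ha
    obtain ⟨b, hb, rfl⟩ := hw w
    rw [← End.mul_apply, hZ.1 a ha b hb, End.mul_apply, e, ← End.mul_apply, ← hx b hb, End.mul_apply]

/-- commutant of a non-scalar map on a plane: there is `v ∈ range e` with `v, y v` a basis of `range e`; write
`x v = a v + b y v`. -/
theorem c22 {e x y : End F V} (he : IsIdempotentElem e) (h2 : rk e = 2) (hy : Commute e y) (hn : ¬ ScOn e y)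
    (hx : Commute e x) (hxy : Commute x y) : ∃ a b : F, e * x = a • e + b • (e * y) := by
  have st : ∀ {z : End F V}, Commute e z → ∀ v ∈ LinearMap.range e, z v ∈ LinearMap.range e := by
    rintro z hz _ ⟨v, rfl⟩
    exact ⟨z v, by rw [← End.mul_apply, hz, End.mul_apply]⟩
  obtain ⟨v, hv⟩ : ∃ v, LinearIndependent F ![v, y.restrict (st hy) v] := by
    by_contra! k
    obtain ⟨a, ha⟩ := LinearMap.exists_eq_smul_id_of_forall_notLinearIndependent k
    exact hn ⟨a, LinearMap.ext fun w => by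
      rw [hy]
      exact congrArg Subtype.val (DFunLike.congr_fun ha ⟨e w, w, rfl⟩)⟩
  have sp : ∀ w ∈ LinearMap.range e, ∃ a b : F, a • v.1 + b • y v = w := fun w hw => by
    have := (hv.span_eq_top_of_card_eq_finrank (by simpa using h2.symm)).ge (Submodule.mem_top (x := ⟨w, hw⟩))
    rw [Matrix.range_cons, Matrix.range_cons, Matrix.range_empty, Set.union_empty, Set.singleton_union,
      Submodule.mem_span_pair] at this
    obtain ⟨a, b, e⟩ := this
    exact ⟨a, b, congrArg Subtype.val e⟩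
  obtain ⟨a, b, h⟩ := sp _ (st hx v v.2)
  refine ⟨a, b, LinearMap.ext fun w => ?_⟩
  obtain ⟨s, t, h'⟩ := sp _ ⟨w, rfl⟩
  have h3 : x (y v) = a • y v + b • y (y v) := by
    rw [← End.mul_apply, hxy, End.mul_apply, ← h, map_add, map_smul, map_smul]
  rw [hx, hy]
  simp only [End.mul_apply, LinearMap.add_apply, LinearMap.smul_apply, ← h', map_add, map_smul, h3, ← h]
  module

theorem card_End : Nat.card (End F V) = Nat.card F ^ (finrank F V ^ 2) := by
  rw [Module.natCard_eq_pow_finrank (K := F), Module.finrank_linearMap, sq]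

/-- restrict to `range e` and `range (1 - e)` -/
theorem card_commute_le {e : End F V} (he : IsIdempotentElem e) :
    Nat.card {X : End F V // Commute e X} ≤ Nat.card F ^ (rk e ^ 2 + rk (1 - e) ^ 2) := by
  have st : ∀ {e z : End F V}, Commute e z → ∀ v ∈ LinearMap.range e, z v ∈ LinearMap.range e := by
    rintro e z hz _ ⟨v, rfl⟩
    exact ⟨z v, by rw [← End.mul_apply, hz, End.mul_apply]⟩
  rw [pow_add, ← card_End, ← card_End, ← Nat.card_prod]
  refine Nat.card_le_card_of_injective (fun X => (X.1.restrict (st X.2),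
    X.1.restrict (st ((Commute.one_left _).sub_left X.2)))) fun X Y h => Subtype.ext (LinearMap.ext fun v => ?_)
  have h1 : X.1 (e v) = Y.1 (e v) :=
    congrArg Subtype.val (LinearMap.congr_fun (Prod.mk.inj h).1 ⟨e v, v, rfl⟩)
  have h2 : X.1 ((1 - e) v) = Y.1 ((1 - e) v) :=
    congrArg Subtype.val (LinearMap.congr_fun (Prod.mk.inj h).2 ⟨(1 - e) v, v, rfl⟩)
  simpa [h1] using h2

end Cfsg.Lib.WB
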