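import Cfsg.Agent.Lib.WB.Geo
import Cfsg.Agent.Lib.WB.Tau
import Cfsg.Agent.Lib.WB.Up
import Cfsg.Agent.Lib.BG.Prod

/-!
# S3694: Lemma W, root groups, the field structure lemma
-/

set_option linter.unusedSectionVars false

namespace Cfsg.Lib.WB

open Module Cfsg.Lib.Unitary Cfsg.Lib.Transfer
open scoped commutatorElement

variable {F V : Type*} [Field F] [AddCommGroup V] [Module F V] [Finite F] [Finite V]
  {U : Subgroup (End F V)ˣ}

namespace LC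

variable {p : ℕ} (L : LC U p)

theorem HU : L.H ≤ U := L.HG.trans L.GU
theorem YU : L.Y ≤ U := L.YH.trans L.HU
theorem EU : L.E ≤ U := L.EY.trans L.YU
theorem EH : L.E ≤ L.H := L.EY.trans L.YH
theorem ZY : ZZ U ≤ L.Y := L.ZE.trans L.EY
theorem ZH : ZZ U ≤ L.H := L.ZY.trans L.YH
theorem ZG : ZZ U ≤ L.G := L.ZH.trans L.HG
theorem KU {k : (End F V)ˣ} (hk : k ∈ L.K) : k ∈ U := L.GU (L.KG k hk)

/-- invariant groups are normalised by `H` (`cj`) -/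
theorem conj_mem {A : Subgroup (End F V)ˣ} (hA : TI L.T A) {h a : (End F V)ˣ} (hh : h ∈ L.H) (ha : a ∈ A) :
    h * a * h⁻¹ ∈ A := by
  obtain ⟨τ, hτ, e⟩ := L.cj h hh
  obtain ⟨a', ha', e'⟩ := hA τ hτ a ha
  rwa [show h * a * h⁻¹ = a' from Units.ext (by rw [← e', e]; rfl)]

theorem conj_mem' {A : Set (End F V)} (hA : TS L.T A) {h : (End F V)ˣ} (hh : h ∈ L.H) {a : End F V} (ha : a ∈ A) :
    (h : End F V) * a * ((h⁻¹ : (End F V)ˣ) : End F V) ∈ A := by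
  obtain ⟨τ, hτ, e⟩ := L.cj h hh
  exact e a ▸ hA τ hτ a ha

/-- `s (k⁻¹ E k) s⁻¹ = k'⁻¹ E k'` for `k' = s k s⁻¹` as `s` normalises `E`. -/
theorem conj_mem_Ek {k s x : (End F V)ˣ} (hs : s ∈ L.H) (hx : x ∈ Ek L.E k) :
    s * x * s⁻¹ ∈ Ek L.E (s * k * s⁻¹) := by
  rw [mem_Ek, show s * k * s⁻¹ * (s * x * s⁻¹) * (s * k * s⁻¹)⁻¹ = s * (k * x * k⁻¹) * s⁻¹ by group]
  exact L.conj_mem L.tE hs hx

/-- `KK` in both directions -/
theorem commutator_mem_Ek {k k' x x' : (End F V)ˣ} (hk : k ∈ L.K) (hk' : k' ∈ L.K) (hx : x ∈ Ek L.E k)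
    (hx' : x' ∈ Ek L.E k') : ⁅x, x'⁆ ∈ Ek L.E k ∧ ⁅x, x'⁆ ∈ Ek L.E k' := by
  refine ⟨?_, mul_mem (L.KK k hk k' hk' x hx x' hx') (inv_mem hx')⟩
  rw [commutatorElement_def, mul_assoc, mul_assoc, ← mul_assoc x']
  exact mul_mem hx (L.KK k' hk' k hk x' hx' _ (inv_mem hx))

theorem pow_mem_of_Ek {k x : (End F V)ˣ} (hx : x ∈ Ek L.E k) : x ^ p ∈ ZZ U := by
  have := L.pE _ (mem_Ek.1 hx)
  rwa [conj_pow, conj_mem_ZZ] at this

/-- `max` with `A = E` (`SS U ≤ E` would give `SS U ≤ H`), `conj_mem_of_Ek_le`, `KH`. -/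
theorem not_Ek_le {k : (End F V)ˣ} (hk : k ∈ L.K) : ¬ Ek L.E k ≤ L.E := by
  exact fun h => L.KH k hk (L.max _ (L.EH.trans L.HG) L.ZE L.tE L.ne (fun hs => L.SH (hs.trans L.EH)) k
    (L.KG k hk) (conj_mem_of_Ek_le h))

/-- `max` with `A = Y` -/
theorem mem_H_of_norm_Y {g : (End F V)ˣ} (hg : g ∈ L.G) (h : ∀ y ∈ L.Y, g * y * g⁻¹ ∈ L.Y) : g ∈ L.H := by
  exact L.max _ (L.YH.trans L.HG) L.ZY L.tY (fun e => L.ne (L.EY.trans e)) (fun hs => L.SH (hs.trans L.YH)) g hg h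

/-- `max` with `A = H` -/
theorem mem_H_of_norm_H {g : (End F V)ˣ} (hg : g ∈ L.G) (h : ∀ y ∈ L.H, g * y * g⁻¹ ∈ L.H) : g ∈ L.H := by
  exact L.max _ L.HG L.ZH L.tH (fun e => L.ne (L.EH.trans e)) L.SH g hg h

/-- Lemma W.  `A = G ⊓ un 𝒜` is invariant, contains `ZZ U`, and does not contain `SS U` (`Kd.cs`).  If `A ≤ ZZ U` we are done,
otherwise `max`. -/
theorem w1 {𝒜 : Subalgebra F (End F V)} (h : TS L.T 𝒜) {x : End F V} (hx : ¬ Sc x) (hc : ∀ a ∈ 𝒜, Commute x a)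
    {g : (End F V)ˣ} (hg : g ∈ L.G) (ha : (g : End F V) ∈ 𝒜) : g ∈ L.H := by
  have m : g ∈ L.G ⊓ un 𝒜 := ⟨hg, ha⟩
  by_cases hA : L.G ⊓ un 𝒜 ≤ ZZ U
  · exact L.ZH (hA m)
  exact L.max _ inf_le_left (le_inf L.ZG (ZZ_le_un _)) (L.tG.inf (TI.un L.tau h)) hA
    (fun hs => hx (L.kd.cs fun s hs' => hc _ (hs hs').2)) g hg fun a ha' => mul_mem (mul_mem m ha') (inv_mem m)

theorem w2 {𝒜 : Subalgebra F (End F V)} (h : TS L.T 𝒜) {x : End F V} (hx : ¬ Sc x) (hc : ∀ a ∈ 𝒜, Commute x a)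
    (hn : ∃ g ∈ L.G, (g : End F V) ∈ 𝒜 ∧ ¬ Sc (g : End F V)) {g : (End F V)ˣ} (hg : g ∈ L.G)
    (ha : ∀ a ∈ 𝒜, (g : End F V) * a * ((g⁻¹ : (End F V)ˣ) : End F V) ∈ 𝒜) : g ∈ L.H := by
  obtain ⟨g', h1, h2, h3⟩ := hn
  exact L.max _ inf_le_left (le_inf L.ZG (ZZ_le_un _)) (L.tG.inf (TI.un L.tau h)) (fun e => h3 (e ⟨h1, h2⟩).2)
    (fun hs => hx (L.kd.cs fun s hs' => hc _ (hs hs').2)) g hg
    fun a ha' => ⟨L.G.mul_mem (L.G.mul_mem hg ha'.1) (L.G.inv_mem hg), ha _ ha'.2⟩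

/-- `con` with `A = G ⊓ un 𝒜 ≤ H` -/
theorem w3 {𝒜 : Subalgebra F (End F V)} (h : TS L.T 𝒜) {x : End F V} (hx : ¬ Sc x) (hc : ∀ a ∈ 𝒜, Commute x a)
    {g : (End F V)ˣ} (hg : g ∈ L.G) (ha : (g : End F V) ∈ 𝒜)
    (hy : ∀ y ∈ L.Y, (y : End F V) ∈ 𝒜 → Commute g y) : g ∈ L.Y := by
  refine L.con (L.G ⊓ un 𝒜) (fun a m => L.w1 h hx hc m.1 m.2) (le_inf L.ZG (ZZ_le_un _))
    (L.tG.inf (TI.un L.tau h)) g ⟨hg, ha⟩ fun y h1 h2 => ?_
  rw [(hy y h2 h1.2).commutator_eq]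
  exact one_mem _

/-- the stabiliser of `W` is a subgroup containing `K` and `ZZ U`, so `SS U` (`gen`); `Kd.irr`. -/
theorem xlem {W : Submodule F V} (h : ∀ k ∈ L.K, St W (k : End F V)) : W = ⊥ ∨ W = ⊤ := by
  let S : Subgroup (End F V)ˣ :=
    { carrier := {u | St W (u : End F V)}
      mul_mem' := fun ha hb v hv => ha _ (hb v hv)
      one_mem' := fun v hv => hv
      inv_mem' := St.inv }
  refine L.kd.irr fun s hs => (sup_le ((Subgroup.closure_le S).2 h) ?_ : _ ≤ S) (L.gen hs)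
  rintro z ⟨-, c, hc⟩ v hv
  rw [hc]
  exact W.smul_mem c hv

theorem ssm (h0 : (p : F) ≠ 0) {y : (End F V)ˣ} (hy : y ∈ L.Y) : Ssm y := by
  obtain ⟨j, hj⟩ := L.pY y hy
  exact Ssm.of_pow_mem h0 hj

/-- Root groups.  Suppose `ℓ = ringChar F < |Λ|`.  `X * X = 0` (cancel a unit `l ≠ 0`), so `Q = {1 + l X | l ∈ Λ}` is an abelian subgroup of
exponent `ℓ` and order `|Λ|`, not cyclic; `Q ≤ SS U ⊓ un 𝒜 ≤ H` (`Rt.exists_SS`, `w1`) normalises `D = Y ⊓ un 𝒜`, whose order is prime to `ℓ`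
(all elements `Ssm`, Cauchy).  An element of `D` commuting with `1 + l X`, `l ≠ 0`, commutes with `X`.  By
`BG.coprime_abelian_gen_cent1`, `D` centralises `X`; so `1 + l X ∈ Y` by `w3`, it is `Ssm` and unipotent, `l X = 0`, `X = 0`. -/
theorem qlem (h0 : (p : F) ≠ 0) {𝒜 : Subalgebra F (End F V)} (h : TS L.T 𝒜) {x : End F V} (hx : ¬ Sc x)
    (hc : ∀ a ∈ 𝒜, Commute x a) {X : End F V} (hX : X ∈ 𝒜) (hX0 : X ≠ 0) {Λ : AddSubgroup (End F V)}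
    (hΛ : ∀ l ∈ Λ, l ∈ 𝒜 ∧ (∀ a ∈ 𝒜, Commute l a) ∧ Rt U (l * X) ∧ (l ≠ 0 → IsUnit l)) :
    Nat.card Λ ≤ ringChar F := by
  by_contra! hl
  have hp := Fact.mk (Kd.geo_char (F := F)).1
  have : Finite Λ := Nat.finite_of_card_ne_zero (by omega)
  obtain ⟨⟨l₀, m₀⟩, n₀⟩ : ∃ l : Λ, l ≠ 0 :=
    haveI := Finite.one_lt_card_iff_nontrivial.1 (hp.out.one_lt.trans hl)
    exists_ne 0
  replace n₀ : l₀ ≠ 0 := fun e => n₀ (Subtype.ext e)
  have cm : ∀ l ∈ Λ, ∀ l' ∈ Λ, l * X * (l' * X) = l * l' * (X * X) := fun l _ l' hl' => by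
    rw [mul_assoc, ← mul_assoc X, ← ((hΛ l' hl').2.1 X hX).eq]; simp only [mul_assoc]
  have XX : X * X = 0 := by
    have u := (hΛ l₀ m₀).2.2.2 n₀
    exact (u.mul u).mul_right_eq_zero.1 ((cm _ m₀ _ m₀).symm.trans (hΛ l₀ m₀).2.2.1.1)
  choose s hs e _ using fun l : Λ => (hΛ l l.2).2.2.1.exists_SS
  let f : Multiplicative Λ →* (End F V)ˣ := MonoidHom.mk' (fun l => s l.toAdd) fun a b => Units.ext (by
    rw [Units.val_mul, e, e, e, add_mul 1, one_mul, mul_add, mul_one, cm _ a.toAdd.2 _ b.toAdd.2, XX, toAdd_mul,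
      AddSubgroup.coe_add, add_mul]
    noncomm_ring)
  have hf : ∀ l, (f l : End F V) = 1 + l.toAdd.1 * X := fun l => e _
  have nz : ∀ l, f l = 1 → l = 1 := fun l h1 => by_contra fun n => hX0 (by
    have := hf l
    rw [h1, Units.val_one, left_eq_add] at this
    exact ((hΛ _ l.toAdd.2).2.2.2 fun e => n (Subtype.ext e)).mul_right_eq_zero.1 this)
  have cQ : Nat.card f.range = Nat.card Λ :=
    (Nat.card_congr (MonoidHom.ofInjective ((injective_iff_map_eq_one f).2 nz)).toEquiv).symm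
  have ex : ∀ q : f.range, q ^ ringChar F = 1 := by
    rintro ⟨_, l, rfl⟩
    refine Subtype.ext ((map_pow f l _).symm.trans (Units.ext ?_))
    rw [hf, toAdd_pow, AddSubgroup.coe_nsmul, ← Nat.cast_smul_eq_nsmul F, ringChar.Nat.cast_ringChar, zero_smul]
    simp
  have mA : ∀ l, f l ∈ un 𝒜 := fun l => mem_un.2 (hf l ▸ add_mem (one_mem _) (mul_mem (hΛ _ l.toAdd.2).1 hX))
  have key : L.Y ⊓ un 𝒜 ≤ un (Subalgebra.centralizer F {X}) := by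
    refine BG.coprime_abelian_gen_cent1 (A := f.range) inferInstance (fun c => ?_) ?_ ?_ ?_
    · have := Nat.le_of_dvd hp.out.pos (Monoid.exponent_dvd_of_forall_pow_eq_one ex)
      rw [IsCyclic.exponent_eq_card, cQ] at this
      omega
    · rintro _ ⟨l, rfl⟩
      exact Subgroup.mem_normalizer_fintype fun y hy => ⟨L.conj_mem L.tY (L.w1 h hx hc (L.SG (hs _)) (mA l)) hy.1,
        (un 𝒜).mul_mem ((un 𝒜).mul_mem (mA l) hy.2) ((un 𝒜).inv_mem (mA l))⟩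
    · obtain ⟨n, hn⟩ := IsPGroup.iff_card.1 (show IsPGroup (ringChar F) f.range from
        fun q => ⟨1, by rw [pow_one, ex]⟩)
      rw [hn]
      refine Nat.Coprime.pow_left n (hp.out.coprime_iff_not_dvd.2 fun d => ?_)
      obtain ⟨y, hy⟩ := exists_prime_orderOf_dvd_card' _ d
      refine L.ssm h0 y.2.1 ?_
      rw [Subgroup.orderOf_coe, hy, ringChar.Nat.cast_ringChar]
    · rintro _ ⟨l, rfl⟩ n d ⟨hd, c⟩
      have c1 : (d : End F V) * f l = f l * d := congrArg Units.val (BG.mem_cent1.1 c)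
      rw [hf, mul_add, add_mul, mul_one, one_mul, add_right_inj, ← mul_assoc,
        ← ((hΛ _ l.toAdd.2).2.1 _ hd.2).eq, mul_assoc, mul_assoc] at c1
      rintro _ rfl
      exact (((hΛ _ l.toAdd.2).2.2.2 fun e => n (by
        rw [show l = 1 from Subtype.ext e, map_one])).mul_left_cancel c1).symm
  refine n₀ (congrArg Subtype.val (nz (.ofAdd ⟨l₀, m₀⟩) ((L.ssm h0 (L.w3 h hx hc (L.SG (hs _)) (mA _)
    fun y h1 h2 => Units.ext ?_)).eq_one ⟨2, ?_⟩)))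
  · rw [Units.val_mul, Units.val_mul, e]
    exact (Commute.one_left _).add_left (((hΛ l₀ m₀).2.1 _ h2).mul_left (key ⟨h1, h2⟩ X rfl))
  · rw [e, add_sub_cancel_left, sq]
    exact (hΛ l₀ m₀).2.2.1.1

/-- Field structure lemma.  `Z = sp A` is commutative, reduced (`sp_reduced`), invariant.  If it has a non-trivial idempotent `e`, then by
`Kd.g4` `τ e ∈ {e, 1 - e}` for `τ ∈ T`, so `𝒜 = centralizer {e, 1 - e}` is invariant, and `qlem` (with `x = e`, not scalar) contradicts `g4`.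
So `Fld Z` (`fld_of_idem`).  Take `v ≠ 0`; if `Z v ≠ V`, `Kd.g3` and `qlem` for `𝒜 = centralizer Z` give a contradiction; else
`Fld.dim_one`. -/
theorem fld (h0 : (p : F) ≠ 0) {A : Subgroup (End F V)ˣ} (hA : A ≤ L.Y) (hT : TI L.T A) (hab : Ab A)
    (hn : ¬ A ≤ ZZ U) (hN : NoAd U (sp A)) :
    Fld (sp A) ∧ finrank F (sp A) = finrank F V ∧ ∀ x : End F V, (∀ a ∈ sp A, Commute x a) → x ∈ sp A := by
  have AU := hA.trans L.YU
  have hZ : Fld (sp A) := by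
    refine fld_of_idem (fun _ ha _ hb => hab.sp_comm ha hb)
      (fun _ ha => sp_reduced hab (fun a ha => L.ssm h0 (hA ha)) ha) fun e he hi => ?_
    by_contra! n
    obtain ⟨h1, X, X0, eX, Λ, h2, h3⟩ := L.kd.g4 AU hab hN he hi n.1 n.2
    have c : ∀ a, a ∈ Subalgebra.centralizer F {e, 1 - e} ↔ Commute e a := fun a =>
      ⟨fun h => h e (.inl rfl), by
        rintro h _ (rfl | rfl)
        exacts [h, (Commute.one_left a).sub_left h]⟩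
    have k : ∀ τ ∈ L.T, ∀ f ∈ sp A, IsIdempotentElem f → f ≠ 0 → f ≠ 1 → τ f ∈ ({e, 1 - e} : Set (End F V)) :=
      fun τ hτ f m i f0 f1 => ((h1 _ (TI.sp L.tau hT τ hτ f m) ((L.tau τ hτ).idem i)).resolve_left
        (τ.map_ne_zero_iff.2 f0)).resolve_left fun e => f1 (τ.injective (e.trans (L.tau τ hτ).one.symm))
    refine (L.qlem h0 (TS.centralizer L.tau L.symm ?_) (x := e) ?_ (fun a => (c a).1) ((c X).2 eX) X0
      fun l hl => ?_).not_gt h2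
    · rintro τ hτ _ (rfl | rfl)
      exacts [k τ hτ _ he hi n.1 n.2, k τ hτ _ (sub_mem (one_mem _) he) hi.one_sub (sub_ne_zero.2 n.2.symm)
        fun e => n.1 (sub_eq_self.1 e)]
    · rintro ⟨t, rfl⟩
      have : t * t = t := smul_one_inj L.kd (by simpa [smul_smul] using hi.eq)
      rcases IsIdempotentElem.iff_eq_zero_or_one.1 this with rfl | rfl
      exacts [n.1 (zero_smul _ _), n.2 (one_smul _ _)]
    · obtain ⟨⟨a, b, rfl⟩, h4⟩ := h3 l hl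
      have : ∀ y, Commute e y → Commute (a • e + b • (1 - e)) y := fun y hy =>
        (hy.smul_left a).add_left (((Commute.one_left y).sub_left hy).smul_left b)
      exact ⟨(c _).2 (this e rfl).symm, fun y hy => this y ((c y).1 hy), h4⟩
  have := L.kd.nontrivial
  obtain ⟨v, hv⟩ := exists_ne (0 : V)
  refine ⟨hZ, hZ.dim_one hv fun w => ?_⟩
  by_contra! hw
  obtain ⟨X, X0, h1, Λ, h2, h3⟩ := L.kd.g3 AU hZ hn hv hw
  obtain ⟨a, ha, a1⟩ := SetLike.not_le_iff_exists.1 hn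
  refine (L.qlem h0 (TS.centralizer L.tau L.symm (TI.sp L.tau hT)) (x := a) (fun e => a1 ⟨AU ha, e⟩)
    (fun y hy => hy _ (mem_sp ha)) h1 X0 fun l hl => ⟨fun y hy => hZ.1 y hy l (h3 l hl).1,
      fun y hy => hy _ (h3 l hl).1, (h3 l hl).2, fun n => ?_⟩).not_gt h2
  obtain ⟨b, hb, e⟩ := hZ.2 l (h3 l hl).1 n
  exact ⟨⟨l, b, e, (hZ.1 b hb l (h3 l hl).1).eq.trans e⟩, rfl⟩

end LC

end Cfsg.Lib.WB
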